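import Mathlib

set_option autoImplicit false

/-! # Integer vectors of small norm: the sunflower lemma -/

namespace Cfsg.Agent.H27

open Matrix

variable {κ : Type*} [Fintype κ] [DecidableEq κ]

theorem dot_self_nonneg (v : κ → ℤ) : 0 ≤ v ⬝ᵥ v :=
  Finset.sum_nonneg fun i _ => mul_self_nonneg (v i)

theorem dot_self_eq_zero {v : κ → ℤ} (h : v ⬝ᵥ v = 0) : v = 0 := by
  funext i
  have h1 := (Finset.sum_eq_zero_iff_of_nonneg (s := Finset.univ)
    (f := fun i => v i * v i) (fun i _ => mul_self_nonneg (v i))).mp h i (Finset.mem_univ i)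
  simpa using h1

/-- the square of an entry is at most the norm -/
theorem sq_le_dot (v : κ → ℤ) (c : κ) : v c * v c ≤ v ⬝ᵥ v :=
  Finset.single_le_sum (f := fun i => v i * v i) (fun i _ => mul_self_nonneg (v i))
    (Finset.mem_univ c)

theorem dot_sub_single (v : κ → ℤ) (c : κ) (τ : ℤ) :
    (v - Pi.single c τ) ⬝ᵥ (v - Pi.single c τ) = v ⬝ᵥ v - 2 * (v c * τ) + τ * τ := by
  rw [sub_dotProduct, dotProduct_sub, dotProduct_sub, dotProduct_single, single_dotProduct,
    single_dotProduct, Pi.single_eq_same]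
  ring

theorem sq_one_cases {t : ℤ} (h : t * t = 1) : t = 1 ∨ t = -1 := by
  have : (t - 1) * (t + 1) = 0 := by ring_nf; linarith [h, sq t]
  rcases mul_eq_zero.mp this with h | h
  · left; omega
  · right; omega

theorem small_sq {t : ℤ} (h0 : t ≠ 0) (h : t * t < 4) : t * t = 1 := by
  have h1 : -2 < t := by nlinarith
  have h2 : t < 2 := by nlinarith
  interval_cases t <;> simp_all

theorem exists_peel {v : κ → ℤ} (h0 : v ⬝ᵥ v ≠ 0) (h4 : v ⬝ᵥ v < 4) :
    ∃ c, v c * v c = 1 ∧
      (v - Pi.single c (v c)) ⬝ᵥ (v - Pi.single c (v c)) = v ⬝ᵥ v - 1 := by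
  have h1 : v ≠ 0 := by rintro rfl; simp at h0
  obtain ⟨c, hc⟩ := Function.ne_iff.mp h1
  have h2 : v c * v c = 1 := small_sq hc (lt_of_le_of_lt (sq_le_dot v c) h4)
  refine ⟨c, h2, ?_⟩
  rw [dot_sub_single]; linarith

theorem norm_one {v : κ → ℤ} (h : v ⬝ᵥ v = 1) :
    ∃ c τ, (τ = 1 ∨ τ = -1) ∧ v = Pi.single c τ := by
  obtain ⟨c, h1, h2⟩ := exists_peel (v := v) (by omega) (by omega)
  have h3 := dot_self_eq_zero (v := v - Pi.single c (v c)) (by omega)
  exact ⟨c, v c, sq_one_cases h1, sub_eq_zero.mp h3⟩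

theorem norm_two {v : κ → ℤ} (h : v ⬝ᵥ v = 2) :
    ∃ c d τ ρ, c ≠ d ∧ (τ = 1 ∨ τ = -1) ∧ (ρ = 1 ∨ ρ = -1) ∧
      v = Pi.single c τ + Pi.single d ρ := by
  obtain ⟨c, h1, h2⟩ := exists_peel (v := v) (by omega) (by omega)
  obtain ⟨d, ρ, hρ, h3⟩ := norm_one (v := v - Pi.single c (v c)) (by omega)
  refine ⟨c, d, v c, ρ, ?_, sq_one_cases h1, hρ, ?_⟩
  · rintro rfl
    have := congrFun h3 c
    rw [Pi.sub_apply, Pi.single_eq_same, Pi.single_eq_same, sub_self] at this
    omega
  · rw [← h3]; abel

theorem norm_three {u : κ → ℤ} (h : u ⬝ᵥ u = 3) {k0 : κ} (h0 : u k0 = 1) :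
    ∃ c d τ ρ, c ≠ d ∧ c ≠ k0 ∧ d ≠ k0 ∧ (τ = 1 ∨ τ = -1) ∧ (ρ = 1 ∨ ρ = -1) ∧
      u = Pi.single k0 1 + Pi.single c τ + Pi.single d ρ := by
  have h1 : (u - Pi.single k0 1) ⬝ᵥ (u - Pi.single k0 1) = 2 := by
    rw [dot_sub_single, h0, h]; norm_num
  obtain ⟨c, d, τ, ρ, hcd, hτ, hρ, h2⟩ := norm_two h1
  have h3 := congrFun h2 k0
  rw [Pi.sub_apply, Pi.single_eq_same, h0, sub_self, Pi.add_apply] at h3
  refine ⟨c, d, τ, ρ, hcd, ?_, ?_, hτ, hρ, ?_⟩
  · rintro rfl
    rw [Pi.single_eq_same, Pi.single_eq_of_ne hcd] at h3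
    omega
  · rintro rfl
    rw [Pi.single_eq_same, Pi.single_eq_of_ne (Ne.symm hcd)] at h3
    omega
  · rw [add_assoc, ← h2]; abel

/-- **Sunflower lemma.** -/
theorem sunflower {ι : Type*} (w : ι → κ → ℤ) (k0 : κ) (d : κ → ℤ) (hd : ∀ k, 0 < d k)
    (hd0 : d k0 = 1)
    (h0 : ∀ i, w i k0 = 1) (h4 : ∀ i, w i ⬝ᵥ w i = 4)
    (h3 : ∀ i j, w i ≠ w j → w i ⬝ᵥ w j = 3) (hdeg : ∀ i, w i ⬝ᵥ d = 0)
    (i₁ i₂ : ι) (hne : w i₁ ≠ w i₂)
    (hm3 : ¬ ∃ i₃, w i₃ ≠ w i₁ ∧ w i₃ ≠ w i₂ ∧ ∀ i, w i = w i₁ ∨ w i = w i₂ ∨ w i = w i₃) :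
    ∃ (u : κ → ℤ) (σ : ℤ) (z : ι → κ), u ⬝ᵥ u = 3 ∧ u k0 = 1 ∧ (σ = 1 ∨ σ = -1) ∧
      (∀ i, u (z i) = 0) ∧ ∀ i, w i = u + Pi.single (z i) σ := by
  -- first pair
  obtain ⟨u, σ, a, b, hab, hσ, hua, hub, hw1, hw2, hdab⟩ : ∃ (u : κ → ℤ) (σ : ℤ) (a b : κ),
      a ≠ b ∧ (σ = 1 ∨ σ = -1) ∧ u a = 0 ∧ u b = 0 ∧ w i₁ = u + Pi.single a σ ∧
      w i₂ = u + Pi.single b σ ∧ d a = d b := by
    have hD : (w i₁ - w i₂) ⬝ᵥ (w i₁ - w i₂) = 2 := by
      rw [sub_dotProduct, dotProduct_sub, dotProduct_sub, dotProduct_comm (w i₂) (w i₁), h4, h4,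
        h3 _ _ hne]
      norm_num
    obtain ⟨a, b, τ, ρ, hab, hτ, hρ, hE⟩ := norm_two hD
    have hdeg2 : τ * d a + ρ * d b = 0 := by
      have h5 : (w i₁ - w i₂) ⬝ᵥ d = 0 := by rw [sub_dotProduct, hdeg, hdeg, sub_self]
      rw [hE, add_dotProduct, single_dotProduct, single_dotProduct] at h5
      exact h5
    have hda := hd a
    have hdb := hd b
    have hρτ : ρ = -τ := by
      rcases hτ with rfl | rfl <;> rcases hρ with rfl | rfl <;> first | rfl | (exfalso; nlinarith)
    have hdab : d a = d b := by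
      rcases hτ with rfl | rfl <;> subst hρτ <;> linarith
    have ha : w i₁ a = w i₂ a + τ := by
      have := congrFun hE a
      rw [Pi.sub_apply, Pi.add_apply, Pi.single_eq_same, Pi.single_eq_of_ne hab] at this
      linarith
    have hb : w i₁ b = w i₂ b - τ := by
      have := congrFun hE b
      rw [Pi.sub_apply, Pi.add_apply, Pi.single_eq_same, Pi.single_eq_of_ne (Ne.symm hab)] at this
      linarith
    have hw1 : w i₁ = w i₂ + Pi.single a τ + Pi.single b ρ := by
      rw [add_assoc, ← hE]; abel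
    -- norms
    have hnorm : w i₂ b = w i₂ a + τ := by
      have h6 := h3 _ _ hne
      rw [hw1, add_dotProduct, add_dotProduct, h4, single_dotProduct, single_dotProduct, hρτ] at h6
      have : τ * (w i₂ b - w i₂ a) = 1 := by linarith
      rcases hτ with rfl | rfl <;> linarith
    have hbnd : ∀ i k, k ≠ k0 → w i k * w i k < 4 := by
      intro i k hk
      have h7 := dot_sub_single (w i) k0 1
      rw [h0, h4] at h7
      have h8 := sq_le_dot (w i - Pi.single k0 1) k
      rw [h7, Pi.sub_apply, Pi.single_eq_of_ne hk, sub_zero] at h8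
      linarith
    have hak0 : a ≠ k0 := by
      rintro rfl
      rw [h0, h0] at ha
      rcases hτ with rfl | rfl <;> omega
    have hbk0 : b ≠ k0 := by
      rintro rfl
      rw [h0, h0] at hb
      rcases hτ with rfl | rfl <;> omega
    have h1a := hbnd i₁ a hak0
    have h2a := hbnd i₂ a hak0
    have h1b := hbnd i₁ b hbk0
    have h2b := hbnd i₂ b hbk0
    have hcases : w i₂ a = 0 ∨ w i₂ a = -τ := by
      have e1 : -2 < w i₂ a := by nlinarith
      have e2 : w i₂ a < 2 := by nlinarith
      have e3 : -2 < w i₂ b := by nlinarith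
      have e4 : w i₂ b < 2 := by nlinarith
      rcases hτ with rfl | rfl <;> omega
    rcases hcases with hc | hc
    · refine ⟨w i₂ - Pi.single b τ, τ, a, b, hab, hτ, ?_, ?_, ?_, ?_, hdab⟩
      · rw [Pi.sub_apply, Pi.single_eq_of_ne hab, hc, sub_zero]
      · rw [Pi.sub_apply, Pi.single_eq_same, hnorm, hc]; ring
      · rw [hw1, hρτ, Pi.single_neg]; abel
      · abel
    · refine ⟨w i₂ - Pi.single a (-τ), -τ, b, a, Ne.symm hab, ?_, ?_, ?_, ?_, ?_, hdab.symm⟩
      · rcases hτ with rfl | rfl <;> simp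
      · rw [Pi.sub_apply, Pi.single_eq_of_ne (Ne.symm hab), hnorm, hc]; ring
      · rw [Pi.sub_apply, Pi.single_eq_same, hc]; ring
      · rw [hw1, hρτ, Pi.single_neg, Pi.single_neg]; abel
      · abel
  have hσσ : σ * σ = 1 := by rcases hσ with rfl | rfl <;> norm_num
  have hda := hd a
  have hu3 : u ⬝ᵥ u = 3 := by
    have := h4 i₁
    rw [hw1, add_dotProduct, dotProduct_add, dotProduct_add, dotProduct_single,
      single_dotProduct, single_dotProduct, Pi.single_eq_same, hua] at this
    linarith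
  have hak0 : a ≠ k0 := by
    rintro rfl
    have h5 := h0 i₁
    have h6 := h0 i₂
    rw [hw1, Pi.add_apply, hua, Pi.single_eq_same] at h5
    rw [hw2, Pi.add_apply, hua, Pi.single_eq_of_ne hab] at h6
    norm_num at h6
  have huk0 : u k0 = 1 := by
    have := h0 i₁
    rwa [hw1, Pi.add_apply, Pi.single_eq_of_ne (Ne.symm hak0), add_zero] at this
  have hud : u ⬝ᵥ d = -(σ * d a) := by
    have := hdeg i₁
    rw [hw1, add_dotProduct, single_dotProduct] at this
    linarith
  -- the classification of the other vectors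
  have hclass : ∀ i, (∃ c, u c = 0 ∧ w i = u + Pi.single c σ) ∨
      (w i ≠ w i₁ ∧ w i ≠ w i₂ ∧ ∃ c, c ≠ k0 ∧ u c * u c = 1 ∧ u c * d c = σ * d a ∧
        w i = u - Pi.single c (u c) + Pi.single a σ + Pi.single b σ) := by
    intro i
    by_cases hi1 : w i = w i₁
    · left; exact ⟨a, hua, hi1.trans hw1⟩
    by_cases hi2 : w i = w i₂
    · left; exact ⟨b, hub, hi2.trans hw2⟩
    have e1 := h3 _ _ hi1
    have e2 := h3 _ _ hi2
    rw [hw1, dotProduct_add, dotProduct_single] at e1
    rw [hw2, dotProduct_add, dotProduct_single] at e2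
    have hwab : w i a = w i b := by
      have : (w i a - w i b) * σ = 0 := by linarith
      rcases mul_eq_zero.mp this with h | h
      · linarith
      · rcases hσ with rfl | rfl <;> omega
    have hbnd : w i a * w i a < 4 := by
      have h7 := dot_sub_single (w i) k0 1
      rw [h0, h4] at h7
      have h8 := sq_le_dot (w i - Pi.single k0 1) a
      rw [h7, Pi.sub_apply, Pi.single_eq_of_ne hak0, sub_zero] at h8
      linarith
    have hcs : w i ⬝ᵥ u ≤ 3 := by
      have h9 := dot_self_nonneg (w i - u)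
      rw [sub_dotProduct, dotProduct_sub, dotProduct_sub, h4, hu3, dotProduct_comm u (w i)] at h9
      omega
    have hcases : w i a * σ = 0 ∨ w i a * σ = 1 := by
      have e3 : -2 < w i a := by nlinarith
      have e4 : w i a < 2 := by nlinarith
      rcases hσ with rfl | rfl <;> omega
    rcases hcases with hc | hc
    · left
      rw [hc, add_zero] at e1
      have h9 : (w i - u) ⬝ᵥ (w i - u) = 1 := by
        rw [sub_dotProduct, dotProduct_sub, dotProduct_sub, h4, hu3, dotProduct_comm u (w i), e1]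
        norm_num
      obtain ⟨c, τ, hτ, hcτ⟩ := norm_one h9
      have hwi : w i = u + Pi.single c τ := by rw [← hcτ]; abel
      have huc : u c = 0 := by
        have := h4 i
        rw [hwi, add_dotProduct, dotProduct_add, dotProduct_add, dotProduct_single,
          single_dotProduct, single_dotProduct, Pi.single_eq_same, hu3] at this
        rcases hτ with rfl | rfl <;> omega
      have hdc := hd c
      have hτσ : τ = σ := by
        have := hdeg i
        rw [hwi, add_dotProduct, single_dotProduct, hud] at this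
        rcases hτ with rfl | rfl <;> rcases hσ with rfl | rfl <;> first | rfl | (exfalso; nlinarith)
      rw [hτσ] at hwi
      exact ⟨c, huc, hwi⟩
    · right
      refine ⟨hi1, hi2, ?_⟩
      have hwiu : w i ⬝ᵥ u = 2 := by linarith
      have hwia : w i a = σ := by
        have : w i a * σ * σ = σ := by rw [hc]; ring
        rw [mul_assoc, hσσ, mul_one] at this
        exact this
      have hwib : w i b = σ := hwab ▸ hwia
      obtain ⟨x, hx⟩ : ∃ x : κ → ℤ, x = u + Pi.single a σ + Pi.single b σ := ⟨_, rfl⟩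
      have hxx : x ⬝ᵥ x = 5 := by
        rw [hx]
        simp only [add_dotProduct, dotProduct_add, dotProduct_single, single_dotProduct,
          Pi.add_apply,
          Pi.single_eq_same, hua, hub, hu3, Pi.single_eq_of_ne hab, Pi.single_eq_of_ne (Ne.symm hab)]
        linarith
      have hwx : w i ⬝ᵥ x = 4 := by
        rw [hx, dotProduct_add, dotProduct_add, dotProduct_single, dotProduct_single, hwiu, hwia,
          hwib]
        linarith
      have h9 : (w i - x) ⬝ᵥ (w i - x) = 1 := by
        rw [sub_dotProduct, dotProduct_sub, dotProduct_sub, h4, hxx, dotProduct_comm x (w i), hwx]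
        norm_num
      obtain ⟨c, τ, hτ, hcτ⟩ := norm_one h9
      have hwi : w i = x + Pi.single c τ := by rw [← hcτ]; abel
      have hxc : τ * x c = -1 := by
        have := h4 i
        rw [hwi, add_dotProduct, dotProduct_add, dotProduct_add, dotProduct_single,
          single_dotProduct, single_dotProduct, Pi.single_eq_same, hxx] at this
        rcases hτ with rfl | rfl <;> omega
      have hca : c ≠ a := by
        rintro rfl
        rw [hwi, Pi.add_apply, Pi.single_eq_same, hx, Pi.add_apply, Pi.add_apply,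
          Pi.single_eq_same, Pi.single_eq_of_ne hab, hua] at hwia
        rcases hτ with rfl | rfl <;> omega
      have hcb : c ≠ b := by
        rintro rfl
        rw [hwi, Pi.add_apply, Pi.single_eq_same, hx, Pi.add_apply, Pi.add_apply,
          Pi.single_eq_same, Pi.single_eq_of_ne (Ne.symm hab), hub] at hwib
        rcases hτ with rfl | rfl <;> omega
      have hxcu : x c = u c := by
        rw [hx, Pi.add_apply, Pi.add_apply, Pi.single_eq_of_ne hca, Pi.single_eq_of_ne hcb]
        ring
      rw [hxcu] at hxc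
      have hτu : τ = -u c := by
        rcases hτ with rfl | rfl <;> omega
      have hck0 : c ≠ k0 := by
        rintro rfl
        have h10 := h0 i
        rw [hwi, Pi.add_apply, Pi.single_eq_same, hxcu, hτu, huk0] at h10
        norm_num at h10
      have hucc : u c * u c = 1 := by rw [hτu] at hxc; linarith
      refine ⟨c, hck0, hucc, ?_, ?_⟩
      · have := hdeg i
        rw [hwi, hx, hτu, add_dotProduct, add_dotProduct, add_dotProduct, single_dotProduct,
          single_dotProduct, single_dotProduct, hud, ← hdab] at this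
        linarith
      · rw [hwi, hx, hτu, Pi.single_neg]; abel
  -- no bad vector
  have hgood : ∀ i, ∃ c, u c = 0 ∧ w i = u + Pi.single c σ := by
    intro i
    rcases hclass i with h | ⟨hi1, hi2, c, hck0, hucc, hcd, hwi⟩
    · exact h
    · exfalso
      apply hm3
      refine ⟨i, hi1, hi2, ?_⟩
      intro j
      by_cases hji : w j = w i
      · right; right; exact hji
      have e := h3 _ _ hji
      rcases hclass j with ⟨c', huc', hwj⟩ | ⟨hj1, hj2, c', hck0', hucc', hcd', hwj⟩
      · -- a good vector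
        by_cases hc'a : c' = a
        · left; rw [hwj, hc'a, hw1]
        by_cases hc'b : c' = b
        · right; left; rw [hwj, hc'b, hw2]
        exfalso
        have hc'c : c' ≠ c := by rintro rfl; rw [huc'] at hucc; norm_num at hucc
        rw [hwj, hwi] at e
        simp only [add_dotProduct, dotProduct_add, dotProduct_sub, dotProduct_single,
          single_dotProduct, hua, hub, hu3, huc', Pi.single_eq_of_ne hc'c,
          Pi.single_eq_of_ne hc'a, Pi.single_eq_of_ne hc'b, Pi.add_apply,
          Pi.single_eq_of_ne (Ne.symm hc'c), Pi.single_eq_of_ne (Ne.symm hc'a),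
          Pi.single_eq_of_ne (Ne.symm hc'b)] at e
        rw [add_zero, hucc] at e
        norm_num at e
      · exfalso
        by_cases hcc' : c' = c
        · apply hji
          rw [hwj, hwi, hcc']
        · -- `1 + 3 σ d a = 0`
          obtain ⟨c1, c2, τ, ρ, h12, h1k, h2k, hτ, hρ, hu⟩ := norm_three hu3 huk0
          have huc1 : ∀ k, k ≠ k0 → u k * u k = 1 → k = c1 ∨ k = c2 := by
            intro k hk hkk
            by_contra hcon
            push Not at hcon
            rw [hu, Pi.add_apply, Pi.add_apply, Pi.single_eq_of_ne hk,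
              Pi.single_eq_of_ne hcon.1, Pi.single_eq_of_ne hcon.2] at hkk
            norm_num at hkk
          have huc1v : u c1 = τ := by
            rw [hu, Pi.add_apply, Pi.add_apply, Pi.single_eq_of_ne h1k, Pi.single_eq_same,
              Pi.single_eq_of_ne h12]; ring
          have huc2v : u c2 = ρ := by
            rw [hu, Pi.add_apply, Pi.add_apply, Pi.single_eq_of_ne h2k, Pi.single_eq_same,
              Pi.single_eq_of_ne (Ne.symm h12)]; ring
          have hsum : u ⬝ᵥ d = 1 + τ * d c1 + ρ * d c2 := by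
            rw [hu, add_dotProduct, add_dotProduct, single_dotProduct, single_dotProduct,
              single_dotProduct, hd0]; ring
          have h11 : τ * d c1 = σ * d a ∧ ρ * d c2 = σ * d a := by
            rcases huc1 c hck0 hucc with h | h <;> rcases huc1 c' hck0' hucc' with h' | h'
            · exact absurd (h'.trans h.symm) hcc'
            · rw [h, huc1v] at hcd; rw [h', huc2v] at hcd'; exact ⟨hcd, hcd'⟩
            · rw [h, huc2v] at hcd; rw [h', huc1v] at hcd'; exact ⟨hcd', hcd⟩
            · exact absurd (h'.trans h.symm) hcc'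
          rw [hud, h11.1, h11.2] at hsum
          omega
  choose z hz1 hz2 using hgood
  exact ⟨u, σ, z, hu3, huk0, hσ, hz1, hz2⟩

end Cfsg.Agent.H27
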