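import Cfsg.Agent.H27.AbSyl3

set_option autoImplicit false

/-! # Principal blocks with abelian Sylow subgroups and `N/C` free of order `3`, part 4 -/

universe u

namespace Cfsg.Agent.H27

open Subgroup Cfsg Cfsg.Agent.H3 Cfsg.Agent.H11
open scoped ComplexConjugate

variable {G : Type u} [Group G] {p : ℕ} {M : Ideal AlgInt}

theorem fact_le_of_vanish_sylow [Finite G] [hp : Fact p.Prime] (P : Sylow p G) {χ : G → ℂ}
    (hχ : IsIrrCharacter G χ) (h : ∀ y ∈ (P : Subgroup G), y ≠ 1 → χ y = 0) :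
    (Nat.card G).factorization p ≤ (charDegree χ).factorization p := by
  classical
  have := Fintype.ofFinite G
  obtain ⟨k, hk⟩ := card_dvd_degree_of_vanish (P : Subgroup G) (irr_isChar hχ) h
  rw [← charDegree_cast (irr_isChar hχ)] at hk
  have hk' : charDegree χ = Nat.card P * k := by exact_mod_cast hk
  have hk0 : k ≠ 0 := by
    rintro rfl
    rw [mul_zero] at hk'
    exact (charDegree_pos hχ).ne' hk'
  rw [hk', Nat.factorization_mul Nat.card_pos.ne' hk0, Finsupp.add_apply, Sylow.card_eq_multiplicity,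
    Nat.factorization_pow, Finsupp.smul_apply, hp.out.factorization_self]
  simp

theorem sum_at1 {R X : Type*} [Fintype X] [NonAssocSemiring R] (s : Finset X) (a : X) (ha : a ∈ s)
    (t : R) (F : X → R) : ∑ x ∈ s, at1 a t x * F x = t * F a := by
  rw [Finset.sum_eq_single a]
  · rw [at1_same]
  · intro x _ hx
    rw [at1_ne _ hx, zero_mul]
  · intro h; exact absurd ha h

theorem at1_cast {X : Type*} (a : X) (t : ℤ) (x : X) : ((at1 a t x : ℤ) : ℂ) = at1 a (t : ℂ) x := by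
  by_cases h : x = a
  · subst h; rw [at1_same, at1_same]
  · rw [at1_ne _ h, at1_ne _ h, Int.cast_zero]

namespace Sun

variable {P : Sylow p G} {g : G} [Fintype (P : Subgroup G)] {τ ρ δ : ℤ} {c d : IrrCharacter G}
  {z : (↥(P : Subgroup G) →* ℂˣ) → IrrCharacter G}

theorem dot [Finite G] [M.IsPrime] (S : Sun M P τ ρ δ c d z)
    [Fintype (IrrCharacter G)] [DecidablePred (· ∈ principalBlock M G)]
    {ψ : (P : Subgroup G) →* ℂˣ} (hψ : ψ ≠ 1) (F : IrrCharacter G → ℂ) :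
    ∑ χ : IrrCharacter G with χ ∈ principalBlock M G, (Ab3.W P ψ χ : ℂ) * F χ =
      F (oneIrr G) + τ * F c + ρ * F d - δ * F (z ψ) := by
  have := Fintype.ofFinite G
  have h1 : ∀ χ ∈ Finset.univ.filter (fun χ : IrrCharacter G => χ ∈ principalBlock M G),
      (Ab3.W P ψ χ : ℂ) * F χ = at1 (oneIrr G) 1 χ * F χ + at1 c (τ : ℂ) χ * F χ +
        at1 d (ρ : ℂ) χ * F χ - at1 (z ψ) (δ : ℂ) χ * F χ := by
    intro χ hχ
    rw [S.W_eq ψ hψ χ (Finset.mem_filter.mp hχ).2]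
    push_cast
    rw [at1_cast, at1_cast, at1_cast, at1_cast]
    push_cast
    ring
  have hmem : ∀ {χ : IrrCharacter G}, χ ∈ principalBlock M G →
      χ ∈ Finset.univ.filter (fun χ : IrrCharacter G => χ ∈ principalBlock M G) :=
    fun hχ => Finset.mem_filter.mpr ⟨Finset.mem_univ _, hχ⟩
  rw [Finset.sum_congr rfl h1, Finset.sum_sub_distrib, Finset.sum_add_distrib,
    Finset.sum_add_distrib, sum_at1 _ _ (hmem oneIrr_mem), sum_at1 _ _ (hmem S.hc),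
    sum_at1 _ _ (hmem S.hd), sum_at1 _ _ (hmem (S.hz ψ hψ)), one_mul]

theorem z_eq_iff [Fintype G] [Fact p.Prime] (hM : IsPModular p M) (h : Ab3 P g)
    (S : Sun M P τ ρ δ c d z) {ψ ψ' : (P : Subgroup G) →* ℂˣ} (hψ : ψ ≠ 1) (hψ' : ψ' ≠ 1) :
    z ψ = z ψ' ↔ ∃ i : Fin 3, ψ = h.tw i ψ' := by
  rw [← h.W_eq_iff hM hψ hψ']
  constructor
  · intro he χ hχ
    rw [S.W_eq ψ hψ χ hχ, S.W_eq ψ' hψ' χ hχ, he]
  · intro he
    by_contra hne
    have h1 := he (z ψ) (S.hz ψ hψ)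
    rw [S.W_eq ψ hψ _ (S.hz ψ hψ), S.W_eq ψ' hψ' _ (S.hz ψ hψ), at1_same, at1_ne δ hne] at h1
    rcases S.hδ with h2 | h2 <;> omega

theorem value [Fintype G] [Fact p.Prime] (h : Ab3 P g)
    (S : Sun M P τ ρ δ c d z) [Fintype ((P : Subgroup G) →* ℂˣ)]
    {χ : IrrCharacter G} (hχ : χ ∈ principalBlock M G) {y : (P : Subgroup G)} (hy : y ≠ 1) :
    (χ : G → ℂ) y = at1 (oneIrr G) 1 χ + at1 c (τ : ℂ) χ + at1 d (ρ : ℂ) χ +
      ∑ ψ : (P : Subgroup G) →* ℂˣ, if ψ ≠ 1 then at1 (z ψ) (δ : ℂ) χ * (ψ y : ℂ) else 0 := by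
  classical
  rw [h.value_eq χ hy]
  have h1 : ∀ ψ : (P : Subgroup G) →* ℂˣ, (Ab3.W P ψ χ : ℂ) * (ψ y : ℂ) =
      (at1 (oneIrr G) 1 χ + at1 c (τ : ℂ) χ + at1 d (ρ : ℂ) χ) *
        ((ψ y : ℂ) - at1 (1 : (P : Subgroup G) →* ℂˣ) 1 ψ) -
      if ψ ≠ 1 then at1 (z ψ) (δ : ℂ) χ * (ψ y : ℂ) else 0 := by
    intro ψ
    by_cases hψ : ψ = 1
    · subst hψ
      rw [Ab3.W_one, at1_same]
      simp
    · rw [S.W_eq ψ hψ χ hχ, if_pos hψ, at1_ne _ hψ]
      push_cast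
      rw [at1_cast, at1_cast, at1_cast, at1_cast]
      push_cast
      ring
  simp only [h1]
  rw [Finset.sum_sub_distrib, ← Finset.mul_sum, Finset.sum_sub_distrib, sum_dual h.P_comm y hy]
  have h2 : ∑ ψ : (P : Subgroup G) →* ℂˣ, at1 (1 : (P : Subgroup G) →* ℂˣ) (1 : ℂ) ψ = 1 := by
    rw [Finset.sum_eq_single (1 : (P : Subgroup G) →* ℂˣ)]
    · rw [at1_same]
    · intro ψ _ hψ; rw [at1_ne _ hψ]
    · intro hh; exact absurd (Finset.mem_univ _) hh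
  rw [h2]
  ring

theorem sum_zero_of [Fintype G] (S : Sun M P τ ρ δ c d z) [Fintype ((P : Subgroup G) →* ℂˣ)]
    {χ : IrrCharacter G} (hχ : ∀ ψ, ψ ≠ 1 → z ψ ≠ χ) (y : (P : Subgroup G)) :
    ∑ ψ : (P : Subgroup G) →* ℂˣ, (if ψ ≠ 1 then at1 (z ψ) (δ : ℂ) χ * (ψ y : ℂ) else 0) = 0 := by
  apply Finset.sum_eq_zero
  intro ψ _
  split_ifs with hψ
  · rw [at1_ne _ (Ne.symm (hχ ψ hψ)), zero_mul]
  · rfl

theorem value_c [Fintype G] [Fact p.Prime] (h : Ab3 P g) (S : Sun M P τ ρ δ c d z)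
    {y : (P : Subgroup G)} (hy : y ≠ 1) : (c : G → ℂ) y = τ := by
  classical
  haveI : Finite ((P : Subgroup G) →* ℂˣ) := finite_dual
  have := Fintype.ofFinite ((P : Subgroup G) →* ℂˣ)
  rw [S.value h S.hc hy, S.sum_zero_of S.hzc, at1_ne _ S.hc1, at1_same, at1_ne _ S.hcd]
  ring

theorem value_d [Fintype G] [Fact p.Prime] (h : Ab3 P g) (S : Sun M P τ ρ δ c d z)
    {y : (P : Subgroup G)} (hy : y ≠ 1) : (d : G → ℂ) y = ρ := by
  classical
  haveI : Finite ((P : Subgroup G) →* ℂˣ) := finite_dual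
  have := Fintype.ofFinite ((P : Subgroup G) →* ℂˣ)
  rw [S.value h S.hd hy, S.sum_zero_of S.hzd, at1_ne _ S.hd1, at1_same, at1_ne _ S.hcd.symm]
  ring

theorem value_z [Fintype G] [Fact p.Prime] (hM : IsPModular p M) (h : Ab3 P g)
    (S : Sun M P τ ρ δ c d z) {ψ : (P : Subgroup G) →* ℂˣ} (hψ : ψ ≠ 1)
    {y : (P : Subgroup G)} (hy : y ≠ 1) :
    (z ψ : G → ℂ) y = δ * ∑ i : Fin 3, (h.tw i ψ y : ℂ) := by
  classical
  haveI : Finite ((P : Subgroup G) →* ℂˣ) := finite_dual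
  have := Fintype.ofFinite ((P : Subgroup G) →* ℂˣ)
  rw [S.value h (S.hz ψ hψ) hy, at1_ne _ (S.hz1 ψ hψ), at1_ne _ (S.hzc ψ hψ),
    at1_ne _ (S.hzd ψ hψ), zero_add, zero_add, zero_add]
  have h1 : ∑ ψ' : (P : Subgroup G) →* ℂˣ,
      (if ψ' ≠ 1 then at1 (z ψ') (δ : ℂ) (z ψ) * (ψ' y : ℂ) else 0) =
      ∑ ψ' ∈ Finset.univ.image (fun i : Fin 3 => h.tw i ψ), (δ : ℂ) * (ψ' y : ℂ) := by
    rw [← Finset.sum_filter_add_sum_filter_not Finset.univ
      (fun ψ' => ψ' ∈ Finset.univ.image (fun i : Fin 3 => h.tw i ψ))]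
    have h2 : ∑ ψ' : (P : Subgroup G) →* ℂˣ with
        ¬ ψ' ∈ Finset.univ.image (fun i : Fin 3 => h.tw i ψ),
        (if ψ' ≠ 1 then at1 (z ψ') (δ : ℂ) (z ψ) * (ψ' y : ℂ) else 0) = 0 := by
      apply Finset.sum_eq_zero
      intro ψ' hψ'
      split_ifs with h3
      · rw [at1_ne, zero_mul]
        intro he
        apply (Finset.mem_filter.mp hψ').2
        obtain ⟨i, hi⟩ := (S.z_eq_iff hM h h3 hψ).mp he.symm
        exact Finset.mem_image.mpr ⟨i, Finset.mem_univ _, hi.symm⟩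
      · rfl
    rw [h2, add_zero]
    apply Finset.sum_congr
    · ext ψ'; simp
    · intro ψ' hψ'
      obtain ⟨i, _, rfl⟩ := Finset.mem_image.mp hψ'
      rw [if_pos (h.tw_ne_one i hψ), (S.z_eq_iff hM h (h.tw_ne_one i hψ) hψ).mpr ⟨i, rfl⟩,
        at1_same]
  rw [h1, Finset.sum_image (fun i _ j _ hij => h.tw_inj hψ hij), Finset.mul_sum]

theorem cover [Fintype G] [Fact p.Prime] (hM : IsPModular p M) (h : Ab3 P g)
    (S : Sun M P τ ρ δ c d z) {χ : IrrCharacter G} (hχ : χ ∈ principalBlock M G) :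
    χ = oneIrr G ∨ χ = c ∨ χ = d ∨ ∃ ψ, ψ ≠ 1 ∧ χ = z ψ := by
  classical
  have hpr := hM.2.1.isPrime
  by_contra hcon
  push Not at hcon
  obtain ⟨h1, h2, h3, h4⟩ := hcon
  haveI : Finite ((P : Subgroup G) →* ℂˣ) := finite_dual
  have := Fintype.ofFinite ((P : Subgroup G) →* ℂˣ)
  have h5 : blockOf M (χ : G → ℂ) = {χ} := by
    apply blockOf_eq_singleton hM
    apply fact_le_of_vanish_sylow P χ.2
    intro y hy hy1
    have := S.value h hχ (y := ⟨y, hy⟩) (fun he => hy1 (congrArg Subtype.val he))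
    rw [at1_ne _ h1, at1_ne _ h2, at1_ne _ h3,
      S.sum_zero_of (fun ψ hψ he => h4 ψ hψ he.symm)] at this
    rw [this]; ring
  have h6 : oneIrr G ∈ blockOf M (χ : G → ℂ) := by
    have h7 : SameBlock M ((oneIrr G : IrrCharacter G) : G → ℂ) (χ : G → ℂ) := hχ
    intro x
    have h8 := li_neg (h7 x)
    rwa [neg_sub] at h8
  rw [h5] at h6
  exact h1 (Set.mem_singleton_iff.mp h6).symm

end Sun

end Cfsg.Agent.H27
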