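import Cfsg.Agent.H27.AbSyl2

set_option autoImplicit false

/-! # Principal blocks with abelian Sylow subgroups and `N/C` free of order `3`, part 3 -/

universe u

namespace Cfsg.Agent.H27

open Subgroup Cfsg Cfsg.Agent.H3 Cfsg.Agent.H11
open scoped ComplexConjugate

variable {G : Type u} [Group G] {p : ℕ} {M : Ideal AlgInt}

theorem card_of_fibers {ι V : Type*} [Fintype ι] [DecidableEq V] (w : ι → V) (n : ℕ)
    (h : ∀ i, (Finset.univ.filter (fun j => w j = w i)).card = n) :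
    Fintype.card ι = n * (Finset.univ.image w).card := by
  rw [← Finset.card_univ, Finset.card_eq_sum_card_image w Finset.univ,
    Finset.sum_congr rfl (g := fun _ => n), Finset.sum_const, smul_eq_mul, mul_comm]
  intro b hb
  obtain ⟨i, _, rfl⟩ := Finset.mem_image.mp hb
  exact h i

open Classical in
/-- `t` at `a`, `0` elsewhere -/
noncomputable def at1 {R X : Type*} [Zero R] (a : X) (t : R) (x : X) : R := if x = a then t else 0

theorem at1_same {R X : Type*} [Zero R] (a : X) (t : R) : at1 a t a = t := by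
  unfold at1; rw [if_pos rfl]

theorem at1_ne {R X : Type*} [Zero R] {a x : X} (t : R) (h : x ≠ a) : at1 a t x = 0 := by
  unfold at1; rw [if_neg h]

/-- The combinatorial structure of the principal block. -/
structure Sun (M : Ideal AlgInt) (P : Sylow p G) [Fintype (P : Subgroup G)] (τ ρ δ : ℤ)
    (c d : IrrCharacter G) (z : (↥(P : Subgroup G) →* ℂˣ) → IrrCharacter G) : Prop where
  hτ : τ = 1 ∨ τ = -1
  hρ : ρ = 1 ∨ ρ = -1
  hδ : δ = 1 ∨ δ = -1
  hc : c ∈ principalBlock M G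
  hd : d ∈ principalBlock M G
  hcd : c ≠ d
  hc1 : c ≠ oneIrr G
  hd1 : d ≠ oneIrr G
  hz : ∀ ψ, ψ ≠ 1 → z ψ ∈ principalBlock M G
  hz1 : ∀ ψ, ψ ≠ 1 → z ψ ≠ oneIrr G
  hzc : ∀ ψ, ψ ≠ 1 → z ψ ≠ c
  hzd : ∀ ψ, ψ ≠ 1 → z ψ ≠ d
  W_eq : ∀ ψ, ψ ≠ 1 → ∀ χ ∈ principalBlock M G,
    Ab3.W P ψ χ = at1 (oneIrr G) 1 χ + at1 c τ χ + at1 d ρ χ - at1 (z ψ) δ χ

namespace Ab3

variable {P : Sylow p G} {g : G}

theorem W_eq_iff [Fintype G] [Fact p.Prime] (hM : IsPModular p M) (h : Ab3 P g)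
    [Fintype (P : Subgroup G)] {ψ ψ' : (P : Subgroup G) →* ℂˣ} (hψ : ψ ≠ 1) (hψ' : ψ' ≠ 1) :
    (∀ χ ∈ principalBlock M G, W P ψ χ = W P ψ' χ) ↔ ∃ i : Fin 3, ψ = h.tw i ψ' := by
  classical
  have := Fintype.ofFinite (IrrCharacter G)
  constructor
  · intro he
    by_contra hcon
    push Not at hcon
    have h1 := h.W_inner_ne hM hψ hψ' hcon
    have h2 := h.W_inner_self hM hψ'
    have h3 : ∑ χ : IrrCharacter G with χ ∈ principalBlock M G, W P ψ χ * W P ψ' χ =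
        ∑ χ : IrrCharacter G with χ ∈ principalBlock M G, W P ψ' χ * W P ψ' χ := by
      apply Finset.sum_congr rfl
      intro χ hχ
      rw [he χ (Finset.mem_filter.mp hχ).2]
    omega
  · rintro ⟨i, rfl⟩ χ _
    exact h.W_tw _ _ _

theorem card_fiber [Fintype G] [Fact p.Prime] (h : Ab3 P g)
    [Fintype {ψ : (P : Subgroup G) →* ℂˣ // ψ ≠ 1}]
    (Q : ((P : Subgroup G) →* ℂˣ) → Prop) [DecidablePred Q] {ψ : (P : Subgroup G) →* ℂˣ} (hψ : ψ ≠ 1)
    (hQ : ∀ ψ', ψ' ≠ 1 → (Q ψ' ↔ ∃ i : Fin 3, ψ' = h.tw i ψ)) :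
    (Finset.univ.filter (fun ψ' : {ψ : (P : Subgroup G) →* ℂˣ // ψ ≠ 1} => Q ψ'.1)).card = 3 := by
  classical
  have h1 : Finset.univ.filter (fun ψ' : {ψ : (P : Subgroup G) →* ℂˣ // ψ ≠ 1} => Q ψ'.1) =
      Finset.univ.image (fun i : Fin 3 =>
        (⟨h.tw i ψ, h.tw_ne_one i hψ⟩ : {ψ : (P : Subgroup G) →* ℂˣ // ψ ≠ 1})) := by
    ext ψ'
    simp only [Finset.mem_filter, Finset.mem_univ, true_and, Finset.mem_image]
    rw [hQ _ ψ'.2]
    constructor
    · rintro ⟨i, hi⟩; exact ⟨i, Subtype.ext hi.symm⟩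
    · rintro ⟨i, hi⟩; exact ⟨i, by rw [← hi]⟩
  rw [h1, Finset.card_image_of_injective, Finset.card_univ, Fintype.card_fin]
  intro i j hij
  exact h.tw_inj hψ (congrArg Subtype.val hij)

theorem not_ten [Finite G] [Fact p.Prime] (P : Sylow p G) : Nat.card (P : Subgroup G) ≠ 10 := by
  intro hc
  obtain ⟨k, hk⟩ := exists_pow_card P
  rw [hc] at hk
  have hp : p.Prime := Fact.out
  have h2 : 2 ∣ p ^ k := by rw [← hk]; norm_num
  have h5 : 5 ∣ p ^ k := by rw [← hk]; norm_num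
  have e2 := (Nat.prime_dvd_prime_iff_eq Nat.prime_two hp).mp (Nat.prime_two.dvd_of_dvd_pow h2)
  have e5 := (Nat.prime_dvd_prime_iff_eq Nat.prime_five hp).mp (Nat.prime_five.dvd_of_dvd_pow h5)
  omega

theorem exists_sun [Fintype G] [Fact p.Prime] (hM : IsPModular p M) (h : Ab3 P g)
    [Fintype (P : Subgroup G)] (hcard : 4 < Nat.card (P : Subgroup G)) :
    ∃ (τ ρ δ : ℤ) (c d : IrrCharacter G) (z : (↥(P : Subgroup G) →* ℂˣ) → IrrCharacter G),
      Sun M P τ ρ δ c d z := by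
  classical
  have := Fintype.ofFinite (IrrCharacter G)
  have hpr := hM.2.1.isPrime
  haveI : Finite ((P : Subgroup G) →* ℂˣ) := finite_dual
  have := Fintype.ofFinite ((P : Subgroup G) →* ℂˣ)
  let κ := {χ : IrrCharacter G // χ ∈ principalBlock M G}
  let ι := {ψ : (P : Subgroup G) →* ℂˣ // ψ ≠ 1}
  let w : ι → κ → ℤ := fun ψ χ => W P ψ.1 χ.1
  have hsum : ∀ F : IrrCharacter G → ℤ, ∑ k : κ, F k.1 =
      ∑ χ : IrrCharacter G with χ ∈ principalBlock M G, F χ := by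
    intro F
    exact (Finset.sum_subtype _ (by simp) F).symm
  have hsumC : ∀ F : IrrCharacter G → ℂ, ∑ k : κ, F k.1 =
      ∑ χ : IrrCharacter G with χ ∈ principalBlock M G, F χ := by
    intro F
    exact (Finset.sum_subtype _ (by simp) F).symm
  have hweq : ∀ i j : ι, w i = w j ↔ ∃ a : Fin 3, i.1 = h.tw a j.1 := by
    intro i j
    rw [← h.W_eq_iff hM i.2 j.2]
    constructor
    · intro he χ hχ
      exact congrFun he ⟨χ, hχ⟩
    · intro he
      funext k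
      exact he k.1 k.2
  have hfib : ∀ i : ι, (Finset.univ.filter (fun j : ι => w j = w i)).card = 3 := by
    intro i
    have h1 := h.card_fiber (fun ψ' => ∃ a : Fin 3, ψ' = h.tw a i.1) i.2 (fun ψ' _ => Iff.rfl)
    rw [← h1]
    congr 1
    ext j
    simp only [Finset.mem_filter, Finset.mem_univ, true_and]
    exact hweq j i
  have hcardι : Fintype.card ι = 3 * (Finset.univ.image w).card := card_of_fibers w 3 hfib
  have hcardι2 : Fintype.card ι + 1 = Nat.card (P : Subgroup G) := by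
    rw [← card_dual h.P_comm, Nat.card_eq_fintype_card]
    have h1 := Fintype.card_subtype_compl (fun ψ : (P : Subgroup G) →* ℂˣ => ψ = 1)
    rw [Fintype.card_subtype_eq] at h1
    have h2 : Fintype.card ι = Fintype.card {ψ : (P : Subgroup G) →* ℂˣ // ¬ ψ = 1} := rfl
    have h3 : 0 < Fintype.card ((P : Subgroup G) →* ℂˣ) := Fintype.card_pos
    omega
  have hone : 1 < (Finset.univ.image w).card := by omega
  obtain ⟨v1, hv1, v2, hv2, hv⟩ := Finset.one_lt_card.mp hone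
  obtain ⟨i₁, _, rfl⟩ := Finset.mem_image.mp hv1
  obtain ⟨i₂, _, rfl⟩ := Finset.mem_image.mp hv2
  have hm3 : ¬ ∃ i₃, w i₃ ≠ w i₁ ∧ w i₃ ≠ w i₂ ∧ ∀ i, w i = w i₁ ∨ w i = w i₂ ∨ w i = w i₃ := by
    rintro ⟨i₃, h31, h32, hall⟩
    have h1 : Finset.univ.image w = {w i₁, w i₂, w i₃} := by
      ext v
      simp only [Finset.mem_image, Finset.mem_univ, true_and, Finset.mem_insert,
        Finset.mem_singleton]
      constructor
      · rintro ⟨i, rfl⟩; exact hall i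
      · rintro (rfl | rfl | rfl)
        exacts [⟨_, rfl⟩, ⟨_, rfl⟩, ⟨_, rfl⟩]
    have h2 : (Finset.univ.image w).card = 3 := by
      rw [h1]
      exact Finset.card_eq_three.mpr ⟨_, _, _, hv, Ne.symm h31, Ne.symm h32, rfl⟩
    exact not_ten P (by omega)
  obtain ⟨u, σ, z, hu3, hu0, hσ, hz0, hwz⟩ := sunflower w (⟨oneIrr G, oneIrr_mem⟩ : κ)
    (fun k => (charDegree (k.1 : G → ℂ) : ℤ))
    (fun k => by
      have := charDegree_pos k.1.2
      exact_mod_cast this)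
    (by
      have h1 : (charDegree ((oneIrr G : IrrCharacter G) : G → ℂ) : ℂ) = 1 := by
        rw [charDegree_cast (irr_isChar (oneIrr G).2)]; rfl
      exact_mod_cast h1)
    (fun i => W_principal P i.2)
    (fun i => by
      have h1 := h.W_inner_self hM i.2
      rw [← hsum (fun χ => W P i.1 χ * W P i.1 χ)] at h1
      exact h1)
    (fun i j hij => by
      have h1 := h.W_inner_ne hM i.2 j.2 (fun a ha => hij ((hweq i j).mpr ⟨a, ha⟩))
      rw [← hsum (fun χ => W P i.1 χ * W P j.1 χ)] at h1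
      exact h1)
    (fun i => by
      have h1 := W_reg hM P i.1 (x := 1) (by
        rw [orderOf_one]; exact hM.1.one_lt.ne' ∘ Nat.dvd_one.mp)
      rw [← hsumC (fun χ => (W P i.1 χ : ℂ) * (χ : G → ℂ) 1)] at h1
      have h2 : ((∑ k : κ, W P i.1 k.1 * (charDegree (k.1 : G → ℂ) : ℤ) : ℤ) : ℂ) = 0 := by
        push_cast
        rw [← h1]
        apply Finset.sum_congr rfl
        intro k _
        rw [charDegree_cast (irr_isChar k.1.2)]
      exact_mod_cast h2)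
    i₁ i₂ hv hm3
  obtain ⟨c, d, τ, ρ, hcd, hc0, hd0, hτ, hρ, hu⟩ := norm_three hu3 hu0
  have huc : u c = τ := by
    rw [hu, Pi.add_apply, Pi.add_apply, Pi.single_eq_of_ne hc0, Pi.single_eq_same,
      Pi.single_eq_of_ne hcd]; ring
  have hud : u d = ρ := by
    rw [hu, Pi.add_apply, Pi.add_apply, Pi.single_eq_of_ne hd0, Pi.single_eq_same,
      Pi.single_eq_of_ne (Ne.symm hcd)]; ring
  let z' : ((P : Subgroup G) →* ℂˣ) → IrrCharacter G := fun ψ =>
    if hψ : ψ ≠ 1 then (z ⟨ψ, hψ⟩).1 else oneIrr G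
  have hz' : ∀ ψ (hψ : ψ ≠ 1), z' ψ = (z ⟨ψ, hψ⟩).1 := fun ψ hψ => dif_pos hψ
  refine ⟨τ, ρ, -σ, c.1, d.1, z', hτ, hρ, ?_, c.2, d.2, fun he => hcd (Subtype.ext he),
    fun he => hc0 (Subtype.ext he), fun he => hd0 (Subtype.ext he), ?_, ?_, ?_, ?_, ?_⟩
  · rcases hσ with rfl | rfl <;> simp
  · intro ψ hψ; rw [hz' ψ hψ]; exact (z _).2
  · intro ψ hψ he
    rw [hz' ψ hψ] at he
    have h1 := hz0 ⟨ψ, hψ⟩
    rw [show z ⟨ψ, hψ⟩ = (⟨oneIrr G, oneIrr_mem⟩ : κ) from Subtype.ext he, hu0] at h1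
    norm_num at h1
  · intro ψ hψ he
    rw [hz' ψ hψ] at he
    have h1 := hz0 ⟨ψ, hψ⟩
    rw [show z ⟨ψ, hψ⟩ = c from Subtype.ext he, huc] at h1
    rcases hτ with h2 | h2 <;> omega
  · intro ψ hψ he
    rw [hz' ψ hψ] at he
    have h1 := hz0 ⟨ψ, hψ⟩
    rw [show z ⟨ψ, hψ⟩ = d from Subtype.ext he, hud] at h1
    rcases hρ with h2 | h2 <;> omega
  · intro ψ hψ χ hχ
    have h1 := congrFun (hwz ⟨ψ, hψ⟩) ⟨χ, hχ⟩
    have h2 : w ⟨ψ, hψ⟩ ⟨χ, hχ⟩ = W P ψ χ := rfl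
    have key : ∀ (a : κ) (t : ℤ), (Pi.single a t : κ → ℤ) ⟨χ, hχ⟩ = at1 a.1 t χ := by
      intro a t
      by_cases ha : χ = a.1
      · subst ha
        rw [at1_same]
        exact Pi.single_eq_same _ _
      · rw [at1_ne _ ha, Pi.single_eq_of_ne]
        intro he
        exact ha (congrArg Subtype.val he)
    have h3 : ∀ a : IrrCharacter G, at1 a (-σ) χ = - at1 a σ χ := by
      intro a
      by_cases ha : χ = a
      · subst ha; rw [at1_same, at1_same]
      · rw [at1_ne _ ha, at1_ne _ ha, neg_zero]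
    rw [← h2, h1, hu, hz' ψ hψ, h3]
    simp only [Pi.add_apply, key]
    ring

end Ab3

end Cfsg.Agent.H27
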