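import Mathlib
import Cfsg.Agent.H3.Perm
import Cfsg.Agent.H3.PrimChar
import Cfsg.Agent.H9.SymSq
import Cfsg.Agent.H27.Kernel
import Cfsg.Agent.H27.CentralChar
import Cfsg.Agent.H27.Util

set_option autoImplicit false
set_option linter.style.haveILetI false
set_option linter.unusedSectionVars false

/-!
# Characters of degree three: constituents and integer values
-/

namespace Cfsg.Agent.H27.Ca

open Cfsg Cfsg.Agent.H3 Cfsg.Agent.H9
open scoped ComplexConjugate

universe u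

variable {G : Type u} [Group G] [Fintype G]

theorem peel {Ψ χ : G → ℂ} (hΨ : IsCharacter G Ψ) (hχ : IsIrrCharacter G χ)
    (h : classInner Ψ χ ≠ 0) : IsCharacter G (Ψ - χ) := by
  classical
  rw [isChar_iff] at hΨ ⊢
  refine ⟨classFun_sub hΨ.1 (irr_classFun hχ), fun ψ => ?_⟩
  obtain ⟨n, hn⟩ := hΨ.2 ψ
  rw [classInner_sub_left, hn, classInner_irr hχ ψ.2]
  split_ifs with h1
  · have hn0 : n ≠ 0 := by
      rintro rfl
      apply h
      rw [h1, hn]
      simp
    refine ⟨n - 1, ?_⟩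
    rw [Nat.cast_sub (Nat.one_le_iff_ne_zero.mpr hn0)]
    simp
  · exact ⟨n, by simp⟩

theorem exists_const {Ψ : G → ℂ} (hΨ : IsCharacter G Ψ) (h : Ψ 1 ≠ 0) :
    ∃ χ, IsIrrCharacter G χ ∧ classInner Ψ χ ≠ 0 := by
  by_contra hcon
  push Not at hcon
  apply h
  have : Ψ = 0 := classFun_ext_inner (char_classFun hΨ) classFun_zero fun χ => by
    rw [hcon _ χ.2]
    simp [classInner]
  rw [this]
  rfl

theorem eq_zero_of_one {Ψ : G → ℂ} (hΨ : IsCharacter G Ψ) (h : Ψ 1 = 0) : Ψ = 0 := by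
  apply classFun_ext_inner (char_classFun hΨ) classFun_zero
  intro χ
  by_contra hne
  have h0 : classInner (0 : G → ℂ) (χ : G → ℂ) = 0 := by simp [classInner]
  rw [h0] at hne
  have h1 := peel hΨ χ.2 hne
  obtain ⟨n, hn⟩ := char_one_eq_nat h1
  obtain ⟨m, hm, hm2⟩ := irr_one_eq_nat χ.2
  rw [Pi.sub_apply, h, hm2, zero_sub] at hn
  have h2 : (n : ℂ) + m = 0 := by rw [← hn]; ring
  have h3 : n + m = 0 := by exact_mod_cast h2
  omega

/-- constituents of kernels -/
theorem const_ker {Ψ χ : G → ℂ} (hχ : IsCharacter G χ) (hd : IsCharacter G (Ψ - χ)) {g : G}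
    (hg : Ψ g = Ψ 1) : χ g = χ 1 := by
  obtain ⟨n, hn⟩ := char_one_eq_nat hχ
  obtain ⟨m, hm⟩ := char_one_eq_nat hd
  have h1 := norm_char_le hχ g
  have h2 := norm_char_le hd g
  rw [← char_one_norm hχ, hn] at h1
  rw [← char_one_norm hd, hm] at h2
  simp only [Complex.norm_natCast] at h1 h2
  have h3 := Complex.re_le_norm (χ g)
  have h4 := Complex.re_le_norm ((Ψ - χ) g)
  have h5 : (χ g).re + ((Ψ - χ) g).re = n + m := by
    have : χ g + (Ψ - χ) g = χ 1 + (Ψ - χ) 1 := by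
      rw [Pi.sub_apply, Pi.sub_apply, hg]; ring
    rw [hn, hm] at this
    have := congrArg Complex.re this
    simpa using this
  have h6 : (χ g).re = n := by linarith
  have h7 : ‖χ g‖ = (χ g).re := by linarith
  have h8 : (χ g).im = 0 := by
    have h9 := Complex.sq_norm (χ g)
    rw [h7, Complex.normSq_apply] at h9
    have : (χ g).im * (χ g).im = 0 := by nlinarith
    exact mul_self_eq_zero.mp this
  rw [hn]
  apply Complex.ext
  · rw [h6]; simp
  · rw [h8]; simp

theorem ip_eq (f g : G → ℂ) : classInner f g = (Nat.card G : ℂ)⁻¹ * ∑ x, f x * conj (g x) := rfl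

/-- linear characters of perfect groups -/
theorem one_of_deg {χ : G → ℂ} (hp : commutator G = ⊤) (hχ : IsCharacter G χ) (h : χ 1 = 1) :
    χ = fun _ => 1 := by
  obtain ⟨μ, hμ⟩ := exists_hom_of_one hχ h
  ext g
  rw [hμ]
  have : g ∈ μ.ker := Abelianization.commutator_subset_ker μ (by rw [hp]; trivial)
  rw [MonoidHom.mem_ker.mp this]
  rfl

/-- common constituent -/
theorem inner_ne_zero {a b χ : G → ℂ} (ha : IsCharacter G a) (hb : IsCharacter G b)
    (hχ : IsIrrCharacter G χ) (h1 : classInner a χ ≠ 0) (h2 : classInner b χ ≠ 0) :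
    classInner a b ≠ 0 := by
  have ha' := peel ha hχ h1
  have hb' := peel hb hχ h2
  obtain ⟨n1, e1⟩ := classInner_char_nat ha' hb'
  obtain ⟨n2, e2⟩ := classInner_char_nat ha' (irr_isChar hχ)
  obtain ⟨n3, e3⟩ := classInner_char_nat (irr_isChar hχ) hb'
  have e4 := classInner_self_of_irr hχ
  have h3 : classInner a b = classInner (a - χ) (b - χ) + classInner (a - χ) χ +
      classInner χ (b - χ) + classInner χ χ := by
    simp only [classInner_sub_left, classInner_sub_right]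
    ring
  rw [h3, e1, e2, e3, e4]
  have : ((n1 : ℂ) + n2 + n3 + 1) = ((n1 + n2 + n3 + 1 : ℕ) : ℂ) := by push_cast; ring
  rw [this]
  exact Nat.cast_ne_zero.mpr (Nat.succ_ne_zero (n1 + n2 + n3))

/-- The hypothesis. -/
structure Hyp (u : G) : Prop where
  perf : commutator G = ⊤
  h : ∀ χ : G → ℂ, IsIrrCharacter G χ → χ ≠ (fun _ => (1 : ℂ)) → (χ 1 - χ u = 4 ∨ χ u = 0)

variable {u : G}

theorem Hyp.ty0 (H : Hyp u) {χ : G → ℂ} (hχ : IsIrrCharacter G χ) (h1 : χ ≠ fun _ => (1 : ℂ)) :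
    ∃ (d : ℕ) (w : ℤ), χ 1 = d ∧ χ u = w ∧ 2 ≤ d ∧ (w = d - 4 ∨ w = 0) := by
  obtain ⟨d, hd, hd1⟩ := irr_one_eq_nat hχ
  have hd2 : 2 ≤ d := by
    by_contra hlt
    have : d = 1 := by omega
    subst this
    exact h1 (one_of_deg H.perf (irr_isChar hχ) (by rw [hd1]; simp))
  rcases H.h χ hχ h1 with h | h
  · refine ⟨d, d - 4, hd1, ?_, hd2, Or.inl rfl⟩
    rw [hd1] at h
    push_cast
    rw [← h]; ring
  · exact ⟨d, 0, hd1, by rw [h]; simp, hd2, Or.inr rfl⟩

/-- no trivial constituents -/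
def NT (Ψ : G → ℂ) : Prop := classInner Ψ (fun _ => (1 : ℂ)) = 0

theorem NT.sub {Ψ χ : G → ℂ} (h : NT Ψ) (hΨ : IsCharacter G (Ψ - χ)) (hχ : IsCharacter G χ) :
    NT (Ψ - χ) ∧ NT χ := by
  unfold NT at *
  obtain ⟨a, ha⟩ := classInner_char_nat hΨ isChar_one
  obtain ⟨b, hb⟩ := classInner_char_nat hχ isChar_one
  have h1 : classInner Ψ (fun _ => (1 : ℂ)) = classInner (Ψ - χ) (fun _ => (1 : ℂ)) +
      classInner χ (fun _ => (1 : ℂ)) := by
    rw [classInner_sub_left]; ring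
  rw [h, ha, hb] at h1
  have h2 : a + b = 0 := by exact_mod_cast h1.symm
  have ha0 : a = 0 := by omega
  have hb0 : b = 0 := by omega
  rw [ha, hb, ha0, hb0]
  simp

theorem NT.ne {χ : G → ℂ} (h : NT χ) : χ ≠ fun _ => (1 : ℂ) := by
  rintro rfl
  unfold NT at h
  rw [classInner_self_of_irr isIrr_one] at h
  exact one_ne_zero h

theorem nt_of_irr {χ : G → ℂ} (hχ : IsIrrCharacter G χ) (h : χ ≠ fun _ => (1 : ℂ)) : NT χ :=
  classInner_of_irr_ne hχ isIrr_one h

/-- The main arithmetic of characters without trivial constituents. -/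
theorem Hyp.arith (H : Hyp u) (N : ℕ) : ∀ (Ψ : G → ℂ), IsCharacter G Ψ → NT Ψ → ∀ n : ℕ,
    n ≤ N → Ψ 1 = n → ∃ v : ℤ, Ψ u = v ∧ v ≤ n ∧ ((n : ℤ) - v = 0 → n = 0) ∧
      ((n : ℤ) - v < 4 → v = 0) ∧ ((n : ℤ) - v = 4 → IsIrrCharacter G Ψ ∨ v = 0) := by
  induction N with
  | zero =>
    intro Ψ hΨ hNT n hn hn1
    have h0 : n = 0 := by omega
    subst h0
    have : Ψ = 0 := eq_zero_of_one hΨ (by rw [hn1]; simp)
    subst this
    exact ⟨0, by simp, by simp, by simp, by simp, by simp⟩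
  | succ N ih =>
    intro Ψ hΨ hNT n hn hn1
    by_cases hn0 : n = 0
    · subst hn0
      have : Ψ = 0 := eq_zero_of_one hΨ (by rw [hn1]; simp)
      subst this
      exact ⟨0, by simp, by simp, by simp, by simp, by simp⟩
    obtain ⟨χ, hχ, hχ2⟩ := exists_const hΨ (by rw [hn1]; exact_mod_cast hn0)
    have hp := peel hΨ hχ hχ2
    obtain ⟨hNT1, hNT2⟩ := hNT.sub hp (irr_isChar hχ)
    obtain ⟨d, w, hd, hw, hd2, hw2⟩ := H.ty0 hχ hNT2.ne
    obtain ⟨m, hm⟩ := char_one_eq_nat hp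
    have hnm : n = m + d := by
      rw [Pi.sub_apply, hn1, hd] at hm
      have : (n : ℂ) = m + d := by rw [← hm]; ring
      exact_mod_cast this
    obtain ⟨v, hv, hv1, hv2, hv3, hv4⟩ := ih _ hp hNT1 m (by omega) hm
    refine ⟨v + w, ?_, ?_, ?_, ?_, ?_⟩
    · rw [Pi.sub_apply, hw] at hv
      push_cast
      rw [← hv]; ring
    · rcases hw2 with h | h <;> omega
    · intro h
      rcases hw2 with h' | h' <;> omega
    · intro h
      rcases hw2 with h' | h'
      · omega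
      · have := hv3 (by omega)
        omega
    · intro h
      rcases hw2 with h' | h'
      · left
        have h3 : m = 0 := hv2 (by omega)
        have h4 := eq_zero_of_one hp (by rw [hm, h3]; simp)
        have h5 : Ψ = χ := by
          rw [sub_eq_zero] at h4; exact h4
        rw [h5]; exact hχ
      · right
        have := hv3 (by omega)
        omega

end Cfsg.Agent.H27.Ca
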