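import Mathlib
import Cfsg.Agent.H27.Ca1

set_option autoImplicit false
set_option linter.style.haveILetI false
set_option linter.unusedSectionVars false

/-!
# Squares of characters of small degree
-/

namespace Cfsg.Agent.H27.Ca

open Cfsg Cfsg.Agent.H3 Cfsg.Agent.H9 Matrix
open scoped ComplexConjugate

universe u

variable {G : Type u} [Group G] [Fintype G] {u : G}

theorem mat3 (A : Matrix (Fin 3) (Fin 3) ℂ) :
    A.trace ^ 2 - (A * A).trace = 2 * A.adjugate.trace := by
  rw [Matrix.adjugate_fin_three]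
  simp only [Matrix.trace, Matrix.diag, Fin.sum_univ_three, Matrix.mul_apply, Matrix.of_apply,
    Matrix.cons_val', Matrix.cons_val_zero, Matrix.cons_val_one, Matrix.cons_val]
  ring

theorem deg_three {χ : G → ℂ} (hp : commutator G = ⊤) (hχ : IsCharacter G χ) (h : χ 1 = 3) (g : G) :
    χ (g * g) = χ g ^ 2 - 2 * conj (χ g) := by
  rw [← char_inv hχ]
  obtain ⟨n, ρ, rfl⟩ := hχ
  have hn : n = 3 := by
    rw [Representation.char_one] at h
    have : Module.finrank ℂ (Fin n → ℂ) = 3 := by exact_mod_cast h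
    simpa using this
  subst hn
  let M : G → Matrix (Fin 3) (Fin 3) ℂ := fun g => LinearMap.toMatrix' (ρ g)
  have hM : ∀ a b, M (a * b) = M a * M b := by
    intro a b
    simp only [M]
    rw [map_mul, ← LinearMap.toMatrix'_mul]
  have hM1 : M 1 = 1 := by
    simp only [M]
    rw [map_one, LinearMap.toMatrix'_one]
  have htr : ∀ g, ρ.character g = (M g).trace := by
    intro g
    change LinearMap.trace ℂ _ (ρ g) = _
    rw [LinearMap.trace_eq_matrix_trace ℂ (Pi.basisFun ℂ (Fin 3))]
    rfl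
  let D : G →* ℂ :=
    { toFun := fun g => (M g).det
      map_one' := by rw [hM1, det_one]
      map_mul' := fun a b => by rw [hM, det_mul] }
  have hdet : ∀ g, (M g).det = 1 := by
    intro g
    have : g ∈ (D.toHomUnits).ker :=
      Abelianization.commutator_subset_ker D.toHomUnits (by rw [hp]; trivial)
    have h2 := congrArg (Units.val) (MonoidHom.mem_ker.mp this)
    exact h2
  have hadj : ∀ g, (M g⁻¹) = (M g).adjugate := by
    intro g
    have h1 : M g * M g⁻¹ = 1 := by rw [← hM, mul_inv_cancel, hM1]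
    have h2 : (M g).adjugate * (M g) = 1 := by rw [adjugate_mul, hdet, one_smul]
    calc M g⁻¹ = ((M g).adjugate * (M g)) * M g⁻¹ := by rw [h2, one_mul]
      _ = (M g).adjugate * (M g * M g⁻¹) := by rw [mul_assoc]
      _ = (M g).adjugate := by rw [h1, mul_one]
  rw [htr, htr, htr, hM, hadj]
  have := mat3 (M g)
  linear_combination -this

/-- degree two characters which vanish at `u` -/
theorem deg_two (hp : commutator G = ⊤) {χ : G → ℂ} (hχ : IsCharacter G χ) (h : χ 1 = 2)
    (h0 : χ u = 0) : χ (u * u) = -2 := by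
  have h1 : altSq χ = fun _ => 1 := by
    apply one_of_deg hp (isChar_altSq hχ)
    unfold altSq
    rw [mul_one, h]
    norm_num
  have h2 := congrFun h1 u
  unfold altSq at h2
  rw [h0] at h2
  linear_combination -2 * h2

theorem Hyp.ty (H : Hyp u) {χ : G → ℂ} (hχ : IsIrrCharacter G χ) (h1 : χ ≠ fun _ => (1 : ℂ)) :
    ∃ (d : ℕ) (w : ℤ), χ 1 = d ∧ χ u = w ∧ 2 ≤ d ∧ (w = d - 4 ∨ w = 0) ∧ (d = 2 → w = 0) := by
  obtain ⟨d, w, hd, hw, hd2, hw2⟩ := H.ty0 hχ h1
  refine ⟨d, w, hd, hw, hd2, hw2, ?_⟩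
  intro hd'
  rcases hw2 with hw2 | hw2
  swap
  · exact hw2
  exfalso
  subst hd'
  have hwv : w = -2 := by omega
  subst hwv
  let Ψ : G → ℂ := fun g => χ g * conj (χ g)
  have hΨ : IsCharacter G Ψ := isChar_mul (irr_isChar hχ) (isChar_conj (irr_isChar hχ))
  have h2 : classInner Ψ (fun _ => (1 : ℂ)) = 1 := by
    have h0 := classInner_self_of_irr hχ
    rw [ip_eq] at h0 ⊢
    simpa only [Ψ, map_one, mul_one] using h0
  have h3 := peel hΨ isIrr_one (by rw [h2]; exact one_ne_zero)
  have hNT : NT (Ψ - fun _ => (1 : ℂ)) := by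
    unfold NT
    rw [classInner_sub_left, h2, classInner_self_of_irr isIrr_one, sub_self]
  obtain ⟨v, hv, -, hv2, -, -⟩ := H.arith 3 _ h3 hNT 3 le_rfl (by
    simp only [Pi.sub_apply, Ψ]
    rw [hd, Complex.conj_natCast]; norm_num)
  have h4 : (v : ℂ) = 3 := by
    rw [← hv]
    simp only [Pi.sub_apply, Ψ]
    rw [hw, map_intCast]; norm_num
  have h5 : v = 3 := by exact_mod_cast h4
  have := hv2 (by omega)
  omega

/-- Negative values come from constituents of degree three. -/
theorem Hyp.neg (H : Hyp u) (N : ℕ) : ∀ (Ψ : G → ℂ), IsCharacter G Ψ → NT Ψ → ∀ n : ℕ,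
    n ≤ N → Ψ 1 = n → ∀ v : ℤ, Ψ u = v → v < 0 →
    ∃ χ, IsIrrCharacter G χ ∧ classInner Ψ χ ≠ 0 ∧ χ 1 = 3 ∧ χ u = -1 := by
  induction N with
  | zero =>
    intro Ψ hΨ hNT n hn hn1 v hv hv0
    exfalso
    have h0 : n = 0 := by omega
    subst h0
    have : Ψ = 0 := eq_zero_of_one hΨ (by rw [hn1]; simp)
    rw [this, Pi.zero_apply] at hv
    have : v = 0 := by exact_mod_cast hv.symm
    omega
  | succ N ih =>
    intro Ψ hΨ hNT n hn hn1 v hv hv0
    by_cases hn0 : n = 0
    · exfalso
      subst hn0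
      have : Ψ = 0 := eq_zero_of_one hΨ (by rw [hn1]; simp)
      rw [this, Pi.zero_apply] at hv
      have : v = 0 := by exact_mod_cast hv.symm
      omega
    obtain ⟨χ, hχ, hχ2⟩ := exists_const hΨ (by rw [hn1]; exact_mod_cast hn0)
    have hp := peel hΨ hχ hχ2
    obtain ⟨hNT1, hNT2⟩ := hNT.sub hp (irr_isChar hχ)
    obtain ⟨d, w, hd, hw, hd2, hw2, hw3⟩ := H.ty hχ hNT2.ne
    by_cases hw0 : w < 0
    · have hd3 : d = 3 := by
        rcases hw2 with h | h
        · by_contra hne
          have : d ≠ 2 := by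
            intro h'
            have := hw3 h'
            omega
          omega
        · omega
      subst hd3
      have : w = -1 := by omega
      subst this
      exact ⟨χ, hχ, hχ2, by rw [hd]; norm_num, by rw [hw]; norm_num⟩
    · obtain ⟨m, hm⟩ := char_one_eq_nat hp
      have hnm : n = m + d := by
        rw [Pi.sub_apply, hn1, hd] at hm
        have : (n : ℂ) = m + d := by rw [← hm]; ring
        exact_mod_cast this
      obtain ⟨χ', h1, h2, h3, h4⟩ := ih _ hp hNT1 m (by omega) hm (v - w) (by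
        rw [Pi.sub_apply, hv, hw]; push_cast; ring) (by omega)
      refine ⟨χ', h1, ?_, h3, h4⟩
      rw [classInner_sub_left] at h2
      intro h5
      obtain ⟨a, ha⟩ := classInner_char_nat hp (irr_isChar h1)
      obtain ⟨b, hb⟩ := classInner_char_nat (irr_isChar hχ) (irr_isChar h1)
      rw [classInner_sub_left, h5, hb] at ha
      have h6 : (a : ℂ) + b = 0 := by rw [← ha]; ring
      have h7 : a + b = 0 := by exact_mod_cast h6
      have hb0 : b = 0 := by omega
      apply h2
      rw [h5, hb, hb0]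
      simp

/-- characters of degree four are irreducible when there are no small constituents -/
theorem Hyp.irr_four (H : Hyp u) {Ψ : G → ℂ} (hΨ : IsCharacter G Ψ) (hNT : NT Ψ) (h4 : Ψ 1 = 4)
    (hk : Ψ (u * u) = Ψ 1) : IsIrrCharacter G Ψ := by
  obtain ⟨χ, hχ, hχ2⟩ := exists_const hΨ (by rw [h4]; norm_num)
  have hp := peel hΨ hχ hχ2
  obtain ⟨hNT1, hNT2⟩ := hNT.sub hp (irr_isChar hχ)
  obtain ⟨d, w, hd, hw, hd2, hw2, hw3⟩ := H.ty hχ hNT2.ne
  have hd3 : d ≠ 2 := by
    rintro rfl
    have h1 : w = 0 := hw3 rfl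
    have h2 := deg_two H.perf (irr_isChar hχ) (by rw [hd]; norm_num) (by rw [hw, h1]; simp)
    rw [const_ker (irr_isChar hχ) hp hk, hd] at h2
    norm_num at h2
  obtain ⟨m, hm⟩ := char_one_eq_nat hp
  have hnm : 4 = m + d := by
    rw [Pi.sub_apply, h4, hd] at hm
    have : ((4 : ℕ) : ℂ) = m + d := by rw [← hm]; push_cast; ring
    exact_mod_cast this
  have hm1 : m = 0 := by
    by_contra hm0
    have hm1 : m = 1 := by omega
    have h5 := one_of_deg H.perf hp (by rw [hm, hm1]; simp)
    exact hNT1.ne h5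
  have h5 := eq_zero_of_one hp (by rw [hm, hm1]; simp)
  rw [sub_eq_zero.mp h5]
  exact hχ

end Cfsg.Agent.H27.Ca
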