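import Mathlib
import Cfsg.Agent.H27.Ca2

set_option autoImplicit false
set_option linter.style.haveILetI false
set_option linter.unusedSectionVars false

/-!
# Characters of degree three are real
-/

namespace Cfsg.Agent.H27.Ca

open Cfsg Cfsg.Agent.H3 Cfsg.Agent.H9 Matrix
open scoped ComplexConjugate

universe u

variable {G : Type u} [Group G] [Fintype G] {u : G}

theorem conj_three : conj (3 : ℂ) = 3 := map_ofNat _ 3

/-- the special characters of degree three -/
structure A3 (u : G) (χ : G → ℂ) : Prop where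
  irr : IsIrrCharacter G χ
  one : χ 1 = 3
  val : χ u = -1

theorem ip_self_conj {χ : G → ℂ} (hχ : IsIrrCharacter G χ) :
    classInner (fun g => χ g * conj (χ g)) (fun _ => (1 : ℂ)) = 1 := by
  have h0 := classInner_self_of_irr hχ
  rw [ip_eq] at h0 ⊢
  simpa only [map_one, mul_one] using h0

theorem ne_of_one {a b : G → ℂ} {x y : ℂ} (ha : a 1 = x) (hb : b 1 = y) (h : x ≠ y) : a ≠ b := by
  rintro rfl
  exact h (ha.symm.trans hb)

theorem A3.real (H : Hyp u) {χ : G → ℂ} (h : A3 u χ) : ∀ g, conj (χ g) = χ g := by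
  classical
  by_contra hcon
  have hchar := irr_isChar h.irr
  have hcirr := isIrr_conj h.irr
  have hne : χ ≠ fun g => conj (χ g) := by
    intro he
    exact hcon fun g => (congrFun he g).symm
  have hsq := deg_three H.perf hchar h.one
  have hu2 : χ (u * u) = 3 := by
    rw [hsq, h.val]; simp; norm_num
  -- the symmetric square
  have hσc := isChar_symSq hchar
  have hσ : ∀ g, symSq χ g = χ g ^ 2 - conj (χ g) := by
    intro g
    unfold symSq
    rw [hsq]; ring
  have hσ1 : symSq χ 1 = 6 := by rw [hσ, h.one, conj_three]; norm_num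
  have hσu : symSq χ u = 2 := by rw [hσ, h.val]; simp; norm_num
  have hcc1 : (fun g => conj (χ g)) ≠ fun _ => (1 : ℂ) := by
    apply ne_of_one (x := 3) (y := 1) (by simp only [h.one, conj_three]) rfl (by norm_num)
  have hσNT : NT (symSq χ) := by
    have h1 : classInner (fun g => χ g * χ g) (fun _ => (1 : ℂ)) = 0 := by
      have h2 := classInner_of_irr_ne h.irr hcirr hne
      rw [ip_eq] at h2 ⊢
      simpa only [map_one, mul_one, Complex.conj_conj] using h2
    unfold NT
    have h3 : symSq χ = (fun g => χ g * χ g) - fun g => conj (χ g) := by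
      ext g; rw [hσ, Pi.sub_apply]; ring
    rw [h3, classInner_sub_left, h1, classInner_of_irr_ne hcirr isIrr_one hcc1, sub_self]
  have hσirr : IsIrrCharacter G (symSq χ) := by
    obtain ⟨v, hv, -, -, -, hv4⟩ := H.arith 6 _ hσc hσNT 6 le_rfl (by rw [hσ1]; norm_num)
    have h5 : v = 2 := by
      rw [hσu] at hv; exact_mod_cast hv.symm
    rcases hv4 (by omega) with h6 | h6
    · exact h6
    · omega
  -- the adjoint character
  let ψ : G → ℂ := (fun g => χ g * conj (χ g)) - fun _ => (1 : ℂ)
  have hψc : IsCharacter G ψ := peel (isChar_mul hchar (isChar_conj hchar)) isIrr_one (by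
    rw [ip_self_conj h.irr]; exact one_ne_zero)
  have hψirr : IsIrrCharacter G ψ := by
    apply isIrr_of_char_norm hψc
    have h1 : classInner (fun g => χ g * conj (χ g)) (fun g => χ g * conj (χ g)) =
        classInner (symSq χ + fun g => conj (χ g)) (symSq χ + fun g => conj (χ g)) := by
      rw [ip_eq, ip_eq]
      congr 1
      apply Finset.sum_congr rfl
      intro g _
      simp only [Pi.add_apply, hσ, map_add, map_sub, map_pow, map_mul, Complex.conj_conj]
      ring
    have h2 : symSq χ ≠ fun g => conj (χ g) :=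
      ne_of_one hσ1 (y := 3) (by simp only [h.one, conj_three]) (by norm_num)
    rw [classInner_add_left, classInner_add_right, classInner_add_right,
      classInner_self_of_irr hσirr, classInner_self_of_irr hcirr,
      classInner_of_irr_ne hσirr hcirr h2, classInner_of_irr_ne hcirr hσirr h2.symm] at h1
    have h3 : classInner (fun _ => (1 : ℂ)) (fun g => χ g * conj (χ g)) = 1 := by
      rw [← classInner_conj_symm, ip_self_conj h.irr]; simp
    simp only [ψ, classInner_sub_left, classInner_sub_right]
    rw [h1, h3, ip_self_conj h.irr, classInner_self_of_irr isIrr_one]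
    norm_num
  have hψ1 : ψ 1 = 8 := by
    simp only [ψ, Pi.sub_apply]
    rw [h.one, conj_three]; norm_num
  -- the product
  let Ω : G → ℂ := fun g => χ g * symSq χ g
  have hΩc : IsCharacter G Ω := isChar_mul hchar hσc
  have hΩNT : NT Ω := by
    have h2 : symSq χ ≠ fun g => conj (χ g) :=
      ne_of_one hσ1 (y := 3) (by simp only [h.one, conj_three]) (by norm_num)
    have h3 := classInner_of_irr_ne hσirr hcirr h2
    unfold NT
    rw [ip_eq] at h3 ⊢
    simp only [map_one, mul_one, Complex.conj_conj, Ω] at h3 ⊢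
    rw [← h3]
    congr 1
    apply Finset.sum_congr rfl
    intro g _
    ring
  have hΩ1 : Ω 1 = ((18 : ℕ) : ℂ) := by simp only [Ω]; rw [h.one, hσ1]; norm_num
  have hΩu : Ω u = ((-2 : ℤ) : ℂ) := by simp only [Ω]; rw [h.val, hσu]; norm_num
  obtain ⟨χ₁, h1, h2, h3, h4⟩ := H.neg 18 Ω hΩc hΩNT 18 le_rfl hΩ1 (-2) hΩu (by norm_num)
  have hp1 := peel hΩc h1 h2
  have hNT1 := (hΩNT.sub hp1 (irr_isChar h1)).1
  obtain ⟨χ₂, k1, k2, k3, k4⟩ := H.neg 15 (Ω - χ₁) hp1 hNT1 15 le_rfl (by
    rw [Pi.sub_apply, hΩ1, h3]; norm_num) (-1) (by rw [Pi.sub_apply, hΩu, h4]; norm_num)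
    (by norm_num)
  -- multiplicities
  have hrot : ∀ θ : G → ℂ, classInner (fun g => conj (χ g) * θ g) (symSq χ) =
      conj (classInner Ω θ) := by
    intro θ
    rw [classInner_conj_symm, ip_eq, ip_eq]
    congr 1
    apply Finset.sum_congr rfl
    intro g _
    simp only [Ω, map_mul]
    ring
  have hcm : ∀ θ : G → ℂ, IsCharacter G θ → IsCharacter G (fun g => conj (χ g) * θ g) :=
    fun θ hθ => isChar_mul (isChar_conj hchar) hθ
  have hmult : χ₂ ≠ χ₁ := by
    rintro rfl
    rw [classInner_sub_left, classInner_self_of_irr h1] at k2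
    obtain ⟨m, hm⟩ := classInner_char_nat hΩc (irr_isChar h1)
    have e1 := hrot χ₂
    rw [hm, Complex.conj_natCast] at e1
    have e2 := char_mult_degree_le (hcm χ₂ (irr_isChar h1)) hσirr e1 (m := 9) (n := 6)
      (by rw [h.one, h3, conj_three]; norm_num) (by rw [hσ1]; norm_num)
    have hm0 : m ≠ 0 := by rintro rfl; apply h2; rw [hm]; simp
    have hm1 : m ≠ 1 := by rintro rfl; apply k2; rw [hm]; simp
    omega
  have k2' : classInner Ω χ₂ ≠ 0 := by
    rw [classInner_sub_left, classInner_of_irr_ne h1 k1 hmult.symm, sub_zero] at k2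
    exact k2
  have e1 : classInner (fun g => conj (χ g) * χ₁ g) (symSq χ) ≠ 0 := by
    rw [hrot]; exact (map_ne_zero _).mpr h2
  have e2 : classInner (fun g => conj (χ g) * χ₂ g) (symSq χ) ≠ 0 := by
    rw [hrot]; exact (map_ne_zero _).mpr k2'
  have e3 := inner_ne_zero (hcm χ₁ (irr_isChar h1)) (hcm χ₂ (irr_isChar k1)) hσirr e1 e2
  let θ : G → ℂ := fun g => conj (χ₁ g) * χ₂ g
  have hθc : IsCharacter G θ := isChar_mul (isChar_conj (irr_isChar h1)) (irr_isChar k1)
  have hθ0 : classInner θ (fun _ => (1 : ℂ)) = 0 := by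
    have := classInner_of_irr_ne k1 h1 hmult
    rw [ip_eq] at this ⊢
    simp only [map_one, mul_one, θ]
    rw [← this]
    congr 1
    apply Finset.sum_congr rfl
    intro g _
    ring
  have e4 : classInner (fun g => conj (χ g) * χ₁ g) (fun g => conj (χ g) * χ₂ g) =
      conj (classInner θ ψ) := by
    have h5 : classInner (fun g => conj (χ g) * χ₁ g) (fun g => conj (χ g) * χ₂ g) =
        conj (classInner θ (fun g => χ g * conj (χ g))) := by
      rw [classInner_conj_symm, ip_eq, ip_eq]
      congr 1
      apply Finset.sum_congr rfl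
      intro g _
      simp only [θ, map_mul, Complex.conj_conj]
      ring
    rw [h5]
    congr 1
    simp only [ψ]
    rw [classInner_sub_right, hθ0, sub_zero]
  have e5 : classInner θ ψ ≠ 0 := by
    intro h0
    apply e3
    rw [e4, h0, map_zero]
  have hp2 := peel hθc hψirr e5
  have e6 := one_of_deg H.perf hp2 (by
    rw [Pi.sub_apply, hψ1]
    simp only [θ]
    rw [h3, k3, conj_three]; norm_num)
  have e7 := (NT.sub (χ := ψ) hθ0 hp2 hψc).1
  exact e7.ne e6

/-- The structure attached to a character of degree three. -/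
theorem A3.beta (H : Hyp u) {χ : G → ℂ} (h : A3 u χ) :
    IsIrrCharacter G (fun g => χ g ^ 2 - χ g - 1) := by
  have hchar := irr_isChar h.irr
  have hreal := h.real H
  have hsq := deg_three H.perf hchar h.one
  have hσ : symSq χ = (fun g => χ g * χ g) - χ := by
    ext g
    unfold symSq
    rw [hsq, hreal, Pi.sub_apply]; ring
  have h1 : classInner (symSq χ) (fun _ => (1 : ℂ)) = 1 := by
    rw [hσ, classInner_sub_left, classInner_of_irr_ne h.irr isIrr_one
      (ne_of_one h.one rfl (by norm_num)), sub_zero]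
    have := ip_self_conj h.irr
    simpa only [hreal] using this
  have hp := peel (isChar_symSq hchar) isIrr_one (by rw [h1]; exact one_ne_zero)
  have hNT : NT (symSq χ - fun _ => (1 : ℂ)) := by
    unfold NT
    rw [classInner_sub_left, h1, classInner_self_of_irr isIrr_one, sub_self]
  have he : (symSq χ - fun _ => (1 : ℂ)) = fun g => χ g ^ 2 - χ g - 1 := by
    ext g
    rw [hσ]
    simp only [Pi.sub_apply]
    ring
  rw [he] at hp hNT
  obtain ⟨v, hv, -, -, -, hv4⟩ := H.arith 5 _ hp hNT 5 le_rfl (by rw [h.one]; norm_num)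
  have h5 : v = 1 := by
    have : ((1 : ℤ) : ℂ) = v := by rw [← hv, h.val]; norm_num
    exact_mod_cast this.symm
  rcases hv4 (by omega) with h6 | h6
  · exact h6
  · omega

end Cfsg.Agent.H27.Ca
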