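import Mathlib
import Cfsg.Agent.H27.Ca3

set_option autoImplicit false
set_option linter.style.haveILetI false
set_option linter.unusedSectionVars false

/-!
# The characters generated by a character of degree three
-/

namespace Cfsg.Agent.H27.Ca

open Cfsg Cfsg.Agent.H3 Cfsg.Agent.H9 Matrix
open scoped ComplexConjugate

universe u

variable {G : Type u} [Group G] [Fintype G] {u : G}

def be (χ : G → ℂ) : G → ℂ := fun g => χ g ^ 2 - χ g - 1

theorem ip_real {f g : G → ℂ} (hg : ∀ x, conj (g x) = g x) :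
    classInner f g = (Nat.card G : ℂ)⁻¹ * ∑ x, f x * g x := by
  rw [ip_eq]
  simp only [hg]

theorem be_real (χ : G → ℂ) (h : ∀ g, conj (χ g) = χ g) (g : G) : conj (be χ g) = be χ g := by
  simp only [be, map_sub, map_pow, h, map_one]

theorem be_one {χ : G → ℂ} (h : χ 1 = 3) : be χ 1 = 5 := by
  simp only [be]; rw [h]; norm_num

theorem part (H : Hyp u) {χ : G → ℂ} (h : A3 u χ) :
    ∃ χ' ζ : G → ℂ, A3 u χ' ∧ χ' ≠ χ ∧ IsIrrCharacter G ζ ∧ ζ 1 = 4 ∧ ζ u = 0 ∧
      (∀ g, conj (ζ g) = ζ g) ∧ (∀ g, χ g * be χ g = be χ g + χ g + χ' g + ζ g) ∧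
      (∀ g, χ g = 3 → χ' g = 3 ∧ ζ g = 4) := by
  classical
  have hchar := irr_isChar h.irr
  have hreal := h.real H
  have hβ : IsIrrCharacter G (be χ) := h.beta H
  have hβr := be_real χ hreal
  have hsq : ∀ g, χ (g * g) = χ g ^ 2 - 2 * χ g := by
    intro g
    rw [deg_three H.perf hchar h.one, hreal]
  have halt : ∀ g, altSq (be χ) g = χ g * be χ g - be χ g := by
    intro g
    unfold altSq be
    simp only [hsq]
    ring
  have haltc := isChar_altSq (irr_isChar hβ)
  have hχβ : χ ≠ be χ := ne_of_one h.one (be_one h.one) (by norm_num)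
  have hχ1 : χ ≠ fun _ => (1 : ℂ) := ne_of_one h.one rfl (by norm_num)
  have hβ1 : be χ ≠ fun _ => (1 : ℂ) := ne_of_one (be_one h.one) rfl (by norm_num)
  have e1 : classInner (fun g => χ g * be χ g) χ = 1 := by
    have e2 : classInner (fun g => χ g * be χ g) χ =
        classInner (be χ) ((fun _ => (1 : ℂ)) + χ + be χ) := by
      rw [ip_real hreal, ip_real (by intro x; simp only [Pi.add_apply, map_add, map_one, hreal,
        hβr])]
      congr 1
      apply Finset.sum_congr rfl
      intro g _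
      simp only [Pi.add_apply, be]
      ring
    rw [e2, classInner_add_right, classInner_add_right, classInner_of_irr_ne hβ isIrr_one hβ1,
      classInner_of_irr_ne hβ h.irr hχβ.symm, classInner_self_of_irr hβ]
    norm_num
  have halt' : altSq (be χ) = (fun g => χ g * be χ g) - be χ := by
    ext g; rw [halt]; rfl
  have e3 : classInner (altSq (be χ)) χ = 1 := by
    rw [halt', classInner_sub_left, e1, classInner_of_irr_ne hβ h.irr hχβ.symm, sub_zero]
  have hVc := peel haltc h.irr (by rw [e3]; exact one_ne_zero)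
  set V := altSq (be χ) - χ with hV
  have hVg : ∀ g, V g = χ g * be χ g - be χ g - χ g := by
    intro g
    rw [hV, Pi.sub_apply, halt]
  have hV1 : V 1 = 7 := by rw [hVg, h.one, be_one h.one]; norm_num
  have hVu : V u = -1 := by
    rw [hVg]; unfold be; rw [h.val]; norm_num
  have hVk : ∀ g, χ g = 3 → V g = 7 := by
    intro g hg
    rw [hVg]; unfold be; rw [hg]; norm_num
  have hu2 : χ (u * u) = 3 := by rw [hsq, h.val]; norm_num
  have hVNT : NT V := by
    have e4 : classInner (fun g => χ g * be χ g) (fun _ => (1 : ℂ)) = 0 := by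
      have := classInner_of_irr_ne h.irr hβ hχβ
      rw [ip_eq] at this ⊢
      simpa only [hβr, map_one, mul_one] using this
    unfold NT
    rw [hV, halt', classInner_sub_left, classInner_sub_left, e4,
      classInner_of_irr_ne hβ isIrr_one hβ1, classInner_of_irr_ne h.irr isIrr_one hχ1]
    norm_num
  obtain ⟨χ', k1, k2, k3, k4⟩ := H.neg 7 V hVc hVNT 7 le_rfl (by rw [hV1]; norm_num) (-1)
    (by rw [hVu]; norm_num) (by norm_num)
  have hA' : A3 u χ' := ⟨k1, k3, k4⟩
  have hp := peel hVc k1 k2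
  obtain ⟨hNT1, -⟩ := hVNT.sub hp (irr_isChar k1)
  have hu2' : χ' (u * u) = 3 := by
    rw [deg_three H.perf (irr_isChar k1) k3, k4]; simp; norm_num
  have hζ : IsIrrCharacter G (V - χ') := by
    apply H.irr_four hp hNT1
    · rw [Pi.sub_apply, hV1, k3]; norm_num
    · rw [Pi.sub_apply, Pi.sub_apply, hVk _ hu2, hV1, hu2', k3]
  refine ⟨χ', V - χ', hA', ?_, hζ, ?_, ?_, ?_, ?_, ?_⟩
  · rintro rfl
    apply k2
    rw [hV, classInner_sub_left, e3, classInner_self_of_irr h.irr, sub_self]
  · rw [Pi.sub_apply, hV1, k3]; norm_num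
  · rw [Pi.sub_apply, hVu, k4]; norm_num
  · intro g
    rw [Pi.sub_apply, map_sub, hA'.real H, hVg, map_sub, map_sub, map_mul, hβr, hreal]
  · intro g
    rw [Pi.sub_apply, hVg]; ring
  · intro g hg
    have e5 : χ' g = 3 := by
      rw [← k3]
      exact const_ker (irr_isChar k1) hp (by rw [hVk g hg, hV1])
    refine ⟨e5, ?_⟩
    rw [Pi.sub_apply, hVk g hg, e5]; norm_num

/-- Products of two characters of degree three. -/
theorem prod_part (H : Hyp u) {χ χ' ζ : G → ℂ} (h : A3 u χ) (h' : A3 u χ') (hne : χ' ≠ χ)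
    (hζ : IsIrrCharacter G ζ) (hζ1 : ζ 1 = 4)
    (he : ∀ g, χ g * be χ g = be χ g + χ g + χ' g + ζ g) :
    be χ' = be χ ∧ ∃ ζ₁ : G → ℂ, IsIrrCharacter G ζ₁ ∧ ζ₁ 1 = 4 ∧
      (∀ g, conj (ζ₁ g) = ζ₁ g) ∧ (∀ g, χ g * χ' g = be χ g + ζ₁ g) := by
  classical
  have hreal := h.real H
  have hreal' := h'.real H
  have hβ : IsIrrCharacter G (be χ) := h.beta H
  have hβ' : IsIrrCharacter G (be χ') := h'.beta H
  have hβr := be_real χ hreal
  have hβr' := be_real χ' hreal'
  have b1 := be_one h.one
  have b1' := be_one h'.one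
  have hχβ : χ ≠ be χ := ne_of_one h.one b1 (by norm_num)
  have hχ'β : χ' ≠ be χ := ne_of_one h'.one b1 (by norm_num)
  have hχβ' : χ ≠ be χ' := ne_of_one h.one b1' (by norm_num)
  have hχ1 : χ ≠ fun _ => (1 : ℂ) := ne_of_one h.one rfl (by norm_num)
  have hχ'1 : χ' ≠ fun _ => (1 : ℂ) := ne_of_one h'.one rfl (by norm_num)
  have hβ1 : be χ ≠ fun _ => (1 : ℂ) := ne_of_one b1 rfl (by norm_num)
  have hβ'1 : be χ' ≠ fun _ => (1 : ℂ) := ne_of_one b1' rfl (by norm_num)
  have hχ'ζ : χ' ≠ ζ := ne_of_one h'.one hζ1 (by norm_num)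
  have hc : IsCharacter G (fun g => χ g * χ' g) := isChar_mul (irr_isChar h.irr) (irr_isChar h'.irr)
  have e1 : classInner (fun g => χ g * χ' g) (be χ) = 1 := by
    have e2 : classInner (fun g => χ g * χ' g) (be χ) =
        classInner (be χ + χ + χ' + ζ) χ' := by
      rw [ip_real hβr, ip_real hreal']
      congr 1
      apply Finset.sum_congr rfl
      intro g _
      simp only [Pi.add_apply]
      rw [← he g]; ring
    rw [e2, classInner_add_left, classInner_add_left, classInner_add_left,
      classInner_of_irr_ne hβ h'.irr hχ'β.symm, classInner_of_irr_ne h.irr h'.irr hne.symm,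
      classInner_self_of_irr h'.irr, classInner_of_irr_ne hζ h'.irr hχ'ζ.symm]
    norm_num
  have hp := peel hc hβ (by rw [e1]; exact one_ne_zero)
  have hNT0 : NT (fun g => χ g * χ' g) := by
    have := classInner_of_irr_ne h.irr h'.irr hne.symm
    unfold NT
    rw [ip_eq] at this ⊢
    simpa only [hreal', map_one, mul_one] using this
  obtain ⟨hNT1, -⟩ := hNT0.sub hp (irr_isChar hβ)
  have hu2 : χ (u * u) = 3 := by
    rw [deg_three H.perf (irr_isChar h.irr) h.one, h.val]; simp; norm_num
  have hu2' : χ' (u * u) = 3 := by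
    rw [deg_three H.perf (irr_isChar h'.irr) h'.one, h'.val]; simp; norm_num
  have hζ₁ : IsIrrCharacter G ((fun g => χ g * χ' g) - be χ) := by
    apply H.irr_four hp hNT1
    · rw [Pi.sub_apply, h.one, h'.one, b1]; norm_num
    · rw [Pi.sub_apply, Pi.sub_apply, h.one, h'.one, hu2, hu2', b1]
      unfold be; rw [hu2]; norm_num
  have hζ₁1 : ((fun g => χ g * χ' g) - be χ) 1 = 4 := by
    rw [Pi.sub_apply, h.one, h'.one, b1]; norm_num
  refine ⟨?_, (fun g => χ g * χ' g) - be χ, hζ₁, hζ₁1, ?_, ?_⟩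
  · by_contra hbne
    have e3 : classInner (fun g => χ g * χ' g) (fun g => χ g * χ' g) = 2 := by
      have e4 : (fun g => χ g * χ' g) = ((fun g => χ g * χ' g) - be χ) + be χ := by simp
      have e5 : ((fun g => χ g * χ' g) - be χ) ≠ be χ := ne_of_one hζ₁1 b1 (by norm_num)
      rw [e4, classInner_add_left, classInner_add_right, classInner_add_right,
        classInner_self_of_irr hζ₁, classInner_self_of_irr hβ, classInner_of_irr_ne hζ₁ hβ e5,
        classInner_of_irr_ne hβ hζ₁ e5.symm]
      norm_num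
    have e6 : classInner (fun g => χ g * χ' g) (fun g => χ g * χ' g) =
        classInner ((fun _ => (1 : ℂ)) + χ + be χ) ((fun _ => (1 : ℂ)) + χ' + be χ') := by
      rw [ip_real (by intro x; rw [map_mul, hreal, hreal']), ip_real (by
        intro x; simp only [Pi.add_apply, map_add, map_one, hreal', hβr'])]
      congr 1
      apply Finset.sum_congr rfl
      intro g _
      simp only [Pi.add_apply, be]
      ring
    rw [e3] at e6
    simp only [classInner_add_left, classInner_add_right] at e6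
    rw [classInner_self_of_irr isIrr_one, classInner_of_irr_ne h.irr isIrr_one hχ1,
      classInner_of_irr_ne hβ isIrr_one hβ1, classInner_of_irr_ne isIrr_one h'.irr hχ'1.symm,
      classInner_of_irr_ne h.irr h'.irr hne.symm, classInner_of_irr_ne hβ h'.irr hχ'β.symm,
      classInner_of_irr_ne isIrr_one hβ' hβ'1.symm, classInner_of_irr_ne h.irr hβ' hχβ',
      classInner_of_irr_ne hβ hβ' (Ne.symm hbne)] at e6
    norm_num at e6
  · intro g
    rw [Pi.sub_apply, map_sub, map_mul, hreal, hreal', hβr]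
  · intro g
    rw [Pi.sub_apply]; ring

end Cfsg.Agent.H27.Ca
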