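import Mathlib
import Cfsg.Agent.H27.Ca4

set_option autoImplicit false
set_option linter.style.haveILetI false
set_option linter.unusedSectionVars false

/-!
# Closure under multiplication; all characters which do not vanish at `u`
-/

namespace Cfsg.Agent.H27.Ca

open Cfsg Cfsg.Agent.H3 Cfsg.Agent.H9 Matrix
open scoped ComplexConjugate

universe u

variable {G : Type u} [Group G] [Fintype G] {u : G}

theorem nat_of_mul {a b c : G → ℂ} (ha : IsCharacter G a) (hb : IsCharacter G b)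
    (hc : IsCharacter G c) : ∃ n : ℕ, classInner (fun g => a g * b g) c = n :=
  classInner_char_nat (isChar_mul ha hb) hc

structure Sys (u : G) (χ χ' ζ : G → ℂ) : Prop where
  a : A3 u χ
  a' : A3 u χ'
  ne : χ' ≠ χ
  irr : IsIrrCharacter G ζ
  one : ζ 1 = 4
  zero : ζ u = 0
  beta : be χ' = be χ
  r1 : ∀ g, χ g * be χ g = be χ g + χ g + χ' g + ζ g
  r2 : ∀ g, χ g * χ' g = be χ g + ζ g
  r3 : ∀ g, χ g * ζ g = χ' g + be χ g + ζ g
  ker : ∀ g, χ g = 3 → χ' g = 3 ∧ ζ g = 4

theorem exists_sys (H : Hyp u) {χ : G → ℂ} (h : A3 u χ) : ∃ χ' ζ : G → ℂ, Sys u χ χ' ζ := by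
  classical
  obtain ⟨χ', ζ, h', hne, hζ, hζ1, hζu, hζr, r1, hker⟩ := part H h
  obtain ⟨hbe, ζ₁, hζ₁, hζ₁1, hζ₁r, r2⟩ := prod_part H h h' hne hζ hζ1 r1
  obtain ⟨χ₂, ζ', h2, hne2, hζ', hζ'1, hζ'u, hζ'r, r1', -⟩ := part H h'
  rw [hbe] at r1'
  have hreal := h.real H
  have hreal' := h'.real H
  have hβ : IsIrrCharacter G (be χ) := h.beta H
  have hβr := be_real χ hreal
  have b1 := be_one h.one
  have sq : ∀ g, χ g ^ 2 = be χ g + χ g + 1 := by intro g; unfold be; ring
  have sq' : ∀ g, χ' g ^ 2 = be χ g + χ' g + 1 := by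
    intro g; rw [← hbe]; unfold be; ring
  have hβχ : be χ ≠ χ := ne_of_one b1 h.one (by norm_num)
  have hβχ' : be χ ≠ χ' := ne_of_one b1 h'.one (by norm_num)
  have hβζ : be χ ≠ ζ := ne_of_one b1 hζ1 (by norm_num)
  have hβζ₁ : be χ ≠ ζ₁ := ne_of_one b1 hζ₁1 (by norm_num)
  have hβζ' : be χ ≠ ζ' := ne_of_one b1 hζ'1 (by norm_num)
  have hχζ : χ ≠ ζ := ne_of_one h.one hζ1 (by norm_num)
  have hχζ₁ : χ ≠ ζ₁ := ne_of_one h.one hζ₁1 (by norm_num)
  have hχζ' : χ ≠ ζ' := ne_of_one h.one hζ'1 (by norm_num)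
  have hχ'ζ : χ' ≠ ζ := ne_of_one h'.one hζ1 (by norm_num)
  have hχ'ζ₁ : χ' ≠ ζ₁ := ne_of_one h'.one hζ₁1 (by norm_num)
  have hχ'ζ' : χ' ≠ ζ' := ne_of_one h'.one hζ'1 (by norm_num)
  -- the second character is the first one
  have hχ2 : χ₂ = χ := by
    by_contra hcon
    have e1 : classInner (be χ + χ' + χ₂ + ζ') χ = classInner (be χ + ζ₁) (be χ) := by
      rw [ip_real hreal, ip_real hβr]
      congr 1
      apply Finset.sum_congr rfl
      intro g _
      simp only [Pi.add_apply]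
      rw [← r1' g, ← r2 g]; ring
    simp only [classInner_add_left] at e1
    rw [classInner_of_irr_ne hβ h.irr hβχ, classInner_of_irr_ne h'.irr h.irr hne,
      classInner_of_irr_ne h2.irr h.irr hcon, classInner_of_irr_ne hζ' h.irr hχζ'.symm,
      classInner_self_of_irr hβ, classInner_of_irr_ne hζ₁ hβ hβζ₁.symm] at e1
    norm_num at e1
  subst hχ2
  have r4 : ∀ g, χ₂ g * ζ₁ g = be χ₂ g + χ' g + ζ' g + ζ₁ g - ζ g := by
    intro g
    have e1 : ζ₁ g = χ₂ g * χ' g - be χ₂ g := by rw [r2]; ring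
    linear_combination χ₂ g * e1 + χ' g * sq g + r1' g - r1 g + r2 g
  have r5 : ∀ g, χ' g * ζ₁ g = be χ₂ g + χ₂ g + ζ g + ζ₁ g - ζ' g := by
    intro g
    have e1 : ζ₁ g = χ₂ g * χ' g - be χ₂ g := by rw [r2]; ring
    linear_combination χ' g * e1 + χ₂ g * sq' g - r1' g + r1 g + r2 g
  have c1 : ζ₁ = ζ ∨ ζ' = ζ := by
    by_contra hcon
    push Not at hcon
    obtain ⟨n, hn⟩ := nat_of_mul (irr_isChar h.irr) (irr_isChar hζ₁) (irr_isChar hζ)
    have e1 : (fun g => χ₂ g * ζ₁ g) = be χ₂ + χ' + ζ' + ζ₁ - ζ := by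
      ext g; rw [r4]; rfl
    rw [e1, classInner_sub_left, classInner_add_left, classInner_add_left, classInner_add_left,
      classInner_of_irr_ne hβ hζ hβζ, classInner_of_irr_ne h'.irr hζ hχ'ζ,
      classInner_of_irr_ne hζ' hζ hcon.2, classInner_of_irr_ne hζ₁ hζ hcon.1,
      classInner_self_of_irr hζ] at hn
    have h3 : (n : ℂ) + 1 = 0 := by rw [← hn]; ring
    exact absurd h3 (by exact_mod_cast Nat.succ_ne_zero n)
  have c2 : ζ₁ = ζ' ∨ ζ = ζ' := by
    by_contra hcon
    push Not at hcon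
    obtain ⟨n, hn⟩ := nat_of_mul (irr_isChar h'.irr) (irr_isChar hζ₁) (irr_isChar hζ')
    have e1 : (fun g => χ' g * ζ₁ g) = be χ₂ + χ₂ + ζ + ζ₁ - ζ' := by
      ext g; rw [r5]; rfl
    rw [e1, classInner_sub_left, classInner_add_left, classInner_add_left, classInner_add_left,
      classInner_of_irr_ne hβ hζ' hβζ', classInner_of_irr_ne h.irr hζ' hχζ',
      classInner_of_irr_ne hζ hζ' hcon.2, classInner_of_irr_ne hζ₁ hζ' hcon.1,
      classInner_self_of_irr hζ'] at hn
    have h3 : (n : ℂ) + 1 = 0 := by rw [← hn]; ring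
    exact absurd h3 (by exact_mod_cast Nat.succ_ne_zero n)
  have c3 : ζ₁ = ζ := by
    by_contra hcon
    have h3 : ζ' = ζ := c1.resolve_left hcon
    have e1 : classInner (be χ₂ + χ' + ζ₁) (be χ₂) =
        classInner (be χ₂ + χ₂ + χ' + ζ) ζ₁ := by
      rw [ip_real hβr, ip_real hζ₁r]
      congr 1
      apply Finset.sum_congr rfl
      intro g _
      simp only [Pi.add_apply]
      have e2 := r4 g
      rw [h3] at e2
      have e3 : be χ₂ g + χ' g + ζ₁ g = χ₂ g * ζ₁ g := by rw [e2]; ring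
      rw [e3, ← r1 g]; ring
    simp only [classInner_add_left] at e1
    rw [classInner_self_of_irr hβ, classInner_of_irr_ne h'.irr hβ hβχ'.symm,
      classInner_of_irr_ne hζ₁ hβ hβζ₁.symm, classInner_of_irr_ne hβ hζ₁ hβζ₁,
      classInner_of_irr_ne h.irr hζ₁ hχζ₁, classInner_of_irr_ne h'.irr hζ₁ hχ'ζ₁,
      classInner_of_irr_ne hζ hζ₁ (Ne.symm hcon)] at e1
    norm_num at e1
  have c4 : ζ' = ζ := by
    rcases c2 with h3 | h3
    · rw [← h3, c3]
    · exact h3.symm
  subst c3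
  subst c4
  refine ⟨χ', ζ', h, h', hne, hζ, hζ1, hζu, hbe, r1, r2, ?_, hker⟩
  intro g
  rw [r4]; ring

variable {χ χ' ζ : G → ℂ}

theorem Sys.uniq (H : Hyp u) (S : Sys u χ χ' ζ) {θ : G → ℂ} (hθ : A3 u θ) : θ = χ ∨ θ = χ' := by
  classical
  by_contra hcon
  push Not at hcon
  have hreal := S.a.real H
  have hθr := hθ.real H
  have hβ : IsIrrCharacter G (be χ) := S.a.beta H
  have hβθ : IsIrrCharacter G (be θ) := hθ.beta H
  have hβr := be_real χ hreal
  have hβθr := be_real θ hθr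
  have b1 := be_one S.a.one
  have bθ1 := be_one hθ.one
  have hbe : be θ = be χ := by
    by_contra hbne
    have e6 : classInner (fun g => χ g * θ g) (fun g => χ g * θ g) =
        classInner ((fun _ => (1 : ℂ)) + χ + be χ) ((fun _ => (1 : ℂ)) + θ + be θ) := by
      rw [ip_real (by intro x; rw [map_mul, hreal, hθr]), ip_real (by
        intro x; simp only [Pi.add_apply, map_add, map_one, hθr, hβθr])]
      congr 1
      apply Finset.sum_congr rfl
      intro g _
      simp only [Pi.add_apply, be]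
      ring
    simp only [classInner_add_left, classInner_add_right] at e6
    rw [classInner_self_of_irr isIrr_one,
      classInner_of_irr_ne S.a.irr isIrr_one (ne_of_one S.a.one rfl (by norm_num)),
      classInner_of_irr_ne hβ isIrr_one (ne_of_one b1 rfl (by norm_num)),
      classInner_of_irr_ne isIrr_one hθ.irr (ne_of_one rfl hθ.one (by norm_num)),
      classInner_of_irr_ne S.a.irr hθ.irr (Ne.symm hcon.1),
      classInner_of_irr_ne hβ hθ.irr (ne_of_one b1 hθ.one (by norm_num)),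
      classInner_of_irr_ne isIrr_one hβθ (ne_of_one rfl bθ1 (by norm_num)),
      classInner_of_irr_ne S.a.irr hβθ (ne_of_one S.a.one bθ1 (by norm_num)),
      classInner_of_irr_ne hβ hβθ (Ne.symm hbne)] at e6
    have hc : IsCharacter G (fun g => χ g * θ g) :=
      isChar_mul (irr_isChar S.a.irr) (irr_isChar hθ.irr)
    have hirr := isIrr_of_char_norm hc (by rw [e6]; norm_num)
    have h9 : (fun g => χ g * θ g) 1 = 9 := by
      simp only [S.a.one, hθ.one]; norm_num
    rcases H.h _ hirr (ne_of_one h9 rfl (by norm_num)) with h | h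
    · simp only [S.a.one, hθ.one, S.a.val, hθ.val] at h
      norm_num at h
    · simp only [S.a.val, hθ.val] at h
      norm_num at h
  obtain ⟨χ₁, ζ₁, h1, hne1, hζ₁, hζ₁1, -, -, r1', -⟩ := part H hθ
  rw [hbe] at r1'
  have hsq : ∀ g, be χ g * be χ g = 1 + χ g + χ' g + (be χ g + be χ g) + (ζ g + ζ g) := by
    intro g
    have e1 : be χ g = χ g ^ 2 - χ g - 1 := rfl
    linear_combination be χ g * e1 + χ g * S.r1 g - S.r1 g + S.r1 g + S.r2 g + S.r3 g - e1
  have e1 : classInner (be χ + θ + χ₁ + ζ₁) (be χ) =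
      classInner ((fun _ => (1 : ℂ)) + χ + χ' + (be χ + be χ) + (ζ + ζ)) θ := by
    rw [ip_real hβr, ip_real hθr]
    congr 1
    apply Finset.sum_congr rfl
    intro g _
    simp only [Pi.add_apply]
    rw [← r1' g, ← hsq g]; ring
  simp only [classInner_add_left] at e1
  rw [classInner_self_of_irr hβ,
    classInner_of_irr_ne hθ.irr hβ (ne_of_one hθ.one b1 (by norm_num)),
    classInner_of_irr_ne h1.irr hβ (ne_of_one h1.one b1 (by norm_num)),
    classInner_of_irr_ne hζ₁ hβ (ne_of_one hζ₁1 b1 (by norm_num)),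
    classInner_of_irr_ne isIrr_one hθ.irr (ne_of_one rfl hθ.one (by norm_num)),
    classInner_of_irr_ne S.a.irr hθ.irr (Ne.symm hcon.1),
    classInner_of_irr_ne S.a'.irr hθ.irr (Ne.symm hcon.2),
    classInner_of_irr_ne hβ hθ.irr (ne_of_one b1 hθ.one (by norm_num)),
    classInner_of_irr_ne S.irr hθ.irr (ne_of_one S.one hθ.one (by norm_num))] at e1
  norm_num at e1

end Cfsg.Agent.H27.Ca
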