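import Mathlib
import Cfsg.Agent.H27.Ca5

set_option autoImplicit false
set_option linter.style.haveILetI false
set_option linter.unusedSectionVars false

/-!
# The kernel of the character of degree three has index sixty
-/

namespace Cfsg.Agent.H27.Ca

open Cfsg Cfsg.Agent.H3 Cfsg.Agent.H9
open scoped ComplexConjugate

universe u

variable {G : Type u} [Group G] [Fintype G] {u : G}

theorem Hyp.pos (H : Hyp u) {ψ : G → ℂ} (hψ : IsIrrCharacter G ψ) (h1 : ψ ≠ fun _ => (1 : ℂ)) :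
    A3 u ψ ∨ ∃ f : ℝ, 0 ≤ f ∧ ψ u * conj (ψ 1) = f ∧ (f = 0 → ψ u = 0) := by
  obtain ⟨d, w, hd, hw, hd2, hw2, hw3⟩ := H.ty hψ h1
  by_cases hneg : w < 0
  · left
    have hd3 : d = 3 := by omega
    have hw1 : w = -1 := by omega
    exact ⟨hψ, by rw [hd, hd3]; norm_num, by rw [hw, hw1]; norm_num⟩
  · right
    push Not at hneg
    have hw0 : (0 : ℝ) ≤ (w : ℝ) := by exact_mod_cast hneg
    refine ⟨(w : ℝ) * d, mul_nonneg hw0 (Nat.cast_nonneg d), ?_, ?_⟩
    · rw [hd, hw, Complex.conj_natCast]; push_cast; ring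
    · intro h0
      rcases mul_eq_zero.mp h0 with h | h
      · have : w = 0 := by exact_mod_cast h
        rw [hw, this]; simp
      · have : d = 0 := by exact_mod_cast h
        omega

theorem exists_A3 (H : Hyp u) (hu : u ≠ 1) : ∃ χ, A3 u χ := by
  classical
  by_contra hcon
  push Not at hcon
  letI := Fintype.ofFinite (IrrCharacter G)
  have hsum := column_orth u 1
  rw [if_neg (fun h => hu (isConj_one_right.mp h.symm))] at hsum
  have key : ∀ χ : IrrCharacter G, ∃ f : ℝ, 0 ≤ f ∧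
      (χ : G → ℂ) u * conj ((χ : G → ℂ) 1) = f ∧ (χ = oneIrr G → f = 1) := by
    intro χ
    by_cases h1 : χ = oneIrr G
    · refine ⟨1, zero_le_one, ?_, fun _ => rfl⟩
      rw [h1]
      change (1 : ℂ) * conj (1 : ℂ) = _
      simp
    · have h2 : (χ : G → ℂ) ≠ fun _ => (1 : ℂ) := fun h => h1 (Subtype.ext h)
      rcases H.pos χ.2 h2 with h | ⟨f, hf, hf1, -⟩
      · exact absurd h (hcon _)
      · exact ⟨f, hf, hf1, fun h => absurd h h1⟩
  choose f hf0 hf1 hf2 using key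
  rw [Finset.sum_congr rfl fun χ _ => hf1 χ] at hsum
  have h3 : ∑ χ : IrrCharacter G, f χ = 0 := by exact_mod_cast hsum
  have h4 : f (oneIrr G) ≤ ∑ χ : IrrCharacter G, f χ :=
    Finset.single_le_sum (fun χ _ => hf0 χ) (Finset.mem_univ (oneIrr G))
  rw [h3, hf2 _ rfl] at h4
  linarith

variable {χ χ' ζ : G → ℂ}

theorem be_u (h : A3 u χ) : be χ u = 1 := by
  simp only [be]; rw [h.val]; norm_num

theorem Sys.vanish (H : Hyp u) (hu : u ≠ 1) (S : Sys u χ χ' ζ) {ψ : G → ℂ}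
    (hψ : IsIrrCharacter G ψ) (h1 : ψ ≠ fun _ => (1 : ℂ)) (h2 : ψ ≠ χ) (h3 : ψ ≠ χ')
    (h4 : ψ ≠ be χ) : ψ u = 0 := by
  classical
  letI := Fintype.ofFinite (IrrCharacter G)
  have hsum := column_orth u 1
  rw [if_neg (fun h => hu (isConj_one_right.mp h.symm))] at hsum
  have hβ : IsIrrCharacter G (be χ) := S.a.beta H
  have b1 := be_one S.a.one
  let X : IrrCharacter G := ⟨χ, S.a.irr⟩
  let X' : IrrCharacter G := ⟨χ', S.a'.irr⟩
  let B : IrrCharacter G := ⟨be χ, hβ⟩
  let T : Finset (IrrCharacter G) := {oneIrr G, X, X', B}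
  have n1 : oneIrr G ≠ X := fun h => ne_of_one (a := fun _ => (1 : ℂ)) rfl S.a.one (by norm_num)
    (congrArg Subtype.val h)
  have n2 : oneIrr G ≠ X' := fun h => ne_of_one (a := fun _ => (1 : ℂ)) rfl S.a'.one (by norm_num)
    (congrArg Subtype.val h)
  have n3 : oneIrr G ≠ B := fun h => ne_of_one (a := fun _ => (1 : ℂ)) rfl b1 (by norm_num)
    (congrArg Subtype.val h)
  have n4 : X ≠ X' := fun h => S.ne (congrArg Subtype.val h).symm
  have n5 : X ≠ B := fun h => ne_of_one S.a.one b1 (by norm_num) (congrArg Subtype.val h)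
  have n6 : X' ≠ B := fun h => ne_of_one S.a'.one b1 (by norm_num) (congrArg Subtype.val h)
  have hT : ∑ χ ∈ T, (χ : G → ℂ) u * conj ((χ : G → ℂ) 1) = 0 := by
    rw [Finset.sum_insert (by simp [n1, n2, n3]), Finset.sum_insert (by simp [n4, n5]),
      Finset.sum_pair n6]
    change (1 : ℂ) * conj (1 : ℂ) + (χ u * conj (χ 1) + (χ' u * conj (χ' 1) +
      be χ u * conj (be χ 1))) = 0
    rw [S.a.val, S.a'.val, S.a.one, S.a'.one, be_u S.a, b1, conj_three,
      show conj (5 : ℂ) = 5 from map_ofNat _ 5, map_one]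
    norm_num
  rw [← Finset.sum_add_sum_compl T, hT, zero_add] at hsum
  have key : ∀ ψ : IrrCharacter G, ∃ f : ℝ, ψ ∈ Tᶜ → 0 ≤ f ∧
      (ψ : G → ℂ) u * conj ((ψ : G → ℂ) 1) = f ∧ (f = 0 → (ψ : G → ℂ) u = 0) := by
    intro ψ
    by_cases hm : ψ ∈ Tᶜ
    swap
    · exact ⟨0, fun h => absurd h hm⟩
    rw [Finset.mem_compl] at hm
    simp only [T, Finset.mem_insert, Finset.mem_singleton, not_or] at hm
    obtain ⟨m1, m2, m3, m4⟩ := hm
    rcases H.pos ψ.2 (fun h => m1 (Subtype.ext h)) with h | ⟨f, hf, hf1, hf2⟩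
    · rcases S.uniq H h with h | h
      · exact absurd (Subtype.ext h) m2
      · exact absurd (Subtype.ext h) m3
    · exact ⟨f, fun _ => ⟨hf, hf1, hf2⟩⟩
  choose f hf using key
  rw [Finset.sum_congr rfl fun χ hχ => (hf χ hχ).2.1] at hsum
  have h5 : ∑ χ ∈ Tᶜ, f χ = 0 := by exact_mod_cast hsum
  have h6 := (Finset.sum_eq_zero_iff_of_nonneg fun χ hχ => (hf χ hχ).1).mp h5
  have h7 : (⟨ψ, hψ⟩ : IrrCharacter G) ∈ Tᶜ := by
    rw [Finset.mem_compl]
    simp only [T, Finset.mem_insert, Finset.mem_singleton, not_or]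
    refine ⟨fun h => h1 (congrArg Subtype.val h), fun h => h2 (congrArg Subtype.val h),
      fun h => h3 (congrArg Subtype.val h), fun h => h4 (congrArg Subtype.val h)⟩
  exact (hf _ h7).2.2 (h6 _ h7)

theorem Sys.col (H : Hyp u) (hu : u ≠ 1) (S : Sys u χ χ' ζ) {v : G} (hv : χ v = -1)
    (hv' : χ' v = -1) : IsConj v u ∧ Nat.card (Subgroup.centralizer ({v} : Set G)) = 4 := by
  classical
  letI := Fintype.ofFinite (IrrCharacter G)
  have h1 := column_orth v u
  have hβ : IsIrrCharacter G (be χ) := S.a.beta H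
  have b1 := be_one S.a.one
  let X : IrrCharacter G := ⟨χ, S.a.irr⟩
  let X' : IrrCharacter G := ⟨χ', S.a'.irr⟩
  let B : IrrCharacter G := ⟨be χ, hβ⟩
  let T : Finset (IrrCharacter G) := {oneIrr G, X, X', B}
  have n1 : oneIrr G ≠ X := fun h => ne_of_one (a := fun _ => (1 : ℂ)) rfl S.a.one (by norm_num)
    (congrArg Subtype.val h)
  have n2 : oneIrr G ≠ X' := fun h => ne_of_one (a := fun _ => (1 : ℂ)) rfl S.a'.one (by norm_num)
    (congrArg Subtype.val h)
  have n3 : oneIrr G ≠ B := fun h => ne_of_one (a := fun _ => (1 : ℂ)) rfl b1 (by norm_num)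
    (congrArg Subtype.val h)
  have n4 : X ≠ X' := fun h => S.ne (congrArg Subtype.val h).symm
  have n5 : X ≠ B := fun h => ne_of_one S.a.one b1 (by norm_num) (congrArg Subtype.val h)
  have n6 : X' ≠ B := fun h => ne_of_one S.a'.one b1 (by norm_num) (congrArg Subtype.val h)
  have h2 : ∑ ψ : IrrCharacter G, (ψ : G → ℂ) v * conj ((ψ : G → ℂ) u) = 4 := by
    rw [← Finset.sum_subset (Finset.subset_univ T)]
    · rw [Finset.sum_insert (by simp [n1, n2, n3]), Finset.sum_insert (by simp [n4, n5]),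
        Finset.sum_pair n6]
      change (1 : ℂ) * conj (1 : ℂ) + (χ v * conj (χ u) + (χ' v * conj (χ' u) +
        be χ v * conj (be χ u))) = 4
      have hbv : be χ v = 1 := by
        simp only [be]; rw [hv]; norm_num
      rw [S.a.val, S.a'.val, be_u S.a, hbv, hv, hv', map_neg, map_one]
      norm_num
    · intro ψ _ hψ
      simp only [T, Finset.mem_insert, Finset.mem_singleton, not_or] at hψ
      obtain ⟨m1, m2, m3, m4⟩ := hψ
      rw [S.vanish H hu ψ.2 (fun h => m1 (Subtype.ext h)) (fun h => m2 (Subtype.ext h))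
        (fun h => m3 (Subtype.ext h)) (fun h => m4 (Subtype.ext h)), map_zero, mul_zero]
  rw [h2] at h1
  split_ifs at h1 with h3
  · exact ⟨h3, by exact_mod_cast h1.symm⟩
  · norm_num at h1

theorem sum_irr {ψ : G → ℂ} (hψ : IsIrrCharacter G ψ) (h1 : ψ ≠ fun _ => (1 : ℂ)) :
    ∑ g, ψ g = 0 := by
  have h2 := classInner_of_irr_ne hψ isIrr_one h1
  rw [ip_eq] at h2
  simp only [map_one, mul_one] at h2
  have h3 : (Nat.card G : ℂ)⁻¹ ≠ 0 := inv_ne_zero (Nat.cast_ne_zero.mpr Nat.card_pos.ne')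
  exact (mul_eq_zero.mp h2).resolve_left h3

theorem Sys.index (H : Hyp u) (S : Sys u χ χ' ζ) : (charKer (irr_isChar S.a.irr)).index = 60 := by
  classical
  have hβ : IsIrrCharacter G (be χ) := S.a.beta H
  have b1 := be_one S.a.one
  have hone : ∀ ψ : G → ℂ, ∀ c : ℂ, ψ 1 = c → c ≠ 1 → ψ ≠ fun _ => (1 : ℂ) :=
    fun ψ c h1 h2 => ne_of_one h1 rfl h2
  have key : ∀ g, 1 + 3 * χ g + 3 * χ' g + 5 * be χ g + 4 * ζ g =
      if χ g = 3 then (60 : ℂ) else 0 := by
    intro g
    split_ifs with h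
    · obtain ⟨h2, h3⟩ := S.ker g h
      simp only [be]
      rw [h, h2, h3]; norm_num
    · have h3 : χ g - 3 ≠ 0 := sub_ne_zero.mpr h
      apply (mul_eq_zero.mp _).resolve_left h3
      have e : be χ g = χ g ^ 2 - χ g - 1 := rfl
      linear_combination 3 * S.r2 g + 5 * S.r1 g + 4 * S.r3 g - 3 * e
  have h1 : ∑ g, (1 + 3 * χ g + 3 * χ' g + 5 * be χ g + 4 * ζ g) = (Nat.card G : ℂ) := by
    simp only [Finset.sum_add_distrib, ← Finset.mul_sum]
    rw [sum_irr S.a.irr (hone _ _ S.a.one (by norm_num)),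
      sum_irr S.a'.irr (hone _ _ S.a'.one (by norm_num)), sum_irr hβ (hone _ _ b1 (by norm_num)),
      sum_irr S.irr (hone _ _ S.one (by norm_num))]
    simp [Nat.card_eq_fintype_card]
  rw [Finset.sum_congr rfl fun g _ => key g, ← Finset.sum_filter, Finset.sum_const,
    nsmul_eq_mul] at h1
  have h2 : (Finset.univ.filter fun g => χ g = 3).card = Nat.card {g : G // χ g = χ 1} := by
    rw [Nat.card_eq_fintype_card, Fintype.card_subtype, S.a.one]
  rw [h2] at h1
  have h3 : Nat.card {g : G // χ g = χ 1} * 60 = Nat.card G := by exact_mod_cast h1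
  have h4 := card_charKer_mul_index (irr_isChar S.a.irr)
  rw [← h3] at h4
  have h5 : 0 < Nat.card {g : G // χ g = χ 1} := by
    haveI : Nonempty {g : G // χ g = χ 1} := ⟨⟨1, rfl⟩⟩
    exact Nat.card_pos
  exact Nat.eq_of_mul_eq_mul_left h5 h4

/-- Summary of the character theoretic part. -/
theorem main (hp : commutator G = ⊤) (hu : u ≠ 1)
    (h : ∀ χ : G → ℂ, IsIrrCharacter G χ → χ ≠ (fun _ => (1 : ℂ)) →
      (χ 1 - χ u = 4 ∨ χ u = 0)) :
    ∃ N : Subgroup G, N.Normal ∧ N.index = 60 ∧ u ∉ N ∧ u * u ∈ N ∧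
      ∀ x ∈ N, IsConj (u * x) u ∧ Nat.card (Subgroup.centralizer ({u * x} : Set G)) = 4 := by
  have H : Hyp u := ⟨hp, h⟩
  obtain ⟨χ, hχ⟩ := exists_A3 H hu
  obtain ⟨χ', ζ, S⟩ := exists_sys H hχ
  have hc := irr_isChar S.a.irr
  have hc' := irr_isChar S.a'.irr
  refine ⟨charKer hc, charKer_normal hc, S.index H, ?_, ?_, ?_⟩
  · rw [mem_charKer, S.a.val, S.a.one]; norm_num
  · rw [mem_charKer, deg_three hp hc S.a.one, S.a.val, S.a.one, map_neg, map_one]; norm_num
  · intro x hx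
    rw [mem_charKer] at hx
    have hx3 : χ x = 3 := by rw [hx, S.a.one]
    have hx' : χ' x = χ' 1 := by rw [(S.ker x hx3).1, S.a'.one]
    have e1 : χ (u * x) = -1 := by
      have : u * x = (u * x * u⁻¹) * u := by group
      rw [this, char_ker_mul hc, S.a.val]
      rw [isCharacter_conj hc, hx]
    have e2 : χ' (u * x) = -1 := by
      have : u * x = (u * x * u⁻¹) * u := by group
      rw [this, char_ker_mul hc', S.a'.val]
      rw [isCharacter_conj hc', hx']
    exact S.col H hu e1 e2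

end Cfsg.Agent.H27.Ca
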