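import Mathlib
import Cfsg.Agent.H1.Cores
import Cfsg.Agent.H2.Basic
import Cfsg.Agent.S0494
import Cfsg.Agent.H21.Ord120
import Cfsg.Agent.H5.PSLSimple
import Cfsg.Agent.H5.Small
import Cfsg.Prelude.Def_CaseTheorems

set_option autoImplicit false
set_option linter.style.haveILetI false
set_option linter.unusedSectionVars false

/-!
# Extensions by the alternating group of degree five: basic facts
-/

namespace Cfsg.Agent.H27.Ca

open Cfsg Subgroup

section A5
open Equiv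

theorem perm5 : ∀ x : Perm (Fin 5), Perm.sign x = 1 → x * x * (x * x) = 1 → x ≠ 1 →
    x * x = 1 ∧ ∃ g : Perm (Fin 5), Perm.sign g = 1 ∧ g * x = (swap 0 1 * swap 2 3) * g := by
  decide +kernel

theorem alt5 (x : alternatingGroup (Fin 5)) (h : x * x * (x * x) = 1) (h1 : x ≠ 1) :
    x * x = 1 ∧ ∃ g : alternatingGroup (Fin 5), (g : Perm (Fin 5)) * (x : Perm (Fin 5)) *
      (g : Perm (Fin 5))⁻¹ = swap 0 1 * swap 2 3 := by
  obtain ⟨h2, g, hg, hg2⟩ := perm5 x.1 x.2 (congrArg Subtype.val h)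
    (fun h3 => h1 (Subtype.ext h3))
  exact ⟨Subtype.ext h2, ⟨g, hg⟩, by rw [hg2, mul_inv_cancel_right]⟩

theorem alt5_conj {x y : alternatingGroup (Fin 5)} (hx : x * x * (x * x) = 1) (hx1 : x ≠ 1)
    (hy : y * y * (y * y) = 1) (hy1 : y ≠ 1) : ∃ g, g * x * g⁻¹ = y := by
  obtain ⟨-, g, hg⟩ := alt5 x hx hx1
  obtain ⟨-, k, hk⟩ := alt5 y hy hy1
  refine ⟨k⁻¹ * g, Subtype.ext ?_⟩
  have e1 : ((k⁻¹ * g * x * (k⁻¹ * g)⁻¹ : alternatingGroup (Fin 5)) : Perm (Fin 5)) =
      (k : Perm (Fin 5))⁻¹ * ((g : Perm (Fin 5)) * (x : Perm (Fin 5)) * (g : Perm (Fin 5))⁻¹) *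
        (k : Perm (Fin 5)) := by
    push_cast
    group
  rw [e1, hg, ← hk]
  group

end A5

variable {G : Type*} [Group G] [Finite G]

theorem nonsolv {K : Type*} [Group K] [Nontrivial K] (h : commutator K = ⊤) :
    ¬ Group.IsSolvable K := by
  intro hs
  haveI := hs
  have := Group.IsSolvable.commutator_lt_top_of_nontrivial K
  rw [h] at this
  exact lt_irrefl _ this

theorem perf_quot (h : commutator G = ⊤) (N : Subgroup G) [N.Normal] :
    commutator (G ⧸ N) = ⊤ := by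
  have h1 := Subgroup.map_commutator (⊤ : Subgroup G) ⊤ (QuotientGroup.mk' N)
  rw [Subgroup.map_top_of_surjective _ (QuotientGroup.mk'_surjective N)] at h1
  rw [commutator_def, ← h1, ← commutator_def, h,
    Subgroup.map_top_of_surjective _ (QuotientGroup.mk'_surjective N)]

theorem syl_card (P : Sylow 2 G) {k : ℕ} (h1 : 2 ^ k ∣ Nat.card G) (h2 : ¬ 2 ^ (k + 1) ∣ Nat.card G) :
    Nat.card P = 2 ^ k := by
  haveI : Fact (Nat.Prime 2) := ⟨Nat.prime_two⟩
  obtain ⟨n, hn⟩ := IsPGroup.iff_card.mp P.isPGroup'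
  have h3 := P.pow_dvd_card_of_pow_dvd_card h1
  have h4 : Nat.card P ∣ Nat.card G := Subgroup.card_subgroup_dvd_card _
  rw [hn] at h3 h4 ⊢
  have h5 := (Nat.pow_dvd_pow_iff_le_right (by norm_num : 1 < 2)).mp h3
  have h6 : n < k + 1 := by
    by_contra hcon
    push Not at hcon
    exact h2 (dvd_trans (pow_dvd_pow 2 hcon) h4)
  have : n = k := by omega
  rw [this]

/-- the group theoretic situation -/
structure Gp (N : Subgroup G) (u : G) : Prop where
  perf : commutator G = ⊤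
  nor : N.Normal
  idx : N.index = 60
  nu : u ∉ N
  uu : u * u ∈ N
  h : ∀ x ∈ N, IsConj (u * x) u ∧ Nat.card (centralizer ({u * x} : Set G)) = 4

variable {N : Subgroup G} {u : G}

theorem Gp.simple (H : Gp N u) : haveI := H.nor; IsSimpleGroup (G ⧸ N) := by
  haveI := H.nor
  have hc : Nat.card (G ⧸ N) = 60 := H.idx
  haveI : Nontrivial (G ⧸ N) := Finite.one_lt_card_iff_nontrivial.1 (by omega)
  exact H21.simple_of_card_60 hc (nonsolv (perf_quot H.perf N))

theorem Gp.equiv (H : Gp N u) : haveI := H.nor; Nonempty (G ⧸ N ≃* alternatingGroup (Fin 5)) := by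
  haveI := H.nor
  haveI := H.simple
  exact Cfsg.Agent.S0494.result H.idx

/-- elements outside `N` with fourth power in `N` -/
theorem Gp.conj (H : Gp N u) {t : G} (ht : t ∉ N) (ht4 : t * t * (t * t) ∈ N) :
    t * t ∈ N ∧ ∃ g : G, ∃ x ∈ N, g * t * g⁻¹ = u * x := by
  haveI := H.nor
  obtain ⟨e⟩ := H.equiv
  have hmk : ∀ g : G, e (QuotientGroup.mk' N g) = 1 ↔ g ∈ N := by
    intro g
    rw [map_eq_one_iff e e.injective]
    exact QuotientGroup.eq_one_iff g
  have ht1 : e (QuotientGroup.mk' N t) ≠ 1 := fun h => ht ((hmk t).mp h)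
  have ht2 : e (QuotientGroup.mk' N t) * e (QuotientGroup.mk' N t) *
      (e (QuotientGroup.mk' N t) * e (QuotientGroup.mk' N t)) = 1 := by
    rw [← map_mul, ← map_mul, ← map_mul, ← map_mul]; exact (hmk _).mpr ht4
  have hu1 : e (QuotientGroup.mk' N u) ≠ 1 := fun h => H.nu ((hmk u).mp h)
  have hu2 : e (QuotientGroup.mk' N u) * e (QuotientGroup.mk' N u) *
      (e (QuotientGroup.mk' N u) * e (QuotientGroup.mk' N u)) = 1 := by
    rw [← map_mul, ← map_mul, ← map_mul, ← map_mul]; exact (hmk _).mpr (mul_mem H.uu H.uu)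
  refine ⟨?_, ?_⟩
  · have := (alt5 _ ht2 ht1).1
    rw [← map_mul, ← map_mul] at this
    exact (hmk _).mp this
  · obtain ⟨c, hc⟩ := alt5_conj ht2 ht1 hu2 hu1
    obtain ⟨c', rfl⟩ := e.surjective c
    obtain ⟨g, rfl⟩ := QuotientGroup.mk'_surjective N c'
    refine ⟨g, u⁻¹ * (g * t * g⁻¹), ?_, by group⟩
    rw [← hmk]
    simp only [map_mul, map_inv] at hc ⊢
    rw [hc]
    simp

theorem card_cent_conj (g t : G) : Nat.card (centralizer ({g * t * g⁻¹} : Set G)) =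
    Nat.card (centralizer ({t} : Set G)) := by
  symm
  refine Nat.card_congr ⟨fun x => ⟨g * x * g⁻¹, ?_⟩, fun x => ⟨g⁻¹ * x * g, ?_⟩, ?_, ?_⟩
  · have hx := mem_centralizer_singleton_iff.mp x.2
    rw [mem_centralizer_singleton_iff]
    calc g * x.1 * g⁻¹ * (g * t * g⁻¹) = g * (x.1 * t) * g⁻¹ := by group
      _ = g * (t * x.1) * g⁻¹ := by rw [hx]
      _ = g * t * g⁻¹ * (g * x.1 * g⁻¹) := by group
  · have hx := mem_centralizer_singleton_iff.mp x.2
    rw [mem_centralizer_singleton_iff]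
    calc g⁻¹ * x.1 * g * t = g⁻¹ * (x.1 * (g * t * g⁻¹)) * g := by group
      _ = g⁻¹ * ((g * t * g⁻¹) * x.1) * g := by rw [hx]
      _ = t * (g⁻¹ * x.1 * g) := by group
  · intro x; apply Subtype.ext; simp [mul_assoc]
  · intro x; apply Subtype.ext; simp [mul_assoc]

theorem Gp.cent (H : Gp N u) {t : G} (ht : t ∉ N) (ht4 : t * t * (t * t) ∈ N) :
    Nat.card (centralizer ({t} : Set G)) = 4 := by
  obtain ⟨-, g, x, hx, hg⟩ := H.conj ht ht4
  rw [← card_cent_conj g t, hg]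
  exact (H.h x hx).2

theorem Gp.four (H : Gp N u) {t : G} (ht : t ∉ N) (ht4 : t * t * (t * t) ∈ N) :
    t * t * (t * t) = 1 := by
  have h1 := H.cent ht ht4
  have h2 : (⟨t, mem_centralizer_singleton_iff.mpr rfl⟩ : centralizer ({t} : Set G)) ^ 4 = 1 := by
    rw [← h1]; exact pow_card_eq_one'
  have h3 := congrArg Subtype.val h2
  have h4 : t ^ 4 = 1 := h3
  rw [← h4]; simp only [pow_succ, pow_zero, one_mul, mul_assoc]

theorem Gp.two (H : Gp N u) {t : G} (ht : t ∉ N) (ht4 : t * t * (t * t) ∈ N) :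
    t * t = 1 ↔ u * u = 1 := by
  obtain ⟨-, g, x, hx, hg⟩ := H.conj ht ht4
  obtain ⟨c, hc⟩ := isConj_iff.mp (H.h x hx).1
  rw [← hg] at hc
  have h1 : (c * g) * t * (c * g)⁻¹ = u := by rw [← hc]; group
  have h2 : u * u = (c * g) * (t * t) * (c * g)⁻¹ := by rw [← h1]; group
  rw [h2]
  constructor
  · intro h; rw [h]; group
  · intro h
    have : t * t = (c * g)⁻¹ * ((c * g) * (t * t) * (c * g)⁻¹) * (c * g) := by group
    rw [this, h]; group

theorem Gp.card (H : Gp N u) : Nat.card N * 60 = Nat.card G := by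
  rw [← H.idx]; exact Subgroup.card_mul_index N

/-- `O(G) ≤ N` -/
theorem Gp.core_le (H : Gp N u) : oddCore G ≤ N := by
  haveI := H.nor
  have hs := H.simple
  haveI : (oddCore G).Normal := H1.pPrimeCore_normal 2 G
  have hodd : (Nat.card (oddCore G)).Coprime 2 := H1.pPrimeCore_coprime 2 G
  have hn : ((oddCore G).map (QuotientGroup.mk' N)).Normal :=
    Subgroup.Normal.map inferInstance _ (QuotientGroup.mk'_surjective N)
  rcases hs.eq_bot_or_eq_top_of_normal _ hn with h | h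
  · rw [Subgroup.map_eq_bot_iff, QuotientGroup.ker_mk'] at h
    exact h
  · exfalso
    have h1 : Nat.card ((oddCore G).map (QuotientGroup.mk' N)) ∣ Nat.card (oddCore G) :=
      Subgroup.card_map_dvd _ _
    rw [h, Subgroup.card_top] at h1
    have h2 : Nat.card (G ⧸ N) = 60 := H.idx
    rw [h2] at h1
    have h3 : 2 ∣ Nat.card (oddCore G) := dvd_trans (by norm_num) h1
    have h4 := Nat.Coprime.eq_one_of_dvd hodd.symm h3
    omega

theorem inverts_of_fpf {K : Subgroup G} [hK : K.Normal] {w : G} (hw : w * w = 1)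
    (hfix : ∀ k ∈ K, w * k = k * w → k = 1) : ∀ k ∈ K, w * k * w⁻¹ = k⁻¹ := by
  let f : K → K := fun k => k⁻¹ * ⟨w * k * w⁻¹, hK.conj_mem _ k.2 w⟩
  have hinj : Function.Injective f := by
    intro k l h
    have h1 : k.1⁻¹ * (w * k * w⁻¹) = l.1⁻¹ * (w * l * w⁻¹) := congrArg Subtype.val h
    have h2 : w * (l.1 * k.1⁻¹) = (l.1 * k.1⁻¹) * w := by
      calc w * (l.1 * k.1⁻¹) = l.1 * (l.1⁻¹ * (w * l * w⁻¹)) * (w * k.1⁻¹) := by group
        _ = l.1 * (k.1⁻¹ * (w * k * w⁻¹)) * (w * k.1⁻¹) := by rw [h1]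
        _ = (l.1 * k.1⁻¹) * w := by group
    have h3 := hfix _ (mul_mem l.2 (inv_mem k.2)) h2
    exact Subtype.ext (mul_inv_eq_one.mp h3).symm
  have hsurj := Finite.surjective_of_injective hinj
  intro k hk
  obtain ⟨y, hy⟩ := hsurj ⟨k, hk⟩
  have h1 : y.1⁻¹ * (w * y * w⁻¹) = k := congrArg Subtype.val hy
  have hw' : w⁻¹ = w := inv_eq_of_mul_eq_one_left hw
  rw [← h1]
  calc w * (y.1⁻¹ * (w * y * w⁻¹)) * w⁻¹ = w * y.1⁻¹ * w * y.1 * (w⁻¹ * w⁻¹) := by group
    _ = w * y.1⁻¹ * w⁻¹ * y.1 := by rw [hw', hw, mul_one]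
    _ = (y.1⁻¹ * (w * y * w⁻¹))⁻¹ := by group

theorem comm_of_inv {K : Subgroup G} {w : G} (h : ∀ k ∈ K, w * k * w⁻¹ = k⁻¹) :
    IsMulCommutative K := by
  refine ⟨⟨fun x y => Subtype.ext ?_⟩⟩
  change x.1 * y.1 = y.1 * x.1
  have h1 := h _ (mul_mem x.2 y.2)
  have h2 : w * (x.1 * y.1) * w⁻¹ = (w * x.1 * w⁻¹) * (w * y.1 * w⁻¹) := by group
  rw [h2, h _ x.2, h _ y.2] at h1
  have h3 := congrArg (·⁻¹) h1
  simp only [mul_inv_rev, inv_inv] at h3
  exact h3.symm

/-- The odd case. -/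
theorem Gp.odd (H : Gp N u) (hodd : ¬ 2 ∣ Nat.card N) :
    IsMulCommutative (oddCore G) ∧ N = oddCore G ∧ orderOf u = 2 := by
  haveI := H.nor
  have hu4 : u * u * (u * u) = 1 := H.four H.nu (mul_mem H.uu H.uu)
  have huu : u * u = 1 := by
    have h1 : (⟨u * u, H.uu⟩ : N) ^ 2 = 1 := by
      apply Subtype.ext
      rw [pow_two]; exact hu4
    have h2 := orderOf_dvd_of_pow_eq_one h1
    have h3 : orderOf (⟨u * u, H.uu⟩ : N) ∣ Nat.card N := orderOf_dvd_natCard _
    have h4 : orderOf (⟨u * u, H.uu⟩ : N) = 1 := by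
      rcases (Nat.dvd_prime Nat.prime_two).mp h2 with h | h
      · exact h
      · rw [h] at h3; exact absurd h3 hodd
    exact congrArg Subtype.val (orderOf_eq_one_iff.mp h4)
  have hu' : u⁻¹ = u := inv_eq_of_mul_eq_one_left huu
  have hinv : ∀ k ∈ N, u * k * u⁻¹ = k⁻¹ := by
    intro k hk
    have hk1 : u * k ∉ N := fun h => H.nu ((mul_mem_cancel_right hk).mp h)
    obtain ⟨c, hc⟩ := isConj_iff.mp (H.h k hk).1
    have h2 : (u * k) * (u * k) = 1 := by
      have h3 : u * k = c⁻¹ * u * c := by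
        calc u * k = c⁻¹ * (c * (u * k) * c⁻¹) * c := by group
          _ = c⁻¹ * u * c := by rw [hc]
      rw [h3]
      calc c⁻¹ * u * c * (c⁻¹ * u * c) = c⁻¹ * (u * u) * c := by group
        _ = 1 := by rw [huu]; group
    rw [hu']
    have h3 : u * k * u * k = 1 := by rw [← h2]; group
    exact (inv_eq_of_mul_eq_one_left h3).symm
  have hcop : (Nat.card N).Coprime 2 :=
    ((Nat.Prime.coprime_iff_not_dvd Nat.prime_two).mpr hodd).symm
  have hN : N = oddCore G := le_antisymm (H1.le_pPrimeCore H.nor hcop) H.core_le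
  refine ⟨?_, hN, ?_⟩
  · rw [← hN]; exact comm_of_inv hinv
  · apply orderOf_eq_prime (by rw [pow_two]; exact huu)
    rintro rfl
    exact H.nu (one_mem N)

theorem psl_equiv {Q : Type*} [Group Q] [Finite Q] [IsSimpleGroup Q] (h : Nat.card Q = 60) :
    Nonempty (Q ≃* Matrix.ProjectiveSpecialLinearGroup (Fin 2) (ZMod 5)) := by
  haveI : Fact (Nat.Prime 5) := ⟨by norm_num⟩
  have hF : Fintype.card (ZMod 5) = 5 := ZMod.card 5
  haveI : IsSimpleGroup (Matrix.ProjectiveSpecialLinearGroup (Fin 2) (ZMod 5)) :=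
    Cfsg.Agent.H5.PSL2_isSimple (by rw [Nat.card_zmod]; norm_num)
  have h1 := Cfsg.Agent.H5.card_PSL2 hF
  have h2 : Nat.card (Matrix.ProjectiveSpecialLinearGroup (Fin 2) (ZMod 5)) = 60 := by
    have : Nat.gcd 2 (5 - 1) = 2 := by norm_num
    rw [this] at h1
    omega
  obtain ⟨f⟩ := Cfsg.Agent.S0494.result h
  obtain ⟨g⟩ := Cfsg.Agent.S0494.result h2
  exact ⟨f.trans g.symm⟩

end Cfsg.Agent.H27.Ca
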