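import Mathlib
import Cfsg.Agent.H27.Ca7
import Cfsg.Agent.S0112
import Cfsg.Agent.S0113
import Cfsg.Agent.H4.QuatEquiv

set_option autoImplicit false
set_option linter.style.haveILetI false
set_option linter.unusedSectionVars false

/-!
# Extensions by the alternating group of degree five: even kernels
-/

namespace Cfsg.Agent.H27.Ca

open Cfsg Subgroup

variable {G : Type*} [Group G] [Finite G] {N : Subgroup G} {u : G}

theorem Gp.pow4 (H : Gp N u) (P : Sylow 2 G) {t : G} (ht : t ∈ P) (htN : t ∉ N) :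
    t * t * (t * t) ∈ N := by
  haveI := H.nor
  haveI : Fact (Nat.Prime 2) := ⟨Nat.prime_two⟩
  let P' := P.mapSurjective (QuotientGroup.mk'_surjective N)
  have hP' : Nat.card P' = 2 ^ 2 := by
    have hc : Nat.card (G ⧸ N) = 60 := H.idx
    apply syl_card P'
    · rw [hc]; norm_num
    · rw [hc]; norm_num
  have hm : QuotientGroup.mk' N t ∈ P' := by
    change _ ∈ (P' : Subgroup (G ⧸ N))
    rw [Sylow.coe_mapSurjective]
    exact Subgroup.mem_map_of_mem _ ht
  have h2 : (⟨QuotientGroup.mk' N t, hm⟩ : P') ^ 4 = 1 := by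
    have h3 : Nat.card P' = 4 := hP'
    rw [← h3]; exact pow_card_eq_one'
  have h4 : (QuotientGroup.mk' N t) ^ 4 = 1 := congrArg Subtype.val h2
  rw [← map_pow] at h4
  have h5 : t ^ 4 ∈ N := (QuotientGroup.eq_one_iff _).mp h4
  have h6 : t * t * (t * t) = t ^ 4 := by simp only [pow_succ, pow_zero, one_mul, mul_assoc]
  rw [h6]; exact h5

theorem Gp.rel (H : Gp N u) (P : Sylow 2 G) : N.relIndex (P : Subgroup G) = 4 := by
  haveI := H.nor
  haveI : Fact (Nat.Prime 2) := ⟨Nat.prime_two⟩
  have h1 := Subgroup.relIndex_ker (P : Subgroup G) (QuotientGroup.mk' N)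
  rw [QuotientGroup.ker_mk'] at h1
  rw [h1]
  let P' := P.mapSurjective (QuotientGroup.mk'_surjective N)
  have hP' : Nat.card P' = 2 ^ 2 := by
    have hc : Nat.card (G ⧸ N) = 60 := H.idx
    apply syl_card P'
    · rw [hc]; norm_num
    · rw [hc]; norm_num
  have h2 : (P' : Subgroup (G ⧸ N)) = (P : Subgroup G).map (QuotientGroup.mk' N) :=
    Sylow.coe_mapSurjective _ P
  rw [← h2]
  exact hP'

/-- The Sylow subgroup has order eight. -/
theorem Gp.card_eight (H : Gp N u) (heven : 2 ∣ Nat.card N) (P : Sylow 2 G) :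
    Nat.card P = 8 := by
  haveI := H.nor
  haveI : Fact (Nat.Prime 2) := ⟨Nat.prime_two⟩
  set R : Subgroup P := N.subgroupOf (P : Subgroup G) with hR
  haveI : R.Normal := inferInstance
  have hRi : R.index = 4 := H.rel P
  have hcR : Nat.card R * 4 = Nat.card P := by rw [← hRi]; exact Subgroup.card_mul_index R
  have h8 : 2 ^ 3 ∣ Nat.card P := by
    apply P.pow_dvd_card_of_pow_dvd_card
    rw [← H.card]
    obtain ⟨m, hm⟩ := heven
    exact ⟨15 * m, by rw [hm]; ring⟩
  obtain ⟨n, hn⟩ := IsPGroup.iff_card.mp P.isPGroup'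
  have hn3 : 3 ≤ n := by
    rw [hn] at h8
    exact (Nat.pow_dvd_pow_iff_le_right (by norm_num : 1 < 2)).mp h8
  have hR1 : R ≠ ⊥ := by
    intro h
    rw [h, Subgroup.card_bot] at hcR
    rw [← hcR] at h8
    norm_num at h8
  have hZ := H2.inf_center_ne_bot_of_normal P.isPGroup' R hR1
  obtain ⟨z, hz, hz1⟩ := (Subgroup.bot_or_exists_ne_one (R ⊓ Subgroup.center P)).resolve_left hZ
  have hcent : ∀ t : P, t ∉ R → Nat.card (centralizer ({t} : Set P)) = 4 := by
    intro t ht
    have htN : t.1 ∉ N := ht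
    have h1 := H.cent htN (H.pow4 P t.2 htN)
    have h2 : Nat.card (centralizer ({t} : Set P)) ∣ 4 := by
      rw [← h1]
      have h3 : (centralizer ({t} : Set P)).map (P : Subgroup G).subtype ≤
          centralizer ({t.1} : Set G) := by
        rintro _ ⟨x, hx, rfl⟩
        rw [mem_centralizer_singleton_iff]
        exact congrArg Subtype.val (mem_centralizer_singleton_iff.mp hx)
      have h4 := Subgroup.card_dvd_of_le h3
      rwa [Subgroup.card_map_of_injective (P : Subgroup G).subtype_injective] at h4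
    have hzC : zpowers z ≤ centralizer ({t} : Set P) := by
      rw [zpowers_le, mem_centralizer_singleton_iff]
      exact (Subgroup.mem_center_iff.mp hz.2 t).symm
    have hZ2 : 2 ≤ Nat.card (zpowers z) := by
      have hne : zpowers z ≠ ⊥ := by rw [Ne, zpowers_eq_bot]; exact hz1
      have := (Subgroup.one_lt_card_iff_ne_bot _).mpr hne
      omega
    have h5 := Subgroup.card_dvd_of_le hzC
    have htC : t ∈ centralizer ({t} : Set P) := mem_centralizer_singleton_iff.mpr rfl
    have hle := Nat.le_of_dvd (by norm_num) h2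
    have h6 : Nat.card (centralizer ({t} : Set P)) ≠ 2 := by
      intro h6
      have h7 : zpowers z = centralizer ({t} : Set P) :=
        Subgroup.eq_of_le_of_card_ge hzC (by omega)
      rw [← h7] at htC
      have h8 : zpowers z ≤ R := by rw [zpowers_le]; exact hz.1
      exact ht (h8 htC)
    have h7 : 2 ≤ Nat.card (centralizer ({t} : Set P)) :=
      le_trans hZ2 (Nat.le_of_dvd Nat.card_pos h5)
    interval_cases h : Nat.card (centralizer ({t} : Set P))
    · exact absurd rfl h6
    · norm_num at h2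
    · rfl
  have hex : ∃ t : P, t ∉ R := by
    by_contra hcon
    push Not at hcon
    have : R = ⊤ := eq_top_iff.mpr fun x _ => hcon x
    rw [this, Subgroup.index_top] at hRi
    norm_num at hRi
  obtain ⟨t₀, ht₀⟩ := hex
  have hA := hcent t₀ ht₀
  have hCC : centralizer ((centralizer ({t₀} : Set P) : Subgroup P) : Set P) =
      centralizer ({t₀} : Set P) := by
    apply le_antisymm
    · apply Subgroup.centralizer_le
      rintro _ rfl
      exact mem_centralizer_singleton_iff.mpr rfl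
    · haveI : IsMulCommutative (centralizer ({t₀} : Set P)) :=
        ⟨⟨fun a b => (IsPGroup.commGroupOfCardEqPrimeSq (p := 2) (by rw [hA]; norm_num)).mul_comm a b⟩⟩
      intro x hx
      rw [mem_centralizer_iff]
      intro y hy
      exact congrArg Subtype.val (mul_comm' (⟨y, hy⟩ : centralizer ({t₀} : Set P)) ⟨x, hx⟩)
  have hcl := Cfsg.Agent.S0112.result (p := 2) n hn _ (by rw [hA]; norm_num) hCC
  obtain ⟨C, hC, hCi⟩ := Cfsg.Agent.S0113.result n hn3 hn hcl
  have hcC : Nat.card C * 2 = Nat.card P := by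
    have h := Subgroup.card_mul_index C
    rwa [hCi] at h
  have hCR : ¬ C ≤ R := by
    intro h
    have h1 := Subgroup.card_le_of_le h
    have h2 : 0 < Nat.card R := Nat.card_pos
    omega
  obtain ⟨t, htC, htR⟩ := SetLike.not_le_iff_exists.mp hCR
  have h1 : C ≤ centralizer ({t} : Set P) := by
    intro x hx
    rw [mem_centralizer_singleton_iff]
    haveI := hC
    letI := IsCyclic.commGroup (α := C)
    exact congrArg Subtype.val (mul_comm (⟨x, hx⟩ : C) ⟨t, htC⟩)
  have h2 := Subgroup.card_le_of_le h1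
  rw [hcent t htR] at h2
  have h3 : 8 ≤ Nat.card P := Nat.le_of_dvd Nat.card_pos h8
  omega

theorem Gp.exz (H : Gp N u) (heven : 2 ∣ Nat.card N) (P : Sylow 2 G) :
    ∃ z ∈ N, z ∈ P ∧ z ≠ 1 ∧ z * z = 1 ∧ ∀ x ∈ P, x ∈ N → x = 1 ∨ x = z := by
  haveI := H.nor
  have h8 := H.card_eight heven P
  set R : Subgroup P := N.subgroupOf (P : Subgroup G) with hR
  have hRi : R.index = 4 := H.rel P
  have hcR : Nat.card R * 4 = Nat.card P := by
    have h := Subgroup.card_mul_index R
    rwa [hRi] at h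
  have h2 : Nat.card R = 2 := by omega
  obtain ⟨z, hz, hz2⟩ := (Nat.card_eq_two_iff' (1 : R)).mp h2
  refine ⟨z.1.1, z.2, z.1.2, fun h => hz (Subtype.ext (Subtype.ext h)), ?_, ?_⟩
  · have h3 : z ^ 2 = 1 := by
      have h := pow_card_eq_one' (x := z)
      rwa [h2] at h
    rw [pow_two] at h3
    exact congrArg (fun x : R => x.1.1) h3
  · intro x hx hxN
    by_cases hx1 : x = 1
    · exact Or.inl hx1
    · right
      have h3 := hz2 ⟨⟨x, hx⟩, hxN⟩ (fun h => hx1 (congrArg (fun x : R => x.1.1) h))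
      exact congrArg (fun x : R => x.1.1) h3

theorem Gp.sq_ne (H : Gp N u) (heven : 2 ∣ Nat.card N) (P : Sylow 2 G) {t : G} (ht : t ∈ P)
    (htN : t ∉ N) : t * t ≠ 1 := by
  intro h
  haveI := H.nor
  obtain ⟨z, hzN, hzP, hz1, hzz, hz⟩ := H.exz heven P
  have h8 := H.card_eight heven P
  have hu := (H.two htN (H.pow4 P ht htN)).mp h
  have hall : ∀ x ∈ P, x * x = 1 := by
    intro x hx
    by_cases hxN : x ∈ N
    · rcases hz x hx hxN with rfl | rfl
      · simp
      · exact hzz
    · exact (H.two hxN (H.pow4 P hx hxN)).mpr hu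
  have hle : (P : Subgroup G) ≤ centralizer ({t} : Set G) := by
    intro x hx
    rw [mem_centralizer_singleton_iff]
    have h1 := hall _ (mul_mem hx ht)
    have h2 : x⁻¹ = x := inv_eq_of_mul_eq_one_left (hall x hx)
    have h3 : t⁻¹ = t := inv_eq_of_mul_eq_one_left h
    have h4 : (x * t)⁻¹ = x * t := inv_eq_of_mul_eq_one_left h1
    rw [mul_inv_rev, h2, h3] at h4
    exact h4.symm
  have h1 := Subgroup.card_le_of_le hle
  rw [H.cent htN (H.pow4 P ht htN)] at h1
  change Nat.card P ≤ 4 at h1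
  omega

theorem Gp.sq_eq (H : Gp N u) (heven : 2 ∣ Nat.card N) (P : Sylow 2 G) {z : G}
    (hz : ∀ x ∈ P, x ∈ N → x = 1 ∨ x = z) {t : G} (ht : t ∈ P) (htN : t ∉ N) : t * t = z :=
  (hz _ (mul_mem ht ht) (H.conj htN (H.pow4 P ht htN)).1).resolve_left (H.sq_ne heven P ht htN)

theorem Gp.quat (H : Gp N u) (heven : 2 ∣ Nat.card N) (P : Sylow 2 G) :
    Nonempty (P ≃* QuaternionGroup 2) := by
  haveI := H.nor
  obtain ⟨z, hzN, hzP, hz1, hzz, hz⟩ := H.exz heven P
  have h8 := H.card_eight heven P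
  have key : ∀ x ∈ (P : Subgroup G), orderOf x = 2 → x = z := by
    intro x hx ho
    have hx1 : x ≠ 1 := by
      rintro rfl
      simp at ho
    have hxx : x * x = 1 := by rw [← pow_two, ← ho]; exact pow_orderOf_eq_one x
    by_cases hxN : x ∈ N
    · exact (hz x hx hxN).resolve_left hx1
    · exact absurd hxx (H.sq_ne heven P hx hxN)
  rcases H4.cyclic_or_quaternion P.isPGroup' (fun x hx y hy h1 h2 =>
    (key x hx h1).trans (key y hy h2).symm) with h | ⟨m, hm, ⟨e⟩⟩
  · exfalso
    have hex : ∃ t ∈ P, t ∉ N := by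
      by_contra hcon
      push Not at hcon
      have h1 := H.rel P
      rw [Subgroup.relIndex_eq_one.mpr (fun x hx => hcon x hx)] at h1
      norm_num at h1
    obtain ⟨t, ht, htN⟩ := hex
    have hle : (P : Subgroup G) ≤ centralizer ({t} : Set G) := by
      intro x hx
      rw [mem_centralizer_singleton_iff]
      haveI := h
      letI := IsCyclic.commGroup (α := P)
      exact congrArg Subtype.val (mul_comm (⟨x, hx⟩ : P) ⟨t, ht⟩)
    have h1 := Subgroup.card_le_of_le hle
    rw [H.cent htN (H.pow4 P ht htN)] at h1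
    change Nat.card P ≤ 4 at h1
    omega
  · have h1 : Nat.card P = Nat.card (QuaternionGroup (2 ^ m)) := Nat.card_congr e.toEquiv
    haveI : NeZero (2 ^ m) := ⟨by positivity⟩
    rw [h8, Nat.card_eq_fintype_card, QuaternionGroup.card] at h1
    have h2 : 2 ^ m = 2 := by omega
    rw [h2] at e
    exact ⟨e⟩

theorem Gp.card_core (H : Gp N u) (heven : 2 ∣ Nat.card N) : Nat.card (oddCore G) * 2 = Nat.card N := by
  haveI := H.nor
  haveI : Fact (Nat.Prime 2) := ⟨Nat.prime_two⟩
  obtain ⟨P⟩ : Nonempty (Sylow 2 G) := inferInstance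
  have h8 := H.card_eight heven P
  have h4 : ¬ 4 ∣ Nat.card N := by
    rintro ⟨m, hm⟩
    have h1 : 2 ^ 4 ∣ Nat.card P := by
      apply P.pow_dvd_card_of_pow_dvd_card
      rw [← H.card, hm]
      exact ⟨15 * m, by ring⟩
    rw [h8] at h1
    norm_num at h1
  obtain ⟨Q⟩ : Nonempty (Sylow 2 N) := inferInstance
  have hQ : Nat.card Q = 2 ^ 1 := syl_card Q (by simpa using heven) (by simpa using h4)
  have hQc : IsCyclic Q := isCyclic_of_prime_card (p := 2) (by rw [hQ]; norm_num)
  have hmin : (Nat.card N).minFac = 2 := (Nat.minFac_eq_two_iff _).mpr heven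
  have hcomp := IsCyclic.isComplement' hmin hQc
  set K := (MonoidHom.transferSylow Q (hQc.normalizer_le_centralizer hmin)).ker with hK
  have hKc : Nat.card K * 2 = Nat.card N := by
    have h := hcomp.card_mul_card
    have hQ' : Nat.card Q = 2 := hQ
    rwa [hQ'] at h
  have hKodd : ¬ 2 ∣ Nat.card K := by
    rintro ⟨m, hm⟩
    exact h4 ⟨m, by rw [← hKc, hm]; ring⟩
  have hKle : K ≤ pPrimeCore 2 N :=
    H1.le_pPrimeCore inferInstance ((Nat.Prime.coprime_iff_not_dvd Nat.prime_two).mpr hKodd).symm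
  haveI : (pPrimeCore 2 N).Characteristic := H1.pPrimeCore_characteristic 2
  have hM : ((pPrimeCore 2 N).map N.subtype).Normal := inferInstance
  have hMc : Nat.card ((pPrimeCore 2 N).map N.subtype) = Nat.card (pPrimeCore 2 N) :=
    Subgroup.card_map_of_injective N.subtype_injective
  have hMO : (pPrimeCore 2 N).map N.subtype ≤ oddCore G :=
    H1.le_pPrimeCore hM (by rw [hMc]; exact H1.pPrimeCore_coprime 2 N)
  have h1 := Subgroup.card_le_of_le hMO
  rw [hMc] at h1
  have h2 := Subgroup.card_le_of_le hKle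
  have h3 : Nat.card (oddCore G) ∣ Nat.card N := Subgroup.card_dvd_of_le H.core_le
  have hcop : (Nat.card (oddCore G)).Coprime 2 := H1.pPrimeCore_coprime 2 G
  rw [← hKc] at h3
  have h5 := hcop.dvd_of_dvd_mul_right h3
  have h6 := Nat.le_of_dvd Nat.card_pos h5
  have h7 : Nat.card (oddCore G) = Nat.card K := by omega
  rw [h7]; exact hKc

theorem Gp.core_comm (H : Gp N u) (heven : 2 ∣ Nat.card N) : IsMulCommutative (oddCore G) := by
  haveI := H.nor
  haveI : Fact (Nat.Prime 2) := ⟨Nat.prime_two⟩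
  obtain ⟨P⟩ : Nonempty (Sylow 2 G) := inferInstance
  obtain ⟨z, hzN, hzP, hz1, hzz, hz⟩ := H.exz heven P
  haveI : (oddCore G).Normal := H1.pPrimeCore_normal 2 G
  have hcop : (Nat.card (oddCore G)).Coprime 2 := H1.pPrimeCore_coprime 2 G
  have hodd : ∀ x ∈ oddCore G, x * x = 1 → x = 1 := by
    intro x hx hxx
    have h1 : (⟨x, hx⟩ : oddCore G) ^ 2 = 1 := by
      apply Subtype.ext
      rw [pow_two]; exact hxx
    have h2 := orderOf_dvd_of_pow_eq_one h1
    have h3 : orderOf (⟨x, hx⟩ : oddCore G) ∣ Nat.card (oddCore G) := orderOf_dvd_natCard _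
    have h4 : orderOf (⟨x, hx⟩ : oddCore G) = 1 :=
      Nat.eq_one_of_dvd_coprimes hcop h3 h2
    exact congrArg Subtype.val (orderOf_eq_one_iff.mp h4)
  have key : ∀ w ∈ oddCore G, z * w = w * z → ∀ a ∈ P, a ∉ N → a⁻¹ * w * a = w⁻¹ := by
    intro w hw hzw a ha haN
    have haa := H.sq_eq heven P hz ha haN
    have h1 : a * w ∉ N := fun h => haN ((mul_mem_cancel_right (H.core_le hw)).mp h)
    have h2 : a * w * (a * w) ∈ N := by
      have e : a * w * (a * w) = (a * w * a⁻¹) * (a * a) * w := by group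
      rw [e, haa]
      exact mul_mem (mul_mem (H.nor.conj_mem _ (H.core_le hw) a) hzN) (H.core_le hw)
    have h3 := H.four h1 (mul_mem h2 h2)
    have hw' : a⁻¹ * w * a ∈ oddCore G := by
      have := (inferInstance : (oddCore G).Normal).conj_mem _ hw a⁻¹
      simpa using this
    have haz : a * z = z * a := by rw [← haa]; group
    have e1 : a * w * (a * w) = z * ((a⁻¹ * w * a) * w) := by
      rw [← haa]; group
    have hzw' : z * (a⁻¹ * w * a * w) = (a⁻¹ * w * a * w) * z := by
      have haz' : a⁻¹ * z = z * a⁻¹ := by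
        rw [inv_mul_eq_iff_eq_mul, ← mul_assoc, haz, mul_inv_cancel_right]
      calc z * (a⁻¹ * w * a * w) = (z * a⁻¹) * w * a * w := by group
        _ = a⁻¹ * (z * w) * a * w := by rw [← haz']; group
        _ = a⁻¹ * w * (z * a) * w := by rw [hzw]; group
        _ = a⁻¹ * w * a * (z * w) := by rw [← haz]; group
        _ = (a⁻¹ * w * a * w) * z := by rw [hzw]; group
    rw [e1] at h3
    have h4 : (a⁻¹ * w * a * w) * (a⁻¹ * w * a * w) = 1 := by
      calc (a⁻¹ * w * a * w) * (a⁻¹ * w * a * w) =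
          (z * z) * ((a⁻¹ * w * a * w) * (a⁻¹ * w * a * w)) := by rw [hzz, one_mul]
        _ = z * (z * (a⁻¹ * w * a * w)) * (a⁻¹ * w * a * w) := by group
        _ = z * ((a⁻¹ * w * a * w) * z) * (a⁻¹ * w * a * w) := by rw [hzw']
        _ = z * (a⁻¹ * w * a * w) * (z * (a⁻¹ * w * a * w)) := by group
        _ = 1 := h3
    have h5 := hodd _ (mul_mem hw' hw) h4
    exact eq_inv_of_mul_eq_one_left h5
  -- three elements
  have h8 := H.card_eight heven P
  have hrel := H.rel P
  have hex : ∃ a ∈ P, ∃ b ∈ P, a ∉ N ∧ b ∉ N ∧ a * b ∉ N := by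
    set R : Subgroup P := N.subgroupOf (P : Subgroup G) with hR
    have hRi : R.index = 4 := hrel
    have hc : Nat.card (P ⧸ R) = 4 := hRi
    haveI : Nontrivial (P ⧸ R) := Finite.one_lt_card_iff_nontrivial.mp (by omega)
    obtain ⟨a', ha'⟩ := exists_ne (1 : P ⧸ R)
    have hne : ∃ b' : P ⧸ R, b' ≠ 1 ∧ b' ≠ a'⁻¹ := by
      by_contra hcon
      push Not at hcon
      have h1 : (Set.univ : Set (P ⧸ R)) ⊆ {1, a'⁻¹} := by
        intro b _
        by_cases hb : b = 1
        · exact Or.inl hb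
        · exact Or.inr (hcon b hb)
      have h2 := Set.ncard_le_ncard h1 (Set.toFinite _)
      rw [Set.ncard_univ, hc] at h2
      have h3 : ({1, a'⁻¹} : Set (P ⧸ R)).ncard ≤ 2 :=
        (Set.ncard_insert_le _ _).trans (by rw [Set.ncard_singleton])
      omega
    obtain ⟨b', hb1, hb2⟩ := hne
    obtain ⟨a, rfl⟩ := QuotientGroup.mk'_surjective R a'
    obtain ⟨b, rfl⟩ := QuotientGroup.mk'_surjective R b'
    refine ⟨a.1, a.2, b.1, b.2, ?_, ?_, ?_⟩
    · intro h
      exact ha' ((QuotientGroup.eq_one_iff a).mpr h)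
    · intro h
      exact hb1 ((QuotientGroup.eq_one_iff b).mpr h)
    · intro h
      have h1 : QuotientGroup.mk' R (a * b) = 1 := (QuotientGroup.eq_one_iff (a * b)).mpr h
      rw [map_mul] at h1
      exact hb2 (eq_inv_of_mul_eq_one_right h1)
  obtain ⟨a, ha, b, hb, haN, hbN, habN⟩ := hex
  have hfix : ∀ k ∈ oddCore G, z * k = k * z → k = 1 := by
    intro k hk hzk
    have h1 := key k hk hzk a ha haN
    have h2 := key k hk hzk b hb hbN
    have h3 := key k hk hzk (a * b) (mul_mem ha hb) habN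
    have h4 : (a * b)⁻¹ * k * (a * b) = b⁻¹ * (a⁻¹ * k * a) * b := by group
    rw [h4, h1] at h3
    have h5 : b⁻¹ * k⁻¹ * b = (b⁻¹ * k * b)⁻¹ := by group
    rw [h5, h2, inv_inv] at h3
    apply hodd k hk
    nth_rewrite 1 [h3]
    exact inv_mul_cancel k
  exact comm_of_inv (inverts_of_fpf hzz hfix)

end Cfsg.Agent.H27.Ca
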