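import Mathlib
import Cfsg.Agent.H27.Ca8

set_option autoImplicit false
set_option linter.style.haveILetI false
set_option linter.unusedSectionVars false

/-!
# Extensions by the alternating group of degree five: the quotient by the odd core
-/

namespace Cfsg.Agent.H27.Ca

open Cfsg Subgroup

variable {G : Type*} [Group G] [Finite G] {N : Subgroup G} {u : G}

theorem Gp.sl (H : Gp N u) (heven : 2 ∣ Nat.card N) :
    Nonempty (G ⧸ oddCore G ≃* Matrix.SpecialLinearGroup (Fin 2) (ZMod 5)) := by
  haveI := H.nor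
  haveI : Fact (Nat.Prime 2) := ⟨Nat.prime_two⟩
  have hcO := H.card_core heven
  have hcard : Nat.card (G ⧸ oddCore G) = 120 := by
    have h1 := Subgroup.card_eq_card_quotient_mul_card_subgroup (oddCore G)
    rw [← H.card, ← hcO] at h1
    have h2 : 0 < Nat.card (oddCore G) := Nat.card_pos
    apply Nat.eq_of_mul_eq_mul_right h2
    rw [← h1]; ring
  haveI : Nontrivial (G ⧸ oddCore G) := Finite.one_lt_card_iff_nontrivial.1 (by omega)
  refine H21.sl25_of_order_120 hcard (nonsolv (perf_quot H.perf (oddCore G))) ?_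
  intro S
  obtain ⟨P⟩ : Nonempty (Sylow 2 G) := inferInstance
  obtain ⟨e⟩ := H.quat heven P
  have h8 := H.card_eight heven P
  have hcop : (Nat.card (oddCore G)).Coprime 2 := H1.pPrimeCore_coprime 2 G
  let P' := P.mapSurjective (QuotientGroup.mk'_surjective (oddCore G))
  have hP' : (P' : Subgroup (G ⧸ oddCore G)) = (P : Subgroup G).map (QuotientGroup.mk' (oddCore G)) :=
    Sylow.coe_mapSurjective _ P
  let f : (P : Subgroup G) →* G ⧸ oddCore G :=
    (QuotientGroup.mk' (oddCore G)).comp (P : Subgroup G).subtype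
  have hf : Function.Injective f := by
    rw [injective_iff_map_eq_one]
    intro x hx
    have h1 : x.1 ∈ oddCore G := (QuotientGroup.eq_one_iff _).mp hx
    have h2 : orderOf x.1 ∣ Nat.card (oddCore G) := by
      have := orderOf_dvd_natCard (⟨x.1, h1⟩ : oddCore G)
      rwa [Subgroup.orderOf_mk] at this
    have h3 : orderOf x.1 ∣ 2 ^ 3 := by
      have := orderOf_dvd_natCard x
      rw [← Subgroup.orderOf_coe] at this
      have h8' : Nat.card (P : Subgroup G) = 8 := h8
      rw [h8'] at this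
      exact this
    have h4 : orderOf x.1 = 1 := Nat.eq_one_of_dvd_coprimes (hcop.pow_right 3) h2 h3
    exact Subtype.ext (orderOf_eq_one_iff.mp h4)
  have hr : f.range = (P' : Subgroup (G ⧸ oddCore G)) := by
    rw [hP', MonoidHom.range_comp, Subgroup.range_subtype]
  exact ⟨((S.equiv P').trans (MulEquiv.subgroupCongr hr).symm).trans
    ((MonoidHom.ofInjective hf).symm.trans e)⟩

theorem Gp.order_four (H : Gp N u) (heven : 2 ∣ Nat.card N) : orderOf u = 4 := by
  haveI := H.nor
  haveI : Fact (Nat.Prime 2) := ⟨Nat.prime_two⟩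
  obtain ⟨P⟩ : Nonempty (Sylow 2 G) := inferInstance
  have hex : ∃ t ∈ P, t ∉ N := by
    by_contra hcon
    push Not at hcon
    have h1 := H.rel P
    rw [Subgroup.relIndex_eq_one.mpr (fun x hx => hcon x hx)] at h1
    norm_num at h1
  obtain ⟨t, ht, htN⟩ := hex
  have h1 : u * u ≠ 1 := fun h => H.sq_ne heven P ht htN ((H.two htN (H.pow4 P ht htN)).mpr h)
  have h2 := H.four H.nu (mul_mem H.uu H.uu)
  have h3 := orderOf_eq_prime_pow (x := u) (p := 2) (n := 1) (by rw [pow_one, pow_two]; exact h1)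
    (by
      have e : u ^ 2 ^ (1 + 1) = u * u * (u * u) := by
        norm_num
        simp only [pow_succ, pow_zero, one_mul, mul_assoc]
      rw [e]; exact h2)
  rw [h3]; norm_num

theorem Gp.final (H : Gp N u) : IsMulCommutative ↥(oddCore G) ∧
    ((Nonempty (G ⧸ oddCore G ≃* Matrix.ProjectiveSpecialLinearGroup (Fin 2) (ZMod 5)) ∧
      orderOf u = 2) ∨
    (Nonempty (G ⧸ oddCore G ≃* Matrix.SpecialLinearGroup (Fin 2) (ZMod 5)) ∧ orderOf u = 4)) := by
  by_cases heven : 2 ∣ Nat.card N
  · exact ⟨H.core_comm heven, Or.inr ⟨H.sl heven, H.order_four heven⟩⟩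
  · obtain ⟨h1, h2, h3⟩ := H.odd heven
    refine ⟨h1, Or.inl ⟨?_, h3⟩⟩
    haveI := H.nor
    have hs := H.simple
    obtain ⟨e⟩ := psl_equiv (Q := G ⧸ N) H.idx
    subst h2
    exact ⟨e⟩

end Cfsg.Agent.H27.Ca
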