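import Mathlib.LinearAlgebra.Matrix.Determinant.Basic
import Mathlib.Algebra.BigOperators.Group.Finset.Basic
import Cfsg.Agent.H11.LocalRing

set_option autoImplicit false

/-!
An existential form of the Cauchy-Binet formula, also modulo the local ideal.
-/

namespace Cfsg.Agent.H27

open Cfsg Cfsg.Agent.H11

variable {K : Type*} [CommRing K] {n : Type*} [Fintype n] [DecidableEq n] {r : ℕ}

theorem det_mul_eq_sum (A : Matrix (Fin r) n K) (C : Matrix n (Fin r) K) :
    (A * C).det = ∑ f : Fin r → n, (∏ i, A i (f i)) * (C.submatrix f id).det := by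
  have h1 : A * C = fun i => ∑ b, A i b • C b := by
    ext i j
    rw [Matrix.mul_apply, Finset.sum_apply]
    rfl
  have h2 := (Matrix.detRowAlternating (R := K) (n := Fin r)).toMultilinearMap.map_sum
    (fun (i : Fin r) (b : n) => A i b • C b)
  have h3 : (A * C).det = ∑ f : Fin r → n, (Matrix.detRowAlternating (R := K) (n := Fin r)).toMultilinearMap
      (fun i => A i (f i) • C (f i)) := by
    rw [← h2, h1]; rfl
  rw [h3]
  apply Finset.sum_congr rfl
  intro f _
  rw [MultilinearMap.map_smul_univ]
  rfl

theorem det_mul_eq_zero (A : Matrix (Fin r) n K) (C : Matrix n (Fin r) K)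
    (h : ∀ e : Fin r → n, Function.Injective e →
      (A.submatrix id e).det * (C.submatrix e id).det = 0) : (A * C).det = 0 := by
  classical
  rw [det_mul_eq_sum]
  let R : Setoid (Fin r → n) :=
    { r := fun f g => ∃ σ : Equiv.Perm (Fin r), f = g ∘ σ
      iseqv := ⟨fun f => ⟨1, rfl⟩, fun {f g} ⟨σ, hσ⟩ => ⟨σ⁻¹, by rw [hσ]; ext i; simp⟩,
        fun {f g k} ⟨σ, hσ⟩ ⟨τ, hτ⟩ => ⟨τ * σ, by rw [hσ, hτ]; rfl⟩⟩ }
  apply Finset.sum_cancels_of_partition_cancels R
  intro e _
  by_cases he : Function.Injective e
  · have h1 : ∑ f : Fin r → n with R f e, (∏ i, A i (f i)) * (C.submatrix f id).det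
        = ∑ σ : Equiv.Perm (Fin r), (∏ i, A i (e (σ i))) * (C.submatrix (e ∘ σ) id).det := by
      symm
      apply Finset.sum_bij (fun (σ : Equiv.Perm (Fin r)) _ => e ∘ σ)
      · intro σ _
        rw [Finset.mem_filter]
        exact ⟨Finset.mem_univ _, σ, rfl⟩
      · intro σ _ τ _ h2
        ext i
        have := congrFun h2 i
        exact congrArg Fin.val (he this)
      · intro f hf
        rw [Finset.mem_filter] at hf
        obtain ⟨σ, hσ⟩ := hf.2
        exact ⟨σ, Finset.mem_univ _, hσ.symm⟩
      · intro σ _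
        rfl
    rw [h1]
    have h2 : ∀ σ : Equiv.Perm (Fin r), (C.submatrix (e ∘ σ) id).det
        = (Equiv.Perm.sign σ : K) * (C.submatrix e id).det := by
      intro σ
      have := Matrix.det_permute σ (C.submatrix e id)
      rw [Matrix.submatrix_submatrix] at this
      exact this
    simp only [h2]
    have h3 : ∑ σ : Equiv.Perm (Fin r), (∏ i, A i (e (σ i))) * ((Equiv.Perm.sign σ : K) * (C.submatrix e id).det)
        = (A.submatrix id e).det * (C.submatrix e id).det := by
      rw [← Matrix.det_transpose (A.submatrix id e), Matrix.det_apply' (A.submatrix id e).transpose, Finset.sum_mul]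
      apply Finset.sum_congr rfl
      intro σ _
      simp only [Matrix.transpose_apply, Matrix.submatrix_apply, id_eq]
      ring
    rw [h3]
    exact h e he
  · apply Finset.sum_eq_zero
    intro f hf
    rw [Finset.mem_filter] at hf
    obtain ⟨σ, hσ⟩ := hf.2
    have h1 : ∃ i j, i ≠ j ∧ e i = e j := by
      unfold Function.Injective at he
      push Not at he
      obtain ⟨i, j, h2, h3⟩ := he
      exact ⟨i, j, h3, h2⟩
    obtain ⟨i, j, hij, heq⟩ := h1
    have h2 : (C.submatrix f id).det = 0 := by
      apply Matrix.det_zero_of_row_eq (i := σ.symm i) (j := σ.symm j)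
      · exact fun h => hij (σ.symm.injective h)
      · ext k
        rw [hσ]
        simp [heq]
    rw [h2, mul_zero]

/-- Cauchy-Binet, existential form modulo the local ideal. -/
theorem exists_minors {M : Ideal AlgInt} [hM : M.IsPrime] (A : Matrix (Fin r) n ℂ)
    (C : Matrix n (Fin r) ℂ) (hA : ∀ i j, MemLocalRing M (A i j)) (hC : ∀ i j, MemLocalRing M (C i j))
    (h : ¬ MemLocalIdeal M (A * C).det) :
    ∃ e : Fin r → n, Function.Injective e ∧ ¬ MemLocalIdeal M (A.submatrix id e).det ∧
      ¬ MemLocalIdeal M (C.submatrix e id).det := by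
  by_contra hcon
  push Not at hcon
  apply h
  let A' : Matrix (Fin r) n (locRing M) := fun i j => ⟨A i j, hA i j⟩
  let C' : Matrix n (Fin r) (locRing M) := fun i j => ⟨C i j, hC i j⟩
  let π := Ideal.Quotient.mk (locIdeal M)
  let ι : locRing M →+* ℂ := (locRing M).subtype
  have hA' : A = A'.map ι := rfl
  have hC' : C = C'.map ι := rfl
  have h0 : ∀ z : locRing M, π z = 0 ↔ MemLocalIdeal M (ι z) := by
    intro z
    rw [Ideal.Quotient.eq_zero_iff_mem, mem_locIdeal]; rfl
  have h1 : ((A'.map π) * (C'.map π)).det = 0 := by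
    apply det_mul_eq_zero
    intro e he
    have h2 : ((A'.map π).submatrix id e).det = π (A'.submatrix id e).det := by
      rw [RingHom.map_det]; rfl
    have h3 : ((C'.map π).submatrix e id).det = π (C'.submatrix e id).det := by
      rw [RingHom.map_det]; rfl
    have h4 : (A.submatrix id e).det = ι (A'.submatrix id e).det := by
      rw [RingHom.map_det]; rfl
    have h5 : (C.submatrix e id).det = ι (C'.submatrix e id).det := by
      rw [RingHom.map_det]; rfl
    rw [h2, h3]
    by_cases h6 : MemLocalIdeal M (A.submatrix id e).det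
    · rw [h4, ← h0] at h6
      rw [h6, zero_mul]
    · have h7 := hcon e he h6
      rw [h5, ← h0] at h7
      rw [h7, mul_zero]
  have h2 : ((A'.map π) * (C'.map π)).det = π (A' * C').det := by
    rw [RingHom.map_det, RingHom.mapMatrix_apply, Matrix.map_mul]
  rw [h2, h0, RingHom.map_det, RingHom.mapMatrix_apply, Matrix.map_mul, ← hA', ← hC'] at h1
  exact h1

/-- Determinants with entries congruent modulo the local ideal are congruent. -/
theorem li_det_sub {M : Ideal AlgInt} [hM : M.IsPrime] (A B : Matrix (Fin r) (Fin r) ℂ)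
    (hA : ∀ i j, MemLocalRing M (A i j)) (hB : ∀ i j, MemLocalRing M (B i j))
    (h : ∀ i j, MemLocalIdeal M (A i j - B i j)) : MemLocalIdeal M (A.det - B.det) := by
  rw [Matrix.det_apply', Matrix.det_apply', ← Finset.sum_sub_distrib]
  apply li_sum
  intro σ _
  rw [← mul_sub]
  apply li_mul_left
  · exact lr_intCast M _
  · exact li_prod_sub_prod _ _ _ (fun i _ => hA _ _) (fun i _ => hB _ _) (fun i _ => h _ _)

theorem lr_det {M : Ideal AlgInt} [hM : M.IsPrime] (A : Matrix (Fin r) (Fin r) ℂ)
    (hA : ∀ i j, MemLocalRing M (A i j)) : MemLocalRing M A.det := by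
  rw [Matrix.det_apply']
  apply lr_sum
  intro σ _
  exact lr_mul (lr_intCast M _) (lr_prod _ _ fun i _ => hA _ _)

end Cfsg.Agent.H27
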