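import Cfsg.Agent.H11.Laradji
import Cfsg.Agent.H26.MaxPair
import Cfsg.Agent.H26.Stable
import Cfsg.Agent.H26.Dict6
import Cfsg.Agent.H27.Kernel
import Cfsg.Agent.H27.Util
import Cfsg.Agent.H27.DefZero

set_option autoImplicit false

/-! # Maximal Brauer pairs and blocks with central defect groups -/

namespace Cfsg.Agent.H27

open Subgroup Cfsg Cfsg.Agent.H3 Cfsg.Agent.H11 Cfsg.Agent.H26
open scoped ComplexConjugate Pointwise

section Max

variable {k : Type*} [Field k] [IsAlgClosed k] {G : Type*} [Group G] [Finite G] {p : ℕ}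
  [Fact p.Prime] [CharP k p]

theorem maxB_iff {E f : MonoidAlgebra k G} {Q : Subgroup G} (h : InB p E Q f) :
    MaxB p E Q f ↔ IsDef p (stab (nz Q) f) f Q := by
  have hQf := h.2.1
  have hQ := hQf.1
  have hCT := cz_le_stab hQf.2
  have hQT := self_le_stab hQf.2
  have hfT : IsBlk (stab (nz Q) f) f := hQf.2.isBlk_of_stab hQ hQT hCT le_rfl
  constructor
  · intro hm
    obtain ⟨D, hD⟩ := hfT.exists_isDef (p := p)
    have hQD : Q ≤ D := hD.normal_le hfT hQ hQT (stab_le _ _)
    have hDN : D ≤ nz Q := hD.1.trans (stab_le _ _)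
    obtain ⟨e, he⟩ := exists_nsub_of_br_ne_zero hQf hD.2.1 hQD hDN
      ((isFx_stab _ f).mono hD.1) hD.2.2.1
    have hDQ : D = Q := hm.2 D e (h.of_ple he.ple) he.ple
    rw [hDQ] at hD
    exact hD
  · intro hD
    refine ⟨h, ?_⟩
    intro R g hg hle
    have h1 := hle.br_ne_zero hg.2.1 (le_inf hle.le Subgroup.le_normalizer) inf_le_left
      inf_le_right
    have h2 : Q = R ⊓ nz Q := hD.eq_of_le_of_br (le_inf hle.le Subgroup.le_normalizer)
      (le_stab inf_le_right h1.1) (hg.2.1.1.to_le inf_le_left) h1.2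
    by_contra hne
    have h3 : Q < R := lt_of_le_of_ne hle.le (Ne.symm hne)
    exact (lt_inf_normalizer hg.2.1.1 h3).ne h2

/-- Local characterization of maximal pairs. -/
theorem isDef_stab_iff {f : MonoidAlgebra k G} {Q : Subgroup G} (hQ : IsPGroup p Q)
    (hf : IsBlk (cz Q) f) : IsDef p (stab (nz Q) f) f Q ↔
      IsDef p (cz Q) f (Q ⊓ cz Q) ∧ ∀ g ∈ stab (nz Q) f, (∃ k : ℕ, orderOf g = p ^ k) →
        g ∈ Q ⊔ cz Q := by
  have hCT := cz_le_stab hf
  have hQT := self_le_stab hf
  have hfT : IsBlk (stab (nz Q) f) f := hf.isBlk_of_stab hQ hQT hCT le_rfl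
  have hTC : stab (nz Q) f ≤ nz (cz Q) :=
    (stab_le _ _).trans (normalizer_le_normalizer_centralizer Q)
  constructor
  · intro hD
    refine ⟨hD.inf_of_stable hCT hTC hf, ?_⟩
    intro g hg hgk
    have h1 := not_dvd_relIndex_of_stable hCT hTC hf hfT hD
    -- `cz Q ⊔ Q` is normal in the stabilizer
    have hle : Q ⊔ cz Q ≤ stab (nz Q) f := sup_le hQT hCT
    have hnorm : ((Q ⊔ cz Q).subgroupOf (stab (nz Q) f)).Normal := by
      rw [Subgroup.normal_subgroupOf_iff_le_normalizer hle]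
      intro x hx
      have hx1 : x ∈ nz Q := stab_le _ _ hx
      have hx2 : x ∈ nz (cz Q) := hTC hx
      rw [Subgroup.mem_normalizer_iff]
      have h2 : (Q ⊔ cz Q).map (MulAut.conj x).toMonoidHom = Q ⊔ cz Q := by
        rw [Subgroup.map_sup]
        congr 1
        · exact cg_eq_of_mem_nz hx1
        · exact cg_eq_of_mem_nz hx2
      exact Subgroup.mem_normalizer_iff.mp (mem_nz_of_cg_eq h2)
    set N := (Q ⊔ cz Q).subgroupOf (stab (nz Q) f) with hN
    have h3 : ¬ p ∣ N.index := by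
      rw [sup_comm] at hN
      rw [hN]; exact h1
    -- the image of g in the quotient is trivial
    have h4 : ((⟨g, hg⟩ : stab (nz Q) f) : stab (nz Q) f ⧸ N) = 1 := by
      obtain ⟨j, hj⟩ := hgk
      have h5 : orderOf ((⟨g, hg⟩ : stab (nz Q) f) : stab (nz Q) f ⧸ N) ∣ p ^ j := by
        rw [← hj]
        have := orderOf_map_dvd (QuotientGroup.mk' N) (⟨g, hg⟩ : stab (nz Q) f)
        rwa [Subgroup.orderOf_mk] at this
      have h6 : orderOf ((⟨g, hg⟩ : stab (nz Q) f) : stab (nz Q) f ⧸ N) ∣ N.index :=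
        orderOf_dvd_natCard _
      obtain ⟨i, _, hi⟩ := (Nat.dvd_prime_pow (Fact.out : p.Prime)).mp h5
      rw [hi] at h6
      rcases Nat.eq_zero_or_pos i with h7 | h7
      · rw [h7, pow_zero, orderOf_eq_one_iff] at hi
        exact hi
      · exact absurd ((dvd_pow_self p h7.ne').trans h6) h3
    rw [QuotientGroup.eq_one_iff, hN, mem_subgroupOf] at h4
    exact h4
  · rintro ⟨h1, h2⟩
    obtain ⟨D, hD⟩ := hfT.exists_isDef (p := p)
    have hQD : Q ≤ D := hD.normal_le hfT hQ hQT (stab_le _ _)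
    have h3 := hD.inf_of_stable hCT hTC hf
    have h4 := h1.card_eq h3
    have h5 : Q ⊓ cz Q = D ⊓ cz Q := by
      apply Subgroup.eq_of_le_of_card_ge (inf_le_inf_right _ hQD)
      rw [h4]
    have h6 : D ≤ Q ⊔ cz Q := by
      intro x hx
      apply h2 x (hD.1 hx)
      obtain ⟨j, hj⟩ := (IsPGroup.iff_orderOf.mp hD.2.1) ⟨x, hx⟩
      exact ⟨j, by rw [← hj, Subgroup.orderOf_mk]⟩
    have h7 : D = Q := by
      apply le_antisymm _ hQD
      intro x hx
      have h8 : x ∈ ((cz Q : Subgroup G) : Set G) * (Q : Set G) := by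
        rw [← coe_mul_of_right_le_normalizer_left (cz Q) Q
          (Subgroup.le_normalizer.trans (normalizer_le_normalizer_centralizer Q)), sup_comm]
        exact h6 hx
      obtain ⟨c, hc, a, ha, rfl⟩ := Set.mem_mul.mp h8
      have h9 : c ∈ D := by
        have := D.mul_mem hx (D.inv_mem (hQD ha))
        rwa [mul_inv_cancel_right] at this
      have h10 : c ∈ Q ⊓ cz Q := by rw [h5]; exact ⟨h9, hc⟩
      exact Q.mul_mem h10.1 ha
    rw [h7] at hD
    exact hD

end Max

section Char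

variable {X : Type*} [Group X] [Fintype X] {p : ℕ} {M : Ideal AlgInt}

theorem exists_trivial_of_central (hM : IsPModular p M) {Z : Subgroup X} (hZp : IsPGroup p Z)
    (hZ : Z ≤ Subgroup.center X) {e : Set (IrrCharacter X)} (he : IsPBlock M e) :
    ∃ θ ∈ e, ∀ z ∈ Z, (θ : X → ℂ) z = (θ : X → ℂ) 1 := by
  classical
  have hpr := hM.2.1.isPrime
  have := Fact.mk hM.1
  have := Fintype.ofFinite (IrrCharacter X)
  have := Fintype.ofFinite Z
  by_contra hcon
  push Not at hcon
  have hX0 : (Nat.card X : ℂ) ≠ 0 := by exact_mod_cast Nat.card_pos.ne'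
  have h1 : ∑ z : Z, blockCoeff e (z : X) = 0 := by
    have h2 : ∀ z : Z, blockCoeff e (z : X) = (Nat.card X : ℂ)⁻¹ *
        ∑ χ : IrrCharacter X with χ ∈ e, (χ : X → ℂ) 1 * conj ((χ : X → ℂ) z) := by
      intro z
      unfold blockCoeff
      rw [finsum_mem_irr]
    simp only [h2]
    rw [← Finset.mul_sum, Finset.sum_comm, Finset.sum_eq_zero, mul_zero]
    intro χ hχ
    rw [← Finset.mul_sum, ← map_sum]
    obtain ⟨w, hw, hne⟩ := hcon χ (Finset.mem_filter.mp hχ).2
    have h3 : ∑ z : Z, (χ : X → ℂ) z = 0 := by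
      have hone := irr_one_ne_zero χ.2
      have h4 : ∀ z : Z, (χ : X → ℂ) 1 * (χ : X → ℂ) ((⟨w, hw⟩ * z : Z) : X) =
          (χ : X → ℂ) w * (χ : X → ℂ) z := by
        intro z
        exact char_central_mul χ.2 (fun h => Subgroup.mem_center_iff.mp (hZ hw) h) z
      have h5 : (χ : X → ℂ) 1 * ∑ z : Z, (χ : X → ℂ) z = (χ : X → ℂ) w * ∑ z : Z, (χ : X → ℂ) z := by
        conv_lhs => rw [← Equiv.sum_comp (Equiv.mulLeft (⟨w, hw⟩ : Z))
          (fun z : Z => (χ : X → ℂ) z)]
        rw [Finset.mul_sum, Finset.mul_sum]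
        exact Finset.sum_congr rfl fun z _ => h4 z
      have h6 : ((χ : X → ℂ) 1 - (χ : X → ℂ) w) * ∑ z : Z, (χ : X → ℂ) z = 0 := by
        linear_combination h5
      rcases mul_eq_zero.mp h6 with h7 | h7
      · exact absurd (sub_eq_zero.mp h7).symm hne
      · exact h7
    rw [h3, map_zero, mul_zero]
  have h2 : ∑ z : Z, blockCoeff e (z : X) = blockCoeff e 1 := by
    rw [Finset.sum_eq_single (1 : Z)]
    · rfl
    · intro z _ hz
      apply blockCoeff_eq_zero hM he
      obtain ⟨j, hj⟩ := (IsPGroup.iff_orderOf.mp hZp) z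
      rw [← Subgroup.orderOf_coe] at hj
      rw [hj]
      apply dvd_pow_self
      rintro rfl
      rw [pow_zero, orderOf_eq_one_iff] at hj
      exact hz (Subtype.ext hj)
    · intro h; exact absurd (Finset.mem_univ _) h
  rw [h2] at h1
  unfold blockCoeff at h1
  rw [finsum_mem_irr] at h1
  have h3 := (mul_eq_zero.mp h1).resolve_left (inv_ne_zero hX0)
  have h4 : ∑ χ : IrrCharacter X with χ ∈ e, (χ : X → ℂ) 1 * conj ((χ : X → ℂ) 1) =
      ((∑ χ : IrrCharacter X with χ ∈ e, charDegree (χ : X → ℂ) ^ 2 : ℕ) : ℂ) := by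
    push_cast
    apply Finset.sum_congr rfl
    intro χ _
    rw [← charDegree_cast (irr_isChar χ.2), Complex.conj_natCast, sq]
  rw [h4] at h3
  have h5 : ∑ χ : IrrCharacter X with χ ∈ e, charDegree (χ : X → ℂ) ^ 2 = 0 := by exact_mod_cast h3
  obtain ⟨χ, hχ⟩ := isPBlock_nonempty he
  have h6 := (Finset.sum_eq_zero_iff.mp h5) χ (Finset.mem_filter.mpr ⟨Finset.mem_univ _, hχ⟩)
  have h7 := charDegree_pos χ.2
  rw [pow_eq_zero_iff two_ne_zero] at h6
  omega

theorem fact_of_trivial (hM : IsPModular p M) {Z : Subgroup X} (hZ : Z ≤ Subgroup.center X)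
    {e : Set (IrrCharacter X)} (he : IsPBlock M e) (hD : IsDefectGroup p M e Z)
    {θ : IrrCharacter X} (hθe : θ ∈ e) (hθ : ∀ z ∈ Z, (θ : X → ℂ) z = (θ : X → ℂ) 1) :
    (charDegree (θ : X → ℂ)).factorization p + (Nat.card Z).factorization p =
      (Nat.card X).factorization p := by
  have hp := hM.1
  have h1 := card_defect hM he hD
  have h2 : (Nat.card Z).factorization p = blockDefect p e := by
    rw [h1, hp.factorization_pow, Finsupp.single_eq_same]
  have h3 : (charDegree (θ : X → ℂ)).factorization p ≤ Z.index.factorization p := by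
    have h4 : charDegree (θ : X → ℂ) ∣ Z.index := by
      refine (charDegree_dvd_index_ker θ.2).trans ?_
      exact Subgroup.index_dvd_of_le (fun z hz => hθ z hz)
    exact (Nat.factorization_le_iff_dvd (charDegree_pos θ.2).ne'
      Subgroup.index_ne_zero_of_finite).mpr h4 p
  have h5 : (Nat.card X).factorization p =
      Z.index.factorization p + (Nat.card Z).factorization p := by
    rw [← Subgroup.index_mul_card Z, Nat.factorization_mul
      Subgroup.index_ne_zero_of_finite Nat.card_pos.ne', Finsupp.add_apply]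
  have h6 : (Nat.card X).factorization p ≤
      blockDefect p e + (charDegree (θ : X → ℂ)).factorization p := by
    unfold blockDefect
    have h7 := sInf_le_fact (p := p) hθe
    omega
  omega

end Char

end Cfsg.Agent.H27
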