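import Cfsg.Agent.H27.AD1
import Cfsg.Agent.H3.Clifford
import Cfsg.Agent.H3.BrauerC
import Cfsg.Agent.H27.DefZero

set_option autoImplicit false
set_option linter.all false

/-! # Principal blocks of central products (helper27) -/

universe u

namespace Cfsg.Agent.H27

open Subgroup Cfsg.Agent.H3 Cfsg.Agent.H11

local notation "conj" => starRingEnd ℂ

variable {p : ℕ} {M : Ideal AlgInt}

/-- two irreducible characters whose central characters agree on `p`-regular classes are in the same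
block. -/
theorem sameBlock_of_cc_reg {G : Type u} [Group G] [Finite G] (hM : IsPModular p M)
    {χ ψ : IrrCharacter G}
    (h : ∀ g : G, ¬ p ∣ orderOf g →
      MemLocalIdeal M (centralChar (χ : G → ℂ) g - centralChar (ψ : G → ℂ) g)) :
    SameBlock M (χ : G → ℂ) (ψ : G → ℂ) := by
  haveI := pmod_isPrime hM
  haveI := Fintype.ofFinite G
  classical
  set B := blockOf M (χ : G → ℂ) with hB
  have hBb : IsPBlock M B := ⟨χ, rfl⟩
  by_contra hne
  have hψ : ψ ∉ B := hne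
  have hχ : χ ∈ B := mem_blockOf_self χ
  have h1 := omega_fIdem B χ
  have h2 := omega_fIdem B ψ
  rw [if_pos hχ] at h1
  rw [if_neg hψ] at h2
  apply not_li_one M
  rw [show (1 : ℂ) = omega (χ : G → ℂ) (fIdem B) - omega (ψ : G → ℂ) (fIdem B) by
    rw [h1, h2, sub_zero]]
  have := Fintype.ofFinite (ConjClasses G)
  rw [omega_eq_sum (isCen_fIdem B) (irr_classFun χ.2), omega_eq_sum (isCen_fIdem B) (irr_classFun ψ.2),
    ← Finset.sum_sub_distrib]
  apply li_sum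
  intro C _
  rw [← mul_sub, coeff_fIdem]
  by_cases hC : p ∣ orderOf C.out
  · rw [blockCoeff_eq_zero hM hBb _ hC, zero_mul]
    exact li_zero M
  · exact li_mul_left (lr_blockCoeff hBb _) (h _ hC)

theorem index_cent_eq {G : Type u} [Group G] [Finite G] (g : G) :
    (centralizer ({g} : Set G)).index = Nat.card {x : G // IsConj g x} := by
  have h1 := card_isConj_mul_card_centralizer g
  rw [← index_mul_card (centralizer ({g} : Set G))] at h1
  exact (Nat.eq_of_mul_eq_mul_right Nat.card_pos h1).symm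

/-- in a finite group a `p`-regular element with a factorization into commuting elements has one into
powers that are `p`-regular -/
theorem exists_reg_pow {G : Type u} [Group G] [Finite G] (hp : p.Prime) :
    ∃ k : ℕ, (∀ g : G, ¬ p ∣ orderOf g → g ^ k = g) ∧ ∀ g : G, ¬ p ∣ orderOf (g ^ k) := by
  set n := Nat.card G with hn
  have hn0 : n ≠ 0 := Nat.card_pos.ne'
  have hcop : Nat.Coprime (p ^ n.factorization p) (n / p ^ n.factorization p) :=
    Nat.Coprime.pow_left _ ((Nat.Prime.coprime_iff_not_dvd hp).mpr (Nat.not_dvd_ordCompl hp hn0))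
  obtain ⟨k, h1, h2⟩ := Nat.chineseRemainder hcop 0 1
  set m := n / p ^ n.factorization p with hm
  have hnm : p ^ n.factorization p * m = n := Nat.ordProj_mul_ordCompl_eq_self n p
  have hpm : ¬ p ∣ m := Nat.not_dvd_ordCompl hp hn0
  refine ⟨k, ?_, ?_⟩
  · intro g hg
    have h3 : orderOf g ∣ m := by
      have h4 : orderOf g ∣ p ^ n.factorization p * m := by rw [hnm]; exact orderOf_dvd_natCard g
      exact (Nat.Coprime.pow_right _ ((Nat.Prime.coprime_iff_not_dvd hp).mpr hg).symm).dvd_of_dvd_mul_left h4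
    have h5 : k ≡ 1 [MOD orderOf g] := h2.of_dvd h3
    have h6 := (pow_eq_pow_iff_modEq (x := g)).mpr h5
    rwa [pow_one] at h6
  · intro g hg
    apply hpm
    have h3 : p ^ n.factorization p ∣ k := (Nat.modEq_zero_iff_dvd).mp h1
    have h4 : (g ^ k) ^ m = 1 := by
      rw [← pow_mul]
      have : n ∣ k * m := by rw [← hnm]; exact mul_dvd_mul_right h3 m
      exact orderOf_dvd_iff_pow_eq_one.mp ((orderOf_dvd_natCard g).trans this)
    exact hg.trans (orderOf_dvd_of_pow_eq_one h4)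

section CP

variable {G : Type u} [Group G] [Finite G] {U₁ U₂ : Subgroup G}

theorem cp_normal (hcomm : ∀ u ∈ U₁, ∀ v ∈ U₂, u * v = v * u) (hgen : U₁ ⊔ U₂ = ⊤) :
    U₁.Normal ∧ U₂.Normal := by
  constructor
  · rw [← normalizer_eq_top_iff, eq_top_iff, ← hgen]
    refine sup_le le_normalizer ?_
    refine le_trans ?_ (centralizer_le_normalizer (U₁ : Set G))
    intro v hv
    rw [mem_centralizer_iff]
    exact fun u hu => hcomm u hu v hv
  · rw [← normalizer_eq_top_iff, eq_top_iff, ← hgen]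
    refine sup_le ?_ le_normalizer
    refine le_trans ?_ (centralizer_le_normalizer (U₂ : Set G))
    intro u hu
    rw [mem_centralizer_iff]
    exact fun v hv => (hcomm u hu v hv).symm

theorem cp_rep (hcomm : ∀ u ∈ U₁, ∀ v ∈ U₂, u * v = v * u) (hgen : U₁ ⊔ U₂ = ⊤) (g : G) :
    ∃ u ∈ U₁, ∃ v ∈ U₂, g = u * v := by
  haveI := (cp_normal hcomm hgen).1
  have : g ∈ U₁ ⊔ U₂ := by rw [hgen]; exact mem_top g
  rw [mem_sup_of_normal_left] at this
  obtain ⟨u, hu, v, hv, rfl⟩ := this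
  exact ⟨u, hu, v, hv, rfl⟩

theorem cp_conj_left (hcomm : ∀ u ∈ U₁, ∀ v ∈ U₂, u * v = v * u) {a v u : G} (ha : a ∈ U₁)
    (hv : v ∈ U₂) (hu : u ∈ U₁) : (a * v) * u * (a * v)⁻¹ = a * u * a⁻¹ := by
  calc (a * v) * u * (a * v)⁻¹ = a * (v * u) * v⁻¹ * a⁻¹ := by group
    _ = a * (u * v) * v⁻¹ * a⁻¹ := by rw [hcomm u hu v hv]
    _ = _ := by group

/-- conjugacy class of elements of `U₁` -/
theorem cp_index (hcomm : ∀ u ∈ U₁, ∀ v ∈ U₂, u * v = v * u) (hgen : U₁ ⊔ U₂ = ⊤) (u : U₁) :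
    (centralizer ({(u : G)} : Set G)).index = (centralizer ({u} : Set U₁)).index := by
  rw [index_cent_eq, index_cent_eq]
  symm
  refine Nat.card_congr (Equiv.ofBijective (fun x : {x : U₁ // IsConj u x} =>
    (⟨(x.1 : G), ?_⟩ : {x : G // IsConj (u : G) x})) ⟨?_, ?_⟩)
  · obtain ⟨x, hx⟩ := x
    rw [isConj_iff] at hx ⊢
    obtain ⟨c, rfl⟩ := hx
    exact ⟨c, rfl⟩
  · intro a b hab
    rw [Subtype.mk.injEq] at hab
    exact Subtype.ext (Subtype.ext hab)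
  · rintro ⟨x, hx⟩
    rw [isConj_iff] at hx
    obtain ⟨c, hc⟩ := hx
    obtain ⟨a, ha, v, hv, rfl⟩ := cp_rep hcomm hgen c
    rw [cp_conj_left hcomm ha hv u.2] at hc
    refine ⟨⟨⟨x, ?_⟩, ?_⟩, rfl⟩
    · rw [← hc]; exact U₁.mul_mem (U₁.mul_mem ha u.2) (U₁.inv_mem ha)
    · rw [isConj_iff]
      exact ⟨⟨a, ha⟩, Subtype.ext hc⟩

/-- values of irreducible characters on the factors -/
theorem cp_restrict [Fintype U₁] (hcomm : ∀ u ∈ U₁, ∀ v ∈ U₂, u * v = v * u) (hgen : U₁ ⊔ U₂ = ⊤)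
    {χ : G → ℂ} (hχ : IsIrrCharacter G χ) {ψ : U₁ → ℂ} (hψ : IsIrrCharacter U₁ ψ)
    (h : classInner (fun u : U₁ => χ u) ψ ≠ 0) (u : U₁) :
    χ u / χ 1 = ψ u / ψ 1 := by
  haveI := Fintype.ofFinite G
  have hN := (cp_normal hcomm hgen).1
  have hinv : ∀ x, cj hN x ψ = ψ := by
    intro x
    obtain ⟨a, ha, v, hv, rfl⟩ := cp_rep hcomm hgen x
    funext n
    rw [cj_apply]
    have h1 : (⟨(a * v) * n * (a * v)⁻¹, hN.conj_mem n n.2 (a * v)⟩ : U₁) =
        ⟨a, ha⟩ * n * (⟨a, ha⟩ : U₁)⁻¹ := Subtype.ext (cp_conj_left hcomm ha hv n.2)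
    rw [h1]
    exact irr_classFun hψ _ _
  have h1 := clifford_invariant hN hχ hψ hinv h
  have h2 := congrFun h1 u
  have h3 := congrFun h1 1
  simp only [Pi.smul_apply, smul_eq_mul, OneMemClass.coe_one] at h2 h3
  rw [h2, h3, mul_div_mul_left _ _ h]

theorem cp_cc [Fintype U₁] (hcomm : ∀ u ∈ U₁, ∀ v ∈ U₂, u * v = v * u) (hgen : U₁ ⊔ U₂ = ⊤)
    {χ : G → ℂ} (hχ : IsIrrCharacter G χ) {ψ : U₁ → ℂ} (hψ : IsIrrCharacter U₁ ψ)
    (h : classInner (fun u : U₁ => χ u) ψ ≠ 0) (u : U₁) :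
    centralChar χ (u : G) = centralChar ψ u := by
  unfold centralChar
  rw [mul_div_assoc, mul_div_assoc, cp_restrict hcomm hgen hχ hψ h, cp_index hcomm hgen]

theorem cp_left [Fintype U₁] (hcomm : ∀ u ∈ U₁, ∀ v ∈ U₂, u * v = v * u) (hgen : U₁ ⊔ U₂ = ⊤)
    {χ : IrrCharacter G} {ψ : IrrCharacter U₁}
    (h : classInner (fun u : U₁ => (χ : G → ℂ) u) (ψ : U₁ → ℂ) ≠ 0)
    (hχ : χ ∈ principalBlock M G) : ψ ∈ principalBlock M U₁ := by
  intro u
  have h1 := hχ (u : G)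
  rw [cp_cc hcomm hgen χ.2 ψ.2 h] at h1
  have h2 : centralChar (fun _ : G => (1 : ℂ)) (u : G) = centralChar (fun _ : U₁ => (1 : ℂ)) u := by
    unfold centralChar
    rw [cp_index hcomm hgen]
  rw [h2] at h1
  exact h1

/-- the value on a product -/
theorem cp_mul (hcomm : ∀ u ∈ U₁, ∀ v ∈ U₂, u * v = v * u) (hgen : U₁ ⊔ U₂ = ⊤)
    {χ : G → ℂ} (hχ : IsIrrCharacter G χ) {u v : G} (hu : u ∈ U₁) (hv : v ∈ U₂) :
    χ (u * v) / χ 1 = (χ u / χ 1) * (χ v / χ 1) := by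
  haveI := Fintype.ofFinite G
  have h := sum_irr_conj_mul hχ u v
  have h1 : ∀ a : G, χ (a * u * a⁻¹ * v) = χ (u * v) := by
    intro a
    obtain ⟨b, hb, w, hw, rfl⟩ := cp_rep hcomm hgen a
    rw [cp_conj_left hcomm hb hw hu]
    have h2 : b * u * b⁻¹ * v = b * (u * v) * b⁻¹ := by
      calc b * u * b⁻¹ * v = b * u * (b⁻¹ * v) := by group
        _ = b * u * (v * b⁻¹) := by rw [hcomm _ (U₁.inv_mem hb) v hv]
        _ = _ := by group
    rw [h2]
    exact irr_classFun hχ _ _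
  simp only [h1, Finset.sum_const, Finset.card_univ, nsmul_eq_mul,
    ← Nat.card_eq_fintype_card] at h
  have hc : (Nat.card G : ℂ) ≠ 0 := card_ne_zeroC
  have h0 := irr_one_ne_zero hχ
  have h3 : χ (u * v) * χ 1 = χ u * χ v := by
    have h4 : (Nat.card G : ℂ) * (χ (u * v) * χ 1) = (Nat.card G : ℂ) * (χ u * χ v) := by
      first
        | (rw [← mul_assoc, h]; field_simp)
        | linear_combination h
        | linear_combination (χ 1) * h
    exact mul_left_cancel₀ hc h4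
  field_simp
  linear_combination h3

theorem cp_index_mul (hp : p.Prime) (hcomm : ∀ u ∈ U₁, ∀ v ∈ U₂, u * v = v * u)
    (hgen : U₁ ⊔ U₂ = ⊤)
    (hZ : IsPGroup p ↥(U₁ ⊓ U₂)) {u v : G} (hu : u ∈ U₁) (hv : v ∈ U₂) (hru : ¬ p ∣ orderOf u)
    (hrv : ¬ p ∣ orderOf v) :
    (centralizer ({u * v} : Set G)).index =
      (centralizer ({u} : Set G)).index * (centralizer ({v} : Set G)).index := by
  haveI : Fact p.Prime := ⟨hp⟩
  obtain ⟨hN1, hN2⟩ := cp_normal hcomm hgen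
  rw [index_cent_eq, index_cent_eq, index_cent_eq, ← Nat.card_prod]
  symm
  have hU1 : ∀ x : G, IsConj u x → x ∈ U₁ := by
    intro x hx
    rw [isConj_iff] at hx
    obtain ⟨c, rfl⟩ := hx
    exact hN1.conj_mem u hu c
  have hU2 : ∀ x : G, IsConj v x → x ∈ U₂ := by
    intro x hx
    rw [isConj_iff] at hx
    obtain ⟨c, rfl⟩ := hx
    exact hN2.conj_mem v hv c
  have hord : ∀ {x y : G}, IsConj x y → orderOf x = orderOf y := by
    intro x y hxy
    rw [isConj_iff] at hxy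
    obtain ⟨c, rfl⟩ := hxy
    have := orderOf_injective (MulAut.conj c).toMonoidHom (MulAut.conj c).injective x
    exact this.symm
  refine Nat.card_congr (Equiv.ofBijective
    (fun x : {x : G // IsConj u x} × {x : G // IsConj v x} =>
      (⟨(x.1 : G) * (x.2 : G), ?_⟩ : {x : G // IsConj (u * v) x})) ⟨?_, ?_⟩)
  · obtain ⟨⟨x, hx⟩, ⟨y, hy⟩⟩ := x
    rw [isConj_iff] at hx hy ⊢
    obtain ⟨c, hc⟩ := hx
    obtain ⟨d, hd⟩ := hy
    obtain ⟨c1, hc1, c2, hc2, rfl⟩ := cp_rep hcomm hgen c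
    obtain ⟨d1, hd1, d2, hd2, rfl⟩ := cp_rep hcomm hgen d
    refine ⟨c1 * d2, ?_⟩
    have e1 : x = c1 * u * c1⁻¹ := by rw [← hc, cp_conj_left hcomm hc1 hc2 hu]
    have e2 : y = d2 * v * d2⁻¹ := by
      rw [← hd]
      calc d1 * d2 * v * (d1 * d2)⁻¹ = d1 * (d2 * v * d2⁻¹) * d1⁻¹ := by group
        _ = (d2 * v * d2⁻¹) * d1 * d1⁻¹ := by
            rw [hcomm d1 hd1 _ (U₂.mul_mem (U₂.mul_mem hd2 hv) (U₂.inv_mem hd2))]
        _ = _ := by group
    show c1 * d2 * (u * v) * (c1 * d2)⁻¹ = x * y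
    rw [e1, e2]
    calc c1 * d2 * (u * v) * (c1 * d2)⁻¹ = c1 * (d2 * u) * (v * d2⁻¹) * c1⁻¹ := by group
      _ = c1 * (u * d2) * (v * d2⁻¹) * c1⁻¹ := by rw [hcomm u hu d2 hd2]
      _ = c1 * u * ((d2 * v * d2⁻¹) * c1⁻¹) := by group
      _ = c1 * u * (c1⁻¹ * (d2 * v * d2⁻¹)) := by
          rw [hcomm c1⁻¹ (U₁.inv_mem hc1) _ (U₂.mul_mem (U₂.mul_mem hd2 hv) (U₂.inv_mem hd2))]
      _ = _ := by group
  · rintro ⟨⟨x, hx⟩, ⟨y, hy⟩⟩ ⟨⟨x', hx'⟩, ⟨y', hy'⟩⟩ hab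
    have h1 : x * y = x' * y' := congrArg Subtype.val hab
    have hxU := hU1 x hx
    have hx'U := hU1 x' hx'
    have hyU := hU2 y hy
    have hy'U := hU2 y' hy'
    -- `z = x'⁻¹ x = y' y⁻¹` is a central `p`-element
    have h2 : x'⁻¹ * x = y' * y⁻¹ := by
      calc x'⁻¹ * x = x'⁻¹ * (x * y) * y⁻¹ := by group
        _ = x'⁻¹ * (x' * y') * y⁻¹ := by rw [h1]
        _ = _ := by group
    have hzU : x'⁻¹ * x ∈ U₁ ⊓ U₂ := by
      refine mem_inf.mpr ⟨U₁.mul_mem (U₁.inv_mem hx'U) hxU, ?_⟩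
      rw [h2]; exact U₂.mul_mem hy'U (U₂.inv_mem hyU)
    obtain ⟨k, hk⟩ := hZ ⟨_, hzU⟩
    have hk' : (x'⁻¹ * x) ^ p ^ k = 1 := congrArg Subtype.val hk
    have hcx : Commute (x'⁻¹ * x) x' := by
      have := hcomm x' hx'U _ (mem_inf.mp hzU).2
      exact this.symm
    have hx2 : x = x' * (x'⁻¹ * x) := by group
    have hz1 : x'⁻¹ * x = 1 := by
      -- order of `x`, `x'` prime to `p`
      have ho : orderOf x = orderOf x' := by rw [← hord hx, ← hord hx']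
      have hz2 : (x'⁻¹ * x) ^ orderOf x' = 1 := by
        have h3 : x ^ orderOf x' = x' ^ orderOf x' * (x'⁻¹ * x) ^ orderOf x' := by
          conv_lhs => rw [hx2]
          exact hcx.symm.mul_pow _
        rw [pow_orderOf_eq_one, one_mul, ← ho, pow_orderOf_eq_one] at h3
        rw [← ho]; exact h3.symm
      have h4 := orderOf_dvd_of_pow_eq_one hk'
      have h5 := orderOf_dvd_of_pow_eq_one hz2
      have h6 : ¬ p ∣ orderOf x' := by rw [← hord hx']; exact hru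
      have h7 : Nat.Coprime (p ^ k) (orderOf x') :=
        Nat.Coprime.pow_left _ ((Nat.Prime.coprime_iff_not_dvd hp).mpr h6)
      exact orderOf_eq_one_iff.mp (Nat.dvd_one.mp (h7 ▸ Nat.dvd_gcd h4 h5))
    have e1 : x = x' := by rw [hx2, hz1, mul_one]
    subst e1
    have e2 : y = y' := mul_left_cancel h1
    subst e2
    rfl
  · rintro ⟨x, hx⟩
    rw [isConj_iff] at hx
    obtain ⟨c, rfl⟩ := hx
    refine ⟨⟨⟨c * u * c⁻¹, isConj_iff.mpr ⟨c, rfl⟩⟩, ⟨c * v * c⁻¹, isConj_iff.mpr ⟨c, rfl⟩⟩⟩, ?_⟩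
    apply Subtype.ext
    show c * u * c⁻¹ * (c * v * c⁻¹) = c * (u * v) * c⁻¹
    group

theorem cp_main (hM : IsPModular p M) [Fintype U₁] [Fintype U₂]
    (hcomm : ∀ u ∈ U₁, ∀ v ∈ U₂, u * v = v * u) (hgen : U₁ ⊔ U₂ = ⊤)
    (hZ : IsPGroup p ↥(U₁ ⊓ U₂)) {χ : IrrCharacter G} {ψ₁ : IrrCharacter U₁} {ψ₂ : IrrCharacter U₂}
    (h₁ : classInner (fun u : U₁ => (χ : G → ℂ) u) (ψ₁ : U₁ → ℂ) ≠ 0)
    (h₂ : classInner (fun u : U₂ => (χ : G → ℂ) u) (ψ₂ : U₂ → ℂ) ≠ 0) :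
    χ ∈ principalBlock M G ↔ (ψ₁ ∈ principalBlock M U₁ ∧ ψ₂ ∈ principalBlock M U₂) := by
  haveI := pmod_isPrime hM
  haveI := Fintype.ofFinite G
  have hcomm' : ∀ u ∈ U₂, ∀ v ∈ U₁, u * v = v * u := fun u hu v hv => (hcomm v hv u hu).symm
  have hgen' : U₂ ⊔ U₁ = ⊤ := by rw [sup_comm]; exact hgen
  constructor
  · intro hχ
    exact ⟨cp_left hcomm hgen h₁ hχ, cp_left hcomm' hgen' h₂ hχ⟩
  · rintro ⟨hψ1, hψ2⟩
    apply sameBlock_symm
    refine sameBlock_of_cc_reg (ψ := oneIrr G) hM ?_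
    intro g hg
    obtain ⟨k, hk1, hk2⟩ := exists_reg_pow (G := G) hM.1
    obtain ⟨a, ha, b, hb, hab⟩ := cp_rep hcomm hgen g
    have hgk : g = a ^ k * b ^ k := by
      have h1 := hk1 g hg
      rw [hab, (show Commute a b from hcomm a ha b hb).mul_pow] at h1
      rw [hab]; exact h1.symm
    set u : U₁ := ⟨a ^ k, U₁.pow_mem ha k⟩ with hu
    set v : U₂ := ⟨b ^ k, U₂.pow_mem hb k⟩ with hv
    have hru : ¬ p ∣ orderOf (u : G) := hk2 a
    have hrv : ¬ p ∣ orderOf (v : G) := hk2 b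
    have hguv : g = (u : G) * (v : G) := hgk
    have hidx := cp_index_mul hM.1 hcomm hgen hZ u.2 v.2 hru hrv
    have e1 : centralChar (χ : G → ℂ) g = centralChar (ψ₁ : U₁ → ℂ) u * centralChar (ψ₂ : U₂ → ℂ) v := by
      rw [← cp_cc hcomm hgen χ.2 ψ₁.2 h₁, ← cp_cc hcomm' hgen' χ.2 ψ₂.2 h₂, hguv]
      unfold centralChar
      rw [hidx, mul_div_assoc, cp_mul hcomm hgen χ.2 u.2 v.2]
      push_cast
      ring
    have e2 : centralChar ((oneIrr G : IrrCharacter G) : G → ℂ) g =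
        centralChar (fun _ : U₁ => (1 : ℂ)) u * centralChar (fun _ : U₂ => (1 : ℂ)) v := by
      rw [hguv]
      unfold centralChar
      rw [hidx, cp_index hcomm hgen, cp_index hcomm' hgen']
      simp only [oneIrr_apply]
      push_cast
      ring
    rw [e1, e2]
    have f1 := hψ1 u
    have f2 := hψ2 v
    have lr1 : MemLocalRing M (centralChar (ψ₁ : U₁ → ℂ) u) := lr_centralChar ψ₁.2 u
    have lr2 : MemLocalRing M (centralChar (fun _ : U₂ => (1 : ℂ)) v) := lr_centralChar (oneIrr U₂).2 v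
    have f3 : centralChar (ψ₁ : U₁ → ℂ) u * centralChar (ψ₂ : U₂ → ℂ) v -
        centralChar (fun _ : U₁ => (1 : ℂ)) u * centralChar (fun _ : U₂ => (1 : ℂ)) v =
        centralChar (ψ₁ : U₁ → ℂ) u * (centralChar (ψ₂ : U₂ → ℂ) v - centralChar (fun _ : U₂ => (1 : ℂ)) v) +
        (centralChar (ψ₁ : U₁ → ℂ) u - centralChar (fun _ : U₁ => (1 : ℂ)) u) *
          centralChar (fun _ : U₂ => (1 : ℂ)) v := by ring
    rw [f3]
    refine li_add (li_mul_left lr1 (li_sub_comm.mp f2)) ?_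
    rw [mul_comm]
    exact li_mul_left lr2 (li_sub_comm.mp f1)

end CP

end Cfsg.Agent.H27
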