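import Cfsg.Agent.H27.ClifN
import Cfsg.Agent.H27.AFT2
import Cfsg.Agent.H1.FrobComp

set_option autoImplicit false
set_option linter.all false

/-! # Codegrees (helper27) -/

namespace Cfsg.Agent.H27

open Subgroup Cfsg.Agent.H3
open scoped Pointwise commutatorElement

theorem codeg_prime {G : Type*} [Group G] [Finite G] (χ : IrrCharacter G)
    (hfaith : ∀ g : G, (χ : G → ℂ) g = (χ : G → ℂ) 1 → g = 1) (p : ℕ) (hp : p.Prime)
    (hcod : Nat.card G = p * charDegree (χ : G → ℂ)) :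
    ∃ P : Subgroup G, P.Normal ∧ Nat.card P = p ∧ P.index = charDegree (χ : G → ℂ) ∧
      charDegree (χ : G → ℂ) < p ∧ ∀ c : G, (∀ x ∈ P, c * x = x * c) → c ∈ P := by
  classical
  haveI : Fact p.Prime := ⟨hp⟩
  haveI := Fintype.ofFinite G
  set d := charDegree (χ : G → ℂ) with hd
  have hd0 : 0 < d := charDegree_pos χ.2
  have hdc : (d : ℂ) = (χ : G → ℂ) 1 := charDegree_cast (irr_isChar χ.2)
  have hpG : p ∣ Nat.card G := ⟨d, hcod⟩
  have hχ1 : (χ : G → ℂ) ≠ fun _ => 1 := by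
    intro h
    obtain ⟨g, hg⟩ := exists_prime_orderOf_dvd_card' p hpG
    have h1 := hfaith g (by rw [h])
    rw [h1, orderOf_one] at hg
    exact hp.one_lt.ne hg
  have hdp : d < p := by
    have h1 := degree_sq_lt χ.2 hχ1
    rw [← hd, hcod] at h1
    by_contra h
    push Not at h
    have : p * d ≤ d ^ 2 := by rw [pow_two]; exact Nat.mul_le_mul_right d h
    omega
  have hpd : ¬ p ∣ d := fun h => absurd (Nat.le_of_dvd hd0 h) (not_le.mpr hdp)
  have hfac : (Nat.card G).factorization p = 1 := by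
    rw [hcod, Nat.factorization_mul hp.ne_zero hd0.ne', Finsupp.add_apply,
      hp.factorization_self, Nat.factorization_eq_zero_of_not_dvd hpd]
  obtain ⟨P⟩ := (inferInstance : Nonempty (Sylow p G))
  have hPc : Nat.card (P : Subgroup G) = p := by
    rw [P.card_eq_multiplicity, hfac, pow_one]
  have hPi : (P : Subgroup G).index = d := by
    have h1 := card_mul_index (P : Subgroup G)
    rw [hPc, hcod] at h1
    exact Nat.eq_of_mul_eq_mul_left hp.pos h1
  -- `P` is normal
  have hPn : (P : Subgroup G).Normal := by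
    have h1 : Nat.card (Sylow p G) ∣ d := by rw [← hPi]; exact P.card_dvd_index
    have h2 : Nat.card (Sylow p G) ≡ 1 [MOD p] := card_sylow_modEq_one p G
    have h3 : Nat.card (Sylow p G) < p := lt_of_le_of_lt (Nat.le_of_dvd hd0 h1) hdp
    have h4 : Nat.card (Sylow p G) = 1 := by
      have h5 : Nat.card (Sylow p G) % p = 1 % p := h2
      rwa [Nat.mod_eq_of_lt h3, Nat.mod_eq_of_lt hp.one_lt] at h5
    haveI : Subsingleton (Sylow p G) := (Nat.card_eq_one_iff_unique.mp h4).1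
    exact P.normal_of_subsingleton
  haveI := Fintype.ofFinite (P : Subgroup G)
  -- `P` abelian
  haveI hPcyc : IsCyclic (P : Subgroup G) := isCyclic_of_prime_card hPc
  haveI : IsMulCommutative (P : Subgroup G) := IsCyclic.commutative
  -- a constituent
  have h0 : (fun x : (P : Subgroup G) => (χ : G → ℂ) x) ≠ 0 := by
    intro h
    exact irr_one_ne_zero χ.2 (congrFun h 1)
  obtain ⟨θ, hθ⟩ := exists_constituent (isChar_restrict (P : Subgroup G) (irr_isChar χ.2)) h0
  obtain ⟨e, he⟩ := classInner_char_nat (isChar_restrict (P : Subgroup G) (irr_isChar χ.2))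
    (irr_isChar θ.2)
  have he0 : e ≠ 0 := by rintro rfl; rw [Nat.cast_zero] at he; exact hθ he
  have hθ1 : (θ : ↥(P : Subgroup G) → ℂ) 1 = 1 := irr_degree_one_of_comm θ.2
  have hineq := clifford_ineq hPn χ.2 θ.2 he he0
  have hdeg := clifford_degree hPn χ.2 θ.2 hθ
  set I := inertia hPn (θ : ↥(P : Subgroup G) → ℂ) with hI
  have hde : d = e * I.index := by
    have : (d : ℂ) = ((e * I.index : ℕ) : ℂ) := by
      rw [hdc, hdeg, he, hθ1]; push_cast; ring
    exact_mod_cast this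
  have hIpos : 0 < I.index := Nat.pos_of_ne_zero index_ne_zero_of_finite
  have he1 : e = 1 := by
    rw [hPi, hde] at hineq
    have h1 : e * (e * I.index) ≤ 1 * (e * I.index) := by
      calc e * (e * I.index) = e ^ 2 * I.index := by ring
        _ ≤ e * I.index := hineq
        _ = 1 * (e * I.index) := by ring
    have h2 := Nat.le_of_mul_le_mul_right h1 (Nat.mul_pos (Nat.pos_of_ne_zero he0) hIpos)
    omega
  have hIi : I.index = (P : Subgroup G).index := by rw [hPi, hde, he1, one_mul]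
  have hPI : (P : Subgroup G) ≤ I := le_inertia hPn (irr_classFun θ.2)
  have hIP : I = (P : Subgroup G) := by
    refine (eq_of_le_of_card_ge hPI ?_).symm
    have h1 := card_mul_index I
    have h2 := card_mul_index (P : Subgroup G)
    rw [hIi, ← h2] at h1
    exact (Nat.eq_of_mul_eq_mul_right (Nat.pos_of_ne_zero index_ne_zero_of_finite) h1).le
  -- the centralizer of `P` is `P`
  have hCI : ∀ c : G, (∀ x ∈ (P : Subgroup G), c * x = x * c) → c ∈ (P : Subgroup G) := by
    intro c hc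
    rw [← hIP, hI, mem_inertia]
    funext x
    rw [cj_apply]
    have : (⟨c * x * c⁻¹, hPn.conj_mem x x.2 c⟩ : (P : Subgroup G)) = x := by
      apply Subtype.ext
      show c * (x : G) * c⁻¹ = x
      rw [hc x x.2, mul_inv_cancel_right]
    rw [this]
  exact ⟨P, hPn, hPc, hPi, hdp, hCI⟩

theorem commutator_le_of_selfcent {G : Type*} [Group G] [Finite G] {P : Subgroup G} (hPn : P.Normal)
    (hcyc : IsCyclic P) (hC : ∀ c : G, (∀ x ∈ P, c * x = x * c) → c ∈ P) : commutator G ≤ P := by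
  obtain ⟨⟨x, hxP⟩, hx⟩ := hcyc.exists_generator
  have hgen : ∀ y ∈ P, ∃ k : ℤ, x ^ k = y := by
    intro y hy
    obtain ⟨k, hk⟩ := mem_zpowers_iff.mp (hx ⟨y, hy⟩)
    exact ⟨k, congrArg Subtype.val hk⟩
  rw [_root_.commutator_def, commutator_le]
  intro a _ b _
  apply hC
  obtain ⟨i, hi⟩ := hgen _ (hPn.conj_mem x hxP a⁻¹)
  obtain ⟨j, hj⟩ := hgen _ (hPn.conj_mem x hxP b⁻¹)
  rw [inv_inv] at hi hj
  have hpow : ∀ (c : G) (m : ℤ), c⁻¹ * x ^ m * c = (c⁻¹ * x * c) ^ m := fun c m => by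
    have := conj_zpow (i := m) (a := c⁻¹) (b := x)
    rw [inv_inv] at this
    exact this.symm
  have h1 : b⁻¹ * (a⁻¹ * x * a) * b = a⁻¹ * (b⁻¹ * x * b) * a := by
    rw [← hi, ← hj, hpow, hpow, ← hj, ← hi, ← zpow_mul, ← zpow_mul, mul_comm]
  have hcx : ⁅a, b⁆ * x = x * ⁅a, b⁆ := by
    have h2 : b⁻¹ * a⁻¹ * x * (a * b) = a⁻¹ * b⁻¹ * x * (b * a) := by
      calc b⁻¹ * a⁻¹ * x * (a * b) = b⁻¹ * (a⁻¹ * x * a) * b := by group
        _ = a⁻¹ * (b⁻¹ * x * b) * a := h1
        _ = _ := by group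
    rw [commutatorElement_def]
    calc a * b * a⁻¹ * b⁻¹ * x = (a * b) * (a⁻¹ * b⁻¹ * x * (b * a)) * (b * a)⁻¹ := by group
      _ = (a * b) * (b⁻¹ * a⁻¹ * x * (a * b)) * (b * a)⁻¹ := by rw [h2]
      _ = x * (a * b * a⁻¹ * b⁻¹) := by group
  intro y hy
  obtain ⟨k, rfl⟩ := hgen y hy
  exact (Commute.zpow_right hcx k)

theorem exists_hom_prime {G : Type*} [Group G] [Finite G] (h : commutator G ≠ ⊤) :
    ∃ (q : ℕ) (μ : G →* ℂˣ), q.Prime ∧ μ.ker.index = q := by
  classical
  haveI : Finite (G →* ℂˣ) := finite_dual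
  have h1 : Nat.card (G →* ℂˣ) ≠ 1 := by
    rw [card_dual_group]
    intro h2
    exact h (index_eq_one.mp h2)
  obtain ⟨q, hq, hqd⟩ := Nat.exists_prime_and_dvd h1
  haveI : Fact q.Prime := ⟨hq⟩
  obtain ⟨μ, hμ⟩ := exists_prime_orderOf_dvd_card' q hqd
  refine ⟨q, μ, hq, ?_⟩
  rw [index_ker]
  have hroot : ∀ x : μ.range, x ^ q = 1 := by
    rintro ⟨_, g, rfl⟩
    apply Subtype.ext
    show (μ g) ^ q = 1
    have h2 : (μ ^ q) g = 1 := by rw [← hμ, pow_orderOf_eq_one]; rfl
    exact h2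
  haveI : Finite μ.range := Finite.of_surjective _ μ.rangeRestrict_surjective
  have hp : IsPGroup q μ.range := fun x => ⟨1, by rw [pow_one]; exact hroot x⟩
  obtain ⟨n, hn⟩ := IsPGroup.iff_card.mp hp
  haveI hcyc : IsCyclic μ.range := inferInstance
  obtain ⟨g, hg⟩ := hcyc.exists_generator
  have h3 : Nat.card μ.range = orderOf g := by
    rw [← Nat.card_zpowers]
    have : zpowers g = ⊤ := eq_top_iff.mpr fun x _ => hg x
    rw [this, card_top]
  have h4 : orderOf g ∣ q := orderOf_dvd_of_pow_eq_one (hroot g)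
  rcases (Nat.dvd_prime hq).mp h4 with h5 | h5
  · exfalso
    rw [h5] at h3
    have h6 : μ = 1 := by
      ext y
      have h7 : (⟨μ y, ⟨y, rfl⟩⟩ : μ.range) = 1 := by
        haveI := (Nat.card_eq_one_iff_unique.mp h3).1
        exact Subsingleton.elim _ _
      have h8 := congrArg Subtype.val h7
      rw [show μ y = 1 from h8]; rfl
    rw [h6, orderOf_one] at hμ
    exact hq.one_lt.ne hμ
  · rw [h3, h5]

end Cfsg.Agent.H27
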