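import Mathlib
import Cfsg.Agent.H1.Basic

set_option autoImplicit false
set_option linter.all false

/-! # A transfer argument (S4582) (helper27) -/

namespace Cfsg.Agent.H27

open Subgroup MonoidHom
open scoped commutatorElement

theorem sq_mem_commutator {X : Type*} [Group X] [Finite X] (N P : Subgroup X) [hNn : N.Normal]
    (hNP : N ⊔ P = ⊤) (hPi : Odd P.index) (hP2 : IsPGroup 2 P)
    (hP : ∀ x ∈ P, x ^ 2 ∈ (P ⊓ N) ⊔ ⁅P, P⁆)
    (hQ : ∀ x ∈ P ⊓ N, x ^ 2 ∈ ⁅P ⊓ N, P ⊓ N⁆)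
    (hodd : Odd (Nat.card (Abelianization N))) :
    ∀ x ∈ P, x ^ 2 ∈ ⁅P, P⁆ := by
  classical
  haveI := Fintype.ofFinite X
  let ϕ : P →* Abelianization P := Abelianization.of
  let V : X →* Abelianization P := transfer ϕ
  have hA2 : ∀ a : Abelianization P, ∃ k : ℕ, a ^ 2 ^ k = 1 := by
    intro a
    obtain ⟨g, rfl⟩ := QuotientGroup.mk_surjective a
    obtain ⟨k, hk⟩ := hP2 g
    refine ⟨k, ?_⟩
    show (ϕ g) ^ 2 ^ k = 1
    rw [← map_pow, hk, map_one]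
  -- `V` is trivial on `N`
  have hVN : ∀ n ∈ N, V n = 1 := by
    intro n hn
    let W : N →* Abelianization P := V.comp N.subtype
    let W' : Abelianization N →* Abelianization P := Abelianization.lift W
    have h1 : V n = W' (Abelianization.of ⟨n, hn⟩) := by
      rw [Abelianization.lift_apply_of]; rfl
    have h2 : (V n) ^ Nat.card (Abelianization N) = 1 := by
      rw [h1, ← map_pow, pow_card_eq_one', map_one]
    obtain ⟨k, hk⟩ := hA2 (V n)
    have h3 : orderOf (V n) ∣ 2 ^ k := orderOf_dvd_of_pow_eq_one hk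
    have h4 : orderOf (V n) ∣ Nat.card (Abelianization N) := orderOf_dvd_of_pow_eq_one h2
    have h5 : Nat.Coprime (2 ^ k) (Nat.card (Abelianization N)) :=
      Nat.Coprime.pow_left _ (Nat.coprime_two_left.mpr hodd)
    have h6 : orderOf (V n) = 1 := Nat.dvd_one.mp (h5 ▸ Nat.dvd_gcd h3 h4)
    exact orderOf_eq_one_iff.mp h6
  have hVc : ⁅P, P⁆ ≤ V.ker := by
    rw [commutator_le]
    intro a _ b _
    rw [MonoidHom.mem_ker, map_commutatorElement, commutatorElement_eq_one_iff_mul_comm, mul_comm]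
  have hVsq : ∀ x ∈ P, V (x ^ 2) = 1 := by
    intro x hx
    have h1 : (P ⊓ N) ⊔ ⁅P, P⁆ ≤ V.ker :=
      sup_le (fun y hy => MonoidHom.mem_ker.mpr (hVN y (mem_inf.mp hy).2)) hVc
    exact MonoidHom.mem_ker.mp (h1 (hP x hx))
  -- the image of `Q`
  set Qb : Subgroup (Abelianization P) := (N.subgroupOf P).map ϕ with hQb
  have hkey : ∀ (x : P) (k : ℕ) (t : X) (h : t⁻¹ * (x : X) ^ k * t ∈ P),
      (QuotientGroup.mk (ϕ ⟨t⁻¹ * (x : X) ^ k * t, h⟩) : Abelianization P ⧸ Qb) =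
        QuotientGroup.mk (ϕ x) ^ k := by
    intro x k t h
    obtain ⟨n, hn, p, hp, rfl⟩ : ∃ n ∈ N, ∃ p ∈ P, n * p = t := by
      have : t ∈ N ⊔ P := by rw [hNP]; exact mem_top t
      rwa [mem_sup_of_normal_left] at this
    -- `(np)⁻¹ x^k (np) = (p⁻¹ x^k p) * q'`
    let y : P := (⟨p, hp⟩ : P)⁻¹ * x ^ k * ⟨p, hp⟩
    have hy : (y : X) = p⁻¹ * (x : X) ^ k * p := rfl
    let z : P := ⟨(n * p)⁻¹ * (x : X) ^ k * (n * p), h⟩
    have hz : (z : X) = (n * p)⁻¹ * (x : X) ^ k * (n * p) := rfl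
    have h1 : y⁻¹ * z ∈ N.subgroupOf P := by
      rw [mem_subgroupOf]
      have h2 : ((y⁻¹ * z : P) : X) = p⁻¹ * (((x : X) ^ k)⁻¹ * n⁻¹ * (x : X) ^ k * n) * p := by
        rw [Subgroup.coe_mul, Subgroup.coe_inv, hy, hz]; group
      rw [h2]
      have h3 : ((x : X) ^ k)⁻¹ * n⁻¹ * (x : X) ^ k * n ∈ N := by
        refine N.mul_mem ?_ hn
        have := hNn.conj_mem n⁻¹ (N.inv_mem hn) (((x : X) ^ k)⁻¹)
        rwa [inv_inv] at this
      have := hNn.conj_mem _ h3 p⁻¹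
      rwa [inv_inv] at this
    have h4 : ϕ y = (ϕ x) ^ k := by
      show ϕ ((⟨p, hp⟩ : P)⁻¹ * x ^ k * ⟨p, hp⟩) = _
      rw [map_mul, map_mul, map_inv, map_pow, mul_comm, mul_inv_cancel_left]
    have h5 : (QuotientGroup.mk (ϕ z) : Abelianization P ⧸ Qb) = QuotientGroup.mk (ϕ y) := by
      rw [eq_comm, QuotientGroup.eq, ← map_inv, ← map_mul]
      exact ⟨_, h1, rfl⟩
    rw [← QuotientGroup.mk_pow, ← h4]
    exact h5
  have hVx : ∀ x : P, (QuotientGroup.mk (V (x : X)) : Abelianization P ⧸ Qb) =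
      QuotientGroup.mk (ϕ x) ^ P.index := by
    intro x
    haveI : Fintype (Quotient (MulAction.orbitRel (zpowers (x : X)) (X ⧸ P))) := Fintype.ofFinite _
    show (QuotientGroup.mk (transfer ϕ (x : X)) : Abelianization P ⧸ Qb) = _
    rw [transfer_eq_prod_quotient_orbitRel_zpowers_quot]
    rw [show (QuotientGroup.mk (∏ q : Quotient (MulAction.orbitRel (zpowers (x : X)) (X ⧸ P)),
        ϕ ⟨q.out.out⁻¹ * (x : X) ^ Function.minimalPeriod ((x : X) • ·) q.out * q.out.out,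
            QuotientGroup.out_conj_pow_minimalPeriod_mem P (x : X) q.out⟩) : Abelianization P ⧸ Qb) =
        ∏ q : Quotient (MulAction.orbitRel (zpowers (x : X)) (X ⧸ P)),
        (QuotientGroup.mk (ϕ ⟨q.out.out⁻¹ * (x : X) ^ Function.minimalPeriod ((x : X) • ·) q.out * q.out.out,
            QuotientGroup.out_conj_pow_minimalPeriod_mem P (x : X) q.out⟩) : Abelianization P ⧸ Qb) from
        map_prod (QuotientGroup.mk' Qb) _ _]
    rw [Finset.prod_congr rfl fun q _ => hkey x _ _ _, Finset.prod_pow_eq_pow_sum,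
      ← index_eq_sum_minimalPeriod P (x : X)]
  intro x hx
  have h1 := hVx ⟨x, hx⟩
  rw [← QuotientGroup.mk_pow, eq_comm, QuotientGroup.eq] at h1
  obtain ⟨q, hq, hqe⟩ := h1
  have h2 : V x = ϕ ⟨x, hx⟩ ^ P.index * ϕ q := by
    rw [hqe, mul_inv_cancel_left]
  have h3 : (V x) ^ 2 = 1 := by rw [← map_pow]; exact hVsq x hx
  have hqN : (q : X) ∈ P ⊓ N := mem_inf.mpr ⟨q.2, mem_subgroupOf.mp hq⟩
  have h4 : ϕ q ^ 2 = 1 := by
    rw [← map_pow]
    have h5 : (q ^ 2 : P) ∈ commutator P := by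
      have h6 : ((q ^ 2 : P) : X) ∈ ⁅P, P⁆ := by
        have := hQ _ hqN
        exact commutator_mono inf_le_left inf_le_left this
      rw [← map_subtype_commutator] at h6
      obtain ⟨w, hw, hwe⟩ := h6
      have : w = q ^ 2 := Subtype.ext hwe
      rw [← this]; exact hw
    exact (QuotientGroup.eq_one_iff _).mpr h5
  have h5 : (ϕ ⟨x, hx⟩ ^ 2) ^ P.index = 1 := by
    rw [h2, mul_pow, h4, mul_one] at h3
    rw [← pow_mul, mul_comm, pow_mul]
    exact h3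
  have h6 : ϕ ⟨x, hx⟩ ^ 2 = 1 := by
    obtain ⟨k, hk⟩ := hA2 (ϕ ⟨x, hx⟩ ^ 2)
    have e3 : orderOf (ϕ ⟨x, hx⟩ ^ 2) ∣ 2 ^ k := orderOf_dvd_of_pow_eq_one hk
    have e4 : orderOf (ϕ ⟨x, hx⟩ ^ 2) ∣ P.index := orderOf_dvd_of_pow_eq_one h5
    have e5 : Nat.Coprime (2 ^ k) P.index :=
      Nat.Coprime.pow_left _ (Nat.coprime_two_left.mpr hPi)
    have e6 : orderOf (ϕ ⟨x, hx⟩ ^ 2) = 1 := Nat.dvd_one.mp (e5 ▸ Nat.dvd_gcd e3 e4)
    exact orderOf_eq_one_iff.mp e6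
  rw [← map_pow] at h6
  have h7 : ((⟨x, hx⟩ : P) ^ 2) ∈ commutator P := (QuotientGroup.eq_one_iff _).mp h6
  rw [← map_subtype_commutator]
  exact ⟨_, h7, rfl⟩

end Cfsg.Agent.H27
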