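import Cfsg.Agent.H27.Gagola
import Cfsg.Agent.H3.Clifford
import Cfsg.Agent.H3.Basic2
import Cfsg.Agent.H1.Hall
import Cfsg.Agent.H1.Cores
import Mathlib.GroupTheory.Transfer

/-!
Gagola characters: order of the group, centralizers and inertia groups.
-/

set_option autoImplicit false
set_option linter.unusedSectionVars false
open Cfsg Cfsg.Agent.H3
open scoped ComplexConjugate

namespace Cfsg.Agent.H27

variable {G : Type*} [Group G]

section data

variable [Finite G] {χ : IrrCharacter G} {x₀ : G} {N : Subgroup G}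

theorem GagolaData.change (h : GagolaData χ x₀ N) {x : G} (hx : x ∈ N) (hx1 : x ≠ 1) :
    GagolaData χ x N where
  ne_one := hx1
  normal := h.normal
  mem := hx
  isconj := fun g hg hg1 => (h.isconj x hx hx1).symm.trans (h.isconj g hg hg1)
  mem_iff := h.mem_iff
  ker := h.ker
  val := by rw [h.val_of_mem hx hx1]; exact h.val

/-- the integer `e = - χ(x₀)` -/
theorem GagolaData.exists_e (h : GagolaData χ x₀ N) :
    ∃ e : ℕ, 0 < e ∧ (χ : G → ℂ) x₀ = -(e : ℂ) ∧
      charDegree (χ : G → ℂ) = e * (Nat.card N - 1) := by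
  have hN := h.card_gt
  have hd := charDegree_cast (isIrr_isCharacter χ.2)
  have hN1 : ((Nat.card N : ℂ) - 1) ≠ 0 := by
    have : ((Nat.card N - 1 : ℕ) : ℂ) ≠ 0 := by
      have : Nat.card N - 1 ≠ 0 := by omega
      exact_mod_cast this
    rwa [Nat.cast_sub hN.le, Nat.cast_one] at this
  have h1 : (χ : G → ℂ) x₀ = ((-(charDegree (χ : G → ℂ) : ℚ) / ((Nat.card N : ℚ) - 1) : ℚ) : ℂ) := by
    push_cast
    rw [eq_div_iff hN1, hd, mul_comm]
    exact h.val
  have hint := char_isIntegral (isIrr_isCharacter χ.2) x₀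
  rw [h1] at hint
  obtain ⟨m, hm⟩ := int_of_isIntegral_rat hint
  have hN1q : ((Nat.card N : ℚ) - 1) ≠ 0 := by
    have : (1 : ℚ) < Nat.card N := by exact_mod_cast hN
    linarith
  have h2 : (m : ℚ) * ((Nat.card N : ℚ) - 1) = -(charDegree (χ : G → ℂ) : ℚ) := by
    rw [hm]; field_simp
  have hdpos : (0 : ℚ) < charDegree (χ : G → ℂ) := by exact_mod_cast charDegree_pos χ.2
  have hNpos : (0 : ℚ) < (Nat.card N : ℚ) - 1 := by
    have : (1 : ℚ) < Nat.card N := by exact_mod_cast hN
    linarith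
  have hmneg : m < 0 := by
    by_contra hge
    push Not at hge
    have : (0 : ℚ) ≤ m := by exact_mod_cast hge
    nlinarith
  refine ⟨m.natAbs, by omega, ?_, ?_⟩
  · have h3 : ((m.natAbs : ℤ) : ℂ) = -(m : ℂ) := by
      have : (m.natAbs : ℤ) = -m := by omega
      rw [this]; push_cast; ring
    have h4 : (χ : G → ℂ) x₀ = ((m : ℚ) : ℂ) := by rw [hm]; exact h1
    rw [h4]
    have h5 : ((m.natAbs : ℕ) : ℂ) = -(m : ℂ) := by rw [← h3, Int.cast_natCast]
    rw [h5]; push_cast; ring
  · have h3 : (m.natAbs : ℤ) = -m := by omega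
    have h4 : ((charDegree (χ : G → ℂ) : ℤ)) = (m.natAbs : ℤ) * ((Nat.card N : ℤ) - 1) := by
      rw [h3]
      have h5 : ((charDegree (χ : G → ℂ) : ℤ) : ℚ) = ((-m * ((Nat.card N : ℤ) - 1) : ℤ) : ℚ) := by
        push_cast
        linarith
      exact_mod_cast h5
    have h6 : ((Nat.card N - 1 : ℕ) : ℤ) = (Nat.card N : ℤ) - 1 := by
      rw [Nat.cast_sub hN.le, Nat.cast_one]
    rw [← h6] at h4
    exact_mod_cast h4

theorem GagolaData.card_cl [Fintype G] (h : GagolaData χ x₀ N) : (cl x₀).card + 1 = Nat.card N := by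
  classical
  have h4 : (insert 1 (cl x₀) : Finset G) = Finset.univ.filter (fun g => g ∈ N) := by
    ext g
    simp only [Finset.mem_insert, Finset.mem_filter, Finset.mem_univ, true_and, mem_cl]
    constructor
    · rintro (h1 | h1)
      · rw [h1]; exact N.one_mem
      · obtain ⟨c, rfl⟩ := isConj_iff.mp h1
        exact h.normal.conj_mem x₀ h.mem c
    · intro h1
      by_cases hg : g = 1
      · exact Or.inl hg
      · exact Or.inr (h.isconj g h1 hg)
  rw [Nat.card_eq_fintype_card, Fintype.card_subtype, ← h4, Finset.card_insert_of_notMem]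
  rw [mem_cl]
  intro h1
  rw [isConj_one_left] at h1
  exact h.ne_one h1

theorem GagolaData.card_centralizer (h : GagolaData χ x₀ N) {e : ℕ}
    (he : (χ : G → ℂ) x₀ = -(e : ℂ)) (hd : charDegree (χ : G → ℂ) = e * (Nat.card N - 1)) :
    Nat.card (Subgroup.centralizer ({x₀} : Set G)) = e ^ 2 * Nat.card N := by
  classical
  have := Fintype.ofFinite G
  have hcl := h.card_cl
  have hcc := card_cl_mul_card_centralizer x₀
  have hN := h.card_gt
  -- norm one
  have h1 := classInner_self_of_irr χ.2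
  unfold classInner at h1
  have hG : (Nat.card G : ℂ) ≠ 0 := by exact_mod_cast Nat.card_pos.ne'
  rw [inv_mul_eq_one₀ hG] at h1
  have h2 : ∑ g : G, (χ : G → ℂ) g * conj ((χ : G → ℂ) g)
      = ∑ g ∈ insert 1 (cl x₀), (χ : G → ℂ) g * conj ((χ : G → ℂ) g) := by
    symm
    refine Finset.sum_subset (Finset.subset_univ _) fun g _ hg => ?_
    have : (χ : G → ℂ) g = 0 := by
      by_contra h3
      apply hg
      have h4 := (h.mem_iff g).mpr h3
      by_cases h5 : g = 1
      · rw [h5]; exact Finset.mem_insert_self _ _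
      · exact Finset.mem_insert_of_mem (mem_cl.mpr (h.isconj g h4 h5))
    rw [this, zero_mul]
  rw [h2, Finset.sum_insert (by
    rw [mem_cl]
    intro h1
    rw [isConj_one_left] at h1
    exact h.ne_one h1)] at h1
  have h3 : ∀ g ∈ cl x₀, (χ : G → ℂ) g * conj ((χ : G → ℂ) g) = (e : ℂ) ^ 2 := by
    intro g hg
    rw [← isCharacter_isConj (isIrr_isCharacter χ.2) (mem_cl.mp hg), he, map_neg,
      Complex.conj_natCast]
    ring
  rw [Finset.sum_congr rfl h3, Finset.sum_const, nsmul_eq_mul,
    ← charDegree_cast (isIrr_isCharacter χ.2), Complex.conj_natCast, hd] at h1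
  have h4 : Nat.card G = (e * (Nat.card N - 1)) * (e * (Nat.card N - 1)) + (cl x₀).card * e ^ 2 := by
    exact_mod_cast h1
  have h5 : (cl x₀).card = Nat.card N - 1 := by omega
  rw [h4, h5] at hcc
  have h6 : 0 < Nat.card N - 1 := by omega
  obtain ⟨k, hk⟩ : ∃ k, Nat.card N = k + 1 := ⟨Nat.card N - 1, by omega⟩
  rw [hk, Nat.add_sub_cancel] at hcc h6
  rw [hk]
  apply Nat.eq_of_mul_eq_mul_left h6
  rw [hcc]; ring

theorem card_sup_eq {Q : Subgroup G} (hN : N.Normal)
    (hcop : (Nat.card N).Coprime (Nat.card Q)) :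
    Nat.card (N ⊔ Q : Subgroup G) = Nat.card N * Nat.card Q :=
  H1.card_sup_of_coprime (by rw [Subgroup.normalizer_eq_top]; exact le_top) hcop

/-- a subgroup of order coprime to `p` centralizing `x₀` has order dividing `e`. -/
theorem GagolaData.card_dvd_e (h : GagolaData χ x₀ N) {p : ℕ} (hp : p.Prime) (hNp : IsPGroup p N)
    (hNc : IsMulCommutative N) {e : ℕ}
    (he : (χ : G → ℂ) x₀ = -(e : ℂ)) (hd : charDegree (χ : G → ℂ) = e * (Nat.card N - 1))
    (Q : Subgroup G) (hQ : (Nat.card N).Coprime (Nat.card Q)) (hQx : ∀ y ∈ Q, y * x₀ = x₀ * y) :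
    Nat.card Q ∣ e := by
  classical
  have := Fintype.ofFinite G
  have hnorm := h.normal
  set K : Subgroup G := N ⊔ Q with hK
  have := Fintype.ofFinite K
  have := Fintype.ofFinite N
  have hNK : N ≤ K := le_sup_left
  have hcardK : Nat.card K = Nat.card N * Nat.card Q := card_sup_eq hnorm hQ
  -- linear character of `N` nontrivial at `x₀`
  obtain ⟨ψ, hψ⟩ : ∃ ψ : IrrCharacter N, (ψ : N → ℂ) ⟨x₀, h.mem⟩ ≠ (ψ : N → ℂ) 1 := by
    by_contra hcon
    push Not at hcon
    have h1 := (isConj_iff_irr (⟨x₀, h.mem⟩ : N) 1).mpr hcon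
    rw [isConj_one_left] at h1
    exact h.ne_one (congrArg Subtype.val h1)
  have hψ1 := irr_degree_one_of_comm ψ.2
  obtain ⟨lam, hlam⟩ := exists_hom_of_one (irr_isChar ψ.2) hψ1
  have hlamx : lam ⟨x₀, h.mem⟩ ≠ 1 := by
    intro h1
    apply hψ
    rw [hlam, hlam, h1, map_one]
  let φ : (N.subgroupOf K) →* ℂˣ := lam.comp (Subgroup.subgroupOfEquivOfLe hNK).toMonoidHom
  let μ : K →* ℂˣ := MonoidHom.transfer φ
  -- value at `x₀`
  have hxK : x₀ ∈ K := hNK h.mem
  have hcen : ∀ k : K, k * ⟨x₀, hxK⟩ = ⟨x₀, hxK⟩ * k := by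
    have hcenG : K ≤ Subgroup.centralizer ({x₀} : Set G) := by
      rw [hK, sup_le_iff]
      constructor
      · intro n hn
        rw [Subgroup.mem_centralizer_singleton_iff]
        have := hNc.is_comm.comm ⟨n, hn⟩ ⟨x₀, h.mem⟩
        exact congrArg Subtype.val this
      · intro y hy
        rw [Subgroup.mem_centralizer_singleton_iff]
        exact hQx y hy
    intro k
    apply Subtype.ext
    exact Subgroup.mem_centralizer_singleton_iff.mp (hcenG k.2)
  have hidx : (N.subgroupOf K).index = Nat.card Q := by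
    have h1 := Subgroup.card_mul_index (N.subgroupOf K)
    rw [hcardK, Nat.card_congr (Subgroup.subgroupOfEquivOfLe hNK).toEquiv] at h1
    exact Nat.eq_of_mul_eq_mul_left Nat.card_pos h1
  have hμx : μ ⟨x₀, hxK⟩ = lam ⟨x₀, h.mem⟩ ^ Nat.card Q := by
    have h1 := MonoidHom.transfer_eq_pow φ (⟨x₀, hxK⟩ : K) (fun k g₀ _ => by
      have h2 : Commute g₀ (⟨x₀, hxK⟩ : K) := hcen g₀
      have h3 := (h2.pow_right k)
      rw [mul_assoc, ← h3.eq]; group)
    change MonoidHom.transfer φ _ = _
    rw [h1, ← map_pow]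
    change lam _ = lam _
    congr 1
    apply Subtype.ext
    change (((⟨x₀, hxK⟩ : K) ^ (N.subgroupOf K).index : K) : G) = (((⟨x₀, h.mem⟩ : N) ^ Nat.card Q : N) : G)
    rw [hidx]
    rfl
  have hμx1 : μ ⟨x₀, hxK⟩ ≠ 1 := by
    intro h1
    rw [hμx] at h1
    apply hlamx
    -- order considerations
    have h2 : lam ⟨x₀, h.mem⟩ ^ Nat.card N = 1 := by
      rw [← map_pow, pow_card_eq_one', map_one]
    have h3 : orderOf (lam ⟨x₀, h.mem⟩) ∣ Nat.card N := orderOf_dvd_of_pow_eq_one h2
    have h4 : orderOf (lam ⟨x₀, h.mem⟩) ∣ Nat.card Q := orderOf_dvd_of_pow_eq_one h1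
    have h5 := Nat.eq_one_of_dvd_coprimes hQ h3 h4
    exact orderOf_eq_one_iff.mp h5
  -- the inner product
  obtain ⟨m, hm⟩ := classInner_char_nat (isChar_restrict K (irr_isChar χ.2))
    (irr_isChar (isIrr_of_hom μ))
  unfold classInner at hm
  -- sum over K reduces to N
  have h1 : ∑ k : K, (χ : G → ℂ) k * conj ((μ k : ℂ))
      = ∑ n : N, (χ : G → ℂ) n * conj ((μ ⟨n, hNK n.2⟩ : ℂ)) := by
    symm
    refine Fintype.sum_of_injective (Subgroup.inclusion hNK) (Subgroup.inclusion_injective hNK)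
      _ _ ?_ ?_
    · intro k hk
      have : (χ : G → ℂ) k = 0 := by
        by_contra h2
        apply hk
        exact ⟨⟨k, (h.mem_iff k).mpr h2⟩, rfl⟩
      rw [this, zero_mul]
    · intro n; rfl
  have h2 : ∑ n : N, (χ : G → ℂ) n * conj ((μ ⟨n, hNK n.2⟩ : ℂ)) = (e : ℂ) * Nat.card N := by
    have h3 : ∀ n : N, (χ : G → ℂ) n * conj ((μ ⟨n, hNK n.2⟩ : ℂ))
        = (if n = 1 then (χ : G → ℂ) 1 + e else 0) - (e : ℂ) * conj ((μ ⟨n, hNK n.2⟩ : ℂ)) := by
      intro n
      by_cases hn : n = 1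
      · subst hn
        have : (⟨((1 : N) : G), hNK (1 : N).2⟩ : K) = 1 := rfl
        rw [if_pos rfl, this, map_one]
        simp
      · rw [if_neg hn, h.val_of_mem n.2 (fun e => hn (Subtype.ext e)), he]
        ring
    rw [Finset.sum_congr rfl fun n _ => h3 n, Finset.sum_sub_distrib, Finset.sum_ite_eq' Finset.univ,
      if_pos (Finset.mem_univ _), ← Finset.mul_sum, ← map_sum]
    have h4 : ∑ n : N, ((μ ⟨n, hNK n.2⟩ : ℂˣ) : ℂ) = 0 := by
      let μN : N →* ℂ := (Units.coeHom ℂ).comp (μ.comp (Subgroup.inclusion hNK))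
      have h5 := sum_hom_units_eq_zero μN (by
        intro h6
        apply hμx1
        apply Units.ext
        exact congrArg (fun f : N →* ℂ => f ⟨x₀, h.mem⟩) h6)
      exact h5
    rw [h4, map_zero, mul_zero, sub_zero, ← charDegree_cast (irr_isChar χ.2), hd]
    have hN := h.card_gt
    push_cast [Nat.cast_sub hN.le]
    ring
  rw [h1, h2, hcardK] at hm
  have hNc' : (Nat.card N : ℂ) ≠ 0 := by exact_mod_cast Nat.card_pos.ne'
  have hQc' : (Nat.card Q : ℂ) ≠ 0 := by exact_mod_cast Nat.card_pos.ne'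
  have h6 : (e : ℂ) = (Nat.card Q : ℂ) * m := by
    rw [← hm]; push_cast; field_simp
  exact ⟨m, by exact_mod_cast h6⟩

/-- `e` is a power of `p`. -/
theorem GagolaData.e_pow (h : GagolaData χ x₀ N) {p : ℕ} (hp : p.Prime) (hNp : IsPGroup p N)
    (hNc : IsMulCommutative N) {e : ℕ} (he0 : 0 < e)
    (he : (χ : G → ℂ) x₀ = -(e : ℂ)) (hd : charDegree (χ : G → ℂ) = e * (Nat.card N - 1)) :
    ∃ k, e = p ^ k := by
  have hall : ∀ q : ℕ, q.Prime → q ∣ e → q = p := by
    intro q hq hqe
    by_contra hqp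
    have : Fact q.Prime := ⟨hq⟩
    have : Fact p.Prime := ⟨hp⟩
    let C := Subgroup.centralizer ({x₀} : Set G)
    let S : Sylow q C := default
    let Q : Subgroup G := (S : Subgroup C).map C.subtype
    have hQcard : Nat.card Q = q ^ (Nat.card C).factorization q := by
      rw [Subgroup.card_map_of_injective C.subtype_injective, S.card_eq_multiplicity]
    have hcop : (Nat.card N).Coprime (Nat.card Q) := by
      obtain ⟨n, hn⟩ := IsPGroup.iff_card.mp hNp
      rw [hQcard, hn]
      exact Nat.Coprime.pow _ _ ((Nat.coprime_primes hp hq).mpr (fun e => hqp e.symm))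
    have h1 := h.card_dvd_e hp hNp hNc he hd Q hcop (by
      intro y hy
      obtain ⟨c, -, rfl⟩ := hy
      exact Subgroup.mem_centralizer_singleton_iff.mp c.2)
    rw [hQcard, h.card_centralizer he hd] at h1
    obtain ⟨n, hn⟩ := IsPGroup.iff_card.mp hNp
    have h2 : (e ^ 2 * Nat.card N).factorization q = 2 * e.factorization q := by
      rw [Nat.factorization_mul (by positivity) Nat.card_pos.ne', Finsupp.add_apply, hn,
        Nat.factorization_pow, Nat.factorization_eq_zero_of_not_dvd (n := p ^ n)]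
      · simp
      · intro h3
        exact hqp ((Nat.prime_dvd_prime_iff_eq hq hp).mp (hq.dvd_of_dvd_pow h3))
    rw [h2, hq.pow_dvd_iff_le_factorization he0.ne'] at h1
    have h3 := (hq.dvd_iff_one_le_factorization he0.ne').mp hqe
    omega
  exact ⟨_, Nat.eq_prime_pow_of_unique_prime_dvd he0.ne' fun {q} hq hqe => hall q hq hqe⟩

/-- All the numerical information. -/
theorem GagolaData.card_p [Fintype G] (h : GagolaData χ x₀ N) {p : ℕ} [hp : Fact p.Prime] (hNp : IsPGroup p N)
    (hNc : IsMulCommutative N) :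
    ∃ k : ℕ, Nat.card (Subgroup.centralizer ({x₀} : Set G)) = p ^ k ∧
      Nat.card G = (Nat.card N - 1) * p ^ k ∧ ¬ p ∣ (Nat.card N - 1) := by
  obtain ⟨e, he0, he, hd⟩ := h.exists_e
  obtain ⟨k, hk⟩ := h.e_pow hp.out hNp hNc he0 he hd
  obtain ⟨n, hn⟩ := IsPGroup.iff_card.mp hNp
  have h1 := h.card_centralizer he hd
  have h2 := card_cl_mul_card_centralizer x₀
  have h3 := h.card_cl
  have h4 : (cl x₀).card = Nat.card N - 1 := by omega
  have h5 : Nat.card (Subgroup.centralizer ({x₀} : Set G)) = p ^ (k * 2 + n) := by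
    rw [h1, hn, hk, ← pow_mul, ← pow_add]
  refine ⟨k * 2 + n, h5, ?_, ?_⟩
  · rw [← h2, h4, h5]
  · intro h6
    have hN := h.card_gt
    have h7 : p ∣ Nat.card N := by
      rw [hn]
      apply dvd_pow_self
      rintro rfl
      rw [hn, pow_zero] at hN
      exact absurd hN (lt_irrefl _)
    have h8 : p ∣ Nat.card N - (Nat.card N - 1) := Nat.dvd_sub h7 h6
    have h9 : Nat.card N - (Nat.card N - 1) = 1 := by omega
    rw [h9] at h8
    exact hp.out.one_lt.ne' (Nat.dvd_one.mp h8)

theorem exists_sylow_of_card {p : ℕ} [hp : Fact p.Prime] {k m : ℕ} (hG : Nat.card G = m * p ^ k)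
    (hm : ¬ p ∣ m) (C : Subgroup G) (hC : Nat.card C = p ^ k) : ∃ P : Sylow p G, C = P := by
  have h1 : (Nat.card G).factorization p = k := by
    have hm0 : m ≠ 0 := fun h => hm (h ▸ dvd_zero p)
    rw [hG, Nat.factorization_mul hm0 (pow_ne_zero _ hp.out.ne_zero), Finsupp.add_apply,
      Nat.factorization_eq_zero_of_not_dvd hm, zero_add, Nat.Prime.factorization_pow hp.out,
      Finsupp.single_eq_same]
  exact ⟨Sylow.ofCard C (by rw [h1, hC]), rfl⟩

theorem GagolaData.centralizer_sylow (h : GagolaData χ x₀ N) {p : ℕ} [hp : Fact p.Prime]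
    (hNp : IsPGroup p N) (hNc : IsMulCommutative N) {x : G} (hx : x ∈ N) (hx1 : x ≠ 1) :
    ∃ P : Sylow p G, Subgroup.centralizer ({x} : Set G) = P := by
  have := Fintype.ofFinite G
  have h' := h.change hx hx1
  obtain ⟨k, h1, h2, h3⟩ := h'.card_p hNp hNc
  exact exists_sylow_of_card h2 h3 _ h1

theorem GagolaData.inertia_sylow (h : GagolaData χ x₀ N) {p : ℕ} [hp : Fact p.Prime]
    (hNp : IsPGroup p N) (hNc : IsMulCommutative N) (μ : IrrCharacter N)
    (hμ : (μ : N → ℂ) ≠ fun _ => 1) :
    ∃ P : Sylow p G, inertia h.normal (μ : N → ℂ) = P := by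
  classical
  have := Fintype.ofFinite G
  have := Fintype.ofFinite N
  obtain ⟨k, h1, h2, h3⟩ := h.card_p hNp hNc
  obtain ⟨e, he0, he, hd⟩ := h.exists_e
  refine exists_sylow_of_card h2 h3 _ ?_
  have hμ1 := irr_degree_one_of_comm μ.2
  have hin : classInner (fun n : N => (χ : G → ℂ) n) (μ : N → ℂ) = e := by
    unfold classInner
    have h4 : ∀ n : N, (χ : G → ℂ) n * conj ((μ : N → ℂ) n)
        = (if n = 1 then (χ : G → ℂ) 1 + e else 0) - (e : ℂ) * conj ((μ : N → ℂ) n) := by
      intro n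
      by_cases hn : n = 1
      · subst hn
        rw [if_pos rfl, hμ1]
        simp
      · rw [if_neg hn, h.val_of_mem n.2 (fun e => hn (Subtype.ext e)), he]
        ring
    have h5 : ∑ n : N, conj ((μ : N → ℂ) n) = 0 := by
      have h6 := classInner_irr' (oneIrr N) μ
      rw [if_neg (fun h7 => hμ (congrArg Subtype.val h7).symm)] at h6
      unfold classInner at h6
      have h7 := (mul_eq_zero.mp h6).resolve_left (inv_ne_zero card_ne_zeroC)
      simpa using h7
    rw [Finset.sum_congr rfl fun n _ => h4 n, Finset.sum_sub_distrib, Finset.sum_ite_eq' Finset.univ,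
      if_pos (Finset.mem_univ _), ← Finset.mul_sum, h5, mul_zero, sub_zero,
      ← charDegree_cast (irr_isChar χ.2), hd]
    have hN := h.card_gt
    have hNc' : (Nat.card N : ℂ) ≠ 0 := by exact_mod_cast Nat.card_pos.ne'
    push_cast [Nat.cast_sub hN.le]
    field_simp
    ring
  have he0' : (e : ℂ) ≠ 0 := by exact_mod_cast he0.ne'
  have h4 := clifford_degree h.normal χ.2 μ.2 (by rw [hin]; exact he0')
  rw [hin, hμ1, mul_one, ← charDegree_cast (irr_isChar χ.2), hd] at h4
  have h5 : e * (Nat.card N - 1) = e * (inertia h.normal (μ : N → ℂ)).index := by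
    exact_mod_cast h4
  have h6 := Nat.eq_of_mul_eq_mul_left he0 h5
  have h7 := Subgroup.index_mul_card (inertia h.normal (μ : N → ℂ))
  rw [← h6, h2] at h7
  have hN := h.card_gt
  exact Nat.eq_of_mul_eq_mul_left (by omega) h7

theorem GagolaData.ker_iff (h : GagolaData χ x₀ N) (ψ : IrrCharacter G) :
    (∀ n ∈ N, (ψ : G → ℂ) n = (ψ : G → ℂ) 1) ↔ ψ ≠ χ := by
  constructor
  · rintro h1 rfl
    exact h.ne_one (h.faithful (h1 x₀ h.mem))
  · exact h.ker ψ

theorem GagolaData.card_centralizer_quot [N.Normal] (h : GagolaData χ x₀ N) {x : G} (hx : x ∉ N) :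
    Nat.card (Subgroup.centralizer ({x} : Set G))
      = Nat.card (Subgroup.centralizer ({(x : G ⧸ N)} : Set (G ⧸ N))) := by
  classical
  have := Fintype.ofFinite (IrrCharacter G)
  have := Fintype.ofFinite (IrrCharacter (G ⧸ N))
  have h1 := column_orth x x
  have h2 := column_orth (x : G ⧸ N) (x : G ⧸ N)
  rw [if_pos (IsConj.refl _)] at h1 h2
  have hχx : (χ : G → ℂ) x = 0 := by
    by_contra h3
    exact hx ((h.mem_iff x).mpr h3)
  rw [← Finset.add_sum_erase _ _ (Finset.mem_univ χ), hχx, zero_mul, zero_add] at h1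
  have h3 : ∑ ψ : IrrCharacter (G ⧸ N), (ψ : G ⧸ N → ℂ) (x : G ⧸ N) * conj ((ψ : G ⧸ N → ℂ) (x : G ⧸ N))
      = ∑ ξ ∈ Finset.univ.erase χ, (ξ : G → ℂ) x * conj ((ξ : G → ℂ) x) := by
    rw [Finset.sum_subtype (Finset.univ.erase χ)
      (p := fun ψ : IrrCharacter G => ∀ n ∈ N, (ψ : G → ℂ) n = (ψ : G → ℂ) 1)
      (fun ψ => by
        rw [h.ker_iff]; simp) (fun ξ => (ξ : G → ℂ) x * conj ((ξ : G → ℂ) x))]
    exact Fintype.sum_equiv (irrQuotEquiv N) _ _ fun ψ => rfl
  rw [h3, h1] at h2
  exact_mod_cast h2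

theorem GagolaData.le_sylow (h : GagolaData χ x₀ N) {p : ℕ} [hp : Fact p.Prime]
    (hNp : IsPGroup p N) (P : Sylow p G) : N ≤ (P : Subgroup G) := by
  have := h.normal
  exact IsPGroup.le_sylow_of_normal hNp P

theorem GagolaData.center_le [N.Normal] (h : GagolaData χ x₀ N) {p : ℕ} [hp : Fact p.Prime]
    (hNp : IsPGroup p N) (P : Sylow p G) :
    (Subgroup.center (P : Subgroup G)).map (P : Subgroup G).subtype ≤ N := by
  rintro _ ⟨z, hz, rfl⟩
  by_contra hzN
  change (z : G) ∉ N at hzN
  have h1 := h.card_centralizer_quot hzN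
  have h2 : (P : Subgroup G) ≤ Subgroup.centralizer ({(z : G)} : Set G) := by
    intro y hy
    rw [Subgroup.mem_centralizer_singleton_iff]
    have := Subgroup.mem_center_iff.mp hz ⟨y, hy⟩
    exact congrArg Subtype.val this
  have h3 := Subgroup.card_dvd_of_le h2
  rw [h1] at h3
  have h4 : Nat.card (P : Subgroup G) ∣ Nat.card (G ⧸ N) := h3.trans (Subgroup.card_subgroup_dvd_card _)
  have h5 : Nat.card (P : Subgroup G) * p ∣ Nat.card G := by
    rw [Subgroup.card_eq_card_quotient_mul_card_subgroup N]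
    refine mul_dvd_mul h4 ?_
    obtain ⟨n, hn⟩ := IsPGroup.iff_card.mp hNp
    rw [hn]
    apply dvd_pow_self
    rintro rfl
    have := h.card_gt
    rw [hn, pow_zero] at this
    exact absurd this (lt_irrefl _)
  rw [P.card_eq_multiplicity, ← pow_succ] at h5
  exact Nat.pow_succ_factorization_not_dvd Nat.card_pos.ne' hp.out h5

theorem GagolaData.prime_dvd (h : GagolaData χ x₀ N) {p : ℕ} [hp : Fact p.Prime]
    (hNp : IsPGroup p N) : p ∣ Nat.card N := by
  obtain ⟨n, hn⟩ := IsPGroup.iff_card.mp hNp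
  rw [hn]
  apply dvd_pow_self
  rintro rfl
  have := h.card_gt
  rw [hn, pow_zero] at this
  exact absurd this (lt_irrefl _)

theorem GagolaData.sylow_nontrivial (h : GagolaData χ x₀ N) {p : ℕ} [hp : Fact p.Prime]
    (hNp : IsPGroup p N) (P : Sylow p G) : Nontrivial (P : Subgroup G) :=
  ⟨⟨⟨x₀, h.le_sylow hNp P h.mem⟩, 1, fun e => h.ne_one (congrArg Subtype.val e)⟩⟩

theorem GagolaData.center_eq_iff [N.Normal] (h : GagolaData χ x₀ N) {p : ℕ} [hp : Fact p.Prime]
    (hNp : IsPGroup p N) (hNc : IsMulCommutative N) (P : Sylow p G) :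
    (Subgroup.center (P : Subgroup G)).map (P : Subgroup G).subtype = N
      ↔ (P : Subgroup G).Normal := by
  constructor
  · intro hZ
    -- `P` centralizes each element of `N`
    have h1 : ∀ x ∈ N, x ≠ 1 → (P : Subgroup G) = Subgroup.centralizer ({x} : Set G) := by
      intro x hx hx1
      obtain ⟨Q, hQ⟩ := h.centralizer_sylow hNp hNc hx hx1
      have h2 : (P : Subgroup G) ≤ Subgroup.centralizer ({x} : Set G) := by
        intro y hy
        rw [← hZ] at hx
        obtain ⟨z, hz, rfl⟩ := hx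
        rw [Subgroup.mem_centralizer_singleton_iff]
        have := Subgroup.mem_center_iff.mp hz ⟨y, hy⟩
        exact congrArg Subtype.val this
      refine Subgroup.eq_of_le_of_card_ge h2 ?_
      rw [hQ, Q.card_eq_multiplicity, P.card_eq_multiplicity]
    refine ⟨fun y hy g => ?_⟩
    have h2 := h1 x₀ h.mem h.ne_one
    have h3 := h1 (g⁻¹ * x₀ * g) (by
      have := h.normal.conj_mem x₀ h.mem g⁻¹
      rwa [inv_inv] at this) (fun e => h.ne_one (by
        calc x₀ = g * (g⁻¹ * x₀ * g) * g⁻¹ := by group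
          _ = 1 := by rw [e]; group))
    rw [h3, Subgroup.mem_centralizer_singleton_iff] at hy
    rw [h2, Subgroup.mem_centralizer_singleton_iff]
    calc g * y * g⁻¹ * x₀ = g * (y * (g⁻¹ * x₀ * g)) * g⁻¹ := by group
      _ = g * ((g⁻¹ * x₀ * g) * y) * g⁻¹ := by rw [hy]
      _ = x₀ * (g * y * g⁻¹) := by group
  · intro hP
    apply le_antisymm (h.center_le hNp P)
    have hZ : ((Subgroup.center (P : Subgroup G)).map (P : Subgroup G).subtype).Normal :=
      inferInstance
    refine h.le_normal hZ ?_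
    intro e
    rw [Subgroup.map_eq_bot_iff_of_injective _ (Subgroup.subtype_injective _)] at e
    have := h.sylow_nontrivial hNp P
    have h2 := P.isPGroup'.center_nontrivial
    rw [e] at h2
    exact not_nontrivial (⊥ : Subgroup (P : Subgroup G)) h2

theorem GagolaData.upper_central [N.Normal] (h : GagolaData χ x₀ N) {p : ℕ} [hp : Fact p.Prime]
    (hNp : IsPGroup p N) (P : Sylow p G) :
    ∃ i : ℕ, Subgroup.upperCentralSeries (P : Subgroup G) i = N.subgroupOf (P : Subgroup G) := by
  classical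
  have hNP := h.le_sylow hNp P
  have hcardN : Nat.card (N.subgroupOf (P : Subgroup G)) = Nat.card N :=
    Nat.card_congr (Subgroup.subgroupOfEquivOfLe hNP).toEquiv
  by_cases hall : ∀ i, Subgroup.upperCentralSeries (P : Subgroup G) i ≤ N.subgroupOf (P : Subgroup G)
  · have hnil : Group.IsNilpotent (P : Subgroup G) := P.isPGroup'.isNilpotent
    obtain ⟨c, hc⟩ := hnil.nilpotent'
    refine ⟨c, le_antisymm (hall c) ?_⟩
    rw [hc]; exact le_top
  · push Not at hall
    let j := Nat.find hall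
    have hj : ¬ Subgroup.upperCentralSeries (P : Subgroup G) j ≤ N.subgroupOf (P : Subgroup G) :=
      Nat.find_spec hall
    have hj0 : j ≠ 0 := by
      intro e
      rw [e, Subgroup.upperCentralSeries_zero] at hj
      exact hj bot_le
    obtain ⟨i, hi⟩ : ∃ i, j = i + 1 := ⟨j - 1, by omega⟩
    have hle : Subgroup.upperCentralSeries (P : Subgroup G) i ≤ N.subgroupOf (P : Subgroup G) := by
      have := Nat.find_min hall (m := i) (by change i < j; omega)
      exact not_not.mp this
    refine ⟨i, Subgroup.eq_of_le_of_card_ge hle ?_⟩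
    rw [hi] at hj
    obtain ⟨z, hz, hzN⟩ := SetLike.not_le_iff_exists.mp hj
    rw [hcardN]
    have := Fintype.ofFinite (P : Subgroup G)
    -- class of `z` in `P`
    have h1 := card_cl_mul_card_centralizer z
    have h2 : (cl z).card ≤ Nat.card (Subgroup.upperCentralSeries (P : Subgroup G) i) := by
      have := Fintype.ofFinite (Subgroup.upperCentralSeries (P : Subgroup G) i)
      rw [Nat.card_eq_fintype_card, ← Finset.card_univ]
      refine Finset.card_le_card_of_injOn (fun w => if hw : z⁻¹ * w ∈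
        Subgroup.upperCentralSeries (P : Subgroup G) i then ⟨z⁻¹ * w, hw⟩ else 1)
        (fun _ _ => Finset.mem_coe.mpr (Finset.mem_univ _)) ?_
      have key : ∀ w ∈ cl z, z⁻¹ * w ∈ Subgroup.upperCentralSeries (P : Subgroup G) i := by
        intro w hw
        obtain ⟨c, rfl⟩ := isConj_iff.mp (mem_cl.mp hw)
        have hz' := (Subgroup.upperCentralSeries (P : Subgroup G) (i + 1)).inv_mem hz
        rw [Subgroup.mem_upperCentralSeries_succ_iff] at hz'
        have := hz' c
        rw [commutatorElement_def, inv_inv] at this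
        convert this using 1
        group
      intro w hw w' hw' e
      simp only [key w hw, key w' hw', dif_pos] at e
      exact mul_left_cancel (congrArg Subtype.val e)
    -- the centralizer of `z` in `P` is small
    have h3 : Nat.card (Subgroup.centralizer ({z} : Set (P : Subgroup G))) * Nat.card N
        ≤ Nat.card (P : Subgroup G) := by
      have hzN' : (z : G) ∉ N := hzN
      have h4 := h.card_centralizer_quot hzN'
      let f : Subgroup.centralizer ({z} : Set (P : Subgroup G)) →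
          Subgroup.centralizer ({(z : G)} : Set G) := fun y => ⟨((y : (P : Subgroup G)) : G), by
            rw [Subgroup.mem_centralizer_singleton_iff]
            exact congrArg Subtype.val (Subgroup.mem_centralizer_singleton_iff.mp y.2)⟩
      have h5 : Nat.card (Subgroup.centralizer ({z} : Set (P : Subgroup G))) ∣
          Nat.card (Subgroup.centralizer ({(z : G)} : Set G)) := by
        let F : Subgroup.centralizer ({z} : Set (P : Subgroup G)) →*
          Subgroup.centralizer ({(z : G)} : Set G) :=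
          { toFun := f, map_one' := rfl, map_mul' := fun _ _ => rfl }
        refine Subgroup.card_dvd_of_injective F ?_
        intro a b hab
        have := congrArg Subtype.val hab
        exact Subtype.ext (Subtype.ext this)
      rw [h4] at h5
      have h6 := h5.trans (Subgroup.card_subgroup_dvd_card _)
      have h7 : Nat.card (Subgroup.centralizer ({z} : Set (P : Subgroup G))) * Nat.card N
          ∣ Nat.card G := by
        rw [Subgroup.card_eq_card_quotient_mul_card_subgroup N]
        exact mul_dvd_mul h6 dvd_rfl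
      obtain ⟨a, ha⟩ := IsPGroup.iff_card.mp
        (P.isPGroup'.to_subgroup (Subgroup.centralizer ({z} : Set (P : Subgroup G))))
      obtain ⟨b, hb⟩ := IsPGroup.iff_card.mp hNp
      rw [ha, hb, ← pow_add] at h7 ⊢
      rw [P.card_eq_multiplicity]
      exact Nat.pow_le_pow_right hp.out.pos
        ((hp.out.pow_dvd_iff_le_factorization Nat.card_pos.ne').mp h7)
    rw [← h1, mul_comm] at h3
    have h4 := Nat.le_of_mul_le_mul_right h3 Nat.card_pos
    exact h4.trans h2

end data

theorem gagola_data_of [Finite G] (hG : 2 < Nat.card G) (χ : IrrCharacter G)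
    (hχ : Nat.card {C : ConjClasses G // ∃ g ∈ C.carrier, (χ : G → ℂ) g ≠ 0} = 2)
    (N : Subgroup G) (hN : ∀ g : G, g ∈ N ↔ (χ : G → ℂ) g ≠ 0) :
    ∃ x₀, GagolaData χ x₀ N := by
  obtain ⟨x₀, N', h⟩ := gagola_data hG χ hχ
  have : N' = N := by
    ext g
    rw [h.mem_iff, hN]
  subst this
  exact ⟨x₀, h⟩

end Cfsg.Agent.H27
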