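import Cfsg.Agent.H27.Gagola2
import Cfsg.Agent.H27.Invert
import Cfsg.Agent.H4.BaerSuzuki
import Cfsg.Agent.H1.FrobComp
import Cfsg.Agent.H1.Cores
import Cfsg.Prelude.Def_Solvable

/-!
Gagola characters with `N = O_p(G)`: the group is a Frobenius group.
-/

set_option autoImplicit false
set_option linter.unusedSectionVars false
open Cfsg Cfsg.Agent.H3
open scoped ComplexConjugate Pointwise

namespace Cfsg.Agent.H27

variable {G : Type*} [Group G]

section data

variable [Finite G] {χ : IrrCharacter G} {x₀ : G} {N : Subgroup G}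

theorem GagolaData.isConj_mul (h : GagolaData χ x₀ N) {x n : G} (hx : x ∉ N) (hn : n ∈ N) :
    IsConj x (x * n) := by
  rw [isConj_iff_irr]
  intro ψ
  by_cases hψ : ψ = χ
  · subst hψ
    have h1 : (ψ : G → ℂ) x = 0 := by
      by_contra h2; exact hx ((h.mem_iff x).mpr h2)
    have h2 : (ψ : G → ℂ) (x * n) = 0 := by
      by_contra h3
      have := (h.mem_iff (x * n)).mpr h3
      exact hx (by
        have h4 := N.mul_mem this (N.inv_mem hn)
        rwa [mul_inv_cancel_right] at h4)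
    rw [h1, h2]
  · have h1 := char_ker_mul (irr_isChar ψ.2) (h.ker ψ hψ n hn) x
    rw [← isCharacter_mul_comm (irr_isChar ψ.2)] at h1
    exact h1.symm

theorem GagolaData.not_comm (h : GagolaData χ x₀ N) {p : ℕ} [hp : Fact p.Prime]
    (hNp : IsPGroup p N) (hNc : IsMulCommutative N) {n y : G} (hn : n ∈ N) (hn1 : n ≠ 1)
    (hy : (orderOf y).Coprime p) (hcomm : y * n = n * y) : y = 1 := by
  obtain ⟨P, hP⟩ := h.centralizer_sylow hNp hNc hn hn1
  have h1 : y ∈ (P : Subgroup G) := by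
    rw [← hP, Subgroup.mem_centralizer_singleton_iff]; exact hcomm
  obtain ⟨k, hk⟩ := exists_orderOf_eq P.isPGroup' h1
  rw [hk] at hy
  rcases Nat.eq_zero_or_pos k with h0 | h0
  · rw [h0, pow_zero, orderOf_eq_one_iff] at hk; exact hk
  · exfalso
    have h2 : p ∣ 1 := by
      have h3 := Nat.dvd_gcd (dvd_pow_self p h0.ne') (dvd_refl p)
      rwa [hy] at h3
    exact hp.out.one_lt.ne' (Nat.dvd_one.mp h2)

theorem GagolaData.centralizer_le (h : GagolaData χ x₀ N) {p : ℕ} [hp : Fact p.Prime]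
    (hNp : IsPGroup p N) (hNc : IsMulCommutative N) (hcore : N = pCore p G) :
    Subgroup.centralizer (N : Set G) ≤ N := by
  have hn := h.normal
  obtain ⟨P, hP⟩ := h.centralizer_sylow hNp hNc h.mem h.ne_one
  have h1 : Subgroup.centralizer (N : Set G) ≤ (P : Subgroup G) := by
    rw [← hP]
    exact Subgroup.centralizer_le (Set.singleton_subset_iff.mpr h.mem)
  have h2 : IsPGroup p (Subgroup.centralizer (N : Set G)) := P.isPGroup'.to_le h1
  have h3 : (Subgroup.centralizer (N : Set G)).Normal := inferInstance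
  calc Subgroup.centralizer (N : Set G) ≤ pCore p G := H1.le_pCore h3 h2
    _ = N := hcore.symm

/-- the case `p = 2` -/
theorem GagolaData.odd_quotient (h : GagolaData χ x₀ N)
    (hNp : IsPGroup 2 N) (hNc : IsMulCommutative N) (hcore : N = pCore 2 G) :
    ¬ 2 ∣ N.index := by
  have : Fact (Nat.Prime 2) := ⟨Nat.prime_two⟩
  have hnorm := h.normal
  intro h2
  obtain ⟨zb, hzb⟩ := exists_prime_orderOf_dvd_card' (G := G ⧸ N) 2 h2
  have hzb1 : zb ≠ 1 := by
    rintro rfl
    rw [orderOf_one] at hzb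
    norm_num at hzb
  obtain ⟨g, k, hw1, hwodd, hwinv⟩ := H4.inverts_odd_of_not_mem_core zb hzb (by
    intro K hK hKp hzK
    have h3 : IsPGroup 2 (K.comap (QuotientGroup.mk' N)) :=
      IsPGroup.comap_of_ker_isPGroup hKp _ (by
        rw [QuotientGroup.ker_mk']; exact hNp)
    have h4 : (K.comap (QuotientGroup.mk' N)) ≤ N := by
      calc K.comap (QuotientGroup.mk' N) ≤ pCore 2 G := H1.le_pCore (hK.comap _) h3
        _ = N := hcore.symm
    obtain ⟨z, rfl⟩ := QuotientGroup.mk_surjective zb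
    have h5 : z ∈ N := h4 hzK
    exact hzb1 ((QuotientGroup.eq_one_iff z).mpr h5))
  set w := (zb * (g * zb * g⁻¹)) ^ 2 ^ k with hw
  obtain ⟨z, hz⟩ := QuotientGroup.mk_surjective zb
  obtain ⟨y, hy⟩ := QuotientGroup.mk_surjective w
  obtain ⟨a, ha⟩ := IsPGroup.iff_card.mp hNp
  -- `x = y ^ |N|` has odd order and nontrivial image
  set x := y ^ Nat.card N with hx
  set r := orderOf w with hr
  have hcop : Nat.Coprime r (Nat.card N) := by
    rw [ha]
    exact Nat.Coprime.pow_right _ (Nat.coprime_two_right.mpr hwodd)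
  have hyr : y ^ r ∈ N := by
    rw [← QuotientGroup.eq_one_iff, QuotientGroup.mk_pow, hy, hr, pow_orderOf_eq_one]
  have hxr : x ^ r = 1 := by
    rw [hx, ← pow_mul, mul_comm, pow_mul]
    have := pow_card_eq_one' (x := (⟨y ^ r, hyr⟩ : N))
    exact congrArg Subtype.val this
  have hxodd : (orderOf x).Coprime 2 := by
    have h3 : orderOf x ∣ r := orderOf_dvd_of_pow_eq_one hxr
    exact Nat.coprime_two_right.mpr (Odd.of_dvd_nat hwodd h3)
  have hxw : (x : G ⧸ N) = w ^ Nat.card N := by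
    rw [hx, QuotientGroup.mk_pow, hy]
  have hxN1 : (x : G ⧸ N) ≠ 1 := by
    rw [hxw]
    intro h3
    have h4 := orderOf_dvd_of_pow_eq_one h3
    have h5 := Nat.eq_one_of_dvd_coprimes hcop.symm h4 (dvd_refl _)
    exact hw1 (orderOf_eq_one_iff.mp h5)
  have hx1 : x ≠ 1 := by
    intro e; rw [e] at hxN1; exact hxN1 rfl
  have hfix : ∀ n ∈ N, x * n = n * x → n = 1 := by
    intro n hn hc
    by_contra hn1
    exact hx1 (h.not_comm hNp hNc hn hn1 hxodd hc)
  -- `z x z⁻¹ = x⁻¹ n'`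
  have hzxN : x * (z * x * z⁻¹) ∈ N := by
    rw [← QuotientGroup.eq_one_iff]
    change (x : G ⧸ N) * ((z : G ⧸ N) * (x : G ⧸ N) * (z : G ⧸ N)⁻¹) = 1
    rw [hz, hxw]
    have h3 : zb * w ^ Nat.card N * zb⁻¹ = (w ^ Nat.card N)⁻¹ := by
      rw [← conj_pow, hwinv, inv_pow]
    rw [h3, mul_inv_cancel]
  -- the map `n ↦ x n x⁻¹ n⁻¹` is onto
  let f : N → N := fun n => ⟨x * n * x⁻¹ * (n : G)⁻¹,
    N.mul_mem (hnorm.conj_mem n n.2 x) (N.inv_mem n.2)⟩
  have hcommN : ∀ a ∈ N, ∀ b ∈ N, a * b = b * a := fun a ha b hb =>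
    congrArg Subtype.val (hNc.is_comm.comm ⟨a, ha⟩ ⟨b, hb⟩)
  have hinj : Function.Injective f := by
    intro n m hnm
    have h3 : x * n * x⁻¹ * (n : G)⁻¹ = x * m * x⁻¹ * (m : G)⁻¹ := congrArg Subtype.val hnm
    have h4 : x * ((m : G)⁻¹ * n) = ((m : G)⁻¹ * n) * x := by
      have h5 : x * m * x⁻¹ ∈ N := hnorm.conj_mem m m.2 x
      have h6 := hcommN (x * m * x⁻¹) h5 ((m : G)⁻¹ * n) (N.mul_mem (N.inv_mem m.2) n.2)
      calc x * ((m : G)⁻¹ * n) = (x * m * x⁻¹)⁻¹ * (x * n * x⁻¹ * (n : G)⁻¹) * n * x := by group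
        _ = (x * m * x⁻¹)⁻¹ * (x * m * x⁻¹ * (m : G)⁻¹) * n * x := by rw [h3]
        _ = ((m : G)⁻¹ * n) * x := by group
    have h5 := hfix _ (N.mul_mem (N.inv_mem m.2) n.2) h4
    exact Subtype.ext (inv_mul_eq_one.mp h5).symm
  obtain ⟨n, hn⟩ := Finite.surjective_of_injective hinj
    ⟨(x * (z * x * z⁻¹))⁻¹, N.inv_mem hzxN⟩
  have hn' : x * n * x⁻¹ * (n : G)⁻¹ = (x * (z * x * z⁻¹))⁻¹ := congrArg Subtype.val hn
  set z₁ := (n : G) * z with hz1
  have hzinv : z₁ * x * z₁⁻¹ = x⁻¹ := by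
    have h3 : (n : G) * (z * x * z⁻¹) * (n : G)⁻¹ = x⁻¹ := by
      have h4 : x * n * x⁻¹ * (x * (z * x * z⁻¹)) * (n : G)⁻¹ = 1 := by
        have h5 := hcommN (x * (z * x * z⁻¹)) hzxN (n : G)⁻¹ (N.inv_mem n.2)
        calc x * n * x⁻¹ * (x * (z * x * z⁻¹)) * (n : G)⁻¹
            = x * n * x⁻¹ * ((x * (z * x * z⁻¹)) * (n : G)⁻¹) := by group
          _ = x * n * x⁻¹ * ((n : G)⁻¹ * (x * (z * x * z⁻¹))) := by rw [h5]
          _ = (x * n * x⁻¹ * (n : G)⁻¹) * (x * (z * x * z⁻¹)) := by group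
          _ = 1 := by rw [hn', inv_mul_cancel]
      calc (n : G) * (z * x * z⁻¹) * (n : G)⁻¹
          = x⁻¹ * (x * n * x⁻¹ * (x * (z * x * z⁻¹)) * (n : G)⁻¹) := by group
        _ = x⁻¹ := by rw [h4, mul_one]
    calc z₁ * x * z₁⁻¹ = (n : G) * (z * x * z⁻¹) * (n : G)⁻¹ := by rw [hz1]; group
      _ = x⁻¹ := h3
  have hzsqN : z₁ * z₁ ∈ N := by
    rw [← QuotientGroup.eq_one_iff]
    have h3 : (z₁ : G ⧸ N) = zb := by
      rw [hz1, QuotientGroup.mk_mul, (QuotientGroup.eq_one_iff (n : G)).mpr n.2, one_mul, hz]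
    rw [QuotientGroup.mk_mul, h3, ← sq, ← hzb, pow_orderOf_eq_one]
  have hzsq : z₁ * z₁ = 1 := by
    refine hfix _ hzsqN ?_
    have h3 : z₁ * x = x⁻¹ * z₁ := by
      rw [← hzinv]; group
    have h4 : z₁ * x⁻¹ = x * z₁ := by
      have h5 : z₁ * x⁻¹ * z₁⁻¹ = x := by
        calc z₁ * x⁻¹ * z₁⁻¹ = (z₁ * x * z₁⁻¹)⁻¹ := by group
          _ = x := by rw [hzinv, inv_inv]
      calc z₁ * x⁻¹ = z₁ * x⁻¹ * z₁⁻¹ * z₁ := by group
        _ = x * z₁ := by rw [h5]
    calc x * (z₁ * z₁) = (x * z₁) * z₁ := by group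
      _ = z₁ * (x⁻¹ * z₁) := by rw [← h4]; group
      _ = z₁ * z₁ * x := by rw [← h3]; group
  have hz1N : z₁ ∉ N := by
    intro h3
    have h4 := (QuotientGroup.eq_one_iff z₁).mpr h3
    rw [hz1, QuotientGroup.mk_mul, (QuotientGroup.eq_one_iff (n : G)).mpr n.2, one_mul, hz] at h4
    exact hzb1 h4
  -- so `z₁` centralizes `N`
  apply hz1N
  apply h.centralizer_le hNp hNc hcore
  rw [Subgroup.mem_centralizer_iff]
  intro m hm
  have h3 := h.isConj_mul hz1N hm
  obtain ⟨c, hc⟩ := isConj_iff.mp h3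
  have h4 : (z₁ * m) * (z₁ * m) = 1 := by
    rw [← hc]
    calc c * z₁ * c⁻¹ * (c * z₁ * c⁻¹) = c * (z₁ * z₁) * c⁻¹ := by group
      _ = 1 := by rw [hzsq]; group
  obtain ⟨q, hq, hNq, -, hexp⟩ := h.elem
  have hq2 : q = 2 := by
    have h5 := h.prime_dvd hNp
    have : Fact q.Prime := ⟨hq⟩
    obtain ⟨b, hb⟩ := IsPGroup.iff_card.mp hNq
    rw [hb] at h5
    exact ((Nat.prime_dvd_prime_iff_eq Nat.prime_two hq).mp (Nat.prime_two.dvd_of_dvd_pow h5)).symm
  have hmm : m * m = 1 := by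
    have := hexp m hm
    rwa [hq2, sq] at this
  have h5 : z₁ * m = (z₁ * m)⁻¹ := (inv_eq_of_mul_eq_one_left h4).symm
  have h6 : z₁⁻¹ = z₁ := inv_eq_of_mul_eq_one_left hzsq
  have h7 : m⁻¹ = m := inv_eq_of_mul_eq_one_left hmm
  rw [mul_inv_rev, h6, h7] at h5
  exact h5.symm

theorem GagolaData.card_G [Fintype G] (h : GagolaData χ x₀ N) {e : ℕ}
    (he : (χ : G → ℂ) x₀ = -(e : ℂ)) (hd : charDegree (χ : G → ℂ) = e * (Nat.card N - 1)) :
    Nat.card G = (Nat.card N - 1) * (e ^ 2 * Nat.card N) := by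
  have h1 := card_cl_mul_card_centralizer x₀
  have h2 := h.card_cl
  rw [h.card_centralizer he hd] at h1
  rw [← h1]
  congr 1
  omega

theorem GagolaData.e_eq_one (h : GagolaData χ x₀ N) {p : ℕ} [hp : Fact p.Prime]
    (hNp : IsPGroup p N) (hNc : IsMulCommutative N) (hcore : N = pCore p G) {e : ℕ} (he0 : 0 < e)
    (he : (χ : G → ℂ) x₀ = -(e : ℂ)) (hd : charDegree (χ : G → ℂ) = e * (Nat.card N - 1)) :
    e = 1 := by
  classical
  have := Fintype.ofFinite G
  have hnorm := h.normal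
  have hcardG := h.card_G he hd
  have hN := h.card_gt
  obtain ⟨k, hk⟩ := h.e_pow hp.out hNp hNc he0 he hd
  by_cases hp2 : p = 2
  · subst hp2
    have h1 := h.odd_quotient hNp hNc hcore
    have h2 : N.index = (Nat.card N - 1) * e ^ 2 := by
      have h3 := Subgroup.card_mul_index N
      rw [hcardG] at h3
      have h4 : Nat.card N * N.index = Nat.card N * ((Nat.card N - 1) * e ^ 2) := by
        rw [h3]; ring
      exact Nat.eq_of_mul_eq_mul_left (by omega) h4
    rcases Nat.eq_zero_or_pos k with h3 | h3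
    · rw [hk, h3, pow_zero]
    · exfalso
      apply h1
      rw [h2, hk]
      exact Dvd.dvd.mul_left ((dvd_pow_self 2 h3.ne').trans (dvd_pow_self _ two_ne_zero)) _
  · -- `p` odd
    have hcommN : ∀ a ∈ N, ∀ b ∈ N, a * b = b * a := fun a ha b hb =>
      congrArg Subtype.val (hNc.is_comm.comm ⟨a, ha⟩ ⟨b, hb⟩)
    obtain ⟨a, ha⟩ := IsPGroup.iff_card.mp hNp
    have hodd : Odd (Nat.card N) := by
      rw [ha]
      exact (hp.out.odd_of_ne_two hp2).pow
    have h2G : 2 ∣ Nat.card G := by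
      rw [hcardG]
      obtain ⟨b, hb⟩ := hodd
      exact Dvd.dvd.mul_right ⟨b, by omega⟩ _
    obtain ⟨t, ht⟩ := exists_prime_orderOf_dvd_card' 2 h2G
    have htt := orderOf_two_mul_self ht
    have ht' : t⁻¹ = t := inv_eq_of_mul_eq_one_left htt
    have ht1 : t ≠ 1 := by
      rintro rfl
      rw [orderOf_one] at ht
      norm_num at ht
    have hcop : (orderOf t).Coprime p := by
      rw [ht]
      exact (Nat.coprime_primes Nat.prime_two hp.out).mpr (fun e => hp2 e.symm)
    have hinv : ∀ n ∈ N, t * n * t⁻¹ = n⁻¹ := by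
      refine invert_of_fpf htt (fun n hn => hnorm.conj_mem n hn t) ?_
      intro n hn hfix
      by_contra hn1
      apply ht1
      refine h.not_comm hNp hNc hn hn1 hcop ?_
      rw [← mul_inv_eq_iff_eq_mul]; exact hfix
    -- the class of `t` is contained in `N t`
    have hcl : (cl t).card ≤ Nat.card N := by
      have := Fintype.ofFinite N
      rw [Nat.card_eq_fintype_card, ← Finset.card_univ]
      have key : ∀ w ∈ cl t, w * t⁻¹ ∈ N := by
        intro w hw
        obtain ⟨g, rfl⟩ := isConj_iff.mp (mem_cl.mp hw)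
        apply h.centralizer_le hNp hNc hcore
        rw [Subgroup.mem_centralizer_iff]
        intro n hn
        have h1 : t⁻¹ * n * t = n⁻¹ := by
          have := hinv n hn
          rw [ht'] at this ⊢
          exact this
        have h2 : (g * t * g⁻¹) * n⁻¹ * (g * t * g⁻¹)⁻¹ = n := by
          have h3 : g⁻¹ * n⁻¹ * g ∈ N := by
            have := hnorm.conj_mem n⁻¹ (N.inv_mem hn) g⁻¹
            rwa [inv_inv] at this
          calc (g * t * g⁻¹) * n⁻¹ * (g * t * g⁻¹)⁻¹ = g * (t * (g⁻¹ * n⁻¹ * g) * t⁻¹) * g⁻¹ := by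
                group
            _ = n := by rw [hinv _ h3]; group
        calc n * (g * t * g⁻¹ * t⁻¹)
            = (g * t * g⁻¹) * n⁻¹ * (g * t * g⁻¹)⁻¹ * (g * t * g⁻¹ * t⁻¹) := by rw [h2]
          _ = (g * t * g⁻¹) * n⁻¹ * t⁻¹ := by group
          _ = (g * t * g⁻¹) * (t⁻¹ * n * t) * t⁻¹ := by rw [h1]
          _ = g * t * g⁻¹ * t⁻¹ * n := by group
      refine Finset.card_le_card_of_injOn (fun w => if hw : w * t⁻¹ ∈ N then ⟨w * t⁻¹, hw⟩ else 1)
        (fun _ _ => Finset.mem_coe.mpr (Finset.mem_univ _)) ?_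
      intro w hw w' hw' e
      simp only [key w hw, key w' hw', dif_pos] at e
      exact mul_right_cancel (congrArg Subtype.val e)
    have hccl := card_cl_mul_card_centralizer t
    set H := Subgroup.centralizer ({t} : Set G) with hH
    obtain ⟨m, hm⟩ := card_dvd_degree_of_vanish H (irr_isChar χ.2) (by
      intro g hg hg1
      by_contra h1
      have hgN := (h.mem_iff g).mpr h1
      rw [hH, Subgroup.mem_centralizer_singleton_iff] at hg
      have h2 : g = g⁻¹ := by
        rw [← hinv g hgN, ← hg]; group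
      have h3 : g ^ 2 = 1 := by
        rw [sq]
        nth_rewrite 2 [h2]
        exact mul_inv_cancel g
      have h4 : orderOf g ∣ 2 := orderOf_dvd_of_pow_eq_one h3
      have h5 : orderOf g ∣ Nat.card N := by
        have := orderOf_dvd_natCard (⟨g, hgN⟩ : N)
        rwa [Subgroup.orderOf_mk] at this
      have h6 := Nat.eq_one_of_dvd_coprimes ((Nat.coprime_two_left).mpr hodd) h4 h5
      exact hg1 (orderOf_eq_one_iff.mp h6))
    rw [← charDegree_cast (irr_isChar χ.2), hd] at hm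
    have hm' : e * (Nat.card N - 1) = Nat.card H * m := by exact_mod_cast hm
    have hHle : Nat.card H ≤ e * (Nat.card N - 1) := by
      refine Nat.le_of_dvd ?_ ⟨m, hm'⟩
      have : 0 < Nat.card N - 1 := by omega
      positivity
    have h7 : (Nat.card N - 1) * (e ^ 2 * Nat.card N) ≤ Nat.card N * (e * (Nat.card N - 1)) := by
      rw [← hcardG, ← hccl]
      exact Nat.mul_le_mul hcl hHle
    have h8 : (Nat.card N * (Nat.card N - 1) * e) * e ≤ (Nat.card N * (Nat.card N - 1) * e) * 1 := by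
      calc (Nat.card N * (Nat.card N - 1) * e) * e = (Nat.card N - 1) * (e ^ 2 * Nat.card N) := by ring
        _ ≤ Nat.card N * (e * (Nat.card N - 1)) := h7
        _ = (Nat.card N * (Nat.card N - 1) * e) * 1 := by ring
    have h9 : 0 < Nat.card N * (Nat.card N - 1) * e := by
      have : 0 < Nat.card N - 1 := by omega
      positivity
    have := Nat.le_of_mul_le_mul_left h8 h9
    omega

theorem GagolaData.frobenius (h : GagolaData χ x₀ N) (hG : 2 < Nat.card G) {p : ℕ}
    [hp : Fact p.Prime]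
    (hNp : IsPGroup p N) (hNc : IsMulCommutative N) (hcore : N = pCore p G) :
    ∃ H : Subgroup G, IsFrobeniusComplement H ∧ frobeniusKernel H = (N : Set G) ∧
      Nat.card H + 1 = Nat.card N := by
  classical
  have := Fintype.ofFinite G
  have hnorm := h.normal
  obtain ⟨e, he0, he, hd⟩ := h.exists_e
  have he1 := h.e_eq_one hNp hNc hcore he0 he hd
  have hcardG := h.card_G he hd
  have hN := h.card_gt
  rw [he1, one_pow, one_mul] at hcardG
  have hidx : N.index = Nat.card N - 1 := by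
    have h3 := Subgroup.card_mul_index N
    rw [hcardG, mul_comm (Nat.card N - 1)] at h3
    exact Nat.eq_of_mul_eq_mul_left (by omega) h3
  have hcop : Nat.Coprime (Nat.card N) N.index := by
    rw [hidx]
    have : Nat.card N = (Nat.card N - 1) + 1 := by omega
    rw [this, Nat.add_sub_cancel]
    simp
  obtain ⟨H, hH⟩ := Subgroup.exists_right_complement'_of_coprime hcop
  have hHcard : Nat.card H = Nat.card N - 1 := by
    rw [← hidx]; exact (hH.symm.index_eq_card).symm
  have hinf : N ⊓ H = ⊥ := hH.disjoint.eq_bot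
  have hcopH : ∀ y ∈ H, (orderOf y).Coprime p := by
    intro y hy
    have h1 : orderOf y ∣ Nat.card H := by
      have := orderOf_dvd_natCard (⟨y, hy⟩ : H)
      rwa [Subgroup.orderOf_mk] at this
    rw [hHcard, ← hidx] at h1
    have h2 : p ∣ Nat.card N := h.prime_dvd hNp
    exact Nat.Coprime.coprime_dvd_left h1 (Nat.Coprime.coprime_dvd_right h2 hcop.symm)
  have hN2 : 2 < Nat.card N := by
    by_contra h1
    have h2 : Nat.card N = 2 := by omega
    rw [h2] at hcardG
    omega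
  have hFC : IsFrobeniusComplement H := by
    refine ⟨?_, ?_, ?_⟩
    · intro e1
      rw [e1, Subgroup.card_bot] at hHcard
      omega
    · intro e1
      rw [e1, Subgroup.card_top, hcardG] at hHcard
      have h5 : 0 < Nat.card N - 1 := by omega
      have : (Nat.card N - 1) * Nat.card N = (Nat.card N - 1) * 1 := by rw [hHcard]; ring
      have := Nat.eq_of_mul_eq_mul_left h5 this
      omega
    · intro g hg
      rw [Subgroup.eq_bot_iff_forall]
      intro x hx
      obtain ⟨hx1, hx2⟩ := Subgroup.mem_inf.mp hx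
      rw [Subgroup.mem_pointwise_smul_iff_inv_smul_mem] at hx2
      have hx2' : g⁻¹ * x * g ∈ H := by
        simpa [MulAut.smul_def, mul_assoc] using hx2
      by_contra hxne
      -- write `g = n c`
      obtain ⟨⟨⟨n, hn⟩, ⟨c, hc⟩⟩, hnc⟩ := (hH.existsUnique g).exists
      simp only at hnc
      have hy : n⁻¹ * x * n ∈ H := by
        have h1 := H.mul_mem (H.mul_mem hc hx2') (H.inv_mem hc)
        have e1 : c * (g⁻¹ * x * g) * c⁻¹ = n⁻¹ * x * n := by rw [← hnc]; group
        rwa [e1] at h1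
      -- `x⁻¹ (n⁻¹ x n) ∈ N ∩ H`
      have h1 : x⁻¹ * (n⁻¹ * x * n) ∈ N ⊓ H := by
        refine ⟨?_, H.mul_mem (H.inv_mem hx1) hy⟩
        have h2 : x⁻¹ * n⁻¹ * x⁻¹⁻¹ ∈ N := hnorm.conj_mem n⁻¹ (N.inv_mem hn) x⁻¹
        have e1 : x⁻¹ * (n⁻¹ * x * n) = (x⁻¹ * n⁻¹ * x⁻¹⁻¹) * n := by group
        rw [e1]; exact N.mul_mem h2 hn
      rw [hinf, Subgroup.mem_bot] at h1
      have h2 : x * n = n * x := by
        have h3 : n⁻¹ * x * n = x := by
          calc n⁻¹ * x * n = x * (x⁻¹ * (n⁻¹ * x * n)) := by group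
            _ = x := by rw [h1, mul_one]
        calc x * n = n * (n⁻¹ * x * n) := by group
          _ = n * x := by rw [h3]
      by_cases hn1 : n = 1
      · rw [hn1, one_mul] at hnc
        exact hg (hnc ▸ hc)
      · exact hxne (h.not_comm hNp hNc hn hn1 (hcopH x hx1) h2)
  refine ⟨H, hFC, ?_, by omega⟩
  have hsub : (N : Set G) ⊆ frobeniusKernel H := by
    intro n hn
    by_cases hn1 : n = 1
    · exact Or.inl hn1
    · right
      intro g hg
      rw [Subgroup.mem_pointwise_smul_iff_inv_smul_mem] at hg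
      have hg' : g⁻¹ * n * g ∈ H := by
        simpa [MulAut.smul_def, mul_assoc] using hg
      have h1 : g⁻¹ * n * g ∈ N ⊓ H := by
        refine ⟨?_, hg'⟩
        have := hnorm.conj_mem n hn g⁻¹
        rwa [inv_inv] at this
      rw [hinf, Subgroup.mem_bot] at h1
      apply hn1
      calc n = g * (g⁻¹ * n * g) * g⁻¹ := by group
        _ = 1 := by rw [h1]; group
  have hcardK := H1.frob_card_kernel hFC
  have hidxH : H.index = Nat.card N := hH.index_eq_card
  symm
  refine Set.eq_of_subset_of_ncard_le hsub ?_ (Set.toFinite _)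
  rw [← Nat.card_coe_set_eq, ← Nat.card_coe_set_eq, hcardK, hidxH]
  exact le_rfl

end data

theorem core_of_frobenius [Finite G] {N : Subgroup G} [hnorm : N.Normal] {p : ℕ}
    [hp : Fact p.Prime] (hNp : IsPGroup p N) (hN1 : N ≠ ⊥) {H : Subgroup G}
    (hH : IsFrobeniusComplement H) (hK : frobeniusKernel H = (N : Set G))
    (hcard : Nat.card H + 1 = Nat.card N) : N = pCore p G := by
  apply le_antisymm (H1.le_pCore hnorm hNp)
  have h1 := H1.frob_card_kernel hH
  rw [hK] at h1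
  have h2 : Nat.card N = H.index := h1
  have h3 := Subgroup.card_mul_index H
  rw [← h2] at h3
  have hpH : ¬ p ∣ Nat.card H := by
    intro h4
    obtain ⟨n, hn⟩ := IsPGroup.iff_card.mp hNp
    have h5 : p ∣ Nat.card N := by
      rw [hn]
      apply dvd_pow_self
      rintro rfl
      apply hN1
      rw [← Subgroup.card_eq_one, hn, pow_zero]
    rw [← hcard] at h5
    exact hp.out.one_lt.ne' (Nat.dvd_one.mp ((Nat.dvd_add_right h4).mp h5))
  have h4 := H1.pCore_isPGroup p G
  obtain ⟨m, hm⟩ := IsPGroup.iff_card.mp h4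
  have h5 : Nat.card (pCore p G) ∣ Nat.card N := by
    have h6 := Subgroup.card_subgroup_dvd_card (pCore p G)
    rw [← h3, hm] at h6
    rw [hm]
    exact (Nat.Coprime.pow_left m ((Nat.Prime.coprime_iff_not_dvd hp.out).mpr hpH)).dvd_of_dvd_mul_left h6
  have h6 := Subgroup.eq_of_le_of_card_ge (H1.le_pCore hnorm hNp)
    (Nat.le_of_dvd Nat.card_pos h5)
  rw [← h6]

end Cfsg.Agent.H27
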