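import Cfsg.Agent.H3.Power
import Cfsg.Agent.H3.Berger1
import Cfsg.Agent.H3.BrauerC
import Cfsg.Agent.H26.Cover8
import Cfsg.Agent.H27.Galois
import Cfsg.Agent.H27.Ch12C
import Cfsg.Agent.H25.Fitting
import Cfsg.Agent.H10.Basic

set_option autoImplicit false
set_option linter.style.haveILetI false

/-! # Products of Galois conjugate characters -/

universe u

namespace Cfsg.Agent.H27

open Cfsg Cfsg.Agent.H3 Subgroup
open scoped ComplexConjugate

section

variable {G : Type u} [Group G] [Finite G] {χ : G → ℂ} (hχ : IsIrrCharacter G χ) {k : ℕ}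
  (hk : k.Coprime (Nat.card G)) (hirr : IsIrrCharacter G (χ * pw k χ))

include hχ hk hirr

/-- quasi-primitivity -/
theorem inertia_top_of_prod {N : Subgroup G} (hN : N.Normal) [Fintype N] {θ : N → ℂ}
    (hθ : IsIrrCharacter N θ) (hne : classInner (fun n : N => χ n) θ ≠ 0) :
    inertia hN θ = ⊤ := by
  classical
  haveI := Fintype.ofFinite G
  set T := inertia hN θ with hT
  haveI := Fintype.ofFinite T
  have hNT : N ≤ T := le_inertia hN (irr_classFun hθ)
  obtain ⟨ψ, hψ, hind, -, -⟩ := clifford_corr hN hχ hθ hne T hT hNT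
  have hkT : k.Coprime (Nat.card T) := Nat.Coprime.coprime_dvd_right (Subgroup.card_subgroup_dvd_card T) hk
  have hψk := pw_irr hkT hψ
  have hχk := pw_irr hk hχ
  have hindk : indFun T (pw k ψ) = pw k χ := by rw [pw_ind hk T ψ, hind]
  have hne2 : classInner (fun t : T => pw k χ t) (pw k ψ) ≠ 0 := by
    apply classInner_ne_zero_symm
    rw [← frobenius_reciprocity T _ (irr_classFun hχk), hindk, classInner_self_of_irr hχk]
    exact one_ne_zero
  have hrest := isChar_sub_irr (isChar_restrict T (irr_isChar hχk)) hψk hne2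
  set rest : T → ℂ := (fun t : T => pw k χ t) - pw k ψ with hrestdef
  have h1 : χ * pw k χ = indFun T (ψ * pw k ψ) + indFun T (ψ * rest) := by
    rw [← indFun_add, ← mul_add, hrestdef, add_sub_cancel]
    have h2 := indFun_mul_restrict T ψ (irr_classFun hχk)
    rw [hind] at h2
    exact h2.symm
  have hψ1 : ψ 1 ≠ 0 := irr_one_ne_zero hψ
  have hidx : ((T.index : ℕ) : ℂ) ≠ 0 := by exact_mod_cast Subgroup.index_ne_zero_of_finite
  have h2 := sum_irr hirr (isChar_ind T (isChar_mul (irr_isChar hψ) (irr_isChar hψk)))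
    (isChar_ind T (isChar_mul (irr_isChar hψ) hrest)) h1 (by
      intro h
      have h3 := congrFun h 1
      rw [indFun_one_apply, Pi.mul_apply, pw_one] at h3
      exact mul_ne_zero hidx (mul_ne_zero hψ1 hψ1) h3)
  have h3 := congrFun h2 1
  rw [indFun_one_apply, Pi.mul_apply] at h3
  have h4 : rest 1 = 0 := by
    rcases mul_eq_zero.mp h3 with h4 | h4
    · exact absurd h4 hidx
    · exact (mul_eq_zero.mp h4).resolve_left hψ1
  have h5 : pw k χ ((1 : T) : G) - pw k ψ 1 = 0 := h4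
  rw [Subgroup.coe_one, pw_one, pw_one] at h5
  have h6 : χ 1 = (T.index : ℂ) * ψ 1 := by
    rw [← hind, indFun_one_apply]
  rw [h6] at h5
  have h7 : (T.index : ℂ) = 1 := by
    have h8 : ((T.index : ℂ) - 1) * ψ 1 = 0 := by linear_combination h5
    rcases mul_eq_zero.mp h8 with h9 | h9
    · linear_combination h9
    · exact absurd h9 hψ1
  have h8 : T.index = 1 := by exact_mod_cast h7
  exact Subgroup.index_eq_one.mp h8

theorem abelian_le_center (hfaith : ∀ g : G, χ g = χ 1 → g = 1) {A : Subgroup G} (hA : A.Normal)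
    (hcomm : ∀ a ∈ A, ∀ b ∈ A, a * b = b * a) : A ≤ Subgroup.center G := by
  classical
  haveI := Fintype.ofFinite G
  haveI := Fintype.ofFinite A
  obtain ⟨θ, hθ, hne, -, -⟩ := exists_under hA hχ
  have hne' := hne
  have htop := inertia_top_of_prod hχ hk hirr hA hθ hne'
  -- `θ` is linear
  have hθ1 : θ 1 = 1 := by
    haveI : IsMulCommutative A := ⟨⟨fun a b => Subtype.ext (hcomm a a.2 b b.2)⟩⟩
    exact irr_degree_one_of_comm hθ
  obtain ⟨μ, hμ⟩ := exists_hom_of_one (irr_isChar hθ) hθ1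
  have hinv : ∀ x, cj hA x θ = θ := by
    intro x
    have : x ∈ inertia hA θ := by rw [htop]; exact mem_top x
    exact this
  have hres := clifford_invariant hA hχ hθ hinv hne'
  set e := classInner (fun h : A => χ h) θ with he
  have hval : ∀ a : A, χ a = e * θ a := fun a => congrFun hres a
  intro a ha
  rw [Subgroup.mem_center_iff]
  intro g
  have hn : g * a * g⁻¹ * a⁻¹ ∈ A := A.mul_mem (hA.conj_mem a ha g) (A.inv_mem ha)
  have h1 : χ (g * a * g⁻¹ * a⁻¹) = χ 1 := by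
    have h2 := hval ⟨_, hn⟩
    have h3 := hval 1
    rw [Subgroup.coe_one] at h3
    rw [h3]
    rw [h2]
    congr 1
    have h4 : (⟨g * a * g⁻¹ * a⁻¹, hn⟩ : A) = ⟨g * a * g⁻¹, hA.conj_mem a ha g⟩ * (⟨a, ha⟩ : A)⁻¹ :=
      Subtype.ext rfl
    have h5 := congrFun (hinv g) ⟨a, ha⟩
    have h6 : θ ⟨g * a * g⁻¹, hA.conj_mem a ha g⟩ = θ ⟨a, ha⟩ := by
      have hg : g ∈ inertia hA θ := by rw [htop]; exact mem_top g
      exact (mem_inertia' hA θ g).mp hg ⟨a, ha⟩
    rw [h4, hμ, map_mul, map_inv, hθ1]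
    rw [hμ, hμ] at h6
    have h7 : μ ⟨g * a * g⁻¹, hA.conj_mem a ha g⟩ = μ ⟨a, ha⟩ := Units.ext h6
    rw [h7, mul_inv_cancel]; simp
  have h2 := hfaith _ h1
  have h3 : g * a * g⁻¹ = a := by
    have := mul_inv_eq_one.mp h2
    exact this
  exact mul_inv_eq_iff_eq_mul.mp h3


omit hχ hk hirr in
theorem classInner_mul_conj_ne_zero [Fintype G] {T : Subgroup G} [Fintype T] {F : G → ℂ}
    (h1 : F 1 ≠ 0) {ν : T →* ℂˣ} (hν : ∀ t : T, (ν t : ℂ) * F t = F t) :
    classInner (fun t : T => F t * conj (F t)) (fun t => (ν t : ℂ)) ≠ 0 := by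
  have hT : (Nat.card T : ℝ) ≠ 0 := by exact_mod_cast Nat.card_pos.ne'
  have h2 : classInner (fun t : T => F t * conj (F t)) (fun t => (ν t : ℂ)) =
      (((Nat.card T : ℝ)⁻¹ * ∑ t : T, Complex.normSq (F t) : ℝ) : ℂ) := by
    rw [classInner]
    push_cast
    congr 1
    apply Finset.sum_congr rfl
    intro t _
    by_cases h0 : F t = 0
    · rw [h0]; simp
    · have h3 : (ν t : ℂ) = 1 := by
        have := hν t
        exact mul_right_cancel₀ h0 (by rw [this, one_mul])
      rw [h3, map_one, mul_one, Complex.mul_conj]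
  rw [h2]
  have h3 : 0 < ∑ t : T, Complex.normSq (F t) := by
    have h4 : Complex.normSq (F ((1 : T) : G)) ≤ ∑ t : T, Complex.normSq (F t) :=
      Finset.single_le_sum (f := fun t : T => Complex.normSq (F t))
        (fun t _ => Complex.normSq_nonneg _) (Finset.mem_univ 1)
    have h5 : 0 < Complex.normSq (F ((1 : T) : G)) := by
      rw [Subgroup.coe_one]
      exact Complex.normSq_pos.mpr h1
    linarith
  have h4 : ((Nat.card T : ℝ)⁻¹ * ∑ t : T, Complex.normSq (F t) : ℝ) ≠ 0 :=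
    mul_ne_zero (inv_ne_zero hT) h3.ne'
  exact_mod_cast h4

theorem no_class_two (hfaith : ∀ g : G, χ g = χ 1 → g = 1) {E : Subgroup G} (hE : E.Normal)
    (hcomm : ∀ a ∈ E, ∀ b ∈ E, a * b * a⁻¹ * b⁻¹ ∈ Subgroup.center G)
    (hZ : ∀ z ∈ E, (∀ y ∈ E, z * y = y * z) → z ∈ Subgroup.center G) {x : G} (hx : x ∈ E)
    (hxZ : x ∉ Subgroup.center G) : False := by
  classical
  haveI := Fintype.ofFinite G
  haveI := Fintype.ofFinite E
  haveI := Fintype.ofFinite (IrrCharacter G)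
  have hχ1 := irr_one_ne_zero hχ
  have hcm : ∀ z ∈ Subgroup.center G, ∀ g : G, χ (z * g) = χ z / χ 1 * χ g := by
    intro z hz g
    have := irr_central_mul hχ hz g
    field_simp
    linear_combination this
  -- the central character
  let lamM : Subgroup.center G →* ℂ := {
    toFun := fun z => χ z / χ 1
    map_one' := by
      rw [Subgroup.coe_one]; exact div_self hχ1
    map_mul' := fun z z' => by
      rw [Subgroup.coe_mul, hcm z z.2]
      field_simp }
  let lam : Subgroup.center G →* ℂˣ := lamM.toHomUnits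
  have hlam : ∀ z : Subgroup.center G, (lam z : ℂ) = χ z / χ 1 := fun z => rfl
  have hlaminj : ∀ z z' : Subgroup.center G, lam z = lam z' → z = z' := by
    intro z z' h
    have h1 : lam (z * z'⁻¹) = 1 := by rw [map_mul, map_inv, h, mul_inv_cancel]
    have h2 : χ ((z * z'⁻¹ : Subgroup.center G) : G) = χ 1 := by
      have h3 := hlam (z * z'⁻¹)
      rw [h1, Units.val_one, eq_div_iff hχ1, one_mul] at h3
      exact h3.symm
    have h3 := hfaith _ h2
    have h4 : z * z'⁻¹ = 1 := Subtype.ext h3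
    exact mul_inv_eq_one.mp h4
  have hcen : ∀ z ∈ Subgroup.center G, ∀ g : G, z * g = g * z := fun z hz g =>
    (Subgroup.mem_center_iff.mp hz g).symm
  -- the group `T`
  have hmul : ∀ a b : G, a⁻¹ * x * a * x⁻¹ ∈ Subgroup.center G →
      (a * b)⁻¹ * x * (a * b) * x⁻¹ = (a⁻¹ * x * a * x⁻¹) * (b⁻¹ * x * b * x⁻¹) := by
    intro a b ha
    calc (a * b)⁻¹ * x * (a * b) * x⁻¹ = b⁻¹ * ((a⁻¹ * x * a * x⁻¹) * (x * b * x⁻¹)) := by group
      _ = b⁻¹ * ((x * b * x⁻¹) * (a⁻¹ * x * a * x⁻¹)) := by rw [hcen _ ha]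
      _ = (b⁻¹ * x * b * x⁻¹) * (a⁻¹ * x * a * x⁻¹) := by group
      _ = (a⁻¹ * x * a * x⁻¹) * (b⁻¹ * x * b * x⁻¹) := by rw [← hcen _ ha]
  let T : Subgroup G := {
    carrier := {g | g⁻¹ * x * g * x⁻¹ ∈ Subgroup.center G}
    one_mem' := by
      change (1 : G)⁻¹ * x * 1 * x⁻¹ ∈ Subgroup.center G
      have : (1 : G)⁻¹ * x * 1 * x⁻¹ = 1 := by group
      rw [this]; exact one_mem _
    mul_mem' := fun {a b} ha hb => by
      change (a * b)⁻¹ * x * (a * b) * x⁻¹ ∈ Subgroup.center G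
      rw [hmul a b ha]
      exact mul_mem ha hb
    inv_mem' := fun {a} ha => by
      change a⁻¹⁻¹ * x * a⁻¹ * x⁻¹ ∈ Subgroup.center G
      have ha' : a⁻¹ * x * a * x⁻¹ ∈ Subgroup.center G := ha
      have h1 : a⁻¹⁻¹ * x * a⁻¹ * x⁻¹ = (a⁻¹ * x * a * x⁻¹)⁻¹ := by
        have h2 : a * (a⁻¹ * x * a * x⁻¹)⁻¹ * a⁻¹ = (a⁻¹ * x * a * x⁻¹)⁻¹ := by
          rw [← hcen _ (inv_mem ha') a]; group
        rw [← h2]; group
      rw [h1]
      exact inv_mem ha' }
  have hTmem : ∀ g : G, g ∈ T ↔ g⁻¹ * x * g * x⁻¹ ∈ Subgroup.center G := fun g => Iff.rfl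
  haveI := Fintype.ofFinite T
  have hET : E ≤ T := by
    intro g hg
    rw [hTmem]
    have := hcomm g⁻¹ (inv_mem hg) x hx
    rwa [inv_inv] at this
  let wT : T →* Subgroup.center G := {
    toFun := fun g => ⟨(g : G)⁻¹ * x * g * x⁻¹, g.2⟩
    map_one' := Subtype.ext (by
      change ((1 : T) : G)⁻¹ * x * ((1 : T) : G) * x⁻¹ = 1
      rw [Subgroup.coe_one]; group)
    map_mul' := fun a b => Subtype.ext (hmul a b a.2) }
  let ν : T →* ℂˣ := lam.comp wT
  let μ : E →* ℂˣ := ν.comp (Subgroup.inclusion hET)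
  have hνval : ∀ g : T, (ν g : ℂ) = χ ((g : G)⁻¹ * x * g * x⁻¹) / χ 1 := fun g => rfl
  -- the inertia group
  have hI : inertia hE (fun y => (μ y : ℂ)) ≤ T := by
    intro g hg
    rw [mem_inertia'] at hg
    set x' := g⁻¹ * x * g with hx'
    have hx'E : x' ∈ E := by
      have := hE.conj_mem x hx g⁻¹
      rwa [inv_inv] at this
    have hcom : ∀ y ∈ E, (x⁻¹ * x') * y = y * (x⁻¹ * x') := by
      intro y hy
      have h1 := hg ⟨y, hy⟩
      have h2 : lam ⟨(g * y * g⁻¹)⁻¹ * x * (g * y * g⁻¹) * x⁻¹, hET (hE.conj_mem y hy g)⟩ =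
          lam ⟨y⁻¹ * x * y * x⁻¹, hET hy⟩ := Units.ext h1
      have h3 : (g * y * g⁻¹)⁻¹ * x * (g * y * g⁻¹) * x⁻¹ = y⁻¹ * x * y * x⁻¹ :=
        congrArg Subtype.val (hlaminj _ _ h2)
      have h4 : y⁻¹ * x' * y * x'⁻¹ ∈ Subgroup.center G := by
        have := hcomm y⁻¹ (inv_mem hy) x' hx'E
        rwa [inv_inv] at this
      have h5 : (g * y * g⁻¹)⁻¹ * x * (g * y * g⁻¹) * x⁻¹ = y⁻¹ * x' * y * x'⁻¹ := by
        have h6 : g * (y⁻¹ * x' * y * x'⁻¹) * g⁻¹ = y⁻¹ * x' * y * x'⁻¹ := by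
          rw [← hcen _ h4 g]; group
        rw [← h6, hx']; group
      rw [h5] at h3
      have h7 : x' * y * x'⁻¹ = x * y * x⁻¹ := by
        calc x' * y * x'⁻¹ = y * (y⁻¹ * x' * y * x'⁻¹) := by group
          _ = y * (y⁻¹ * x * y * x⁻¹) := by rw [h3]
          _ = x * y * x⁻¹ := by group
      calc x⁻¹ * x' * y = x⁻¹ * (x' * y * x'⁻¹) * x' := by group
        _ = x⁻¹ * (x * y * x⁻¹) * x' := by rw [h7]
        _ = y * (x⁻¹ * x') := by group
    have h8 := hZ (x⁻¹ * x') (mul_mem (inv_mem hx) hx'E) hcom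
    rw [hTmem]
    have h9 : g⁻¹ * x * g * x⁻¹ = x * (x⁻¹ * x') * x⁻¹ := by rw [hx']; group
    rw [h9, ← hcen _ h8 x]
    have h10 : x⁻¹ * x' * x * x⁻¹ = x⁻¹ * x' := by group
    rw [h10]
    exact h8
  -- the induced character
  have hνirr : IsIrrCharacter T (fun t => (ν t : ℂ)) := isIrr_of_hom ν
  have hind0 : indFun T (fun t => (ν t : ℂ)) ≠ 0 := by
    intro h
    have h1 := congrFun h 1
    rw [indFun_one_apply, map_one] at h1
    have h2 : ((T.index : ℕ) : ℂ) ≠ 0 := by exact_mod_cast Subgroup.index_ne_zero_of_finite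
    apply h2
    simpa using h1
  obtain ⟨ψ, hψ⟩ := exists_constituent (isChar_ind T (irr_isChar hνirr)) hind0
  rw [frobenius_reciprocity T _ (irr_classFun ψ.2)] at hψ
  have hψ' := classInner_ne_zero_symm hψ
  have hψind : indFun T (fun t => (ν t : ℂ)) = (ψ : G → ℂ) := by
    refine H26.ind_eq_of_inertia_le (θ := ⟨_, isIrr_of_hom μ⟩) (ψ := ⟨_, hνirr⟩) hE hET hI ?_ hψ'
    have h1 : (fun n : E => ((ν ⟨(n : G), hET n.2⟩ : ℂˣ) : ℂ)) = fun n : E => (μ n : ℂ) := rfl
    change classInner (fun n : E => ((ν ⟨(n : G), hET n.2⟩ : ℂˣ) : ℂ)) (fun n : E => (μ n : ℂ)) ≠ 0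
    rw [h1, classInner_self_of_irr (isIrr_of_hom μ)]
    exact one_ne_zero
  -- `ψ` is not principal
  have hψ1 : (⟨_, isIrr_one⟩ : IrrCharacter G) ≠ ψ := by
    intro h1
    have h2 : classInner (fun t : T => (1 : ℂ)) (fun t => (ν t : ℂ)) ≠ 0 := by
      rw [← h1] at hψ'
      exact hψ'
    have h3 : (fun t : T => (1 : ℂ)) = fun t => (ν t : ℂ) := by
      by_contra hne
      exact h2 (classInner_of_irr_ne isIrr_one hνirr hne)
    apply hxZ
    apply hZ x hx
    intro y hy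
    have h4 := congrFun h3 ⟨y, hET hy⟩
    have h5 : lam (wT ⟨y, hET hy⟩) = lam 1 := by
      rw [map_one]
      exact Units.ext h4.symm
    have h6 : y⁻¹ * x * y * x⁻¹ = 1 := congrArg Subtype.val (hlaminj _ _ h5)
    calc x * y = y * (y⁻¹ * x * y * x⁻¹) * x := by group
      _ = y * x := by rw [h6, mul_one]
  -- invariance of `χ`
  have hνχ : ∀ t : T, (ν t : ℂ) * χ t = χ t := by
    intro t
    have h1 : χ (x * t * x⁻¹) = χ t := irr_classFun hχ _ _
    have h2 : x * (t : G) * x⁻¹ = ((t : G)⁻¹ * x * t * x⁻¹) * t := by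
      rw [hcen _ t.2]; group
    rw [h2, hcm _ t.2] at h1
    exact h1
  have hχk := pw_irr hk hχ
  have hνχk : ∀ t : T, (ν t : ℂ) * pw k χ t = pw k χ t := by
    intro t
    by_cases h0 : χ t = 0
    · have : pw k χ t = 0 := (char_pow_coprime_ne_zero (irr_isChar hχ) hk).mpr h0
      rw [this, mul_zero]
    · have h3 : (ν t : ℂ) = 1 := mul_right_cancel₀ h0 (by rw [hνχ t, one_mul])
      rw [h3, one_mul]
  -- the two products
  have hAchar : ∀ F : G → ℂ, IsIrrCharacter G F → IsCharacter G (fun g => F g * conj (F g)) :=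
    fun F hF => isChar_mul (irr_isChar hF) (isChar_conj (irr_isChar hF))
  have hA1 : ∀ F : G → ℂ, IsIrrCharacter G F →
      classInner (fun g => F g * conj (F g)) (fun _ => 1) = 1 := by
    intro F hF
    refine Eq.trans ?_ (classInner_self_of_irr hF)
    simp only [classInner]
    congr 1
    apply Finset.sum_congr rfl
    intro g _
    rw [map_one, mul_one]
  have hAψ : ∀ F : G → ℂ, IsIrrCharacter G F → (∀ t : T, (ν t : ℂ) * F t = F t) →
      classInner (fun g => F g * conj (F g)) (ψ : G → ℂ) ≠ 0 := by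
    intro F hF hFν
    rw [← hψind, frobenius_reciprocity' T _ (char_classFun (hAchar F hF))]
    exact classInner_mul_conj_ne_zero (irr_one_ne_zero hF) hFν
  have hnorm : classInner (fun g => χ g * conj (χ g)) (fun g => pw k χ g * conj (pw k χ g)) = 1 := by
    rw [← classInner_self_of_irr hirr]
    simp only [classInner]
    congr 1
    apply Finset.sum_congr rfl
    intro g _
    rw [Pi.mul_apply, map_mul, map_mul, Complex.conj_conj]; ring
  rw [classInner_eq_sum (char_classFun (hAchar χ hχ))] at hnorm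
  choose m hm using fun φ : IrrCharacter G => classInner_char_nat (hAchar χ hχ) (irr_isChar φ.2)
  choose n hn using fun φ : IrrCharacter G =>
    classInner_char_nat (hAchar (pw k χ) hχk) (irr_isChar φ.2)
  have hsum : ∑ φ : IrrCharacter G, m φ * n φ = 1 := by
    have h1 : ((∑ φ : IrrCharacter G, m φ * n φ : ℕ) : ℂ) = 1 := by
      rw [← hnorm]
      push_cast
      apply Finset.sum_congr rfl
      intro φ _
      rw [hm, hn, Complex.conj_natCast]
    exact_mod_cast h1
  have h1 : m ⟨_, isIrr_one⟩ * n ⟨_, isIrr_one⟩ = 1 := by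
    have e1 := hm ⟨_, isIrr_one⟩
    have e2 := hn ⟨_, isIrr_one⟩
    have e3 : (m ⟨_, isIrr_one⟩ : ℂ) = 1 := by rw [← e1]; exact hA1 χ hχ
    have e4 : (n ⟨_, isIrr_one⟩ : ℂ) = 1 := by rw [← e2]; exact hA1 _ hχk
    have e5 : m ⟨_, isIrr_one⟩ = 1 := by exact_mod_cast e3
    have e6 : n ⟨_, isIrr_one⟩ = 1 := by exact_mod_cast e4
    rw [e5, e6]
  have h2 : 1 ≤ m ψ * n ψ := by
    have e1 : m ψ ≠ 0 := by
      intro h
      apply hAψ χ hχ hνχ
      rw [hm, h]; simp
    have e2 : n ψ ≠ 0 := by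
      intro h
      apply hAψ _ hχk hνχk
      rw [hn, h]; simp
    exact Nat.one_le_iff_ne_zero.mpr (Nat.mul_ne_zero e1 e2)
  have h3 : m ⟨_, isIrr_one⟩ * n ⟨_, isIrr_one⟩ + m ψ * n ψ ≤ ∑ φ : IrrCharacter G, m φ * n φ := by
    rw [← Finset.sum_pair (f := fun φ => m φ * n φ) hψ1]
    exact Finset.sum_le_sum_of_subset (Finset.subset_univ _)
  omega

theorem fitting_eq_center (hfaith : ∀ g : G, χ g = χ 1 → g = 1) :
    fittingSubgroup G = Subgroup.center G := by
  classical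
  apply le_antisymm
  · by_contra hne
    set F := fittingSubgroup G with hF
    have hFn : F.Normal := H25.fitting_normal
    have hFnil : Group.IsNilpotent F := H25.fitting_nilpotent
    -- the image in `G / Z(G)`
    set Z := Subgroup.center G with hZdef
    set π := QuotientGroup.mk' Z with hπ
    have hker : ∀ g : G, π g = 1 ↔ g ∈ Z := fun g => by
      rw [hπ, QuotientGroup.mk'_apply, QuotientGroup.eq_one_iff]
    have hFbn : Nontrivial (F.map π) := by
      obtain ⟨x, hx, hxZ⟩ := SetLike.not_le_iff_exists.mp hne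
      refine ⟨⟨⟨π x, x, hx, rfl⟩, 1, fun h => hxZ ((hker x).mp (congrArg Subtype.val h))⟩⟩
    have hFbnil : Group.IsNilpotent (F.map π) :=
      Group.nilpotent_of_surjective (π.subgroupMap F) (π.subgroupMap_surjective F)
    have hc := Group.IsNilpotent.center_ne_bot (G := F.map π)
    rw [← Subgroup.nontrivial_iff_ne_bot] at hc
    obtain ⟨⟨⟨xb, hxb⟩, hxc⟩, hx1⟩ : ∃ y : Subgroup.center (F.map π), y ≠ 1 := exists_ne 1
    obtain ⟨x, hx, rfl⟩ := hxb
    have hxZ : x ∉ Z := by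
      intro h
      apply hx1
      apply Subtype.ext
      apply Subtype.ext
      exact (hker x).mpr h
    have hxcomm : ∀ y ∈ F, x * y * x⁻¹ * y⁻¹ ∈ Z := by
      intro y hy
      rw [← hker]
      have h1 := Subgroup.mem_center_iff.mp hxc ⟨π y, y, hy, rfl⟩
      have h2 : π y * π x = π x * π y := congrArg Subtype.val h1
      rw [map_mul, map_mul, map_mul, map_inv, map_inv, ← h2]
      group
    -- the subgroup `E`
    let E : Subgroup G := {
      carrier := {g | g ∈ F ∧ ∀ y ∈ F, g * y * g⁻¹ * y⁻¹ ∈ Z}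
      one_mem' := ⟨one_mem F, fun y _ => by
        have : (1 : G) * y * 1⁻¹ * y⁻¹ = 1 := by group
        rw [this]; exact one_mem _⟩
      mul_mem' := fun {a b} ha hb => ⟨mul_mem ha.1 hb.1, fun y hy => by
        have h1 := ha.2 (b * y * b⁻¹) (F.mul_mem (F.mul_mem hb.1 hy) (F.inv_mem hb.1))
        have h2 := hb.2 y hy
        have h3 : a * b * y * (a * b)⁻¹ * y⁻¹ =
            (a * (b * y * b⁻¹) * a⁻¹ * (b * y * b⁻¹)⁻¹) * (b * y * b⁻¹ * y⁻¹) := by group
        rw [h3]
        exact mul_mem h1 h2⟩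
      inv_mem' := fun {a} ha => ⟨inv_mem ha.1, fun y hy => by
        have h1 := ha.2 (a⁻¹ * y * a) (F.mul_mem (F.mul_mem (F.inv_mem ha.1) hy) ha.1)
        have h3 : a⁻¹ * y * a⁻¹⁻¹ * y⁻¹ = (a * (a⁻¹ * y * a) * a⁻¹ * (a⁻¹ * y * a)⁻¹)⁻¹ := by group
        rw [h3]
        exact inv_mem h1⟩ }
    have hEmem : ∀ g, g ∈ E ↔ g ∈ F ∧ ∀ y ∈ F, g * y * g⁻¹ * y⁻¹ ∈ Z := fun g => Iff.rfl
    have hZn : Z.Normal := inferInstance
    have hEn : E.Normal := by
      refine ⟨fun g hg c => ?_⟩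
      rw [hEmem] at hg ⊢
      refine ⟨hFn.conj_mem g hg.1 c, fun y hy => ?_⟩
      have h1 := hg.2 (c⁻¹ * y * c) (by
        have := hFn.conj_mem y hy c⁻¹
        rwa [inv_inv] at this)
      have h2 := hZn.conj_mem _ h1 c
      have h3 : c * (g * (c⁻¹ * y * c) * g⁻¹ * (c⁻¹ * y * c)⁻¹) * c⁻¹ =
          c * g * c⁻¹ * y * (c * g * c⁻¹)⁻¹ * y⁻¹ := by group
      rwa [h3] at h2
    have hxE : x ∈ E := ⟨hx, hxcomm⟩
    have hAn : (E ⊓ centralizer (E : Set G)).Normal := by
      haveI := hEn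
      infer_instance
    have hA := abelian_le_center hχ hk hirr hfaith hAn (by
      intro a ha b hb
      exact (mem_centralizer_iff.mp hb.2 a ha.1))
    refine no_class_two hχ hk hirr hfaith hEn (fun a ha b hb => ha.2 b hb.1) ?_ hxE hxZ
    intro z hz hcomm
    apply hA
    refine ⟨hz, ?_⟩
    change z ∈ centralizer (E : Set G)
    rw [mem_centralizer_iff]
    intro y hy
    exact (hcomm y hy).symm
  · exact H10.center_le_fitting G

end

end Cfsg.Agent.H27
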