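import Mathlib
import Cfsg.Agent.H26.Defect
import Cfsg.Agent.H26.FM
import Cfsg.Agent.H27.Md2

set_option autoImplicit false
set_option linter.style.haveILetI false

/-!
# Higman's criterion for block idempotents
-/

namespace Cfsg.Agent.H27.Md

open Module Cfsg Cfsg.Agent.H26 Cfsg.Agent.H3 MonoidAlgebra

universe u

section coset

variable {G : Type u} [Group G] [Fintype G]

theorem sum_out_mul {E : Type*} [AddCommMonoid E] (Q : Subgroup G) [Fintype (G ⧸ Q)] (F : G → E)
    (hF : ∀ x, ∀ u ∈ Q, F (x * u) = F x) (h : G) :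
    ∑ q : G ⧸ Q, F (h * q.out) = ∑ q : G ⧸ Q, F q.out := by
  refine Fintype.sum_equiv (MulAction.toPerm h : Equiv.Perm (G ⧸ Q)) _ _ fun q => ?_
  have h1 : ((h • q : G ⧸ Q).out : G ⧸ Q) = ((h * q.out : G) : G ⧸ Q) := by
    rw [QuotientGroup.out_eq']
    conv_lhs => rw [← QuotientGroup.out_eq' q]
    rfl
  have h2 := QuotientGroup.eq.mp h1
  have h3 : h * q.out = (h • q : G ⧸ Q).out * ((h • q : G ⧸ Q).out⁻¹ * (h * q.out)) := by group
  rw [h3, hF _ _ h2]
  rfl

theorem sum_group_eq (Q : Subgroup G) [Fintype (G ⧸ Q)] (F : G → ℕ)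
    (hF : ∀ x, ∀ u ∈ Q, F (x * u) = F x) :
    ∑ x : G, F x = Nat.card Q * ∑ q : G ⧸ Q, F q.out := by
  classical
  haveI := Fintype.ofFinite Q
  rw [← Finset.sum_fiberwise Finset.univ (fun x : G => (x : G ⧸ Q)) F, Finset.mul_sum]
  apply Finset.sum_congr rfl
  intro q _
  have h1 : ∀ x ∈ Finset.univ.filter (fun x : G => (x : G ⧸ Q) = q), F x = F q.out := by
    intro x hx
    have h2 : ((q.out : G) : G ⧸ Q) = (x : G ⧸ Q) := by
      rw [QuotientGroup.out_eq', (Finset.mem_filter.mp hx).2]
    have h3 := QuotientGroup.eq.mp h2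
    have h4 : x = q.out * (q.out⁻¹ * x) := by group
    rw [h4, hF _ _ h3]
  rw [Finset.sum_congr rfl h1, Finset.sum_const, smul_eq_mul]
  congr 1
  rw [Nat.card_eq_fintype_card, ← Finset.card_univ]
  symm
  apply Finset.card_bij (fun (u : Q) _ => q.out * (u : G))
  · intro u _
    rw [Finset.mem_filter]
    refine ⟨Finset.mem_univ _, ?_⟩
    conv_rhs => rw [← QuotientGroup.out_eq' q]
    rw [eq_comm, QuotientGroup.eq, inv_mul_cancel_left]
    exact u.2
  · intro u _ v _ huv
    exact Subtype.ext (mul_left_cancel huv)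
  · intro x hx
    have h2 : ((q.out : G) : G ⧸ Q) = (x : G ⧸ Q) := by
      rw [QuotientGroup.out_eq', (Finset.mem_filter.mp hx).2]
    exact ⟨⟨q.out⁻¹ * x, QuotientGroup.eq.mp h2⟩, Finset.mem_univ _, by simp⟩

open Classical in
theorem card_fiber_quot {g y : G} (Q : Subgroup G) [Fintype (G ⧸ Q)]
    (hQ : Q ≤ Subgroup.centralizer ({g} : Set G)) {m : ℕ}
    (hm : Nat.card (Subgroup.centralizer ({g} : Set G)) = Nat.card Q * m) :
    (∑ q : G ⧸ Q, if q.out * g * q.out⁻¹ = y then 1 else 0) = if IsConj g y then m else 0 := by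
  have h1 := sum_group_eq Q (fun x => if x * g * x⁻¹ = y then 1 else 0) (by
    intro x u hu
    have h2 : x * u * g * (x * u)⁻¹ = x * g * x⁻¹ := by
      have h3 := Subgroup.mem_centralizer_singleton_iff.mp (hQ hu)
      calc x * u * g * (x * u)⁻¹ = x * (u * g) * u⁻¹ * x⁻¹ := by group
        _ = x * g * x⁻¹ := by rw [h3]; group
    rw [h2])
  apply Nat.eq_of_mul_eq_mul_left (Nat.card_pos : 0 < Nat.card Q)
  rw [← h1]
  split_ifs with h
  · rw [← hm, ← card_conj_fiber g y h, Nat.card_eq_fintype_card, Fintype.card_subtype,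
      Finset.card_filter]
  · rw [mul_zero]
    apply Finset.sum_eq_zero
    intro x _
    rw [if_neg]
    intro h2
    exact h (isConj_iff.mpr ⟨x, h2⟩)

end coset

variable {k : Type} [Field k] {G : Type u} [Group G] [Fintype G] {p : ℕ} [hp : Fact p.Prime]
  [CharP k p]

open Classical in
/-- The block idempotent as a relative trace. -/
theorem higman {e : MonoidAlgebra k G} {P : Subgroup G} (he : e ∈ Zc k (⊤ : Subgroup G))
    (hD : IsDef p ⊤ e P) :
    ∃ (I : Type u) (_ : Fintype I) (γ : I → k) (x g : I → G),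
      (e = ∑ i, γ i • single (x i * g i * (x i)⁻¹) 1) ∧
      ∀ (V : Type) [AddCommGroup V] [Module k V]
        (Φ Φ' : MonoidAlgebra k G →ₐ[k] Module.End k V) (Y : V →ₗ[k] V)
        (_ : ∀ u ∈ P, Φ (single u 1) * Y = Y * Φ' (single u 1)) (h : G),
        Φ (single h 1) * (∑ i, γ i • (Φ (single (x i) 1) * Y * Φ' (single (g i) 1) *
          Φ' (single (x i)⁻¹ 1))) =
        (∑ i, γ i • (Φ (single (x i) 1) * Y * Φ' (single (g i) 1) *
          Φ' (single (x i)⁻¹ 1))) * Φ' (single h 1) := by
  have hrep : ∀ l : ConjClasses G, ∃ (g : G) (Q : Subgroup G) (m : ℕ), ConjClasses.mk g = l ∧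
      Q ≤ Subgroup.centralizer ({g} : Set G) ∧
      Nat.card (Subgroup.centralizer ({g} : Set G)) = Nat.card Q * m ∧
      (e.coeff g ≠ 0 → ¬ p ∣ m ∧ Q ≤ P) := by
    intro l
    obtain ⟨g, rfl⟩ := ConjClasses.mk_surjective l
    by_cases h0 : e.coeff g = 0
    · refine ⟨g, ⊥, Nat.card (Subgroup.centralizer ({g} : Set G)), rfl, bot_le, ?_, ?_⟩
      · rw [Subgroup.card_bot, one_mul]
      · intro h; exact absurd h0 h
    · obtain ⟨Q, hQ, hQp, m, hm, hcard⟩ := exists_sylow_cent (p := p) g
      have hQC : Q ≤ Subgroup.centralizer ({g} : Set G) := by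
        intro q hq
        exact Subgroup.mem_centralizer_singleton_iff.mpr (hQ q hq)
      have hbr : br Q e ≠ 0 := by
        intro h1
        apply h0
        have h2 : g ∈ Subgroup.centralizer (Q : Set G) := by
          rw [Subgroup.mem_centralizer_iff]
          intro q hq
          exact hQ q hq
        rw [← coeff_br_of_mem e h2, h1]
        rfl
      obtain ⟨h, -, hle⟩ := hD.2.2.2 Q le_top hQp hbr
      refine ⟨h * g * h⁻¹, cg Q h, m, ?_, ?_, ?_, ?_⟩
      · rw [ConjClasses.mk_eq_mk_iff_isConj]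
        exact (isConj_iff.mpr ⟨h, rfl⟩).symm
      · rintro _ ⟨q, hq, rfl⟩
        rw [Subgroup.mem_centralizer_singleton_iff]
        change h * q * h⁻¹ * (h * g * h⁻¹) = h * g * h⁻¹ * (h * q * h⁻¹)
        have h3 := hQ q hq
        calc h * q * h⁻¹ * (h * g * h⁻¹) = h * (q * g) * h⁻¹ := by group
          _ = h * (g * q) * h⁻¹ := by rw [h3.eq]
          _ = h * g * h⁻¹ * (h * q * h⁻¹) := by group
      · rw [card_cg, ← hcard]
        have h4 : (Subgroup.centralizer ({h * g * h⁻¹} : Set G)) =
            cg (Subgroup.centralizer ({g} : Set G)) h := by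
          ext y
          rw [mem_cg, Subgroup.mem_centralizer_singleton_iff, Subgroup.mem_centralizer_singleton_iff]
          constructor
          · intro h5
            calc h⁻¹ * y * h * g = h⁻¹ * (y * (h * g * h⁻¹)) * h := by group
              _ = g * (h⁻¹ * y * h) := by rw [h5]; group
          · intro h5
            calc y * (h * g * h⁻¹) = h * (h⁻¹ * y * h * g) * h⁻¹ := by group
              _ = h * g * h⁻¹ * y := by rw [h5]; group
        rw [h4, card_cg]
      · intro _
        exact ⟨hm, hle⟩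
  choose g Q m hg1 hg2 hg3 hg4 using hrep
  haveI : Fintype (ConjClasses G) := Fintype.ofFinite _
  haveI : ∀ l, Fintype (G ⧸ Q l) := fun l => Fintype.ofFinite _
  refine ⟨Σ l : ConjClasses G, G ⧸ Q l, inferInstance,
    fun i => e.coeff (g i.1) * (m i.1 : k)⁻¹, fun i => i.2.out, fun i => g i.1, ?_, ?_⟩
  · ext y
    rw [Fintype.sum_sigma]
    have h1 : ∀ l : ConjClasses G, (∑ q : G ⧸ Q l, (e.coeff (g l) * (m l : k)⁻¹) •
        single (q.out * g l * q.out⁻¹) (1 : k)).coeff y =
        if l = ConjClasses.mk y then e.coeff y else 0 := by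
      intro l
      rw [← Finset.smul_sum, coeff_smul_apply, coeff_sum, Finsupp.finsetSum_apply]
      have h2 : ∑ q : G ⧸ Q l, (single (q.out * g l * q.out⁻¹) (1 : k)).coeff y =
          ((∑ q : G ⧸ Q l, if q.out * g l * q.out⁻¹ = y then 1 else 0 : ℕ) : k) := by
        push_cast
        apply Finset.sum_congr rfl
        intro q _
        rw [coeff_single, Finsupp.single_apply]
      rw [h2, card_fiber_quot (Q l) (hg2 l) (hg3 l)]
      by_cases hl : l = ConjClasses.mk y
      · have h3 : IsConj (g l) y := by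
          rw [← ConjClasses.mk_eq_mk_iff_isConj, hg1, hl]
        have h4 : e.coeff (g l) = e.coeff y := by
          obtain ⟨c, rfl⟩ := isConj_iff.mp h3
          exact (he.2.coeff (Subgroup.mem_top c) _).symm
        rw [if_pos hl, if_pos h3, smul_eq_mul, h4]
        by_cases h0 : e.coeff y = 0
        · rw [h0, zero_mul, zero_mul]
        · have h5 : (m l : k) ≠ 0 := by
            rw [Ne, CharP.cast_eq_zero_iff k p]
            exact (hg4 l (by rw [h4]; exact h0)).1
          rw [mul_assoc, inv_mul_cancel₀ h5, mul_one]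
      · have h3 : ¬ IsConj (g l) y := by
          rw [← ConjClasses.mk_eq_mk_iff_isConj, hg1]
          exact hl
        rw [if_neg hl, if_neg h3, Nat.cast_zero, smul_zero]
    rw [coeff_sum, Finsupp.finsetSum_apply, Finset.sum_congr rfl fun l _ => h1 l,
      Finset.sum_ite_eq', if_pos (Finset.mem_univ _)]
  · intro V _ _ Φ Φ' Y hY h
    rw [Fintype.sum_sigma, Finset.mul_sum, Finset.sum_mul]
    apply Finset.sum_congr rfl
    intro l _
    dsimp only
    by_cases h0 : e.coeff (g l) = 0
    · simp [h0]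
    obtain ⟨hm, hQP⟩ := hg4 l h0
    rw [Finset.mul_sum, Finset.sum_mul]
    let F : G → Module.End k V := fun x => Φ (single x 1) * Y * Φ' (single (g l) 1) *
      Φ' (single (x⁻¹ * h) 1)
    have hF : ∀ x, ∀ u ∈ Q l, F (x * u) = F x := by
      intro x u hu
      have h1 : Φ (single (x * u) 1) = Φ (single x 1) * Φ (single u 1) := by
        rw [← map_mul, single_mul_single, one_mul]
      have h2 : Φ' (single ((x * u)⁻¹ * h) 1) = Φ' (single u⁻¹ 1) * Φ' (single (x⁻¹ * h) 1) := by
        rw [← map_mul, single_mul_single, one_mul]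
        congr 2
        group
      have h3 : Φ' (single u 1) * Φ' (single (g l) 1) * Φ' (single u⁻¹ 1) = Φ' (single (g l) 1) := by
        rw [← map_mul, ← map_mul, single_mul_single, single_mul_single, one_mul, one_mul]
        congr 2
        have h4 := Subgroup.mem_centralizer_singleton_iff.mp (hg2 l hu)
        rw [h4]
        group
      calc F (x * u) = Φ (single x 1) * (Φ (single u 1) * Y) * Φ' (single (g l) 1) *
            (Φ' (single u⁻¹ 1) * Φ' (single (x⁻¹ * h) 1)) := by
              simp only [F, h1, h2, mul_assoc]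
        _ = Φ (single x 1) * Y * (Φ' (single u 1) * Φ' (single (g l) 1) * Φ' (single u⁻¹ 1)) *
            Φ' (single (x⁻¹ * h) 1) := by
              rw [hY u (hQP hu)]
              simp only [mul_assoc]
        _ = F x := by rw [h3]
    have h5 := sum_out_mul (Q l) F hF h
    have h6 : ∀ q : G ⧸ Q l, Φ (single h 1) * ((e.coeff (g l) * (m l : k)⁻¹) •
        (Φ (single q.out 1) * Y * Φ' (single (g l) 1) * Φ' (single q.out⁻¹ 1))) =
        (e.coeff (g l) * (m l : k)⁻¹) • F (h * q.out) := by
      intro q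
      rw [mul_smul_comm]
      congr 1
      simp only [F]
      have h7 : (h * q.out)⁻¹ * h = q.out⁻¹ := by group
      rw [h7, ← mul_assoc, ← mul_assoc, ← mul_assoc, ← map_mul, single_mul_single, one_mul]
    have h8 : ∀ q : G ⧸ Q l, ((e.coeff (g l) * (m l : k)⁻¹) •
        (Φ (single q.out 1) * Y * Φ' (single (g l) 1) * Φ' (single q.out⁻¹ 1))) *
          Φ' (single h 1) =
        (e.coeff (g l) * (m l : k)⁻¹) • F q.out := by
      intro q
      rw [smul_mul_assoc]
      congr 1
      simp only [F]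
      rw [mul_assoc _ (Φ' (single q.out⁻¹ 1)), ← map_mul, single_mul_single, one_mul]
    rw [Finset.sum_congr rfl fun q _ => h6 q, Finset.sum_congr rfl fun q _ => h8 q,
      ← Finset.smul_sum, ← Finset.smul_sum, h5]

end Cfsg.Agent.H27.Md
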