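import Mathlib
import Cfsg.Agent.H27.Md5

set_option autoImplicit false
set_option linter.style.haveILetI false

/-!
# A family of modules of length two
-/

namespace Cfsg.Agent.H27.Md

open Module Matrix

section fam

variable {K R : Type*} [Field K] [Ring R] [Algebra K R] {e ε : R} {s : ℕ}

/-- The data needed for the family. -/
structure Fam (K : Type*) {R : Type*} [Field K] [Ring R] [Algebra K R] (e ε : R) (s : ℕ) where
  mu : MU e ε s
  he : e * e = e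
  hc : ∀ x, e * x = x * e
  hε : ε * ε = ε
  N : Submodule K R
  hNA : N ≤ crn K ε ε
  hNN : N * N ≤ N
  T : R →ₗ[K] K
  hT : T ε = 1
  hTN : ∀ x ∈ N, T x = 0
  hdec : ∀ a ∈ crn K ε ε, a - T a • ε ∈ N

variable (F : Fam K e ε s)

/-- reduced functional -/
def Fam.lf (ℓ : R →ₗ[K] K) : R →ₗ[K] K := ℓ - (ℓ ε) • F.T

theorem Fam.lf_apply (ℓ : R →ₗ[K] K) (x : R) : F.lf ℓ x = ℓ (x - F.T x • ε) := by
  simp [Fam.lf]
  ring

theorem Fam.lf_N (ℓ : R →ₗ[K] K) {x : R} (hx : x ∈ F.N) : F.lf ℓ x = ℓ x := by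
  rw [F.lf_apply, F.hTN x hx, zero_smul, sub_zero]

theorem Fam.lf_eps (ℓ : R →ₗ[K] K) : F.lf ℓ ε = 0 := by
  rw [F.lf_apply, F.hT, one_smul, sub_self, map_zero]

theorem Fam.expand {a b : R} (ha : a ∈ crn K ε ε) (hb : b ∈ crn K ε ε) :
    a * b = (F.T a * F.T b) • ε + F.T a • (b - F.T b • ε) + F.T b • (a - F.T a • ε) +
      (a - F.T a • ε) * (b - F.T b • ε) := by
  simp only [mul_sub, sub_mul, smul_mul_assoc, mul_smul_comm, F.hε, ha.1, ha.2, hb.1, hb.2]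
  module

theorem Fam.T_mul {a b : R} (ha : a ∈ crn K ε ε) (hb : b ∈ crn K ε ε) :
    F.T (a * b) = F.T a * F.T b := by
  rw [F.expand ha hb]
  simp only [map_add, map_smul, F.hT, F.hTN _ (F.hdec a ha), F.hTN _ (F.hdec b hb),
    F.hTN _ (F.hNN (Submodule.mul_mem_mul (F.hdec a ha) (F.hdec b hb))), smul_eq_mul, mul_one,
    mul_zero, add_zero]

theorem Fam.lf_mul {ℓ : R →ₗ[K] K} (hℓ : ∀ x ∈ F.N * F.N, ℓ x = 0) {a b : R}
    (ha : a ∈ crn K ε ε) (hb : b ∈ crn K ε ε) :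
    F.lf ℓ (a * b) = F.T a * F.lf ℓ b + F.lf ℓ a * F.T b := by
  have h1 := Submodule.mul_mem_mul (F.hdec a ha) (F.hdec b hb)
  conv_lhs => rw [F.expand ha hb]
  simp only [map_add, map_smul]
  rw [F.lf_eps, F.lf_N ℓ (F.hNN h1), hℓ _ h1, F.lf_N ℓ (F.hdec a ha), F.lf_N ℓ (F.hdec b hb),
    ← F.lf_apply, ← F.lf_apply]
  simp only [smul_eq_mul]
  ring

theorem Fam.mem_crn (x : R) (k l : Fin s) : F.mu.a k * x * F.mu.b l ∈ crn K ε ε := by
  constructor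
  · rw [← mul_assoc, ← mul_assoc, F.mu.ha]
  · rw [mul_assoc, F.mu.hb]

theorem Fam.sum_mul (x y : R) (k l : Fin s) : F.mu.a k * (x * y) * F.mu.b l =
    ∑ m, (F.mu.a k * x * F.mu.b m) * (F.mu.a m * y * F.mu.b l) := by
  have h1 : ∀ m, (F.mu.a k * x * F.mu.b m) * (F.mu.a m * y * F.mu.b l) =
      F.mu.a k * x * (F.mu.b m * F.mu.a m) * y * F.mu.b l := by
    intro m
    simp only [mul_assoc]
  simp only [h1, ← Finset.sum_mul, ← Finset.mul_sum, F.mu.hba]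
  rw [mul_assoc (F.mu.a k) x e, ← F.hc x, ← mul_assoc (F.mu.a k) e x, F.mu.ha']
  simp only [mul_assoc]

/-- The simple module matrices. -/
def Fam.X : R →ₗ[K] Matrix (Fin s) (Fin s) K where
  toFun x := Matrix.of fun k l => F.T (F.mu.a k * x * F.mu.b l)
  map_add' := by
    intro x y
    ext k l
    simp [mul_add, add_mul]
  map_smul' := by
    intro c x
    ext k l
    simp

/-- The off-diagonal matrices. -/
def Fam.L (ℓ : R →ₗ[K] K) : R →ₗ[K] Matrix (Fin s) (Fin s) K where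
  toFun x := Matrix.of fun k l => F.lf ℓ (F.mu.a k * x * F.mu.b l)
  map_add' := by
    intro x y
    ext k l
    simp [mul_add, add_mul]
  map_smul' := by
    intro c x
    ext k l
    simp

theorem Fam.X_mul (x y : R) : F.X (x * y) = F.X x * F.X y := by
  ext k l
  rw [Matrix.mul_apply]
  change F.T (F.mu.a k * (x * y) * F.mu.b l) = ∑ m, F.T (F.mu.a k * x * F.mu.b m) *
    F.T (F.mu.a m * y * F.mu.b l)
  rw [F.sum_mul, map_sum]
  exact Finset.sum_congr rfl fun m _ => F.T_mul (F.mem_crn _ _ _) (F.mem_crn _ _ _)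

theorem Fam.L_mul {ℓ : R →ₗ[K] K} (hℓ : ∀ x ∈ F.N * F.N, ℓ x = 0) (x y : R) :
    F.L ℓ (x * y) = F.X x * F.L ℓ y + F.L ℓ x * F.X y := by
  ext k l
  rw [Matrix.add_apply, Matrix.mul_apply, Matrix.mul_apply, ← Finset.sum_add_distrib]
  change F.lf ℓ (F.mu.a k * (x * y) * F.mu.b l) = ∑ m, (F.T (F.mu.a k * x * F.mu.b m) *
    F.lf ℓ (F.mu.a m * y * F.mu.b l) + F.lf ℓ (F.mu.a k * x * F.mu.b m) *
    F.T (F.mu.a m * y * F.mu.b l))
  rw [F.sum_mul, map_sum]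
  exact Finset.sum_congr rfl fun m _ => F.lf_mul hℓ (F.mem_crn _ _ _) (F.mem_crn _ _ _)

theorem Fam.X_one : F.X 1 = 1 := by
  ext k l
  change F.T (F.mu.a k * 1 * F.mu.b l) = _
  rw [mul_one, F.mu.hab, Matrix.one_apply]
  split_ifs
  · exact F.hT
  · exact map_zero _

theorem Fam.L_one (ℓ : R →ₗ[K] K) : F.L ℓ 1 = 0 := by
  ext k l
  change F.lf ℓ (F.mu.a k * 1 * F.mu.b l) = _
  rw [mul_one, F.mu.hab]
  split_ifs
  · exact F.lf_eps ℓ
  · exact map_zero _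

theorem Fam.X_e : F.X e = 1 := by
  ext k l
  change F.T (F.mu.a k * e * F.mu.b l) = _
  rw [F.mu.ha', F.mu.hab, Matrix.one_apply]
  split_ifs
  · exact F.hT
  · exact map_zero _

theorem Fam.L_e (ℓ : R →ₗ[K] K) : F.L ℓ e = 0 := by
  ext k l
  change F.lf ℓ (F.mu.a k * e * F.mu.b l) = _
  rw [F.mu.ha', F.mu.hab]
  split_ifs
  · exact F.lf_eps ℓ
  · exact map_zero _

theorem Fam.unit_eq (i j k l : Fin s) (x : R) (hx : x ∈ crn K ε ε) :
    F.mu.a k * (F.mu.b i * x * F.mu.a j) * F.mu.b l = if k = i ∧ j = l then x else 0 := by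
  have h1 : F.mu.a k * (F.mu.b i * x * F.mu.a j) * F.mu.b l =
      (F.mu.a k * F.mu.b i) * x * (F.mu.a j * F.mu.b l) := by simp only [mul_assoc]
  rw [h1, F.mu.hab, F.mu.hab]
  by_cases h2 : k = i
  · by_cases h3 : j = l
    · rw [if_pos h2, if_pos h3, if_pos ⟨h2, h3⟩, hx.1, hx.2]
    · rw [if_neg h3, mul_zero, if_neg fun h => h3 h.2]
  · rw [if_neg h2, zero_mul, zero_mul, if_neg fun h => h2 h.1]

theorem Fam.X_unit (i j : Fin s) (x : R) (hx : x ∈ crn K ε ε) :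
    F.X (F.mu.b i * x * F.mu.a j) = Matrix.single i j (F.T x) := by
  ext k l
  change F.T (F.mu.a k * (F.mu.b i * x * F.mu.a j) * F.mu.b l) = _
  rw [F.unit_eq i j k l x hx, Matrix.single_apply]
  by_cases h : k = i ∧ j = l
  · rw [if_pos h, if_pos ⟨h.1.symm, h.2⟩]
  · rw [if_neg h, if_neg fun h2 => h ⟨h2.1.symm, h2.2⟩, map_zero]

theorem Fam.L_unit (ℓ : R →ₗ[K] K) (i j : Fin s) (x : R) (hx : x ∈ crn K ε ε) :
    F.L ℓ (F.mu.b i * x * F.mu.a j) = Matrix.single i j (F.lf ℓ x) := by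
  ext k l
  change F.lf ℓ (F.mu.a k * (F.mu.b i * x * F.mu.a j) * F.mu.b l) = _
  rw [F.unit_eq i j k l x hx, Matrix.single_apply]
  by_cases h : k = i ∧ j = l
  · rw [if_pos h, if_pos ⟨h.1.symm, h.2⟩]
  · rw [if_neg h, if_neg fun h2 => h ⟨h2.1.symm, h2.2⟩, map_zero]

/-- The module of length two attached to a functional. -/
def Fam.Φ {ℓ : R →ₗ[K] K} (hℓ : ∀ x ∈ F.N * F.N, ℓ x = 0) :
    R →ₐ[K] Matrix (Fin s ⊕ Fin s) (Fin s ⊕ Fin s) K :=
  AlgHom.ofLinearMap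
    { toFun := fun x => Matrix.fromBlocks (F.X x) (F.L ℓ x) 0 (F.X x)
      map_add' := by
        intro x y
        rw [map_add, map_add, Matrix.fromBlocks_add, add_zero]
      map_smul' := by
        intro c x
        rw [map_smul, map_smul, RingHom.id_apply, Matrix.fromBlocks_smul, smul_zero] }
    (by
      change Matrix.fromBlocks (F.X 1) (F.L ℓ 1) 0 (F.X 1) = 1
      rw [F.X_one, F.L_one, Matrix.fromBlocks_one])
    (by
      intro x y
      change Matrix.fromBlocks (F.X (x * y)) (F.L ℓ (x * y)) 0 (F.X (x * y)) =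
        Matrix.fromBlocks (F.X x) (F.L ℓ x) 0 (F.X x) *
        Matrix.fromBlocks (F.X y) (F.L ℓ y) 0 (F.X y)
      rw [Matrix.fromBlocks_multiply, F.X_mul, F.L_mul hℓ]
      simp)

theorem Fam.Φ_apply {ℓ : R →ₗ[K] K} (hℓ : ∀ x ∈ F.N * F.N, ℓ x = 0) (x : R) :
    F.Φ hℓ x = Matrix.fromBlocks (F.X x) (F.L ℓ x) 0 (F.X x) := rfl

theorem Fam.Φ_e {ℓ : R →ₗ[K] K} (hℓ : ∀ x ∈ F.N * F.N, ℓ x = 0) : F.Φ hℓ e = 1 := by
  rw [F.Φ_apply, F.X_e, F.L_e, Matrix.fromBlocks_one]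

/-- Intertwiners. -/
theorem Fam.inter [NeZero s] (hεA : ε ∈ crn K ε ε) {ℓ ℓ' : R →ₗ[K] K}
    (hℓ : ∀ x ∈ F.N * F.N, ℓ x = 0)
    (hℓ' : ∀ x ∈ F.N * F.N, ℓ' x = 0) {n1 : R} (hn1 : n1 ∈ F.N) (hne : ℓ n1 ≠ 0)
    (Y : Matrix (Fin s ⊕ Fin s) (Fin s ⊕ Fin s) K)
    (hY : ∀ x, F.Φ hℓ x * Y = Y * F.Φ hℓ' x) :
    ∃ α β δ : K, Y = Matrix.fromBlocks (α • 1) (β • 1) 0 (δ • 1) ∧
      ∀ n ∈ F.N, ℓ n * δ = α * ℓ' n := by
  obtain ⟨A, B, C, D, rfl⟩ : ∃ A B C D, Y = Matrix.fromBlocks A B C D :=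
    ⟨_, _, _, _, (Matrix.fromBlocks_toBlocks Y).symm⟩
  have h1 : ∀ i j : Fin s, Commute (Matrix.single i j (1 : K)) A ∧
      Commute (Matrix.single i j (1 : K)) B ∧ Commute (Matrix.single i j (1 : K)) C ∧
      Commute (Matrix.single i j (1 : K)) D := by
    intro i j
    have h2 := hY (F.mu.b i * ε * F.mu.a j)
    rw [F.Φ_apply, F.Φ_apply, F.X_unit i j ε hεA, F.L_unit ℓ i j ε hεA, F.L_unit ℓ' i j ε hεA,
      F.lf_eps, F.lf_eps, F.hT, Matrix.single_zero, Matrix.fromBlocks_multiply,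
      Matrix.fromBlocks_multiply] at h2
    simp only [Matrix.zero_mul, Matrix.mul_zero, add_zero, zero_add] at h2
    obtain ⟨e1, e2, e3, e4⟩ := Matrix.fromBlocks_inj.mp h2
    exact ⟨e1, e2, e3, e4⟩
  obtain ⟨α, hα⟩ := Matrix.mem_range_scalar_iff_commute_single'.mpr fun i j => (h1 i j).1
  obtain ⟨β, hβ⟩ := Matrix.mem_range_scalar_iff_commute_single'.mpr fun i j => (h1 i j).2.1
  obtain ⟨γ, hγ⟩ := Matrix.mem_range_scalar_iff_commute_single'.mpr fun i j => (h1 i j).2.2.1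
  obtain ⟨δ, hδ⟩ := Matrix.mem_range_scalar_iff_commute_single'.mpr fun i j => (h1 i j).2.2.2
  have hsc : ∀ c : K, Matrix.scalar (Fin s) c = c • (1 : Matrix (Fin s) (Fin s) K) := by
    intro c
    rw [Matrix.scalar_apply, Matrix.smul_one_eq_diagonal]
  rw [hsc] at hα hβ hγ hδ
  subst hα hβ hγ hδ
  have h3 : ∀ n ∈ F.N, ℓ n * γ = 0 ∧ ℓ n * δ = α * ℓ' n := by
    intro n hn
    have i0 : Fin s := ⟨0, Nat.pos_of_ne_zero (NeZero.ne s)⟩
    have h2 := hY (F.mu.b i0 * n * F.mu.a i0)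
    rw [F.Φ_apply, F.Φ_apply, F.X_unit i0 i0 n (F.hNA hn), F.L_unit ℓ i0 i0 n (F.hNA hn),
      F.L_unit ℓ' i0 i0 n (F.hNA hn), F.lf_N _ hn, F.lf_N _ hn, F.hTN n hn, Matrix.single_zero,
      Matrix.fromBlocks_multiply, Matrix.fromBlocks_multiply] at h2
    simp only [Matrix.zero_mul, Matrix.mul_zero, add_zero, zero_add, Matrix.mul_smul,
      Matrix.smul_mul, Matrix.mul_one, Matrix.one_mul, smul_zero] at h2
    obtain ⟨e1, e2, e3, e4⟩ := Matrix.fromBlocks_inj.mp h2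
    have f1 := congrFun (congrFun e1 i0) i0
    have f2 := congrFun (congrFun e2 i0) i0
    simp only [Matrix.smul_apply, Matrix.single_apply_same, smul_eq_mul, Matrix.zero_apply] at f1 f2
    exact ⟨by rw [mul_comm]; exact f1, by rw [mul_comm]; exact f2⟩
  have hγ0 : γ = 0 := (mul_eq_zero.mp (h3 n1 hn1).1).resolve_left hne
  refine ⟨α, β, δ, ?_, fun n hn => (h3 n hn).2⟩
  rw [hγ0, zero_smul]

end fam

end Cfsg.Agent.H27.Md
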