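import Mathlib

set_option autoImplicit false
set_option linter.style.haveILetI false

/-!
# Decomposition of nilpotent endomorphisms
-/

namespace Cfsg.Agent.H27.Md

open Module Polynomial

/-- The cyclic module of length `r`. -/
abbrev JQ (K : Type*) [Field K] (r : ℕ) : Type _ := K[X] ⧸ (Ideal.span {(X : K[X]) ^ r})

theorem finrank_JQ (K : Type*) [Field K] (r : ℕ) : finrank K (JQ K r) = r := by
  rw [finrank_quotient_span_eq_natDegree, natDegree_X_pow]

instance finite_JQ (K : Type*) [Field K] (r : ℕ) : FiniteDimensional K (JQ K r) :=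
  (Polynomial.monic_X_pow r).finite_quotient

theorem jordan {K V : Type*} [Field K] [AddCommGroup V] [Module K V] [FiniteDimensional K V]
    (f : V →ₗ[K] V) (n : ℕ) (hf : f ^ n = 0) :
    ∃ (d : ℕ) (k : Fin d → ℕ) (j : ∀ i, JQ K (k i) →ₗ[K] V) (p : ∀ i, V →ₗ[K] JQ K (k i)),
      (∀ i x, f (j i x) = j i ((X : K[X]) • x)) ∧ (∀ i v, p i (f v) = (X : K[X]) • p i v) ∧
      (∀ v, ∑ i, j i (p i v) = v) ∧ ∀ i, k i ≤ finrank K V := by
  classical
  have htor : Module.IsTorsion' (AEval' f) (Submonoid.powers (X : K[X])) := by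
    intro x
    refine ⟨⟨X ^ n, n, rfl⟩, ?_⟩
    obtain ⟨m, rfl⟩ := (AEval'.of f).surjective x
    change (X ^ n : K[X]) • AEval'.of f m = 0
    rw [AEval'.X_pow_smul_of, hf, zero_smul, map_zero]
  obtain ⟨d, k, ⟨L⟩⟩ := Module.torsion_by_prime_power_decomposition (Polynomial.irreducible_X) htor
  let p : ∀ i, V →ₗ[K] JQ K (k i) := fun i =>
    (((DirectSum.component K[X] (Fin d) (fun i => JQ K (k i)) i).comp L.toLinearMap).restrictScalars
      K).comp (AEval'.of f).toLinearMap
  let j : ∀ i, JQ K (k i) →ₗ[K] V := fun i =>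
    (AEval'.of f).symm.toLinearMap.comp ((L.symm.toLinearMap.comp
      (DirectSum.lof K[X] (Fin d) (fun i => JQ K (k i)) i)).restrictScalars K)
  have hpj : ∀ i x, p i (j i x) = x := by
    intro i x
    change (DirectSum.component K[X] (Fin d) (fun i => JQ K (k i)) i) (L (AEval'.of f
      ((AEval'.of f).symm (L.symm (DirectSum.lof K[X] (Fin d) (fun i => JQ K (k i)) i x))))) = x
    rw [LinearEquiv.apply_symm_apply, LinearEquiv.apply_symm_apply, DirectSum.component.lof_self]
  refine ⟨d, k, j, p, ?_, ?_, ?_, ?_⟩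
  · intro i x
    change f ((AEval'.of f).symm (L.symm (DirectSum.lof K[X] (Fin d) (fun i => JQ K (k i)) i x))) =
      (AEval'.of f).symm (L.symm (DirectSum.lof K[X] (Fin d) (fun i => JQ K (k i)) i (X • x)))
    rw [map_smul, map_smul, AEval'.of_symm_X_smul]
  · intro i v
    change (DirectSum.component K[X] (Fin d) (fun i => JQ K (k i)) i) (L (AEval'.of f (f v))) =
      X • (DirectSum.component K[X] (Fin d) (fun i => JQ K (k i)) i) (L (AEval'.of f v))
    rw [← map_smul, ← map_smul, AEval'.X_smul_of]
  · intro v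
    apply (AEval'.of f).injective
    apply L.injective
    rw [map_sum, map_sum]
    have h1 : ∀ i, L (AEval'.of f (j i (p i v))) =
        DirectSum.lof K[X] (Fin d) (fun i => JQ K (k i)) i (L (AEval'.of f v) i) := by
      intro i
      change L (AEval'.of f ((AEval'.of f).symm (L.symm _))) = _
      rw [LinearEquiv.apply_symm_apply, LinearEquiv.apply_symm_apply]
      rfl
    rw [Finset.sum_congr rfl fun i _ => h1 i]
    exact DirectSum.sum_univ_of _
  · intro i
    have h1 : Function.Injective (j i) := Function.LeftInverse.injective (hpj i)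
    have h2 := LinearMap.finrank_le_finrank_of_injective h1
    rwa [finrank_JQ] at h2

end Cfsg.Agent.H27.Md
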