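import Mathlib
import Cfsg.Agent.H27.Md11
import Cfsg.Agent.H27.Md12
import Cfsg.Agent.H27.Md13

set_option autoImplicit false
set_option linter.style.haveILetI false

/-!
# Blocks with cyclic defect group: the basic algebra has one generator
-/

namespace Cfsg.Agent.H27.Md

open Module Cfsg Cfsg.Agent.H26 MonoidAlgebra

universe u

variable {k : Type} [Field k] {G : Type u} [Group G] [Fintype G] {p : ℕ} [hp : Fact p.Prime]
  [CharP k p]

/-- equivariance for powers -/
theorem equiv_pow {V W : Type*} [AddCommGroup V] [Module k V] [AddCommGroup W] [Module k W]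
    {Z : V →ₗ[k] V} {Z' : W →ₗ[k] W} {Y : W →ₗ[k] V} (h : ∀ w, Z (Y w) = Y (Z' w)) (n : ℕ) (w : W) :
    (Z ^ n) (Y w) = Y ((Z' ^ n) w) := by
  induction n generalizing w with
  | zero => rfl
  | succ n ih =>
    rw [pow_succ, pow_succ, Module.End.mul_apply, Module.End.mul_apply, h, ih]

theorem cyclic_gen [Infinite k] {e ε : MonoidAlgebra k G} {P : Subgroup G}
    (he : e ∈ Zc k (⊤ : Subgroup G)) (hD : IsDef p ⊤ e P) (hcyc : IsCyclic P) {s : ℕ} [NeZero s]
    (F : Fam k e ε s) : finrank k F.N ≤ finrank k (F.N * F.N : Submodule k (MonoidAlgebra k G)) + 1 := by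
  classical
  by_contra hcon
  push Not at hcon
  have hεA : ε ∈ crn k ε ε := ⟨F.hε, F.hε⟩
  -- two generators
  obtain ⟨n1, hn1, hn1'⟩ : ∃ n1 ∈ F.N, n1 ∉ F.N * F.N := by
    by_contra h
    push Not at h
    have := Submodule.finrank_mono (show F.N ≤ F.N * F.N from h)
    omega
  obtain ⟨n2, hn2, hn2'⟩ : ∃ n2 ∈ F.N, n2 ∉ F.N * F.N ⊔ Submodule.span k {n1} := by
    by_contra h
    push Not at h
    have h1 := Submodule.finrank_mono (show F.N ≤ F.N * F.N ⊔ Submodule.span k {n1} from h)
    have h2 := Submodule.finrank_add_le_finrank_add_finrank (F.N * F.N) (Submodule.span k {n1})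
    have h3 : finrank k (Submodule.span k {n1}) = 1 :=
      finrank_span_singleton fun h => hn1' (h ▸ zero_mem _)
    omega
  have hn12 : n1 ∉ F.N * F.N ⊔ Submodule.span k {n2} := by
    intro h
    obtain ⟨w, hw, y, hy, hwy⟩ := Submodule.mem_sup.mp h
    obtain ⟨c, rfl⟩ := Submodule.mem_span_singleton.mp hy
    by_cases hc : c = 0
    · rw [hc, zero_smul, add_zero] at hwy
      exact hn1' (hwy ▸ hw)
    · apply hn2'
      have h1 : n2 = -(c⁻¹ • w) + c⁻¹ • n1 := by
        rw [← hwy, smul_add, smul_smul, inv_mul_cancel₀ hc, one_smul]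
        abel
      rw [h1]
      exact Submodule.add_mem_sup (neg_mem (Submodule.smul_mem _ _ hw))
        (Submodule.smul_mem _ _ (Submodule.mem_span_singleton_self n1))
  obtain ⟨ℓ2, hℓ2, hℓ2'⟩ := Submodule.exists_le_ker_of_notMem hn2'
  obtain ⟨ℓ1, hℓ1, hℓ1'⟩ := Submodule.exists_le_ker_of_notMem hn12
  have h21 : ℓ2 n1 = 0 := hℓ2' (Submodule.mem_sup_right (Submodule.mem_span_singleton_self n1))
  have h12 : ℓ1 n2 = 0 := hℓ1' (Submodule.mem_sup_right (Submodule.mem_span_singleton_self n2))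
  let ℓ : k → (MonoidAlgebra k G →ₗ[k] k) := fun c => ℓ1 + c • ℓ2
  have hℓ : ∀ c, ∀ x ∈ F.N * F.N, ℓ c x = 0 := by
    intro c x hx
    have h1 : ℓ1 x = 0 := hℓ1' (Submodule.mem_sup_left hx)
    have h2 : ℓ2 x = 0 := hℓ2' (Submodule.mem_sup_left hx)
    simp [ℓ, h1, h2]
  have hℓn1 : ∀ c, ℓ c n1 = ℓ1 n1 := by
    intro c
    simp [ℓ, h21]
  have hℓn2 : ∀ c, ℓ c n2 = c * ℓ2 n2 := by
    intro c
    simp [ℓ, h12]
  let V : Type := (Fin s ⊕ Fin s) → k
  let Φ : k → (MonoidAlgebra k G →ₐ[k] Module.End k V) := fun c =>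
    (Matrix.toLinAlgEquiv' (R := k) (n := Fin s ⊕ Fin s)).toAlgHom.comp (F.Φ (hℓ c))
  let η : Module.End k V := Matrix.toLinAlgEquiv' (Matrix.fromBlocks 0 1 0 0)
  have hη2 : η * η = 0 := by
    simp only [η]
    rw [← map_mul, Matrix.fromBlocks_multiply]
    simp
  have hη0 : η ≠ 0 := by
    intro h
    have h1 : (Matrix.fromBlocks 0 1 0 0 : Matrix (Fin s ⊕ Fin s) (Fin s ⊕ Fin s) k) = 0 := by
      apply Matrix.toLinAlgEquiv'.injective
      rw [map_zero]
      exact h
    have h2 := congrFun (congrFun h1 (Sum.inl 0)) (Sum.inr 0)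
    simp at h2
  have hΦe : ∀ c, Φ c e = 1 := by
    intro c
    change Matrix.toLinAlgEquiv' (F.Φ (hℓ c) e) = 1
    rw [F.Φ_e, map_one]
  -- intertwiners
  have hinter : ∀ c c' : k, ∀ Y : Module.End k V, (∀ g : G, Φ c (single g 1) * Y =
      Y * Φ c' (single g 1)) → ∃ α β : k, Y = α • 1 + β • η ∧ (c ≠ c' → α = 0) := by
    intro c c' Y hY
    have hY' : ∀ x, Φ c x * Y = Y * Φ c' x := by
      intro x
      induction x using MonoidAlgebra.induction_linear with
      | zero => rw [map_zero, map_zero, zero_mul, mul_zero]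
      | add f g hf hg => rw [map_add, map_add, add_mul, mul_add, hf, hg]
      | single g r =>
        have h1 : (single g r : MonoidAlgebra k G) = r • single g 1 := by
          rw [smul_single, smul_eq_mul, mul_one]
        rw [h1, map_smul, map_smul, smul_mul_assoc, mul_smul_comm, hY]
    obtain ⟨Y0, rfl⟩ := (Matrix.toLinAlgEquiv' (R := k) (n := Fin s ⊕ Fin s)).surjective Y
    have hY0 : ∀ x, F.Φ (hℓ c) x * Y0 = Y0 * F.Φ (hℓ c') x := by
      intro x
      apply Matrix.toLinAlgEquiv'.injective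
      rw [map_mul, map_mul]
      exact hY' x
    obtain ⟨α, β, δ, h1, h2⟩ := F.inter hεA (hℓ c) (hℓ c') hn1 (by rw [hℓn1]; exact hℓ1) Y0 hY0
    have h3 := h2 n1 hn1
    have h4 := h2 n2 hn2
    rw [hℓn1, hℓn1] at h3
    rw [hℓn2, hℓn2] at h4
    have h5 : δ = α := mul_left_cancel₀ hℓ1 (by rw [h3, mul_comm])
    subst h5
    refine ⟨δ, β, ?_, ?_⟩
    · rw [h1]
      simp only [η]
      rw [← map_one (Matrix.toLinAlgEquiv' (R := k) (n := Fin s ⊕ Fin s)), ← map_smul, ← map_smul,
        ← map_add]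
      congr 1
      rw [← Matrix.fromBlocks_one, Matrix.fromBlocks_smul, Matrix.fromBlocks_smul,
        Matrix.fromBlocks_add]
      simp
    · intro hcc
      have h6 : δ * (c - c') * ℓ2 n2 = 0 := by linear_combination h4
      have h7 := (mul_eq_zero.mp h6).resolve_right hℓ2
      exact (mul_eq_zero.mp h7).resolve_right (sub_ne_zero.mpr hcc)
  -- generator of P
  obtain ⟨⟨z, hzP⟩, hz⟩ := hcyc.exists_generator
  have hzk : ∀ u ∈ P, ∃ n : ℕ, u = z ^ n := by
    intro u hu
    obtain ⟨n, hn⟩ := mem_powers_iff_mem_zpowers.mpr (hz ⟨u, hu⟩)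
    exact ⟨n, (congrArg Subtype.val hn).symm⟩
  obtain ⟨q, hq⟩ := hD.2.1 ⟨z, hzP⟩
  have hzq : z ^ (p ^ q) = 1 := congrArg Subtype.val hq
  haveI : Nonempty (Fin s ⊕ Fin s) := ⟨Sum.inl 0⟩
  haveI : Nontrivial V := Function.nontrivial
  haveI : CharP (Module.End k V) p :=
    charP_of_injective_algebraMap (algebraMap k (Module.End k V)).injective p
  let f : k → Module.End k V := fun c => Φ c (single z 1) - 1
  have hf : ∀ c, f c ^ (p ^ q) = 0 := by
    intro c
    simp only [f]
    rw [sub_pow_char_pow_of_commute p q (Commute.one_right _), ← map_pow, single_pow, hzq, one_pow,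
      one_pow, ← one_def, map_one, sub_self]
  have hzpow : ∀ c (n : ℕ), Φ c (single (z ^ n) 1) = (Φ c (single z 1)) ^ n := by
    intro c n
    rw [← map_pow, single_pow, one_pow]
  obtain ⟨I, hI, γ, x, g, hesum, hig⟩ := higman he hD
  -- relative traces
  let TT : k → k → Module.End k V → Module.End k V := fun c c' Y =>
    ∑ i, γ i • (Φ c (single (x i) 1) * Y * Φ c' (single (g i) 1) * Φ c' (single (x i)⁻¹ 1))
  let Good : k → ℕ → Prop := fun c r => ∃ (j : JQ k r →ₗ[k] V) (P' : V →ₗ[k] JQ k r),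
    (∀ y, Φ c (single z 1) (j y) = j (((Polynomial.X : Polynomial k) + 1) • y)) ∧
    (∀ v, P' (Φ c (single z 1) v) = ((Polynomial.X : Polynomial k) + 1) • P' v) ∧
    ∃ α β : k, α ≠ 0 ∧ TT c c (j ∘ₗ P') = α • 1 + β • η
  have hVdim : finrank k V = s + s := by
    change finrank k ((Fin s ⊕ Fin s) → k) = s + s
    rw [Module.finrank_fintype_fun_eq_card, Fintype.card_sum, Fintype.card_fin]
  have hcommP : ∀ c c' : k, ∀ Y : Module.End k V, (∀ v, Φ c (single z 1) (Y v) =
      Y (Φ c' (single z 1) v)) → ∀ u ∈ P, Φ c (single u 1) * Y = Y * Φ c' (single u 1) := by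
    intro c c' Y hY u hu
    obtain ⟨n, rfl⟩ := hzk u hu
    rw [hzpow, hzpow]
    refine LinearMap.ext fun v => ?_
    exact equiv_pow hY n v
  have hgood : ∀ c, ∃ r, r ≤ s + s ∧ Good c r := by
    intro c
    obtain ⟨d, kk, j, P', hj, hP', hsum, hk⟩ := jordan (f c) (p ^ q) (hf c)
    have hj1 : ∀ i y, Φ c (single z 1) (j i y) =
        j i (((Polynomial.X : Polynomial k) + 1) • y) := by
      intro i y
      have h1 := hj i y
      change Φ c (single z 1) (j i y) - j i y = _ at h1
      rw [add_smul, one_smul, map_add, ← h1, sub_add_cancel]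
    have hP1 : ∀ i v, P' i (Φ c (single z 1) v) =
        ((Polynomial.X : Polynomial k) + 1) • P' i v := by
      intro i v
      have h1 := hP' i v
      change P' i (Φ c (single z 1) v - v) = _ at h1
      rw [map_sub, sub_eq_iff_eq_add] at h1
      rw [h1, add_smul, one_smul]
    have hT : ∀ i, ∃ α β : k, TT c c (j i ∘ₗ P' i) = α • 1 + β • η := by
      intro i
      have h1 := hig V (Φ c) (Φ c) (j i ∘ₗ P' i) (hcommP c c _ (by
        intro v
        rw [LinearMap.comp_apply, LinearMap.comp_apply, hj1, hP1]))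
      obtain ⟨α, β, h2, -⟩ := hinter c c _ h1
      exact ⟨α, β, h2⟩
    choose α β hαβ using hT
    have hone : ∑ i, TT c c (j i ∘ₗ P' i) = 1 := by
      have h1 : ∑ i, (j i ∘ₗ P' i) = (1 : Module.End k V) := by
        refine LinearMap.ext fun v => ?_
        rw [LinearMap.sum_apply]
        exact hsum v
      have h2 : ∑ i, TT c c (j i ∘ₗ P' i) = TT c c (∑ i, (j i ∘ₗ P' i)) := by
        simp only [TT]
        rw [Finset.sum_comm]
        apply Finset.sum_congr rfl
        intro i _
        rw [← Finset.smul_sum, ← Finset.sum_mul, ← Finset.sum_mul, ← Finset.mul_sum]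
      rw [h2, h1, ← hΦe c]
      conv_rhs => rw [hesum]
      rw [map_sum]
      simp only [TT]
      apply Finset.sum_congr rfl
      intro i _
      rw [map_smul]
      congr 1
      rw [hΦe, mul_one, ← map_mul, ← map_mul, single_mul_single, single_mul_single, one_mul,
        one_mul]
    have hex : ∃ i, α i ≠ 0 := by
      by_contra hcon2
      push Not at hcon2
      apply hη0
      have h1 : (∑ i, TT c c (j i ∘ₗ P' i)) * η = 0 := by
        rw [Finset.sum_mul]
        apply Finset.sum_eq_zero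
        intro i _
        rw [hαβ, hcon2 i, zero_smul, zero_add, smul_mul_assoc, hη2, smul_zero]
      rw [hone, one_mul] at h1
      exact h1
    obtain ⟨i, hi⟩ := hex
    refine ⟨kk i, by rw [← hVdim]; exact hk i, j i, P' i, hj1 i, hP1 i, α i, β i, hi, hαβ i⟩
  choose r hr hgood using hgood
  -- pigeonhole
  let r' : k → Fin (s + s + 1) := fun c => ⟨r c, Nat.lt_succ_of_le (hr c)⟩
  obtain ⟨r0, hr0⟩ := Finite.exists_infinite_fiber r'
  let m := Fintype.card I
  let cc : Fin (m + 1) → k := fun i => (Infinite.natEmbedding (r' ⁻¹' {r0}) i.1).1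
  have hcc : Function.Injective cc := by
    intro a b hab
    have h1 := (Infinite.natEmbedding (r' ⁻¹' {r0})).injective (Subtype.ext hab)
    exact Fin.ext h1
  have hccr : ∀ a, r (cc a) = r0 := by
    intro a
    have h1 := (Infinite.natEmbedding (r' ⁻¹' {r0}) a.1).2
    exact congrArg Fin.val h1
  have hG : ∀ a, Good (cc a) r0 := by
    intro a
    rw [← hccr a]
    exact hgood (cc a)
  choose j P' hj hP' α β hα hαβ using hG
  let S : (Fin (m + 1) → V) →ₗ[k] (I → JQ k r0) :=
    LinearMap.pi fun i => ∑ b, (P' b ∘ₗ (Φ (cc b) (single (g i) 1) ∘ₗ Φ (cc b) (single (x i)⁻¹ 1)))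
      ∘ₗ LinearMap.proj b
  have hS : Function.Injective S := by
    rw [← LinearMap.ker_eq_bot, LinearMap.ker_eq_bot']
    intro v hv
    have hv1 : ∀ i, ∑ b, P' b (Φ (cc b) (single (g i) 1) (Φ (cc b) (single (x i)⁻¹ 1) (v b))) = 0 := by
      intro i
      have h1 := congrFun hv i
      simpa [S] using h1
    have hoff : ∀ a b : Fin (m + 1), ∃ β' : k, a ≠ b → TT (cc a) (cc b) (j a ∘ₗ P' b) = β' • η := by
      intro a b
      have h1 := hig V (Φ (cc a)) (Φ (cc b)) (j a ∘ₗ P' b) (hcommP _ _ _ (by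
        intro v
        rw [LinearMap.comp_apply, LinearMap.comp_apply, hj, hP']))
      obtain ⟨α', β', h2, h3⟩ := hinter _ _ _ h1
      refine ⟨β', fun hab => ?_⟩
      rw [show TT (cc a) (cc b) (j a ∘ₗ P' b) = α' • 1 + β' • η from h2,
        h3 (fun h => hab (hcc h)), zero_smul, zero_add]
    choose β' hβ' using hoff
    have hTv : ∀ a, ∑ b, TT (cc a) (cc b) (j a ∘ₗ P' b) (v b) = 0 := by
      intro a
      simp only [TT, LinearMap.sum_apply, LinearMap.smul_apply, Module.End.mul_apply,
        LinearMap.comp_apply]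
      rw [Finset.sum_comm]
      apply Finset.sum_eq_zero
      intro i _
      rw [← Finset.smul_sum, ← map_sum, ← map_sum, hv1 i, map_zero, map_zero, smul_zero]
    have hTv2 : ∀ a, α a • v a + β a • η (v a) +
        ∑ b ∈ Finset.univ.erase a, β' a b • η (v b) = 0 := by
      intro a
      rw [← hTv a, ← Finset.add_sum_erase _ _ (Finset.mem_univ a)]
      congr 1
      · rw [hαβ a]
        simp
      · apply Finset.sum_congr rfl
        intro b hb
        rw [hβ' a b (Ne.symm (Finset.ne_of_mem_erase hb))]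
        rfl
    have hηη : ∀ w, η (η w) = 0 := by
      intro w
      rw [← Module.End.mul_apply, hη2, LinearMap.zero_apply]
    have hηv : ∀ a, η (v a) = 0 := by
      intro a
      have h1 := congrArg η (hTv2 a)
      simp only [map_add, map_smul, map_sum, hηη, smul_zero, Finset.sum_const_zero, add_zero,
        map_zero] at h1
      exact (smul_eq_zero.mp h1).resolve_left (hα a)
    funext a
    have h1 := hTv2 a
    simp only [hηv, smul_zero, Finset.sum_const_zero, add_zero] at h1
    exact (smul_eq_zero.mp h1).resolve_left (hα a)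
  have h1 := LinearMap.finrank_le_finrank_of_injective hS
  have e1 : finrank k (Fin (m + 1) → V) = (m + 1) * (s + s) := by
    rw [Module.finrank_pi_fintype (R := k) (M := fun _ : Fin (m + 1) => V), Finset.sum_const,
      Finset.card_univ, Fintype.card_fin, smul_eq_mul, hVdim]
  have e2 : finrank k (I → JQ k r0) = Fintype.card I * r0 := by
    rw [Module.finrank_pi_fintype (R := k) (M := fun _ : I => JQ k r0), Finset.sum_const,
      Finset.card_univ, smul_eq_mul, finrank_JQ]
  rw [e1, e2] at h1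
  have h2 : (r0 : ℕ) ≤ s + s := Nat.lt_succ_iff.mp r0.2
  have h3 : Fintype.card I * (r0 : ℕ) ≤ Fintype.card I * (s + s) := Nat.mul_le_mul_left _ h2
  have h4 : 0 < s := Nat.pos_of_ne_zero (NeZero.ne s)
  change (Fintype.card I + 1) * (s + s) ≤ _ at h1
  rw [add_mul] at h1
  omega

end Cfsg.Agent.H27.Md
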