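import Mathlib
import Cfsg.Agent.H27.Md10
import Cfsg.Agent.H27.Md14
import Cfsg.Agent.H26.Small
import Cfsg.Agent.H26.Cor2

set_option autoImplicit false
set_option linter.style.haveILetI false

/-!
# Cyclic defect group and one Brauer character: nilpotent
-/

namespace Cfsg.Agent.H27.Md

open Module Cfsg Cfsg.Agent.H11 Cfsg.Agent.H26 Cfsg.Agent.H3 Finset
open scoped ComplexConjugate

universe u

variable {G : Type u} [Group G] [Fintype G] {p : ℕ} {M : Ideal AlgInt} [hM : M.IsPrime]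

/-- Counting characters when the inertial quotient acts freely. -/
theorem card_free [hp : Fact p.Prime] (hMp : IsPModular p M) {B : Set (IrrCharacter G)}
    (hB : IsPBlock M B) {P : Subgroup G} {e : MonoidAlgebra (KF M) G}
    (hm : MaxB p (EG M B) P e) (hab : ∀ x ∈ P, ∀ y ∈ P, x * y = y * x)
    (hfree : ∀ t ∈ stab (nz P) e, ∀ u ∈ P, u ≠ 1 → t * u * t⁻¹ = u → t ∈ cz P) :
    Nat.card (stab (nz P) e) * Nat.card B = Nat.card (stab (nz P) e) * blockRank p B +
      (Nat.card P - 1) * Nat.card (cz P) := by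
  classical
  have := charP_KF hMp
  have hePr : IsBrP p P e := hm.1.2.1
  set T := stab (nz P) e with hTs
  have hCT : cz P ≤ T := cz_le_stab hePr.2
  have hex : ∀ v : G, ∃ g, v ∈ P → PLE p (Subgroup.zpowers v) g P e := by
    intro v
    by_cases hv : v ∈ P
    · obtain ⟨g, hg⟩ := exists_ple hePr (Subgroup.zpowers v) (by rwa [Subgroup.zpowers_le])
      exact ⟨g, fun _ => hg⟩
    · exact ⟨0, fun h => absurd h hv⟩
  choose f' hf' using hex
  obtain ⟨Ω, hΩ1, hΩ2⟩ := exists_Om (p := p) hB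
  have hGne : (Nat.card G : ℂ) ≠ 0 := card_ne_zeroC
  have h1 := fus_count hm (K := T) (by rw [hTs]) (by
    intro Q g hg
    rw [hTs]
    exact hm.inner_of_abelian hab Q g hg) Ω hΩ1 f' (fun u hu => hf' u hu)
    (fun x g => (rk p (cz (Subgroup.zpowers x)) g : ℂ)) (by
      intro g ω hω
      have h2 : IsBlk (cz (Subgroup.zpowers ω.1)) ω.2 := ((hΩ1 ω.1 ω.2).mp hω).2.2.1.2
      rw [← cg_zpowers, ← cg_cz, rk_cj hMp h2])
  rw [total_rk hMp hB hΩ2] at h1
  have h2 : (Nat.card T : ℂ) * Nat.card B = ∑ u : G with u ∈ P,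
      (Nat.card (T ⊓ cz (Subgroup.zpowers u) : Subgroup G) : ℂ) *
        (rk p (cz (Subgroup.zpowers u)) (f' u) : ℂ) := by
    apply mul_left_cancel₀ hGne
    rw [mul_left_comm]
    exact_mod_cast h1
  have hone : ∀ u ∈ P, u ≠ 1 → T ⊓ cz (Subgroup.zpowers u) = cz P ∧
      rk p (cz (Subgroup.zpowers u)) (f' u) = 1 := by
    intro u hu hu1
    have hTC : T ⊓ cz (Subgroup.zpowers u) = cz P := by
      apply le_antisymm
      · rintro x ⟨hx, hxu⟩
        apply hfree x hx u hu hu1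
        exact mul_inv_eq_iff_eq_mul.mpr (mem_cz_zpowers.mp hxu)
      · exact le_inf hCT (cz_anti (by rwa [Subgroup.zpowers_le]))
    refine ⟨hTC, ?_⟩
    have hfu := hf' u hu
    have hPC : P ≤ cz (Subgroup.zpowers u) := by
      intro x hx
      rw [mem_cz_zpowers]
      exact hab x hx u hu
    obtain ⟨b, hb, hbe⟩ := exists_EH (hfu.isBrP_left hePr).2
    have hnil : IsNilK p (cz (Subgroup.zpowers u)) (f' u) := by
      rw [hm.local_nil_iff hfu hab, ← hTs, hTC]
    have hD : IsDef p (cz (Subgroup.zpowers u)) (f' u) P :=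
      hm.isDef_mid hfu le_rfl (cz_le_stab (hfu.isBrP_left hePr).2) hPC
    rw [← hbe] at hnil hD
    have hD' := (isDefectGroup_iff_EH hb hPC).mpr hD
    rw [← hbe, rk_EH hb]
    refine (nilpotent_abelian p M hMp (isNilpotentBlock_iff_EH.mpr ⟨hb, hnil⟩) hD' ?_).2
    rintro ⟨x, hx⟩ hx' ⟨y, hy⟩ hy'
    exact Subtype.ext (hab x (Subgroup.mem_subgroupOf.mp hx') y
      (Subgroup.mem_subgroupOf.mp hy'))
  have hmem1 : (1 : G) ∈ univ.filter (fun u : G => u ∈ P) :=
    Finset.mem_filter.mpr ⟨Finset.mem_univ _, P.one_mem⟩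
  rw [← Finset.add_sum_erase _ _ hmem1] at h2
  have h9 : f' 1 = EG M B := by
    have := hf' 1 P.one_mem
    rw [Subgroup.zpowers_one_eq_bot] at this
    exact ple_unique hePr _ this hm.1.ple
  have hrest : ∑ u ∈ (univ.filter (fun u : G => u ∈ P)).erase 1,
      (Nat.card (T ⊓ cz (Subgroup.zpowers u) : Subgroup G) : ℂ) *
        (rk p (cz (Subgroup.zpowers u)) (f' u) : ℂ) =
          ((Nat.card P - 1 : ℕ) : ℂ) * (Nat.card (cz P) : ℂ) := by
    have e1 : ∀ u ∈ (univ.filter (fun u : G => u ∈ P)).erase 1,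
        (Nat.card (T ⊓ cz (Subgroup.zpowers u) : Subgroup G) : ℂ) *
        (rk p (cz (Subgroup.zpowers u)) (f' u) : ℂ) = (Nat.card (cz P) : ℂ) := by
      intro u hu
      obtain ⟨hu1, hu2⟩ := Finset.mem_erase.mp hu
      obtain ⟨e2, e3⟩ := hone u (Finset.mem_filter.mp hu2).2 hu1
      rw [e2, e3, Nat.cast_one, mul_one]
    rw [Finset.sum_congr rfl e1, Finset.sum_const, nsmul_eq_mul]
    congr 1
    have e2 : (univ.filter (fun u : G => u ∈ P)).card = Nat.card P := by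
      rw [← Fintype.card_subtype, ← Nat.card_eq_fintype_card]
    have e3 := Finset.card_erase_of_mem hmem1
    rw [e3, e2]
  rw [hrest, h9, Subgroup.zpowers_one_eq_bot, rk_bot hMp hB, cz_bot, inf_top_eq] at h2
  exact_mod_cast h2

/-- The family data. -/
theorem exists_fam [hp : Fact p.Prime] (hMp : IsPModular p M) {B : Set (IrrCharacter G)}
    (hB : IsPBlock M B) (P : Subgroup G) (hP : IsDefectGroup p M B P) (hl : blockRank p B = 1) :
    ∃ (s m : ℕ) (ε : MonoidAlgebra (KF M) G) (F : Fam (KF M) (EG M B) ε s),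
      0 < s ∧ EG M B * ε = ε ∧ ε ∉ F.N ∧
      F.N ^ m = ⊥ ∧ Nat.card P ∣ finrank (KF M) (crn (KF M) ε ε) ∧
      (∀ x y, F.T (x * y) = F.T (y * x)) ∧
      (∀ χ ∈ B, ∃ c : KF M, ∀ x, EG M B * x = x → ev x (rdc M (χ : G → ℂ)) = c * F.T x) := by
  obtain ⟨s, m, ε, N, T, hs, hε, heε, ⟨mu⟩, hNA, hεN, hdec, hm, hmul, hdvd, hTT, hTε, hTN, hch⟩ :=
    exists_data hMp hB P hP hl
  refine ⟨s, m, ε, ⟨mu, (isBlk_EG hB).idem, EG_comm, hε, N, hNA, hmul, T, hTε, hTN, ?_⟩, hs, heε,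
    hεN, hm, hdvd, hTT, hch⟩
  intro a ha
  obtain ⟨c, hc⟩ := hdec a ha
  have h1 := hTN _ hc
  rw [map_sub, map_smul, hTε, smul_eq_mul, mul_one, sub_eq_zero] at h1
  rw [h1]
  exact hc

/-- If the corner is commutative then `|P| ≤ k(B)`. -/
theorem card_le_of_comm {B : Set (IrrCharacter G)}
    (hB : IsPBlock M B) (P : Subgroup G)
    {s : ℕ} {ε : MonoidAlgebra (KF M) G} (F : Fam (KF M) (EG M B) ε s) (hs : 0 < s)
    (hεN : ε ∉ F.N) (hdvd : Nat.card P ∣ finrank (KF M) (crn (KF M) ε ε))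
    (hcomm : ∀ a ∈ crn (KF M) ε ε, ∀ b ∈ crn (KF M) ε ε, a * b = b * a) :
    Nat.card P ≤ Nat.card B := by
  have h1 : crn (KF M) ε ε ≤ zA (KF M) ε := fun c hc => ⟨hc, fun a ha => hcomm c hc a ha⟩
  have h2 := Submodule.finrank_mono h1
  have h3 := finrank_zA_le (K := KF M) F.mu F.hc hs
  rw [finrank_zR hB] at h3
  have h4 : 0 < finrank (KF M) (crn (KF M) ε ε) := by
    rw [finrank_corner (K := KF M) ⟨F.hε, F.hε⟩ F.hNA hεN (fun a ha => ⟨_, F.hdec a ha⟩)]
    omega
  exact (Nat.le_of_dvd h4 hdvd).trans (h2.trans h3)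

/-- Cyclic defect group and one Brauer character imply nilpotency. -/
theorem cyclic_nil [hp : Fact p.Prime] (hMp : IsPModular p M) {B : Set (IrrCharacter G)}
    (hB : IsPBlock M B) (P : Subgroup G) (hP : IsDefectGroup p M B P) (hl : blockRank p B = 1)
    (hcyc : IsCyclic P) : IsNilpotentBlock p M B := by
  classical
  have := charP_KF hMp
  have hDD := (isDefectGroup_iff_EG hB).mp hP
  obtain ⟨e, he⟩ := hDD.exists_inB (isBlk_EG hB)
  have hmax := he.maxB_of_isDef hDD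
  have hePr : IsBrP p P e := hmax.1.2.1
  have hab : ∀ x ∈ P, ∀ y ∈ P, x * y = y * x := by
    intro x hx y hy
    obtain ⟨g, hg⟩ := hcyc.exists_generator
    obtain ⟨i, hi⟩ := Subgroup.mem_zpowers_iff.mp (hg ⟨x, hx⟩)
    obtain ⟨j, hj⟩ := Subgroup.mem_zpowers_iff.mp (hg ⟨y, hy⟩)
    have h := (Commute.refl g).zpow_zpow i j
    rw [hi, hj] at h
    exact congrArg Subtype.val h.eq
  obtain ⟨s, m, ε, F, hs, heε, hεN, hm, hdvd, -, -⟩ := exists_fam hMp hB P hP hl
  haveI : NeZero s := ⟨hs.ne'⟩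
  haveI : Infinite (KF M) := IsAlgClosed.instInfinite (K := KF M)
  have h1 := cyclic_gen (p := p) (isBlk_EG hB).mem hDD hcyc F
  have h2 := corner_comm (K := KF M) F.hε F.hNA (fun a ha => ⟨_, F.hdec a ha⟩) hm F.hNN h1
  have h3 := card_le_of_comm hB P F hs hεN hdvd h2
  have hCT : cz P ≤ stab (nz P) e := cz_le_stab hePr.2
  have h4 := card_free hMp hB hmax hab (by
    intro t ht u hu hu1 htu
    exact mem_cz_of_cyclic (p := p) hePr.1 hcyc (stab_le _ _) hCT (hmax.not_dvd_abelian hab) ht hu hu1 htu)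
  rw [hl, mul_one] at h4
  rw [isNilpotentBlock_iff]
  refine ⟨hB, ?_⟩
  rw [hmax.isNil_iff_abelian hab]
  by_cases hP1 : Nat.card P = 1
  · rw [Subgroup.card_eq_one] at hP1
    intro g _
    rw [Subgroup.mem_centralizer_iff]
    intro x hx
    rw [hP1] at hx
    have : x = 1 := hx
    rw [this, one_mul, mul_one]
  · have hPpos : 0 < Nat.card P := Nat.card_pos
    obtain ⟨q, hq⟩ : ∃ q, Nat.card P = q + 1 := ⟨Nat.card P - 1, by omega⟩
    have hq0 : 0 < q := by omega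
    rw [hq, Nat.add_sub_cancel] at h4
    have h5 : Nat.card (stab (nz P) e) * (q + 1) ≤ Nat.card (stab (nz P) e) * Nat.card B :=
      Nat.mul_le_mul_left _ (by omega)
    rw [h4, mul_add, mul_one] at h5
    have h6 : Nat.card (stab (nz P) e) * q ≤ Nat.card (cz P) * q := by
      rw [mul_comm (Nat.card (cz P))]
      omega
    have h7 := Nat.le_of_mul_le_mul_right h6 hq0
    have h8 := Subgroup.eq_of_le_of_card_ge hCT h7
    exact h8.ge

end Cfsg.Agent.H27.Md
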