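import Mathlib
import Cfsg.Agent.H27.Md15
import Cfsg.Agent.H26.Cor1

set_option autoImplicit false
set_option linter.style.haveILetI false

/-!
# Abelian defect groups and corners generated by the center
-/

namespace Cfsg.Agent.H27.Md

open Module Cfsg Cfsg.Agent.H11 Cfsg.Agent.H26 Cfsg.Agent.H3 MonoidAlgebra
open scoped ComplexConjugate

universe u

section alg

variable {K R : Type*} [Field K] [Ring R] [Algebra K R] {e ε : R} {s : ℕ} (F : Fam K e ε s)

/-- Transfer of an element of the block to the corner. -/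
def Fam.red (b : R) : R := ∑ k, F.mu.a k * b * F.mu.b k

theorem Fam.red_mem (b : R) : F.red b ∈ crn K ε ε := by
  unfold Fam.red
  exact Submodule.sum_mem _ fun k _ => F.mem_crn b k k

theorem Fam.trace_red (t : R →ₗ[K] K) (ht : ∀ x y, t (x * y) = t (y * x)) {w b : R}
    (hw : w ∈ zR K e) : t (w * b) = t (w * F.red b) := by
  have h1 : w * b = ∑ k, (w * F.mu.b k) * (F.mu.a k * b) := by
    have h2 : ∀ k, (w * F.mu.b k) * (F.mu.a k * b) = w * (F.mu.b k * F.mu.a k) * b := by
      intro k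
      simp only [mul_assoc]
    simp only [h2, ← Finset.sum_mul, ← Finset.mul_sum, F.mu.hba]
    rw [hw.2 e, hw.1]
  rw [h1, map_sum]
  unfold Fam.red
  rw [Finset.mul_sum, map_sum]
  apply Finset.sum_congr rfl
  intro k _
  rw [ht, ← mul_assoc, ← hw.2 (F.mu.a k * b), mul_assoc]

theorem Fam.exists_inv {m : ℕ} (hm : F.N ^ m = ⊥) {a : R} (ha : a ∈ crn K ε ε) (hT : F.T a ≠ 0) :
    ∃ a' ∈ crn K ε ε, a * a' = ε := by
  set c := F.T a with hc
  set n := c⁻¹ • (a - c • ε) with hn
  have hnN : n ∈ F.N := F.N.smul_mem _ (F.hdec a ha)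
  have hnil : IsNilpotent n := by
    refine ⟨m, ?_⟩
    have := Submodule.pow_mem_pow F.N hnN m
    rw [hm] at this
    exact this
  obtain ⟨u, hu⟩ := (hnil.neg).isUnit_one_sub
  rw [sub_neg_eq_add] at hu
  have hnA := F.hNA hnN
  have hcomm : Commute ε (u : R) := by
    rw [hu]
    exact (Commute.one_right _).add_right (show ε * n = n * ε by rw [hnA.1, hnA.2])
  have hcomm' : Commute ε ((u⁻¹ : Rˣ) : R) := hcomm.units_inv_right
  have ha2 : a = c • (ε * (u : R)) := by
    rw [hu, mul_add, mul_one, hnA.1, hn, smul_add, smul_smul, mul_inv_cancel₀ hT, one_smul]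
    abel
  refine ⟨c⁻¹ • (ε * ((u⁻¹ : Rˣ) : R)), ?_, ?_⟩
  · apply Submodule.smul_mem
    constructor
    · rw [← mul_assoc, F.hε]
    · rw [mul_assoc, ← hcomm'.eq, ← mul_assoc, F.hε]
  · rw [ha2, smul_mul_assoc, mul_smul_comm, smul_smul, mul_inv_cancel₀ hT, one_smul,
      ← mul_assoc, mul_assoc ε, ← hcomm.eq, ← mul_assoc, F.hε, mul_assoc, Units.mul_inv, mul_one]

/-- If the corner is generated by the center, then central elements are detected by
the trace against a suitable element. -/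
theorem Fam.central_zero {m : ℕ} (hm : F.N ^ m = ⊥) (heε : e * ε = ε) (t : R →ₗ[K] K)
    (ht : ∀ x y, t (x * y) = t (y * x)) (hnd : ∀ x, (∀ y, t (x * y) = 0) → x = 0)
    (hTT : ∀ x y, F.T (x * y) = F.T (y * x))
    (hAZ : ∀ a ∈ crn K ε ε, ∃ z ∈ zR K e, z * ε = a) {b : R} (hb : F.T (e * b) ≠ 0) {z : R}
    (hz : z ∈ zR K e) (hzb : ∀ w ∈ zR K e, t (z * w * b) = 0) : z = 0 := by
  have heR : e ∈ zR K e := ⟨F.he, F.hc⟩
  have h1 : F.T (F.red b) ≠ 0 := by
    rw [F.trace_red F.T hTT heR, (F.hc _).trans ?_] at hb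
    · exact hb
    · have h2 := F.red_mem b
      rw [← h2.2, mul_assoc, ← F.hc, heε]
  obtain ⟨a', ha', haa⟩ := F.exists_inv hm (F.red_mem b) h1
  have h2 : z * ε = 0 := by
    apply hnd
    intro y
    have h3 : t (z * ε * y) = t (z * (ε * y * ε)) := by
      have h4 : z * ε * y = ε * (z * ε * y) := by
        rw [← mul_assoc, ← mul_assoc, ← hz.2 ε, mul_assoc z ε ε, F.hε]
      rw [h4, ht, mul_assoc z ε y, mul_assoc z]
    rw [h3]
    have hyA : ε * y * ε ∈ crn K ε ε := by
      constructor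
      · rw [← mul_assoc, ← mul_assoc, F.hε]
      · rw [mul_assoc, F.hε]
    have hyA' : a' * (ε * y * ε) ∈ crn K ε ε := by
      constructor
      · rw [← mul_assoc, ha'.1]
      · rw [mul_assoc, hyA.2]
    obtain ⟨w, hw, hwε⟩ := hAZ _ hyA'
    have h5 := hzb w hw
    have hzw : z * w ∈ zR K e := by
      constructor
      · rw [← mul_assoc, hz.1]
      · intro x
        rw [mul_assoc, hw.2, ← mul_assoc, hz.2, mul_assoc]
    rw [F.trace_red t ht hzw, mul_assoc, hw.2] at h5
    have h6 : F.red b * w = ε * y * ε := by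
      rw [← (F.red_mem b).2, mul_assoc, ← hw.2, hwε, ← mul_assoc, haa, hyA.1]
    rw [h6] at h5
    exact h5
  have h3 : z = z * e := by rw [← F.hc, hz.1]
  rw [h3, ← F.mu.hba, Finset.mul_sum]
  apply Finset.sum_eq_zero
  intro k _
  rw [← F.mu.ha k, ← mul_assoc, ← mul_assoc, hz.2 (F.mu.b k), mul_assoc (F.mu.b k), h2, mul_zero,
    zero_mul]

end alg

section grp

variable {G : Type u} [Group G] [Fintype G] {p : ℕ} {M : Ideal AlgInt} [hM : M.IsPrime]

theorem mem_Zc_of_zR {e z : MonoidAlgebra (KF M) G} (hz : z ∈ zR (KF M) e) :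
    z ∈ Zc (KF M) (⊤ : Subgroup G) := by
  refine ⟨isSup_top _, ?_⟩
  intro g _
  rw [cj_eq_mul, ← hz.2, mul_assoc, single_mul_single, mul_inv_cancel, one_mul, ← one_def, mul_one]

/-- The dimension of the center of a local block with central defect group. -/
theorem finrank_local [hp : Fact p.Prime] (hMp : IsPModular p M) {B : Set (IrrCharacter G)}
    {P : Subgroup G} {e : MonoidAlgebra (KF M) G}
    (hm : MaxB p (EG M B) P e) (hab : ∀ x ∈ P, ∀ y ∈ P, x * y = y * x)
    (W : Submodule (KF M) (MonoidAlgebra (KF M) G))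
    (hW : ∀ x ∈ W, x ∈ Zc (KF M) (cz P) ∧ e * x = x) :
    finrank (KF M) W ≤ Nat.card P := by
  classical
  have := charP_KF hMp
  have hePr : IsBrP p P e := hm.1.2.1
  have hPC : P ≤ cz P := by
    intro x hx
    rw [Subgroup.mem_centralizer_iff]
    intro y hy
    exact hab y hy x hx
  obtain ⟨b, hb, hbe⟩ := exists_EH hePr.2
  have hnil : IsNilK p (cz P) e := by
    rw [hm.local_nil_iff (PLE.refl P e) hab]
    exact inf_le_right
  have hD : IsDef p (cz P) e P :=
    hm.isDef_mid (PLE.refl P e) le_rfl (cz_le_stab hePr.2) hPC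
  have hD2 := hD
  have hnil2 := hnil
  rw [← hbe] at hnil2 hD2
  have hD' := (isDefectGroup_iff_EH hb hPC).mpr hD2
  have h1 := (nilpotent_abelian p M hMp (isNilpotentBlock_iff_EH.mpr ⟨hb, hnil2⟩) hD' (by
    rintro ⟨x, hx⟩ hx' ⟨y, hy⟩ hy'
    exact Subtype.ext (hab x (Subgroup.mem_subgroupOf.mp hx') y
      (Subgroup.mem_subgroupOf.mp hy')))).1
  haveI : Fintype (cz P) := Fintype.ofFinite _
  have h2 := finrank_zR hb
  rw [h1, Nat.card_congr (Subgroup.subgroupOfEquivOfLe hPC).toEquiv] at h2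
  rw [← h2]
  -- restriction to the centralizer
  let ρ : MonoidAlgebra (KF M) G →ₗ[KF M] MonoidAlgebra (KF M) (cz P) :=
    { toFun := fun x => (maEquiv (KF M) (cz P)).symm fun c => x.coeff (c : G)
      map_add' := by
        intro x y
        rw [← map_add]
        congr 1
      map_smul' := by
        intro r x
        rw [RingHom.id_apply, ← map_smul]
        congr 1 }
  have hρ : ∀ x (c : cz P), (ρ x).coeff c = x.coeff (c : G) := by
    intro x c
    exact congrFun ((maEquiv (KF M) (cz P)).apply_symm_apply fun c => x.coeff (c : G)) c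
  have hinj : Function.Injective (ρ.comp W.subtype) := by
    rw [← LinearMap.ker_eq_bot, LinearMap.ker_eq_bot']
    rintro ⟨x, hx⟩ hx0
    apply Subtype.ext
    ext g
    by_cases hg : g ∈ cz P
    · rw [← hρ x ⟨g, hg⟩]
      exact congrArg (fun y : MonoidAlgebra (KF M) (cz P) => y.coeff ⟨g, hg⟩) hx0
    · exact (hW x hx).1.1 g hg
  have hebc : ∀ c : cz P, (EG M b).coeff c = e.coeff (c : G) := by
    intro c
    rw [coeff_EG, ← hbe, coeff_EH, subgroupBlockCoeff, dif_pos c.2]
  have hrange : LinearMap.range (ρ.comp W.subtype) ≤ zR (KF M) (EG M b) := by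
    rintro _ ⟨⟨x, hx⟩, rfl⟩
    obtain ⟨hx1, hx2⟩ := hW x hx
    refine ⟨?_, ?_⟩
    · ext c
      change (EG M b * ρ x).coeff c = (ρ x).coeff c
      rw [hρ, coeff_mul_fintype]
      conv_rhs => rw [← hx2, coeff_mul_fintype]
      have h3 : ∀ y : G, y ∉ cz P → e.coeff y * x.coeff (y⁻¹ * c) = 0 := by
        intro y hy
        rw [hePr.2.isSup y hy, zero_mul]
      have h4 : ∑ y : G, e.coeff y * x.coeff (y⁻¹ * c) =
          ∑ y : cz P, e.coeff (y : G) * x.coeff ((y : G)⁻¹ * c) := by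
        rw [← Finset.sum_subset (Finset.subset_univ (Finset.univ.filter (· ∈ cz P)))
          (fun y _ hy => h3 y fun h => hy (Finset.mem_filter.mpr ⟨Finset.mem_univ _, h⟩))]
        exact Finset.sum_subtype _ (fun y => by simp) _
      rw [h4]
      apply Finset.sum_congr rfl
      intro y _
      rw [hebc, hρ]
      rfl
    · intro y
      have h3 : ρ x ∈ Zc (KF M) (⊤ : Subgroup (cz P)) := by
        refine ⟨isSup_top _, ?_⟩
        rw [isFx_iff_coeff]
        intro g _ y
        rw [hρ, hρ]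
        exact hx1.2.coeff g.2 y
      exact (Zc_commute h3 (isSup_top y)).eq
  calc finrank (KF M) W = finrank (KF M) (LinearMap.range (ρ.comp W.subtype)) :=
        (LinearMap.finrank_range_of_inj hinj).symm
    _ ≤ finrank (KF M) (zR (KF M) (EG M b)) := Submodule.finrank_mono hrange

/-- Block idempotents of centralizers detect elements of central `p`-subgroups. -/
theorem single_mul_inj [hp : Fact p.Prime] (hMp : IsPModular p M)
    {P : Subgroup G} {e : MonoidAlgebra (KF M) G} (hePr : IsBrP p P e) {u v : G}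
    (hu : u ∈ P) (hv : v ∈ P) (hab : ∀ x ∈ P, ∀ y ∈ P, x * y = y * x)
    (h : single u (1 : KF M) * e = single v 1 * e) : u = v := by
  classical
  obtain ⟨b, hb, hbe⟩ := exists_EH hePr.2
  haveI : Fintype (cz P) := Fintype.ofFinite _
  have hne := hePr.2.ne_zero
  obtain ⟨y, hy⟩ : ∃ y, e.coeff y ≠ 0 := by
    by_contra hcon
    push Not at hcon
    exact hne (by ext y; exact hcon y)
  have hreg : ∀ y, e.coeff y ≠ 0 → y ∈ cz P ∧ ¬ p ∣ orderOf y := by
    intro y hy
    have hyC : y ∈ cz P := by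
      by_contra h1
      exact hy (hePr.2.isSup y h1)
    refine ⟨hyC, ?_⟩
    have h2 : (EG M b).coeff ⟨y, hyC⟩ ≠ 0 := by
      rw [← hbe, coeff_EH, subgroupBlockCoeff, dif_pos hyC] at hy
      rwa [coeff_EG]
    have h3 := coeff_EG_pregular hMp hb h2
    rwa [← Subgroup.orderOf_coe] at h3
  have h1 := congrArg (fun a : MonoidAlgebra (KF M) G => a.coeff (u * y)) h
  simp only [coeff_single_mul_apply, one_mul] at h1
  rw [inv_mul_cancel_left] at h1
  have h2 : e.coeff (v⁻¹ * (u * y)) ≠ 0 := by rw [← h1]; exact hy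
  have h3 := (hreg _ h2).2
  have h4 := hreg y hy
  have hw : v⁻¹ * u ∈ P := P.mul_mem (P.inv_mem hv) hu
  have h5 : IsPPart p (v⁻¹ * (u * y)) (v⁻¹ * u) := by
    refine ⟨y, by group, ?_, ?_, h4.2⟩
    · exact (Subgroup.mem_centralizer_iff.mp h4.1 _ hw)
    · obtain ⟨k, hk⟩ := (IsPGroup.iff_orderOf.mp hePr.1) ⟨_, hw⟩
      exact ⟨k, by rw [← hk, ← Subgroup.orderOf_coe]⟩
  have h6 := isPPart_unique hp.out h5 (isPPart_one_of_pRegular hp.out h3)
  have h7 : v = u := inv_mul_eq_one.mp h6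
  exact h7.symm

/-- The main criterion. -/
theorem nil_of_central_corner [hp : Fact p.Prime] (hMp : IsPModular p M) {B : Set (IrrCharacter G)}
    (hB : IsPBlock M B) (P : Subgroup G) (hP : IsDefectGroup p M B P)
    (hab : ∀ x ∈ P, ∀ y ∈ P, x * y = y * x)
    {s m : ℕ} {ε : MonoidAlgebra (KF M) G} (F : Fam (KF M) (EG M B) ε s)
    (hm : F.N ^ m = ⊥) (heε : EG M B * ε = ε) (hTT : ∀ x y, F.T (x * y) = F.T (y * x))
    (hch : ∀ χ ∈ B, ∃ c : KF M, ∀ x, EG M B * x = x → ev x (rdc M (χ : G → ℂ)) = c * F.T x)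
    (hAZ : ∀ a ∈ crn (KF M) ε ε, ∃ z ∈ zR (KF M) (EG M B), z * ε = a)
    (hcard : Nat.card P ≤ Nat.card B) : IsNilpotentBlock p M B := by
  classical
  have := charP_KF hMp
  have hDD := (isDefectGroup_iff_EG hB).mp hP
  obtain ⟨e, he⟩ := hDD.exists_inB (isBlk_EG hB)
  have hmax := he.maxB_of_isDef hDD
  have hePr : IsBrP p P e := hmax.1.2.1
  have hE := isBlk_EG (M := M) hB
  have hPC : P ≤ cz P := by
    intro x hx
    rw [Subgroup.mem_centralizer_iff]
    intro y hy
    exact hab y hy x hx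
  -- the element g
  obtain ⟨g, hg, hDs⟩ := (H11.isDefectGroup_iff hMp).mp hP
  obtain ⟨χ, hχ, h0⟩ := exists_height_zero hMp hB
  have hgv := not_li_value hMp hB hχ h0 hg
  have hgC : g ∈ cz P := by
    rw [Subgroup.mem_centralizer_iff]
    intro y hy
    exact mem_C1.mp (hDs.le hy)
  have hTg : F.T (EG M B * single g 1) ≠ 0 := by
    intro h1
    obtain ⟨c, hc⟩ := hch χ hχ
    have h2 := hc (EG M B * single g 1) (by rw [← mul_assoc, hE.idem])
    rw [h1, mul_zero, ev_EG_mul hB, if_pos hχ] at h2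
    have h3 : ev (single g (1 : KF M)) (rdc M (χ : G → ℂ)) = rd M ((χ : G → ℂ) g) := by
      rw [ev_apply, Finset.sum_eq_single g]
      · rw [coeff_single, Finsupp.single_eq_same, one_mul]
      · intro y _ hy
        rw [coeff_single, Finsupp.single_eq_of_ne hy, zero_mul]
      · intro h; exact absurd (Finset.mem_univ _) h
    rw [h3, rd_eq_zero_iff (lr_isChar hM (irr_isChar χ.2) _)] at h2
    exact hgv h2
  -- the Brauer map is injective on the center
  have hinj1 : ∀ z ∈ zR (KF M) (EG M B), br P z = 0 → z = 0 := by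
    intro z hz hz0
    apply F.central_zero hm heε coeffOne coeffOne_comm coeffOne_nondeg hTT hAZ hTg hz
    intro w hw
    have h1 : z * w * single g 1 = (z * w) * single (g⁻¹)⁻¹ 1 := by rw [inv_inv]
    rw [h1, coeffOne_single, ← coeff_br_of_mem (P := P) _ ((cz P).inv_mem hgC),
      br_mul hePr.1 ((mem_Zc_of_zR hz).2.mono le_top) ((mem_Zc_of_zR hw).2.mono le_top), hz0,
      zero_mul]
    rfl
  -- multiplication by e
  have hF : IsBlk (nz P) (br P (EG M B)) := FM.isBlk_br hE le_top hDD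
  have hK := normalizer_le_normalizer_centralizer P
  have hos : br P (EG M B) = osum (nz P) e :=
    eq_osum hF hePr.2 hK (centralizer_le_normalizer' P) hmax.1.2.2
  have hcjz : ∀ z ∈ zR (KF M) (EG M B), ∀ n ∈ nz P, cj n (br P z) = br P z := by
    intro z hz n hn
    rw [cj_br_of_normalizer hn, (mem_Zc_of_zR hz).2 n (Subgroup.mem_top n)]
  have hinj2 : ∀ z ∈ zR (KF M) (EG M B), e * br P z = 0 → z = 0 := by
    intro z hz h1
    apply hinj1 z hz
    have h2 : br P z = br P (EG M B) * br P z := by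
      rw [← br_mul hePr.1 (hE.isFx.mono le_top) ((mem_Zc_of_zR hz).2.mono le_top), hz.1]
    rw [h2, hos, osum, Finset.sum_mul]
    apply Finset.sum_eq_zero
    intro d hd
    obtain ⟨n, hn, rfl⟩ := mem_orb.mp hd
    rw [← hcjz z hz n hn, ← map_mul, h1, map_zero]
  -- the linear map
  let L : zR (KF M) (EG M B) →ₗ[KF M] MonoidAlgebra (KF M) G :=
    ((LinearMap.mulLeft (KF M) e).comp (br P)).comp (zR (KF M) (EG M B)).subtype
  have hLinj : Function.Injective L := by
    rw [← LinearMap.ker_eq_bot, LinearMap.ker_eq_bot']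
    rintro ⟨z, hz⟩ h
    exact Subtype.ext (hinj2 z hz h)
  let W : Submodule (KF M) (MonoidAlgebra (KF M) G) :=
    (Subalgebra.toSubmodule (Zc (KF M) (cz P))) ⊓ LinearMap.ker (LinearMap.mulLeft (KF M) e - 1)
  have hWmem : ∀ x, x ∈ W ↔ x ∈ Zc (KF M) (cz P) ∧ e * x = x := by
    intro x
    rw [Submodule.mem_inf, LinearMap.mem_ker, LinearMap.sub_apply, sub_eq_zero]
    rfl
  have hLW : LinearMap.range L ≤ W := by
    rintro _ ⟨⟨z, hz⟩, rfl⟩
    rw [hWmem]
    change e * br P z ∈ _ ∧ e * (e * br P z) = e * br P z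
    refine ⟨(Zc (KF M) (cz P)).mul_mem hePr.2.mem ?_, by rw [← mul_assoc, hePr.2.idem]⟩
    refine ⟨isSup_br P z, ?_⟩
    intro n hn
    exact hcjz z hz n (centralizer_le_normalizer' P hn)
  have hW1 : finrank (KF M) W ≤ Nat.card P :=
    finrank_local hMp hmax hab W (fun x hx => (hWmem x).mp hx)
  have hLeq : LinearMap.range L = W := by
    apply Submodule.eq_of_le_of_finrank_le hLW
    rw [LinearMap.finrank_range_of_inj hLinj, finrank_zR hB]
    exact hW1.trans hcard
  rw [isNilpotentBlock_iff]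
  refine ⟨hB, ?_⟩
  rw [hmax.isNil_iff_abelian hab]
  intro n hn
  rw [Subgroup.mem_centralizer_iff]
  intro u hu
  have hx : single u (1 : KF M) * e ∈ W := by
    rw [hWmem]
    have hsu : single u (1 : KF M) ∈ Zc (KF M) (cz P) := by
      refine ⟨isSup_single (hPC hu) 1, ?_⟩
      intro c hc
      rw [cj_single]
      congr 1
      have h1 := Subgroup.mem_centralizer_iff.mp hc u hu
      rw [← h1]
      group
    refine ⟨(Zc (KF M) (cz P)).mul_mem hsu hePr.2.mem, ?_⟩
    rw [← mul_assoc, ← (Zc_commute hsu hePr.2.isSup).eq, mul_assoc, hePr.2.idem]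
  rw [← hLeq] at hx
  obtain ⟨⟨z, hz⟩, hzx⟩ := hx
  have hzx' : e * br P z = single u (1 : KF M) * e := hzx
  have h1 := congrArg (cj n) hzx'
  rw [map_mul, map_mul, hcjz z hz n hn.1, hn.2, cj_single, hzx'] at h1
  have hnu : n * u * n⁻¹ ∈ P := (Subgroup.mem_normalizer_iff.mp hn.1 u).mp hu
  have h2 := single_mul_inj hMp hePr hu hnu hab h1
  calc u * n = n * u * n⁻¹ * n := by rw [← h2]
    _ = n * u := by group

end grp

end Cfsg.Agent.H27.Md
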