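import Mathlib
import Cfsg.Agent.H27.Md4
import Cfsg.Agent.H27.Md8

set_option autoImplicit false
set_option linter.style.haveILetI false

/-!
# Dimensions of corners and ranks
-/

namespace Cfsg.Agent.H27.Md

open Module Matrix

section abs

variable {K R S : Type*} [Field K] [Ring R] [Algebra K R] [FiniteDimensional K R] [Ring S]
  [Algebra K S]

/-- Equivalent idempotents modulo a nil ideal have isomorphic corners. -/
theorem finrank_crn_equiv (π : R →ₐ[K] S) (hπ : Function.Surjective π)
    (hker : ∀ x, π x = 0 → IsNilpotent x) {e f y : R} (he : e * e = e) (hf : f * f = f)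
    {α β : S} (h1 : π f * α = α) (h2 : α * π e = α) (h3 : π e * β = β) (h4 : β * π f = β)
    (h5 : α * β = π f) (h6 : β * α = π e) :
    finrank K (crn K e y) = finrank K (crn K f y) := by
  obtain ⟨a0, ha0⟩ := hπ α
  obtain ⟨b0, hb0⟩ := hπ β
  let a' := f * a0 * e
  let b := e * b0 * f
  have hπa : π a' = α := by
    simp only [a']
    rw [map_mul, map_mul, ha0, h1, h2]
  have hπb : π b = β := by
    simp only [b]
    rw [map_mul, map_mul, hb0, h3, h4]
  have hfa : f * a' = a' := by
    simp only [a']
    rw [← mul_assoc, ← mul_assoc, hf]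
  have hae : a' * e = a' := by
    simp only [a']
    rw [mul_assoc, he]
  have heb : e * b = b := by
    simp only [b]
    rw [← mul_assoc, ← mul_assoc, he]
  have hbf : b * f = b := by
    simp only [b]
    rw [mul_assoc, hf]
  obtain ⟨c, hc1, hc2, hc3, hc4⟩ : ∃ c : R, c * (a' * b) = f ∧ c * f = c ∧ f * c = c ∧
      π c = π f := by
    set n := f - a' * b with hn
    have hfab : f * (a' * b) = a' * b := by rw [← mul_assoc, hfa]
    have habf : (a' * b) * f = a' * b := by rw [mul_assoc, hbf]
    have hπn : π n = 0 := by
      rw [hn, map_sub, map_mul, hπa, hπb, h5, sub_self]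
    have hnf : n * f = n := by rw [hn, sub_mul, hf, habf]
    have hfn : f * n = n := by rw [hn, mul_sub, hf, hfab]
    obtain ⟨u, hu⟩ := (hker n hπn).isUnit_one_sub
    have hcomm : Commute f (u : R) := by
      rw [hu]
      exact (Commute.one_right _).sub_right (show f * n = n * f by rw [hnf, hfn])
    have hcomm' : Commute f ((u⁻¹ : Rˣ) : R) := hcomm.units_inv_right
    refine ⟨f * (u⁻¹ : Rˣ), ?_, ?_, ?_, ?_⟩
    · have e1 : a' * b = (u : R) * f := by
        rw [hu, sub_mul, one_mul, hnf, hn]
        abel
      rw [e1, mul_assoc, ← mul_assoc ((u⁻¹ : Rˣ) : R), Units.inv_mul, one_mul, hf]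
    · rw [mul_assoc, ← hcomm'.eq, ← mul_assoc, hf]
    · rw [← mul_assoc, hf]
    · have e1 : π (u : R) = 1 := by rw [hu, map_sub, map_one, hπn, sub_zero]
      have e2 : π ((u⁻¹ : Rˣ) : R) = 1 := by
        have e3 : π ((u : R) * ((u⁻¹ : Rˣ) : R)) = 1 := by rw [Units.mul_inv, map_one]
        rwa [map_mul, e1, one_mul] at e3
      rw [map_mul, e2, mul_one]
  let a := c * a'
  have hab : a * b = f := by
    simp only [a]
    rw [mul_assoc, hc1]
  have hae2 : a * e = a := by
    simp only [a]
    rw [mul_assoc, hae]
  have hfa2 : f * a = a := by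
    simp only [a]
    rw [← mul_assoc, hc3]
  have hba : b * a = e := by
    have e1 : (b * a) * (b * a) = b * a := by
      rw [mul_assoc, ← mul_assoc a, hab, ← mul_assoc, hbf]
    have e2 : e * (b * a) = b * a := by rw [← mul_assoc, heb]
    have e3 : (b * a) * e = b * a := by rw [mul_assoc, hae2]
    have e4 : (e - b * a) * (e - b * a) = e - b * a := by
      rw [sub_mul, mul_sub, mul_sub, e1, e2, e3, he]
      abel
    have e5 : π (e - b * a) = 0 := by
      have h7 : π a = α := by
        simp only [a]
        rw [map_mul π c, hc4, hπa, h1]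
      rw [map_sub, map_mul π b, hπb, h7, h6, sub_self]
    exact (sub_eq_zero.mp (eq_zero_of_nil_idem e4 (hker _ e5))).symm
  let L : crn K e y ≃ₗ[K] crn K f y :=
    { toFun := fun z => ⟨a * z, by
        constructor
        · rw [← mul_assoc, hfa2]
        · rw [mul_assoc, z.2.2]⟩
      invFun := fun z => ⟨b * z, by
        constructor
        · rw [← mul_assoc, heb]
        · rw [mul_assoc, z.2.2]⟩
      map_add' := by
        intro x y
        apply Subtype.ext
        exact mul_add _ _ _
      map_smul' := by
        intro c x
        apply Subtype.ext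
        exact mul_smul_comm _ _ _
      left_inv := by
        intro z
        apply Subtype.ext
        change b * (a * z) = z
        rw [← mul_assoc, hba, z.2.1]
      right_inv := by
        intro z
        apply Subtype.ext
        change a * (b * z) = z
        rw [← mul_assoc, hab, z.2.1] }
  exact L.finrank_eq

/-- Corners of sums of orthogonal idempotents. -/
theorem finrank_crn_sum {κ : Type*} [Fintype κ] {E : κ → R} (hE : OrthogonalIdempotents E) (y : R) :
    finrank K (crn K (∑ i, E i) y) = ∑ i, finrank K (crn K (E i) y) := by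
  classical
  have hx : ∀ i, (∑ j, E j) * E i = E i := by
    intro i
    rw [Finset.sum_mul, Finset.sum_eq_single i]
    · exact hE.idem i
    · intro j _ hj
      exact hE.ortho hj
    · intro h; exact absurd (Finset.mem_univ _) h
  have hx' : ∀ i, E i * (∑ j, E j) = E i := by
    intro i
    rw [Finset.mul_sum, Finset.sum_eq_single i]
    · exact hE.idem i
    · intro j _ hj
      exact hE.ortho (Ne.symm hj)
    · intro h; exact absurd (Finset.mem_univ _) h
  let L : crn K (∑ i, E i) y ≃ₗ[K] (∀ i, crn K (E i) y) :=
    { toFun := fun z i => ⟨E i * z, by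
        constructor
        · rw [← mul_assoc, (hE.idem i).eq]
        · rw [mul_assoc, z.2.2]⟩
      invFun := fun w => ⟨∑ i, (w i : R), by
        constructor
        · rw [Finset.mul_sum]
          apply Finset.sum_congr rfl
          intro i _
          rw [← (w i).2.1, ← mul_assoc, hx]
        · rw [Finset.sum_mul]
          apply Finset.sum_congr rfl
          intro i _
          rw [(w i).2.2]⟩
      map_add' := by
        intro x y
        funext i
        apply Subtype.ext
        exact mul_add _ _ _
      map_smul' := by
        intro c x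
        funext i
        apply Subtype.ext
        exact mul_smul_comm _ _ _
      left_inv := by
        intro z
        apply Subtype.ext
        change ∑ i, E i * (z : R) = z
        rw [← Finset.sum_mul, z.2.1]
      right_inv := by
        intro w
        funext i
        apply Subtype.ext
        change E i * (∑ j, (w j : R)) = w i
        rw [Finset.mul_sum, Finset.sum_eq_single i]
        · rw [(w i).2.1]
        · intro j _ hj
          rw [← (w j).2.1, ← mul_assoc, hE.ortho (Ne.symm hj), zero_mul]
        · intro h; exact absurd (Finset.mem_univ _) h }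
  rw [L.finrank_eq, Module.finrank_pi_fintype]

end abs

/-- Factorization of idempotent matrices. -/
theorem idem_factor {K : Type*} [Field K] {d : ℕ} (X : Matrix (Fin d) (Fin d) K) (hX : X * X = X) :
    ∃ (U : Matrix (Fin d) (Fin X.rank) K) (V : Matrix (Fin X.rank) (Fin d) K),
      U * V = X ∧ V * U = 1 := by
  let W := LinearMap.range X.mulVecLin
  let b : Basis (Fin X.rank) K W := finBasisOfFinrankEq K W rfl
  let U : Matrix (Fin d) (Fin X.rank) K := Matrix.of fun i j => (b j : Fin d → K) i
  let g : (Fin d → K) →ₗ[K] (Fin X.rank → K) :=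
    b.equivFun.toLinearMap.comp X.mulVecLin.rangeRestrict
  let V : Matrix (Fin X.rank) (Fin d) K := LinearMap.toMatrix' g
  have hV : ∀ x, V.mulVec x = b.equivFun (X.mulVecLin.rangeRestrict x) := by
    intro x
    rw [LinearMap.toMatrix'_mulVec]
    rfl
  have hU : ∀ w : Fin X.rank → K, U.mulVec w = (b.equivFun.symm w : Fin d → K) := by
    intro w
    rw [Basis.equivFun_symm_apply]
    funext i
    simp [U, Matrix.mulVec, dotProduct, mul_comm]
  have hXW : ∀ w : W, X.mulVecLin.rangeRestrict (w : Fin d → K) = w := by
    rintro ⟨w, x, rfl⟩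
    apply Subtype.ext
    change X.mulVec (X.mulVec x) = X.mulVec x
    rw [Matrix.mulVec_mulVec, hX]
  refine ⟨U, V, ?_, ?_⟩
  · apply Matrix.mulVec_injective
    funext x
    rw [← Matrix.mulVec_mulVec, hV, hU, LinearEquiv.symm_apply_apply]
    rfl
  · apply Matrix.mulVec_injective
    funext x
    rw [← Matrix.mulVec_mulVec, hU, hV, hXW, LinearEquiv.apply_symm_apply, Matrix.one_mulVec]

end Cfsg.Agent.H27.Md
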