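import Mathlib
import Cfsg.Agent.H27.Md17

set_option autoImplicit false
set_option linter.style.haveILetI false

/-!
# Dimensions of corners in terms of ranks on the simple modules
-/

namespace Cfsg.Agent.H27.Md

open Module Matrix

section K0

variable {K R : Type*} [Field K] [Ring R] [Algebra K R] [FiniteDimensional K R]
  {n : ℕ} {d : Fin n → ℕ}

/-- The rank one idempotent. -/
noncomputable def e00 {d : ℕ} (hd : 0 < d) : Matrix (Fin d) (Fin d) K :=
  Matrix.vecMulVec (Pi.single ⟨0, hd⟩ 1) (Pi.single ⟨0, hd⟩ 1)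

theorem e00_mul {d : ℕ} (hd : 0 < d) (v : Fin d → K) :
    e00 hd * Matrix.vecMulVec (Pi.single ⟨0, hd⟩ 1) v = Matrix.vecMulVec (Pi.single ⟨0, hd⟩ 1) v := by
  unfold e00
  rw [Matrix.vecMulVec_mul_vecMulVec]
  simp

theorem mul_e00 {d : ℕ} (hd : 0 < d) (v : Fin d → K) :
    Matrix.vecMulVec v (Pi.single ⟨0, hd⟩ 1) * e00 hd = Matrix.vecMulVec v (Pi.single ⟨0, hd⟩ 1) := by
  unfold e00
  rw [Matrix.vecMulVec_mul_vecMulVec]
  simp

/-- Decomposition of corners. -/
theorem finrank_crn_rank (π : R →ₐ[K] (Π i : Fin n, Matrix (Fin (d i)) (Fin (d i)) K))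
    (hπ : Function.Surjective π) (hker : ∀ x, π x = 0 → IsNilpotent x) (hd : ∀ i, 0 < d i)
    {ε : Fin n → R} (hε : ∀ i, ε i * ε i = ε i) (hπε : ∀ i, π (ε i) = Pi.single i (e00 (hd i)))
    {x : R} (hx : x * x = x) (y : R) :
    finrank K (crn K x y) = ∑ i, (π x i).rank * finrank K (crn K (ε i) y) := by
  classical
  have hX : ∀ i, π x i * π x i = π x i := by
    intro i
    rw [← Pi.mul_apply, ← map_mul, hx]
  choose U V hUV hVU using fun i => idem_factor (π x i) (hX i)
  let κ := Σ i : Fin n, Fin (π x i).rank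
  let β : κ → (Π i : Fin n, Matrix (Fin (d i)) (Fin (d i)) K) := fun k =>
    Pi.single k.1 (Matrix.vecMulVec (fun a => U k.1 a k.2) (Pi.single ⟨0, hd k.1⟩ 1))
  let α : κ → (Π i : Fin n, Matrix (Fin (d i)) (Fin (d i)) K) := fun k =>
    Pi.single k.1 (Matrix.vecMulVec (Pi.single ⟨0, hd k.1⟩ 1) (fun b => V k.1 k.2 b))
  have hdot : ∀ i (k l : Fin (π x i).rank), (fun b => V i k b) ⬝ᵥ (fun a => U i a l) =
      if k = l then 1 else 0 := by
    intro i k l
    have h1 := congrFun (congrFun (hVU i) k) l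
    rw [Matrix.mul_apply, Matrix.one_apply] at h1
    exact h1
  have hαβ : ∀ k, α k * β k = π (ε k.1) := by
    intro k
    simp only [α, β]
    rw [hπε, ← Pi.single_mul, Matrix.vecMulVec_mul_vecMulVec, hdot, if_pos rfl, one_smul]
    rfl
  have hαβ0 : ∀ k l, k ≠ l → α k * β l = 0 := by
    rintro ⟨i, k⟩ ⟨j, l⟩ hkl
    simp only [α, β]
    by_cases hij : i = j
    · subst hij
      have : k ≠ l := fun h => hkl (by rw [h])
      rw [← Pi.single_mul, Matrix.vecMulVec_mul_vecMulVec, hdot, if_neg this, zero_smul,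
        Matrix.vecMulVec_zero, Pi.single_zero]
    · funext m
      rw [Pi.mul_apply, Pi.zero_apply]
      by_cases hm : m = i
      · subst hm
        rw [Pi.single_eq_of_ne hij, mul_zero]
      · rw [Pi.single_eq_of_ne hm, zero_mul]
  have h1 : ∀ k, π (ε k.1) * α k = α k := by
    intro k
    simp only [α]
    rw [hπε, ← Pi.single_mul, e00_mul]
  have h4 : ∀ k, β k * π (ε k.1) = β k := by
    intro k
    simp only [β]
    rw [hπε, ← Pi.single_mul, mul_e00]
  let E : κ → (Π i : Fin n, Matrix (Fin (d i)) (Fin (d i)) K) := fun k => β k * α k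
  have hE : OrthogonalIdempotents E := by
    constructor
    · intro k
      change β k * α k * (β k * α k) = β k * α k
      rw [mul_assoc, ← mul_assoc (α k), hαβ, h1]
    · intro k l hkl
      change β k * α k * (β l * α l) = 0
      rw [mul_assoc, ← mul_assoc (α k), hαβ0 k l hkl, zero_mul, mul_zero]
  have hsum : ∑ k, E k = π x := by
    change ∑ k : κ, β k * α k = π x
    rw [Fintype.sum_sigma]
    have h2 : ∀ i, ∑ k : Fin (π x i).rank, β ⟨i, k⟩ * α ⟨i, k⟩ = Pi.single i (π x i) := by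
      intro i
      have h3 : ∀ k : Fin (π x i).rank, β ⟨i, k⟩ * α ⟨i, k⟩ =
          Pi.single i (Matrix.vecMulVec (fun a => U i a k) (fun b => V i k b)) := by
        intro k
        simp only [β, α]
        rw [← Pi.single_mul, Matrix.vecMulVec_mul_vecMulVec]
        simp
      have h4 : ∀ f : Fin (π x i).rank → Matrix (Fin (d i)) (Fin (d i)) K,
          ∑ k, (Pi.single i (f k) : Π i : Fin n, Matrix (Fin (d i)) (Fin (d i)) K) =
            Pi.single i (∑ k, f k) := fun f =>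
        (map_sum (AddMonoidHom.single (fun i => Matrix (Fin (d i)) (Fin (d i)) K) i) f _).symm
      rw [Finset.sum_congr rfl fun k _ => h3 k, h4]
      congr 1
      refine Eq.trans ?_ (hUV i)
      ext a b
      rw [Matrix.sum_apply, Matrix.mul_apply]
      rfl
    rw [Finset.sum_congr rfl fun i _ => h2 i]
    exact Finset.univ_sum_single _
  obtain ⟨E', hE1, hE2⟩ := OrthogonalIdempotents.lift_of_isNilpotent_ker
    (π : R →+* (Π i : Fin n, Matrix (Fin (d i)) (Fin (d i)) K))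
    (fun x hx => hker x hx) hE (fun k => hπ _)
  have hE3 : ∀ k, π (E' k) = E k := fun k => congrFun hE2 k
  have hx' : (∑ k, E' k) * (∑ k, E' k) = ∑ k, E' k := hE1.isIdempotentElem_sum
  have hπx' : π (∑ k, E' k) = π x := by
    rw [map_sum]
    exact (Finset.sum_congr rfl fun k _ => hE3 k).trans hsum
  have hxx : π x * π x = π x := by rw [← map_mul, hx]
  rw [finrank_crn_equiv π hπ hker hx hx' (α := π x) (β := π x) (y := y) (by rw [hπx', hxx]) hxx hxx
    (by rw [hπx', hxx]) (by rw [hπx', hxx]) hxx, finrank_crn_sum hE1 y, Fintype.sum_sigma]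
  apply Finset.sum_congr rfl
  intro i _
  have h5 : ∀ k : Fin (π x i).rank, finrank K (crn K (E' ⟨i, k⟩) y) = finrank K (crn K (ε i) y) := by
    intro k
    have hk : π (E' ⟨i, k⟩) = β ⟨i, k⟩ * α ⟨i, k⟩ := hE3 ⟨i, k⟩
    refine finrank_crn_equiv π hπ hker (hE1.idem _) (hε i) (α := α ⟨i, k⟩) (β := β ⟨i, k⟩)
      (h1 ⟨i, k⟩) ?_ ?_ (h4 ⟨i, k⟩) (hαβ ⟨i, k⟩) ?_
    · rw [hk, ← mul_assoc, hαβ ⟨i, k⟩, h1 ⟨i, k⟩]
    · rw [hk, mul_assoc, hαβ ⟨i, k⟩, h4 ⟨i, k⟩]
    · rw [hk]
  rw [Finset.sum_congr rfl fun k _ => h5 k, Finset.sum_const, Finset.card_univ, Fintype.card_fin,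
    smul_eq_mul]

end K0

end Cfsg.Agent.H27.Md
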