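import Mathlib
import Cfsg.Agent.H27.Md10

set_option autoImplicit false
set_option linter.style.haveILetI false

/-!
# Lifting idempotents of the group algebra to the local ring
-/

namespace Cfsg.Agent.H27.Md

open Module Cfsg Cfsg.Agent.H11 Cfsg.Agent.H26 Polynomial

variable {G : Type*} [Group G] [Fintype G] {M : Ideal AlgInt} [hM : M.IsPrime]

/-- Monic polynomials over the local ring split. -/
theorem exists_splits (f : (locRing M)[X]) (hf : f.Monic) :
    ∃ s : Multiset (locRing M), f = (s.map (fun r => X - C r)).prod := by
  classical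
  have h1 : ∀ r ∈ (f.map (ic M)).roots, r ∈ locRing M := by
    intro r hr
    apply lr_of_isIntegral_locRing
    refine ⟨f, hf, ?_⟩
    have h2 := (Polynomial.mem_roots'.mp hr).2
    rw [Polynomial.IsRoot.def, Polynomial.eval_map] at h2
    exact h2
  refine ⟨(f.map (ic M)).roots.pmap (fun r hr => ⟨r, hr⟩) h1, ?_⟩
  apply Polynomial.map_injective (ic M) ic_inj
  have h3 := (IsAlgClosed.splits (f.map (ic M))).eq_prod_roots_of_monic (hf.map _)
  refine h3.trans ?_
  rw [Polynomial.map_multiset_prod, Multiset.map_map, Multiset.map_pmap]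
  congr 1
  rw [← Multiset.pmap_eq_map (fun r => r ∈ locRing M) _ _ h1]
  apply Multiset.pmap_congr
  intro a _ _ _
  simp only [Function.comp_apply, Polynomial.map_sub, Polynomial.map_X, Polynomial.map_C]
  rfl

theorem coprime_aux (s t : Multiset (locRing M)) (h : ∀ a ∈ s, ∀ b ∈ t, IsUnit (a - b)) :
    IsCoprime (s.map (fun r => X - C r)).prod (t.map (fun r => X - C r)).prod := by
  induction s using Multiset.induction_on with
  | empty => simpa using isCoprime_one_left
  | cons a s ih =>
    rw [Multiset.map_cons, Multiset.prod_cons]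
    apply IsCoprime.mul_left
    · have h2 : ∀ t' : Multiset (locRing M), (∀ b ∈ t', IsUnit (a - b)) →
          IsCoprime (X - C a) (t'.map (fun r => X - C r)).prod := by
        intro t'
        induction t' using Multiset.induction_on with
        | empty => intro _; simpa using isCoprime_one_right
        | cons b t' ih' =>
          intro hb
          rw [Multiset.map_cons, Multiset.prod_cons]
          exact IsCoprime.mul_right (isCoprime_X_sub_C_of_isUnit_sub (hb b (Multiset.mem_cons_self _ _)))
            (ih' fun c hc => hb c (Multiset.mem_cons_of_mem hc))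
      exact h2 t (fun b hb => h a (Multiset.mem_cons_self _ _) b hb)
    · exact ih fun c hc => h c (Multiset.mem_cons_of_mem hc)

/-- Evaluation at an idempotent. -/
theorem aeval_idem {K R : Type*} [Field K] [Ring R] [Algebra K R] {e : R} (he : e * e = e)
    (q : K[X]) : aeval e q = q.eval 0 • (1 - e) + q.eval 1 • e := by
  induction q using Polynomial.induction_on' with
  | add p q hp hq =>
    rw [map_add, hp, hq, eval_add, eval_add, add_smul, add_smul]
    abel
  | monomial k c =>
    rw [aeval_monomial, eval_monomial, eval_monomial, one_pow, mul_one, ← Algebra.smul_def]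
    rcases Nat.eq_zero_or_pos k with hk | hk
    · subst hk
      rw [pow_zero, pow_zero, mul_one, ← smul_add]
      congr 1
      abel
    · rw [zero_pow hk.ne', mul_zero, zero_smul, zero_add]
      congr 1
      exact (show IsIdempotentElem e from he).pow_eq hk.ne'

/-- Reduction of the group algebra. -/
noncomputable abbrev redG : MonoidAlgebra (locRing M) G →+* MonoidAlgebra (KF M) G :=
  MonoidAlgebra.mapRingHom G (rs M)

omit [Fintype G] in
theorem redG_surj : Function.Surjective (redG (G := G) (M := M)) := by
  exact MonoidAlgebra.map_surjective _ rs_surj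

omit [Fintype G] in
theorem redG_aeval (y : MonoidAlgebra (locRing M) G) (q : (locRing M)[X]) :
    redG (aeval y q) = aeval (redG y) (q.map (rs M)) :=
  Polynomial.map_aeval_eq_aeval_map (MonoidAlgebra.mapRingHom_comp_algebraMap (rs M)).symm q y

/-- Idempotents lift. -/
theorem exists_lift {e : MonoidAlgebra (KF M) G} (he : e * e = e) :
    ∃ x : MonoidAlgebra (locRing M) G, x * x = x ∧ redG x = e := by
  classical
  by_cases he0 : e = 0
  · exact ⟨0, by simp, by rw [map_zero, he0]⟩
  by_cases he1 : 1 - e = 0
  · exact ⟨1, by simp, by rw [map_one]; exact (sub_eq_zero.mp he1)⟩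
  obtain ⟨y, hy⟩ := redG_surj e
  obtain ⟨f, hf, hfy⟩ := IsIntegral.of_finite (locRing M) y
  obtain ⟨s, hs⟩ := exists_splits f hf
  let s0 := s.filter (fun r => rs M r = 0)
  let s1 := s.filter (fun r => ¬ rs M r = 0)
  let p0 : (locRing M)[X] := (s0.map (fun r => X - C r)).prod
  let p1 : (locRing M)[X] := (s1.map (fun r => X - C r)).prod
  have hp : p0 * p1 = f := by
    rw [hs, ← Multiset.filter_add_not (fun r => rs M r = 0) s, Multiset.map_add, Multiset.prod_add]
  have hcop : IsCoprime p0 p1 := by
    apply coprime_aux
    intro a ha b hb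
    have h1 : rs M a = 0 := (Multiset.mem_filter.mp ha).2
    have h2 : ¬ rs M b = 0 := (Multiset.mem_filter.mp hb).2
    apply (IsLocalRing.residue_ne_zero_iff_isUnit _).mp
    change rs M (a - b) ≠ 0
    rw [map_sub, h1, zero_sub]
    exact neg_ne_zero.mpr h2
  obtain ⟨a, b, hab⟩ := hcop
  have hf0 : aeval y f = 0 := hfy
  refine ⟨aeval y (a * p0), ?_, ?_⟩
  · have h1 : aeval y (a * p0) * (1 - aeval y (a * p0)) = 0 := by
      have h2 : (1 : MonoidAlgebra (locRing M) G) - aeval y (a * p0) = aeval y (b * p1) := by
        rw [← map_one (aeval y : (locRing M)[X] →ₐ[locRing M] MonoidAlgebra (locRing M) G),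
          ← map_sub, ← hab]
        congr 1
        ring
      rw [h2, ← map_mul, show a * p0 * (b * p1) = a * b * (p0 * p1) by ring, hp, map_mul, hf0,
        mul_zero]
    rw [mul_sub, mul_one, sub_eq_zero] at h1
    exact h1.symm
  · rw [redG_aeval, hy]
    have hP0 : p0.map (rs M) = X ^ (Multiset.card s0) := by
      rw [Polynomial.map_multiset_prod, Multiset.map_map, ← Multiset.prod_replicate]
      congr 1
      rw [← Multiset.map_const']
      apply Multiset.map_congr rfl
      intro r hr
      have h1 : rs M r = 0 := (Multiset.mem_filter.mp hr).2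
      simp only [Function.comp_apply, Polynomial.map_sub, Polynomial.map_X, Polynomial.map_C, h1,
        map_zero, sub_zero]
    have hP1 : (p1.map (rs M)).eval 0 ≠ 0 := by
      rw [Polynomial.map_multiset_prod, Multiset.map_map, Polynomial.eval_multiset_prod,
        Multiset.map_map]
      intro h1
      rw [Multiset.prod_eq_zero_iff, Multiset.mem_map] at h1
      obtain ⟨r, hr, hr2⟩ := h1
      have h2 : ¬ rs M r = 0 := (Multiset.mem_filter.mp hr).2
      apply h2
      simpa using hr2
    have h2 : aeval e (p0.map (rs M) * p1.map (rs M)) = 0 := by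
      rw [← Polynomial.map_mul, hp, ← hy, ← redG_aeval, hf0, map_zero]
    have h3 := aeval_idem he (p0.map (rs M) * p1.map (rs M))
    rw [h2, hP0, eval_mul, eval_mul, eval_pow, eval_pow, eval_X, eval_X, one_pow, one_mul] at h3
    have h4 : (0 : KF M) ^ (Multiset.card s0) = 0 := by
      have h5 := congrArg (· * (1 - e)) h3
      simp only [zero_mul, add_mul, smul_mul_assoc] at h5
      have h6 : (1 - e) * (1 - e) = 1 - e := by
        rw [sub_mul, mul_sub, mul_sub, he]
        simp
      have h7 : e * (1 - e) = 0 := by rw [mul_sub, mul_one, he, sub_self]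
      rw [h6, h7, smul_zero, add_zero] at h5
      have h8 := (smul_eq_zero.mp h5.symm).resolve_right he1
      exact (mul_eq_zero.mp h8).resolve_right hP1
    have h9 : (p1.map (rs M)).eval 1 = 0 := by
      have h5 := congrArg (· * e) h3
      simp only [zero_mul, add_mul, smul_mul_assoc] at h5
      have h7 : (1 - e) * e = 0 := by rw [sub_mul, one_mul, he, sub_self]
      rw [he, h7, smul_zero, zero_add] at h5
      exact (smul_eq_zero.mp h5.symm).resolve_right he0
    have h10 : (a.map (rs M)).eval 1 = 1 := by
      have h11 := congrArg (fun q : (locRing M)[X] => (q.map (rs M)).eval 1) hab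
      simp only [Polynomial.map_add, Polynomial.map_mul, hP0, eval_add, eval_mul, h9, mul_zero,
        eval_pow, eval_X, one_pow, mul_one, add_zero, Polynomial.map_one, eval_one] at h11
      exact h11
    rw [Polynomial.map_mul, hP0, aeval_idem he, eval_mul, eval_mul, eval_pow, eval_pow, eval_X,
      eval_X, one_pow, h4, h10, mul_zero, zero_smul, zero_add, mul_one, one_smul]

end Cfsg.Agent.H27.Md
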