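import Mathlib
import Cfsg.Agent.H27.Md19
import Cfsg.Agent.H27.Md18

set_option autoImplicit false
set_option linter.style.haveILetI false

/-!
# Dimensions of corners and values of characters at idempotents
-/

namespace Cfsg.Agent.H27.Md

open Module Cfsg Cfsg.Agent.H11 Cfsg.Agent.H26 Cfsg.Agent.H3 Matrix
open scoped ComplexConjugate

section gen

variable {G : Type*} [Group G] [Fintype G] [DecidableEq G] {R : Type*} [CommRing R]

/-- coefficient as a linear map -/
noncomputable def cfL (g : G) : MonoidAlgebra R G →ₗ[R] R where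
  toFun x := x.coeff g
  map_add' := by
    intro x y
    simp
  map_smul' := by
    intro c x
    simp

/-- The matrix of `z ↦ x * z * y`. -/
noncomputable def mlr (x y : MonoidAlgebra R G) : Matrix G G R :=
  Matrix.of fun g h => (x * MonoidAlgebra.single h 1 * y).coeff g

omit [DecidableEq G] in
theorem toAlg_sum (v : G → R) : toAlg v = ∑ h : G, v h • MonoidAlgebra.single h (1 : R) := by
  classical
  ext g
  rw [coeff_toAlg, MonoidAlgebra.coeff_sum, Finsupp.finsetSum_apply, Finset.sum_eq_single g]
  · simp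
  · intro h _ hh
    rw [MonoidAlgebra.coeff_smul, MonoidAlgebra.coeff_single, Finsupp.smul_apply,
      Finsupp.single_eq_of_ne (Ne.symm hh), smul_zero]
  · intro h; exact absurd (Finset.mem_univ _) h

omit [DecidableEq G] in
theorem mlr_mulVec (x y : MonoidAlgebra R G) (v : G → R) (g : G) :
    (mlr x y).mulVec v g = (x * toAlg v * y).coeff g := by
  change _ = cfL g (x * toAlg v * y)
  rw [toAlg_sum, Finset.mul_sum, Finset.sum_mul, map_sum]
  apply Finset.sum_congr rfl
  intro h _
  rw [mul_smul_comm, smul_mul_assoc, map_smul, smul_eq_mul, mul_comm (v h)]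
  rfl

omit [DecidableEq G] in
theorem mlr_mul (x y x' y' : MonoidAlgebra R G) : mlr x y * mlr x' y' = mlr (x * x') (y' * y) := by
  ext g h
  have h1 : (mlr x y * mlr x' y') g h =
      (mlr x y).mulVec (fun k => (x' * MonoidAlgebra.single h 1 * y').coeff k) g := rfl
  rw [h1, mlr_mulVec, toAlg_coeff]
  change _ = (x * x' * MonoidAlgebra.single h 1 * (y' * y)).coeff g
  rw [← mul_assoc, mul_assoc (x * (x' * MonoidAlgebra.single h 1)), ← mul_assoc x, mul_assoc]

omit [Fintype G] [DecidableEq G] in
theorem mlr_map {S : Type*} [CommRing S] (f : R →+* S) (x y : MonoidAlgebra R G) :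
    (mlr x y).map f = mlr (MonoidAlgebra.mapRingHom G f x) (MonoidAlgebra.mapRingHom G f y) := by
  ext g h
  change f ((x * MonoidAlgebra.single h 1 * y).coeff g) = (_ * MonoidAlgebra.single h 1 * _).coeff g
  rw [← MonoidAlgebra.coeff_mapRingHom, map_mul, map_mul]
  congr 3
  simp

end gen

section field

variable {G : Type*} [Group G] [Fintype G] {K : Type*} [Field K]

theorem finrank_crn_rank_mlr {x y : MonoidAlgebra K G} (hx : x * x = x) (hy : y * y = y) :
    finrank K (crn K x y) = (mlr x y).rank := by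
  classical
  have h5 : (crn K x y).map (maEquiv K G).toLinearMap = LinearMap.range (mlr x y).mulVecLin := by
    ext v
    constructor
    · rintro ⟨z, hz, rfl⟩
      refine ⟨maEquiv K G z, ?_⟩
      funext g
      rw [Matrix.mulVecLin_apply, mlr_mulVec]
      have h1 : toAlg (maEquiv K G z) = z := toAlg_coeff z
      rw [h1, hz.1, hz.2]
      rfl
    · rintro ⟨w, rfl⟩
      refine ⟨x * toAlg w * y, ⟨?_, ?_⟩, ?_⟩
      · rw [← mul_assoc, ← mul_assoc, hx]
      · rw [mul_assoc, hy]
      · funext g
        rw [Matrix.mulVecLin_apply, mlr_mulVec]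
        rfl
  rw [Matrix.rank, ← h5]
  exact (LinearEquiv.finrank_map_eq (maEquiv K G) _).symm

end field

section cplx

variable {G : Type*} [Group G] [Fintype G]

open Classical in
theorem card_fix (a b : G) : ((Finset.univ.filter fun h : G => a * h * b = h).card : ℂ) =
    ∑ᶠ χ : IrrCharacter G, (χ : G → ℂ) a * (χ : G → ℂ) b := by
  classical
  haveI := Fintype.ofFinite (IrrCharacter G)
  rw [finsum_eq_sum_of_fintype]
  have h1 := column_orth a b⁻¹
  have h2 : ∑ χ : IrrCharacter G, (χ : G → ℂ) a * conj ((χ : G → ℂ) b⁻¹) =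
      ∑ χ : IrrCharacter G, (χ : G → ℂ) a * (χ : G → ℂ) b := by
    apply Finset.sum_congr rfl
    intro χ _
    rw [← char_inv (irr_isChar χ.2), inv_inv]
  rw [← h2, h1]
  split_ifs with h
  · obtain ⟨c, hc⟩ := isConj_iff.mp h
    have hb : b = (c * a * c⁻¹)⁻¹ := by rw [hc, inv_inv]
    clear h1 h2 hc h
    subst hb
    norm_cast
    rw [Nat.card_eq_fintype_card, ← Fintype.card_coe]
    refine Fintype.card_congr
      { toFun := fun h => ⟨(h : G) * c, ?_⟩
        invFun := fun z => ⟨(z : G) * c⁻¹, ?_⟩
        left_inv := ?_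
        right_inv := ?_ }
    · have h3 := (Finset.mem_filter.mp h.2).2
      rw [Subgroup.mem_centralizer_singleton_iff]
      have h5 : a * (h : G) = (h : G) * (c * a * c⁻¹) := by
        calc a * (h : G) = a * h * (c * a * c⁻¹)⁻¹ * (c * a * c⁻¹) := by group
          _ = _ := by rw [h3]
      calc (h : G) * c * a = (h : G) * (c * a * c⁻¹) * c := by group
        _ = a * h * c := by rw [← h5]
        _ = a * (h * c) := by group
    · rw [Finset.mem_filter]
      refine ⟨Finset.mem_univ _, ?_⟩
      have h3 := Subgroup.mem_centralizer_singleton_iff.mp z.2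
      calc a * ((z : G) * c⁻¹) * (c * a * c⁻¹)⁻¹ = (a * z) * a⁻¹ * c⁻¹ := by group
        _ = (z * a) * a⁻¹ * c⁻¹ := by rw [h3]
        _ = z * c⁻¹ := by group
    · intro h
      apply Subtype.ext
      simp
    · intro z
      apply Subtype.ext
      simp
  · norm_cast
    rw [Finset.card_eq_zero, Finset.filter_eq_empty_iff]
    intro h' _ h3
    apply h
    refine isConj_iff.mpr ⟨h'⁻¹, ?_⟩
    rw [eq_inv_iff_mul_eq_one]
    calc h'⁻¹ * a * h'⁻¹⁻¹ * b = h'⁻¹ * (a * h' * b) := by group
      _ = 1 := by rw [h3]; group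

theorem trace_mlr (x y : MonoidAlgebra ℂ G) : (mlr x y).trace =
    ∑ᶠ χ : IrrCharacter G, lin (χ : G → ℂ) x * lin (χ : G → ℂ) y := by
  classical
  haveI := Fintype.ofFinite (IrrCharacter G)
  rw [finsum_eq_sum_of_fintype]
  have h1 : (mlr x y).trace = ∑ a : G, ∑ b : G, x.coeff a * y.coeff b *
      ((Finset.univ.filter fun h : G => a * h * b = h).card : ℂ) := by
    have h2 : ∀ h : G, (mlr x y).diag h = ∑ a : G, ∑ b : G, x.coeff a * y.coeff b *
        (if a * h * b = h then 1 else 0) := by
      intro h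
      change cfL h (x * MonoidAlgebra.single h 1 * y) = _
      conv_lhs => rw [alg_eq_sum x, alg_eq_sum y]
      rw [Finset.sum_mul, Finset.sum_mul, map_sum]
      apply Finset.sum_congr rfl
      intro a _
      rw [Finset.mul_sum, map_sum]
      apply Finset.sum_congr rfl
      intro b _
      rw [MonoidAlgebra.single_mul_single, MonoidAlgebra.single_mul_single]
      change (MonoidAlgebra.single (a * h * b) (x.coeff a * 1 * y.coeff b)).coeff h = _
      rw [MonoidAlgebra.coeff_single, Finsupp.single_apply, mul_one, mul_ite, mul_one, mul_zero]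
    rw [Matrix.trace, Finset.sum_congr rfl fun h _ => h2 h, Finset.sum_comm]
    apply Finset.sum_congr rfl
    intro a _
    rw [Finset.sum_comm]
    apply Finset.sum_congr rfl
    intro b _
    rw [← Finset.mul_sum, Finset.sum_boole]
  rw [h1]
  have h3 : ∀ χ : IrrCharacter G, lin (χ : G → ℂ) x * lin (χ : G → ℂ) y =
      ∑ a : G, ∑ b : G, x.coeff a * y.coeff b * ((χ : G → ℂ) a * (χ : G → ℂ) b) := by
    intro χ
    rw [lin_apply, lin_apply, Finset.sum_mul_sum]
    apply Finset.sum_congr rfl
    intro a _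
    apply Finset.sum_congr rfl
    intro b _
    ring
  symm
  rw [Finset.sum_congr rfl fun χ _ => h3 χ, Finset.sum_comm]
  apply Finset.sum_congr rfl
  intro a _
  rw [Finset.sum_comm]
  apply Finset.sum_congr rfl
  intro b _
  rw [← Finset.mul_sum, card_fix, finsum_eq_sum_of_fintype]

end cplx

section main

variable {G : Type*} [Group G] [Fintype G] {M : Ideal AlgInt} [hM : M.IsPrime]

/-- Extension to the complex numbers. -/
noncomputable abbrev cxG : MonoidAlgebra (locRing M) G →+* MonoidAlgebra ℂ G :=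
  MonoidAlgebra.mapRingHom G (ic M)

/-- The dimension of a corner in terms of characters. -/
theorem finrank_crn_char {x y : MonoidAlgebra (locRing M) G} (hx : x * x = x) (hy : y * y = y) :
    (finrank (KF M) (crn (KF M) (redG x) (redG y)) : ℂ) =
      ∑ᶠ χ : IrrCharacter G, lin (χ : G → ℂ) (cxG x) * lin (χ : G → ℂ) (cxG y) := by
  classical
  rw [finrank_crn_rank_mlr (by rw [← map_mul, hx]) (by rw [← map_mul, hy]), ← mlr_map,
    rank_eq (mlr x y) (by rw [mlr_mul, hx, hy]), rank_eq_trace, mlr_map, trace_mlr]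
  rw [mlr_map, mlr_mul, ← map_mul, ← map_mul, hx, hy]

/-- Values of characters at idempotents are natural numbers. -/
theorem lin_idem_nat {χ : G → ℂ} (hχ : IsCharacter G χ) {x : MonoidAlgebra ℂ G} (hx : x * x = x) :
    ∃ r : ℕ, lin χ x = r := by
  obtain ⟨n, ρ, rfl⟩ := hχ
  rw [lin_character]
  have h1 : IsIdempotentElem (ρ.asAlgebraHom x) := by
    change ρ.asAlgebraHom x * ρ.asAlgebraHom x = ρ.asAlgebraHom x
    rw [← map_mul, hx]
  have h2 := (LinearMap.IsIdempotentElem.isProj_range _ h1).trace
  exact ⟨_, h2⟩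

end main

end Cfsg.Agent.H27.Md
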