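import Mathlib
import Cfsg.Agent.H27.Md20

set_option autoImplicit false
set_option linter.style.haveILetI false

/-!
# Decomposition numbers through idempotents
-/

namespace Cfsg.Agent.H27.Md

open Module Cfsg Cfsg.Agent.H11 Cfsg.Agent.H26 Cfsg.Agent.H3 Matrix
open scoped ComplexConjugate

/-- Data of projective indecomposable modules. -/
structure PD (G : Type*) [Group G] [Fintype G] (M : Ideal AlgInt) [hM : M.IsPrime] where
  n : ℕ
  d : Fin n → ℕ
  π : MonoidAlgebra (KF M) G →ₐ[KF M] (Π i : Fin n, Matrix (Fin (d i)) (Fin (d i)) (KF M))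
  surj : Function.Surjective π
  pos : ∀ i, 0 < d i
  m : ℕ
  ker : (LinearMap.ker π.toLinearMap : Submodule (KF M) (MonoidAlgebra (KF M) G)) ^ m = ⊥
  nil : ∀ x, π x = 0 → IsNilpotent x
  X : Fin n → MonoidAlgebra (locRing M) G
  idem : ∀ i, X i * X i = X i
  hX : ∀ i, π (redG (X i)) = Pi.single i (e00 (pos i))

variable {G : Type*} [Group G] [Fintype G] {M : Ideal AlgInt} [hM : M.IsPrime]

theorem exists_PD : Nonempty (PD G M) := by
  classical
  obtain ⟨n, d, π, hπ, hd, m, hm⟩ := exists_pi (KF M) (MonoidAlgebra (KF M) G)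
  have hker : ∀ x, π x = 0 → IsNilpotent x := by
    intro x hx
    refine ⟨m, ?_⟩
    have h1 := Submodule.pow_mem_pow (LinearMap.ker π.toLinearMap) (LinearMap.mem_ker.mpr hx) m
    rw [hm] at h1
    exact h1
  let E : Fin n → (Π i : Fin n, Matrix (Fin (d i)) (Fin (d i)) (KF M)) := fun i =>
    Pi.single i (e00 (hd i))
  have hE : OrthogonalIdempotents E := by
    constructor
    · intro i
      change E i * E i = E i
      simp only [E]
      rw [← Pi.single_mul]
      congr 1
      exact e00_mul (hd i) _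
    · intro i j hij
      funext k
      rw [Pi.mul_apply, Pi.zero_apply]
      by_cases hk : k = i
      · subst hk
        change _ * (Pi.single j (e00 (hd j)) : Π i : Fin n, Matrix (Fin (d i)) (Fin (d i)) (KF M)) k = 0
        rw [Pi.single_eq_of_ne hij, mul_zero]
      · change (Pi.single i (e00 (hd i)) : Π i : Fin n, Matrix (Fin (d i)) (Fin (d i)) (KF M)) k * _ = 0
        rw [Pi.single_eq_of_ne hk, zero_mul]
  obtain ⟨E', hE1, hE2⟩ := OrthogonalIdempotents.lift_of_isNilpotent_ker
    (π : MonoidAlgebra (KF M) G →+* (Π i : Fin n, Matrix (Fin (d i)) (Fin (d i)) (KF M)))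
    (fun x hx => hker x hx) hE (fun k => hπ _)
  have hE3 : ∀ k, π (E' k) = E k := fun k => congrFun hE2 k
  choose X hX1 hX2 using fun i => exists_lift (G := G) (M := M) (hE1.idem i)
  exact ⟨⟨n, d, π, hπ, hd, m, hm, hker, X, hX1, fun i => by rw [hX2]; exact hE3 i⟩⟩

/-- The value of a character at an idempotent, as a natural number. -/
noncomputable def vl (x : MonoidAlgebra (locRing M) G) (χ : IrrCharacter G) : ℕ :=
  Classical.epsilon fun r : ℕ => lin (χ : G → ℂ) (cxG x) = r

theorem vl_spec {x : MonoidAlgebra (locRing M) G} (hx : x * x = x) (χ : IrrCharacter G) :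
    lin (χ : G → ℂ) (cxG x) = (vl x χ : ℂ) :=
  Classical.epsilon_spec (lin_idem_nat (irr_isChar χ.2) (x := cxG x) (by rw [← map_mul, hx]))

theorem cform [Fintype (IrrCharacter G)] {x y : MonoidAlgebra (locRing M) G} (hx : x * x = x)
    (hy : y * y = y) : finrank (KF M) (crn (KF M) (redG x) (redG y)) =
      ∑ χ : IrrCharacter G, vl x χ * vl y χ := by
  have h1 := finrank_crn_char hx hy
  rw [finsum_eq_sum_of_fintype] at h1
  have h2 : ∀ χ : IrrCharacter G, lin (χ : G → ℂ) (cxG x) * lin (χ : G → ℂ) (cxG y) =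
      ((vl x χ * vl y χ : ℕ) : ℂ) := by
    intro χ
    rw [vl_spec hx, vl_spec hy, Nat.cast_mul]
  rw [Finset.sum_congr rfl fun χ _ => h2 χ] at h1
  exact_mod_cast h1

/-- Rank on the simple modules -/
noncomputable def PD.r (D : PD G M) (x : MonoidAlgebra (KF M) G) (i : Fin D.n) : ℕ := (D.π x i).rank

theorem PD.r_X (D : PD G M) (i j : Fin D.n) : D.r (redG (D.X i)) j = if i = j then 1 else 0 := by
  unfold PD.r
  rw [D.hX]
  split_ifs with h
  · subst h
    rw [Pi.single_eq_same]
    apply le_antisymm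
    · exact Matrix.rank_vecMulVec_le _ _
    · rw [Nat.one_le_iff_ne_zero]
      intro h1
      have h2 : (e00 (K := KF M) (D.pos i)).mulVec (Pi.single ⟨0, D.pos i⟩ 1) = 0 := by
        have h3 : LinearMap.range (e00 (K := KF M) (D.pos i)).mulVecLin = ⊥ :=
          Submodule.finrank_eq_zero.mp h1
        have h4 := LinearMap.range_eq_bot.mp h3
        have h5 := LinearMap.congr_fun h4 (Pi.single ⟨0, D.pos i⟩ 1)
        exact h5
      have h6 := congrFun h2 ⟨0, D.pos i⟩
      rw [e00, Matrix.vecMulVec_mulVec] at h6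
      simp at h6
  · rw [Pi.single_eq_of_ne (Ne.symm h), Matrix.rank_zero]

/-- Characters of idempotents through the simple modules. -/
theorem PD.thmK (D : PD G M) {x : MonoidAlgebra (locRing M) G} (hx : x * x = x)
    (χ : IrrCharacter G) : vl x χ = ∑ i, D.r (redG x) i * vl (D.X i) χ := by
  classical
  haveI := Fintype.ofFinite (IrrCharacter G)
  have hrx : redG x * redG x = redG x := by rw [← map_mul, hx]
  have hrX : ∀ i, redG (D.X i) * redG (D.X i) = redG (D.X i) := by
    intro i
    rw [← map_mul, D.idem]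
  let w : IrrCharacter G → ℤ := fun χ => (vl x χ : ℤ) - ∑ i, (D.r (redG x) i : ℤ) * vl (D.X i) χ
  have h1 : ∀ y : MonoidAlgebra (locRing M) G, y * y = y →
      ∑ χ : IrrCharacter G, w χ * (vl y χ : ℤ) = 0 := by
    intro y hy
    have h2 := cform hx hy
    have h3 : ∀ i, finrank (KF M) (crn (KF M) (redG (D.X i)) (redG y)) =
      ∑ χ : IrrCharacter G, vl (D.X i) χ * vl y χ := fun i => cform (D.idem i) hy
    have h4 := finrank_crn_rank D.π D.surj D.nil D.pos hrX D.hX hrx (redG y)
    simp only [h3] at h4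
    rw [h2] at h4
    have h5 : ∑ χ : IrrCharacter G, w χ * (vl y χ : ℤ) =
        ((∑ χ : IrrCharacter G, vl x χ * vl y χ : ℕ) : ℤ) -
        ((∑ i, (D.π (redG x) i).rank * ∑ χ : IrrCharacter G, vl (D.X i) χ * vl y χ : ℕ) : ℤ) := by
      push_cast
      simp only [w, sub_mul, Finset.sum_sub_distrib, Finset.sum_mul, Finset.mul_sum]
      rw [Finset.sum_comm (s := (Finset.univ : Finset (IrrCharacter G)))]
      congr 1
      apply Finset.sum_congr rfl
      intro i _
      apply Finset.sum_congr rfl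
      intro χ _
      rw [mul_assoc]
      rfl
    rw [h5, h4, sub_self]
  have h2 : ∑ χ : IrrCharacter G, w χ * w χ = 0 := by
    have h3 : ∀ χ : IrrCharacter G, w χ * w χ = w χ * (vl x χ : ℤ) -
        ∑ i, (D.r (redG x) i : ℤ) * (w χ * vl (D.X i) χ) := by
      intro χ
      conv_lhs => rw [show w χ * w χ = w χ * ((vl x χ : ℤ) -
        ∑ i, (D.r (redG x) i : ℤ) * vl (D.X i) χ) from rfl]
      rw [mul_sub, Finset.mul_sum]
      congr 1
      apply Finset.sum_congr rfl
      intro i _
      ring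
    rw [Finset.sum_congr rfl fun χ _ => h3 χ, Finset.sum_sub_distrib, h1 x hx, Finset.sum_comm]
    have h4 : ∀ i, ∑ χ : IrrCharacter G, (D.r (redG x) i : ℤ) * (w χ * vl (D.X i) χ) = 0 := by
      intro i
      rw [← Finset.mul_sum, h1 _ (D.idem i), mul_zero]
    rw [Finset.sum_eq_zero fun i _ => h4 i, sub_zero]
  have h3 := (Finset.sum_eq_zero_iff_of_nonneg (fun χ _ => mul_self_nonneg (w χ))).mp h2 χ
    (Finset.mem_univ _)
  have h4 : w χ = 0 := mul_self_eq_zero.mp h3
  have h5 : (vl x χ : ℤ) = ∑ i, (D.r (redG x) i : ℤ) * vl (D.X i) χ := sub_eq_zero.mp h4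
  exact_mod_cast h5

theorem ev_redG (x : MonoidAlgebra (locRing M) G) (χ : IrrCharacter G) :
    ev (redG x) (rdc M (χ : G → ℂ)) = rd M (lin (χ : G → ℂ) (cxG x)) := by
  rw [ev_apply, lin_apply, rd_sum]
  · apply Finset.sum_congr rfl
    intro g _
    rw [MonoidAlgebra.coeff_mapRingHom, MonoidAlgebra.coeff_mapRingHom, ← rd_eq_rs]
    exact (rd_mul (x.coeff g).2 (lr_isChar hM (irr_isChar χ.2) _)).symm
  · intro g _
    rw [MonoidAlgebra.coeff_mapRingHom]
    exact lr_mul (x.coeff g).2 (lr_isChar hM (irr_isChar χ.2) _)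

/-- Independence of the decomposition columns. -/
theorem PD.indep {p : ℕ} [hp : Fact p.Prime] (hMp : IsPModular p M) (D : PD G M) (v : Fin D.n → ℤ)
    (h : ∀ χ : IrrCharacter G, ∑ i, v i * (vl (D.X i) χ : ℤ) = 0) (i : Fin D.n) : v i = 0 := by
  classical
  have := charP_KF hMp
  have step : ∀ v : Fin D.n → ℤ, (∀ χ : IrrCharacter G, ∑ i, v i * (vl (D.X i) χ : ℤ) = 0) →
      ∀ i, (p : ℤ) ∣ v i := by
    intro v hv i
    let z : MonoidAlgebra (KF M) G := ∑ i, (v i : KF M) • redG (D.X i)
    have h1 : ∀ χ : IrrCharacter G, ev z (rdc M (χ : G → ℂ)) = 0 := by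
      intro χ
      have h2 : ev z (rdc M (χ : G → ℂ)) =
          ∑ i, (v i : KF M) * ev (redG (D.X i)) (rdc M (χ : G → ℂ)) := by
        simp only [z]
        induction (Finset.univ : Finset (Fin D.n)) using Finset.induction_on with
        | empty => simp [ev_apply]
        | insert a s ha ih =>
          rw [Finset.sum_insert ha, Finset.sum_insert ha, ev_add, ev_smul, ih]
      rw [h2]
      have h3 : ∀ i, (v i : KF M) * ev (redG (D.X i)) (rdc M (χ : G → ℂ)) =
          ((v i * (vl (D.X i) χ : ℤ) : ℤ) : KF M) := by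
        intro i
        rw [ev_redG, vl_spec (D.idem i), rd_natCast]
        push_cast
        rfl
      rw [Finset.sum_congr rfl fun i _ => h3 i, ← Int.cast_sum, hv χ, Int.cast_zero]
    have h2 := tr_eq_zero hMp D.π h1 i
    have h3 : D.π z i = (v i : KF M) • e00 (D.pos i) := by
      simp only [z]
      rw [map_sum, Finset.sum_apply, Finset.sum_eq_single i]
      · rw [map_smul, D.hX, Pi.smul_apply, Pi.single_eq_same]
      · intro j _ hj
        rw [map_smul, D.hX, Pi.smul_apply, Pi.single_eq_of_ne (Ne.symm hj), smul_zero]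
      · intro h; exact absurd (Finset.mem_univ _) h
    have h4 : (e00 (K := KF M) (D.pos i)).trace = 1 := by
      unfold e00
      rw [Matrix.trace_vecMulVec]
      simp
    rw [h3, Matrix.trace_smul, h4, smul_eq_mul, mul_one] at h2
    exact (CharP.intCast_eq_zero_iff (KF M) p (v i)).mp h2
  have hall : ∀ k : ℕ, ∀ v : Fin D.n → ℤ,
      (∀ χ : IrrCharacter G, ∑ i, v i * (vl (D.X i) χ : ℤ) = 0) → ∀ i, ((p : ℤ) ^ k) ∣ v i := by
    intro k
    induction k with
    | zero => intro v _ i; simp
    | succ k ih =>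
      intro v hv i
      choose w hw using step v hv
      have hw2 : ∀ χ : IrrCharacter G, ∑ i, w i * (vl (D.X i) χ : ℤ) = 0 := by
        intro χ
        have h1 := hv χ
        simp only [hw, mul_assoc] at h1
        rw [← Finset.mul_sum] at h1
        exact (mul_eq_zero.mp h1).resolve_left (by exact_mod_cast hp.out.ne_zero)
      rw [hw i, pow_succ']
      exact mul_dvd_mul_left _ (ih w hw2 i)
  by_contra hne
  have h1 := hall (v i).natAbs v h i
  have h2 := Int.natAbs_dvd_natAbs.mpr h1
  rw [Int.natAbs_pow, Int.natAbs_natCast] at h2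
  have h3 := Nat.le_of_dvd (Int.natAbs_pos.mpr hne) h2
  exact absurd h3 (not_le.mpr (Nat.lt_pow_self hp.out.one_lt))

end Cfsg.Agent.H27.Md
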