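import Mathlib
import Cfsg.Agent.H3.Monomial
import Cfsg.Agent.H26.RegPart

set_option autoImplicit false
set_option linter.style.haveILetI false

/-!
# Generalized characters vanishing on the p-singular elements
-/

namespace Cfsg.Agent.H27.Md

open Cfsg Cfsg.Agent.H3 Cfsg.Agent.H26
open scoped ComplexConjugate

universe u

/-- The family of nilpotent subgroups of order prime to `p`. -/
def NP {G : Type u} [Group G] (p : ℕ) (L : Subgroup G) : Prop :=
  ¬ p ∣ Nat.card L ∧ Group.IsNilpotent L

variable {p : ℕ} [hp : Fact p.Prime]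

theorem nil_case {E : Type u} [Group E] [Fintype E] (hE : Group.IsNilpotent E) {η : E → ℂ}
    (hη : IsGeneralizedCharacter E η) (h0 : ∀ g, p ∣ orderOf g → η g = 0) :
    η ∈ indSpan E (NP p) := by
  classical
  obtain ⟨P, N, hN, hc⟩ := Cfsg.Agent.H2.HasNormalPComplement.of_isNilpotent (p := p) hE
  haveI := Fintype.ofFinite N
  have hidx : N.index = Nat.card P := hc.symm.index_eq_card
  have hcard := hc.card_mul_card
  have hcardP : Nat.card P = p ^ (Nat.card E).factorization p := P.card_eq_multiplicity
  have hndvd : ¬ p ∣ Nat.card N := by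
    intro hd
    have h1 := hc.card_mul_card
    rw [hcardP] at h1
    have h2 : p ^ ((Nat.card E).factorization p + 1) ∣ Nat.card E := by
      conv_rhs => rw [← h1]
      rw [pow_succ, mul_comm]
      exact mul_dvd_mul hd dvd_rfl
    exact Nat.pow_succ_factorization_not_dvd Nat.card_pos.ne' hp.out h2
  have hmem : ∀ x : E, x ∈ N ↔ ¬ p ∣ orderOf x := by
    intro x
    constructor
    · intro hx hd
      apply hndvd
      have h1 : orderOf (⟨x, hx⟩ : N) ∣ Nat.card N := orderOf_dvd_natCard _
      rw [Subgroup.orderOf_mk] at h1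
      exact hd.trans h1
    · intro h
      exact Cfsg.Agent.H11.mem_of_index_pow hp.out (hidx.trans hcardP) h
  have hP0 : (Nat.card P : ℂ) ≠ 0 := by exact_mod_cast Nat.card_pos.ne'
  have hN0 : (Nat.card N : ℂ) ≠ 0 := by exact_mod_cast Nat.card_pos.ne'
  have hcl := isGen_classFun hη
  let θ : N → ℂ := fun n => (Nat.card P : ℂ)⁻¹ * η n
  have hzero : ∀ x : E, x ∉ N → η x = 0 := fun x hx => h0 x (not_not.mp fun h => hx ((hmem x).mpr h))
  -- the retraction
  let f : E →* N := (Subgroup.IsComplement'.QuotientMulEquiv hc).toMonoidHom.comp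
    (QuotientGroup.mk' (P : Subgroup E))
  have hf : ∀ n : N, f (n : E) = n := by
    intro n
    have h1 : (QuotientGroup.mk' (P : Subgroup E)) ((f (n : E) : N) : E) =
        QuotientGroup.mk' (P : Subgroup E) (n : E) :=
      Subgroup.IsComplement.quotientGroupMk_leftQuotientEquiv (S := (N : Set E)) hc _
    have h2 : ((f (n : E) : N) : E)⁻¹ * (n : E) ∈ (P : Subgroup E) := QuotientGroup.eq.mp h1
    have h3 : ((f (n : E) : N) : E)⁻¹ * (n : E) ∈ N := N.mul_mem (N.inv_mem (f (n : E)).2) n.2
    have h4 := hc.disjoint.le_bot ⟨h3, h2⟩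
    have h5 : ((f (n : E) : N) : E)⁻¹ * (n : E) = 1 := h4
    exact Subtype.ext (inv_mul_eq_one.mp h5)
  have hθ : IsGeneralizedCharacter N θ := by
    rw [isGen_iff]
    refine ⟨?_, ?_⟩
    · intro g h
      change (Nat.card P : ℂ)⁻¹ * η ((h * g * h⁻¹ : N) : E) = (Nat.card P : ℂ)⁻¹ * η g
      have h1 := hcl (g : E) (h : E)
      rw [← h1]
      rfl
    · intro lam0
      obtain ⟨lam, hlam⟩ := lam0
      change ∃ n : ℤ, classInner θ lam = n
      have h1 : IsGeneralizedCharacter E (fun x => lam (f x)) :=
        isGen_comp (isGen_of_char (irr_isChar hlam)) f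
      obtain ⟨k, hk⟩ := classInner_gen_int hη h1
      refine ⟨k, ?_⟩
      rw [← hk, classInner, classInner, sum_eq_sum_subgroup N (fun g => η g * conj (lam (f g)))
        (fun g hg => by rw [hzero g hg, zero_mul])]
      have h2 : (Nat.card E : ℂ)⁻¹ = (Nat.card N : ℂ)⁻¹ * (Nat.card P : ℂ)⁻¹ := by
        rw [← hcard]
        push_cast
        rw [mul_inv]
      rw [h2, mul_assoc]
      congr 1
      rw [Finset.mul_sum]
      apply Finset.sum_congr rfl
      intro n _
      rw [hf n]
      simp only [θ]
      ring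
  have hind : indFun N θ = η := by
    funext x
    unfold indFun
    by_cases hx : x ∈ N
    · have h1 : ∀ y : E, extendByZero N θ (y⁻¹ * x * y) = (Nat.card P : ℂ)⁻¹ * η x := by
        intro y
        have h2 : y⁻¹ * x * y ∈ N := by
          have := hN.conj_mem x hx y⁻¹
          rwa [inv_inv] at this
        rw [extendByZero_mem N _ h2]
        change (Nat.card P : ℂ)⁻¹ * η (y⁻¹ * x * y) = _
        have h3 := hcl x y⁻¹
        rw [inv_inv] at h3
        rw [h3]
      rw [Finset.sum_congr rfl fun y _ => h1 y, Finset.sum_const, Finset.card_univ, nsmul_eq_mul,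
        ← Nat.card_eq_fintype_card, ← hcard]
      push_cast
      field_simp
    · have h1 : ∀ y : E, extendByZero N θ (y⁻¹ * x * y) = 0 := by
        intro y
        apply extendByZero_not_mem
        intro h2
        apply hx
        have := hN.conj_mem _ h2 y
        have h3 : y * (y⁻¹ * x * y) * y⁻¹ = x := by group
        rwa [h3] at this
      rw [Finset.sum_congr rfl fun y _ => h1 y, Finset.sum_const_zero, mul_zero, hzero x hx]
  obtain ⟨a, b, ha, hb, hab⟩ := hθ
  have hNP : NP p N := ⟨hndvd, by infer_instance⟩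
  rw [← hind, hab, indFun_sub]
  exact AddSubgroup.sub_mem _ (indFun_mem_indSpan hNP ha) (indFun_mem_indSpan hNP hb)

/-- Generalized characters vanishing off the p-regular elements are combinations of characters
induced from linear characters of p'-subgroups. -/
theorem gen_lin {G : Type u} [Group G] [Fintype G] {ψ : G → ℂ} (hψ : IsGeneralizedCharacter G ψ)
    (h0 : ∀ g, p ∣ orderOf g → ψ g = 0) : ψ ∈ linSpan G (NP p) := by
  classical
  have key : ∀ f ∈ indSpan G (fun E => ∃ q : ℕ, q.Prime ∧ IsElementary q E),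
      f * ψ ∈ indSpan G (NP p) := by
    intro f hf
    induction hf using AddSubgroup.closure_induction with
    | mem f hf =>
      obtain ⟨H, φ, ⟨q, hq, hH⟩, hφ, rfl⟩ := hf
      haveI := Fintype.ofFinite H
      have hnil := isNilpotent_of_isElementary hq hH
      rw [← indFun_mul_restrict H φ (isGen_classFun hψ)]
      apply indSpan_ind H (P' := NP p)
      · rintro E ⟨hE1, hE2⟩
        refine ⟨?_, ?_⟩
        · rwa [Subgroup.card_map_of_injective H.subtype_injective]
        · exact Group.nilpotent_of_mulEquiv (E.equivMapOfInjective H.subtype H.subtype_injective)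
      · apply nil_case hnil
        · exact isGen_mul (isGen_of_char hφ) (isGen_comp hψ H.subtype)
        · intro g hg
          rw [h0 g (by rwa [Subgroup.orderOf_coe]), mul_zero]
    | zero => rw [zero_mul]; exact AddSubgroup.zero_mem _
    | add a b _ _ ha hb => rw [add_mul]; exact AddSubgroup.add_mem _ ha hb
    | neg a _ ha => rw [neg_mul]; exact AddSubgroup.neg_mem _ ha
  have h2 := key _ brauer_one_mem
  have h3 : (fun _ : G => (1 : ℂ)) * ψ = ψ := by ext; simp
  rw [h3] at h2
  refine indSpan_le_linSpan (fun H hH => hH.2) ?_ h2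
  rintro H K hKH ⟨h4, h5⟩
  refine ⟨fun h6 => h4 (h6.trans (Subgroup.card_dvd_of_le hKH)), ?_⟩
  exact Group.nilpotent_of_mulEquiv (Subgroup.subgroupOfEquivOfLe hKH)

end Cfsg.Agent.H27.Md
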