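import Mathlib
import Cfsg.Agent.H27.Md21
import Cfsg.Agent.H27.Md22

set_option autoImplicit false
set_option linter.style.haveILetI false

/-!
# Idempotents of linear characters; coefficients of projective characters
-/

namespace Cfsg.Agent.H27.Md

open Module Cfsg Cfsg.Agent.H11 Cfsg.Agent.H26 Cfsg.Agent.H3 Matrix
open scoped ComplexConjugate

universe u

variable {G : Type u} [Group G] [Fintype G] {M : Ideal AlgInt} [hM : M.IsPrime] {p : ℕ}
  [hp : Fact p.Prime]

omit [Fintype G] in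
theorem cxG_inj : Function.Injective (cxG (G := G) (M := M)) :=
  MonoidAlgebra.map_injective _ ic_inj

/-- The idempotent of a linear character of a `p'`-subgroup. -/
theorem exists_xl (hMp : IsPModular p M) (E : Subgroup G) [Fintype E] (hE : ¬ p ∣ Nat.card E)
    (μ : E →* ℂˣ) : ∃ x : MonoidAlgebra (locRing M) G, x * x = x ∧ ∀ θ : G → ℂ,
      lin θ (cxG x) = (Nat.card E : ℂ)⁻¹ * ∑ e : E, ((μ e⁻¹ : ℂˣ) : ℂ) * θ e := by
  classical
  have hE0 : (Nat.card E : ℂ) ≠ 0 := by exact_mod_cast Nat.card_pos.ne'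
  have h1 : ∀ e : E, MemLocalRing M ((Nat.card E : ℂ)⁻¹ * ((μ e⁻¹ : ℂˣ) : ℂ)) := by
    intro e
    refine lr_mul (lr_inv_natCast hMp hE) (lr_int ?_)
    have h2 : ((μ e⁻¹ : ℂˣ) : ℂ) ^ Nat.card E = 1 := by
      rw [← Units.val_pow_eq_pow_val, ← map_pow, pow_card_eq_one', map_one, Units.val_one]
    exact IsIntegral.of_pow Nat.card_pos (by rw [h2]; exact isIntegral_one)
  let c : E → locRing M := fun e => ⟨_, h1 e⟩
  let x : MonoidAlgebra (locRing M) G := ∑ e : E, MonoidAlgebra.single (e : G) (c e)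
  have hcx : cxG x = ∑ e : E, MonoidAlgebra.single (e : G)
      ((Nat.card E : ℂ)⁻¹ * ((μ e⁻¹ : ℂˣ) : ℂ)) := by
    simp only [x]
    rw [map_sum]
    apply Finset.sum_congr rfl
    intro e _
    exact MonoidAlgebra.map_single _ _ _
  refine ⟨x, ?_, ?_⟩
  · apply cxG_inj
    rw [map_mul, hcx, Finset.sum_mul_sum]
    have h3 : ∀ e : E, ∑ f : E, MonoidAlgebra.single (e : G)
        ((Nat.card E : ℂ)⁻¹ * ((μ e⁻¹ : ℂˣ) : ℂ)) * MonoidAlgebra.single (f : G)
        ((Nat.card E : ℂ)⁻¹ * ((μ f⁻¹ : ℂˣ) : ℂ)) = ∑ f : E, MonoidAlgebra.single (f : G)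
          ((Nat.card E : ℂ)⁻¹ * ((Nat.card E : ℂ)⁻¹ * ((μ f⁻¹ : ℂˣ) : ℂ))) := by
      intro e
      refine Fintype.sum_equiv (Equiv.mulLeft e) _ _ fun f => ?_
      rw [MonoidAlgebra.single_mul_single]
      have h4 : ((Equiv.mulLeft e f : E) : G) = e * f := rfl
      have h5 : (μ (Equiv.mulLeft e f)⁻¹ : ℂˣ) = μ e⁻¹ * μ f⁻¹ := by
        rw [Equiv.coe_mulLeft, _root_.mul_inv_rev, map_mul, mul_comm]
      rw [h4, h5, Units.val_mul]
      congr 1
      ring
    rw [Finset.sum_congr rfl fun e _ => h3 e, Finset.sum_const, Finset.card_univ,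
      ← Nat.card_eq_fintype_card, Finset.smul_sum]
    apply Finset.sum_congr rfl
    intro f _
    rw [MonoidAlgebra.smul_single, nsmul_eq_mul]
    congr 1
    field_simp
  · intro θ
    rw [hcx, map_sum, Finset.mul_sum]
    apply Finset.sum_congr rfl
    intro e _
    rw [lin_single, mul_assoc]

theorem virt_aux (hMp : IsPModular p M) {ψ : G → ℂ} (h1 : ψ ∈ linSpan G (NP p)) :
    ∃ l : List (MonoidAlgebra (locRing M) G × ℤ), (∀ t ∈ l, t.1 * t.1 = t.1) ∧
      ∀ χ : IrrCharacter G, classInner ψ (χ : G → ℂ) =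
        (((l.map fun t => t.2 * (vl t.1 χ : ℤ)).sum : ℤ) : ℂ) := by
  classical
  induction h1 using AddSubgroup.closure_induction with
  | mem f hf =>
    obtain ⟨E, μ, hE, rfl⟩ := hf
    haveI := Fintype.ofFinite E
    obtain ⟨x, hx, hx2⟩ := exists_xl hMp E hE.1 μ
    refine ⟨[(x, 1)], by simpa using hx, ?_⟩
    intro χ
    have h2 : classInner (indFun E (fun e => (μ e : ℂ))) (χ : G → ℂ) = lin (χ : G → ℂ) (cxG x) := by
      rw [frobenius_reciprocity E _ (char_classFun (irr_isChar χ.2)), hx2, classInner]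
      congr 1
      refine Fintype.sum_equiv (Equiv.inv E) _ _ fun e => ?_
      rw [Equiv.inv_apply, inv_inv, Subgroup.coe_inv, char_inv (irr_isChar χ.2)]
    rw [h2, vl_spec hx]
    simp
  | zero =>
    refine ⟨[], by simp, ?_⟩
    intro χ
    simp [classInner]
  | add a b _ _ ha hb =>
    obtain ⟨l1, h1, h2⟩ := ha
    obtain ⟨l2, h3, h4⟩ := hb
    refine ⟨l1 ++ l2, ?_, ?_⟩
    · intro t ht
      rcases List.mem_append.mp ht with h | h
      · exact h1 t h
      · exact h3 t h
    · intro χ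
      rw [classInner_add_left, h2, h4, List.map_append, List.sum_append, Int.cast_add]
  | neg a _ ha =>
    obtain ⟨l1, h1, h2⟩ := ha
    refine ⟨l1.map fun t => (t.1, -t.2), ?_, ?_⟩
    · intro t ht
      obtain ⟨t', ht', rfl⟩ := List.mem_map.mp ht
      exact h1 t' ht'
    · intro χ
      have h5 : classInner (-a) (χ : G → ℂ) = - classInner a (χ : G → ℂ) := by
        have h6 : (-a : G → ℂ) = (-1 : ℂ) • a := by simp
        rw [h6, classInner_smul_left]
        ring
      rw [h5, h2, List.map_map, ← Int.cast_neg]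
      congr 1
      clear h1 h2 h5
      induction l1 with
      | nil => simp
      | cons t l ih =>
        rw [List.map_cons, List.sum_cons, neg_add, ih, List.map_cons, List.sum_cons]
        simp

/-- Projective coefficients of a generalized character vanishing on the singular elements. -/
theorem PD.gen_coef (D : PD G M) (hMp : IsPModular p M) {ψ : G → ℂ}
    (hψ : IsGeneralizedCharacter G ψ) (h0 : ∀ g, p ∣ orderOf g → ψ g = 0) :
    ∃ a : Fin D.n → ℤ, ∀ χ : IrrCharacter G, classInner ψ (χ : G → ℂ) =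
      ((∑ i, a i * (vl (D.X i) χ : ℤ) : ℤ) : ℂ) := by
  obtain ⟨l, hl, hl2⟩ := virt_aux hMp (gen_lin hψ h0)
  refine ⟨fun i => (l.map fun t => t.2 * (D.r (redG t.1) i : ℤ)).sum, ?_⟩
  intro χ
  rw [hl2 χ]
  congr 1
  clear hl2
  induction l with
  | nil => simp
  | cons t l ih =>
    rw [List.map_cons, List.sum_cons, ih fun s hs => hl s (List.mem_cons_of_mem _ hs)]
    simp only [List.map_cons, List.sum_cons, add_mul, Finset.sum_add_distrib]
    congr 1
    rw [D.thmK (hl t List.mem_cons_self) χ]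
    push_cast
    rw [Finset.mul_sum]
    apply Finset.sum_congr rfl
    intro i _
    ring

section block

variable {B : Set (IrrCharacter G)} (hB : IsPBlock M B)

/-- The block idempotent over the local ring. -/
noncomputable def EB : MonoidAlgebra (locRing M) G := toAlg (bc hB)

omit [Fact p.Prime] in
theorem redG_EB : redG (EB hB) = EG M B := by
  ext g
  rw [MonoidAlgebra.coeff_mapRingHom, ← rs_bc hB]
  rfl

omit [Fact p.Prime] in
theorem cxG_EB : cxG (EB hB) = fIdem B := by
  ext g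
  rw [MonoidAlgebra.coeff_mapRingHom, coeff_fIdem]
  rfl

omit [Fact p.Prime] in
theorem EB_idem : EB hB * EB hB = EB hB := by
  apply cxG_inj
  rw [map_mul, cxG_EB, fIdem_mul_self]

omit [Fact p.Prime] in
theorem lin_one (χ : IrrCharacter G) : lin (χ : G → ℂ) (1 : MonoidAlgebra ℂ G) =
    (charDegree (χ : G → ℂ) : ℂ) := by
  rw [MonoidAlgebra.one_def, lin_single, one_mul, charDegree_cast (irr_isChar χ.2)]

open Classical in
omit [Fact p.Prime] in
theorem vl_EB (χ : IrrCharacter G) : vl (EB hB) χ = if χ ∈ B then charDegree (χ : G → ℂ) else 0 := by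
  have h1 := vl_spec (EB_idem hB) χ
  rw [cxG_EB, ← mul_one (fIdem B)] at h1
  split_ifs with h
  · rw [lin_fIdem_mul_of_mem h, lin_one] at h1
    exact_mod_cast h1.symm
  · rw [lin_fIdem_mul_of_not_mem h] at h1
    exact_mod_cast h1.symm

omit [Fact p.Prime] in
theorem vl_one (χ : IrrCharacter G) : vl (1 : MonoidAlgebra (locRing M) G) χ =
    charDegree (χ : G → ℂ) := by
  have h1 := vl_spec (x := (1 : MonoidAlgebra (locRing M) G)) (by rw [mul_one]) χ
  rw [map_one, lin_one] at h1
  exact_mod_cast h1.symm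

end block

end Cfsg.Agent.H27.Md
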