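import Mathlib
import Cfsg.Agent.H27.Md23
import Cfsg.Agent.H27.Md16

set_option autoImplicit false
set_option linter.style.haveILetI false

/-!
# Blocks with all degrees equal
-/

namespace Cfsg.Agent.H27.Md

open Module Cfsg Cfsg.Agent.H11 Cfsg.Agent.H26 Cfsg.Agent.H3 Matrix
open scoped ComplexConjugate

universe u

variable {G : Type u} [Group G] [Fintype G] {M : Ideal AlgInt} [hM : M.IsPrime] {p : ℕ}
  [hp : Fact p.Prime]

omit [Fintype G] in
theorem isGen_sum {ι : Type*} (s : Finset ι) (f : ι → G → ℂ)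
    (h : ∀ i ∈ s, IsGeneralizedCharacter G (f i)) : IsGeneralizedCharacter G (∑ i ∈ s, f i) := by
  classical
  induction s using Finset.induction_on with
  | empty => simpa using isGen_zero
  | insert a s ha ih =>
    rw [Finset.sum_insert ha]
    exact isGen_add (h a (Finset.mem_insert_self _ _))
      (ih fun i hi => h i (Finset.mem_insert_of_mem hi))

/-- The block idempotent of a block with all degrees equal. -/
theorem equal_deg_single (D : PD G M) (hMp : IsPModular p M) {B : Set (IrrCharacter G)}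
    (hB : IsPBlock M B) {d : ℕ} (hd : ∀ χ ∈ B, charDegree (χ : G → ℂ) = d) :
    ∃ i0 : Fin D.n, D.π (EG M B) = Pi.single i0 1 ∧ D.d i0 = d ∧
      ∀ χ ∈ B, ∀ j, vl (D.X j) χ = if j = i0 then 1 else 0 := by
  classical
  haveI := Fintype.ofFinite (IrrCharacter G)
  obtain ⟨χ₀, hχ₀⟩ := exists_mem_block hB
  have hd0 : 0 < d := by
    obtain ⟨n, hn, hn2⟩ := irr_one_eq_nat χ₀.2
    rw [← charDegree_cast (irr_isChar χ₀.2), hd χ₀ hχ₀] at hn2
    have : d = n := by exact_mod_cast hn2
    omega
  -- the sum of the characters of the block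
  let ψ : G → ℂ := ∑ χ : IrrCharacter G with χ ∈ B, (χ : G → ℂ)
  have hψ : IsGeneralizedCharacter G ψ := isGen_sum _ _ fun χ _ => isGen_of_irr χ.2
  have hψ0 : ∀ g, p ∣ orderOf g → ψ g = 0 := by
    intro g hg
    have h1 := blockCoeff_eq_zero hMp hB g⁻¹ (by rwa [orderOf_inv])
    unfold blockCoeff at h1
    rw [finsum_mem_irr, mul_eq_zero] at h1
    have h2 := h1.resolve_left (inv_ne_zero (by exact_mod_cast Nat.card_pos.ne'))
    have h3 : (d : ℂ) * ψ g = 0 := by
      rw [← h2]
      simp only [ψ]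
      rw [Finset.sum_apply, Finset.mul_sum]
      apply Finset.sum_congr rfl
      intro χ hχ
      rw [← hd χ (Finset.mem_filter.mp hχ).2, charDegree_cast (irr_isChar χ.2),
        char_inv (irr_isChar χ.2), Complex.conj_conj]
    exact (mul_eq_zero.mp h3).resolve_left (by exact_mod_cast hd0.ne')
  obtain ⟨a, ha⟩ := D.gen_coef hMp hψ hψ0
  have hψi : ∀ χ : IrrCharacter G, classInner ψ (χ : G → ℂ) = if χ ∈ B then 1 else 0 := by
    intro χ
    simp only [ψ]
    rw [classInner_sum_left]
    simp only [classInner_irr']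
    rw [Finset.sum_ite_eq']
    simp
  have ha' : ∀ χ : IrrCharacter G, ∑ i, a i * (vl (D.X i) χ : ℤ) = if χ ∈ B then 1 else 0 := by
    intro χ
    have h1 := ha χ
    rw [hψi χ] at h1
    split_ifs with h
    · rw [if_pos h] at h1
      exact_mod_cast h1.symm
    · rw [if_neg h] at h1
      exact_mod_cast h1.symm
  -- ranks of the block idempotent
  have hEi := EB_idem hB
  have hr : ∀ χ : IrrCharacter G, (if χ ∈ B then d else 0) =
      ∑ i, D.r (EG M B) i * vl (D.X i) χ := by
    intro χ
    have h1 := D.thmK hEi χ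
    rw [redG_EB, vl_EB] at h1
    rw [← h1]
    split_ifs with h
    · rw [hd χ h]
    · rfl
  have hai : ∀ i, (d : ℤ) * a i = D.r (EG M B) i := by
    intro i
    have h1 := D.indep hMp (fun i => (d : ℤ) * a i - D.r (EG M B) i) (fun χ => by
      simp only [sub_mul, Finset.sum_sub_distrib]
      have h2 : ∑ i, (d : ℤ) * a i * (vl (D.X i) χ : ℤ) = (d : ℤ) * if χ ∈ B then 1 else 0 := by
        rw [← ha' χ, Finset.mul_sum]
        exact Finset.sum_congr rfl fun i _ => by ring
      have h3 : ∑ i, (D.r (EG M B) i : ℤ) * (vl (D.X i) χ : ℤ) = if χ ∈ B then (d : ℤ) else 0 := by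
        have := hr χ
        have h4 : ((∑ i, D.r (EG M B) i * vl (D.X i) χ : ℕ) : ℤ) =
          ((if χ ∈ B then d else 0 : ℕ) : ℤ) := by rw [← this]
        push_cast at h4
        exact h4
      rw [h2, h3]
      split_ifs <;> simp) i
    exact sub_eq_zero.mp h1
  have ha0 : ∀ i, 0 ≤ a i := by
    intro i
    have h1 := hai i
    by_contra h2
    push Not at h2
    have h3 : (d : ℤ) * a i < 0 := mul_neg_of_pos_of_neg (by exact_mod_cast hd0) h2
    rw [h1] at h3
    exact absurd h3 (not_lt.mpr (by positivity))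
  have hE2 := (isBlk_EG hB).idem
  have hπi : ∀ i, D.π (EG M B) i = 0 ∨ D.π (EG M B) i = 1 := fun i =>
    pi_idem D.π D.surj D.pos hE2 EG_comm i
  have hri : ∀ i, (D.r (EG M B) i = 0 ∧ D.π (EG M B) i = 0) ∨
      (D.r (EG M B) i = D.d i ∧ D.π (EG M B) i = 1) := by
    intro i
    rcases hπi i with h | h
    · left
      refine ⟨?_, h⟩
      rw [PD.r, h, Matrix.rank_zero]
    · right
      refine ⟨?_, h⟩
      rw [PD.r, h, Matrix.rank_one, Fintype.card_fin]
  -- outside the block
  have hout : ∀ χ : IrrCharacter G, χ ∉ B → ∀ i, D.r (EG M B) i ≠ 0 → vl (D.X i) χ = 0 := by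
    intro χ hχ i hi
    have h1 := hr χ
    rw [if_neg hχ] at h1
    have h2 := (Finset.sum_eq_zero_iff.mp h1.symm) i (Finset.mem_univ _)
    exact (mul_eq_zero.mp h2).resolve_left hi
  have hr1 : ∀ i, D.r (1 : MonoidAlgebra (KF M) G) i = D.d i := by
    intro i
    rw [PD.r, map_one, Pi.one_apply, Matrix.rank_one, Fintype.card_fin]
  have hin : ∀ χ : IrrCharacter G, χ ∈ B → ∀ i, D.r (EG M B) i = 0 → vl (D.X i) χ = 0 := by
    intro χ hχ i hi
    have h1 := hr χ
    rw [if_pos hχ] at h1
    have h2 := D.thmK (x := 1) (by rw [mul_one]) χ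
    rw [vl_one, hd χ hχ, map_one] at h2
    simp only [hr1] at h2
    have h3 : ∀ j ∈ Finset.univ, D.r (EG M B) j * vl (D.X j) χ ≤ D.d j * vl (D.X j) χ := by
      intro j _
      apply Nat.mul_le_mul_right
      rcases hri j with h | h
      · rw [h.1]; exact Nat.zero_le _
      · rw [h.1]
    have h4 := (Finset.sum_eq_sum_iff_of_le h3).mp (by rw [← h1, ← h2]) i (Finset.mem_univ _)
    rw [hi, zero_mul] at h4
    exact (mul_eq_zero.mp h4.symm).resolve_left (D.pos i).ne'
  -- each character of the block has one constituent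
  have hone : ∀ χ : IrrCharacter G, χ ∈ B → ∀ i, vl (D.X i) χ ≠ 0 →
      a i = 1 ∧ vl (D.X i) χ = 1 ∧ ∀ j, j ≠ i → vl (D.X j) χ = 0 := by
    intro χ hχ i hi
    have h1 := ha' χ
    rw [if_pos hχ] at h1
    have h0 : ∀ j ∈ Finset.univ, 0 ≤ a j * (vl (D.X j) χ : ℤ) := fun j _ =>
      mul_nonneg (ha0 j) (by positivity)
    have hri0 : D.r (EG M B) i ≠ 0 := fun h => hi (hin χ hχ i h)
    have hai0 : 0 < a i := by
      rcases (ha0 i).lt_or_eq with h | h
      · exact h
      · exfalso
        have h2 := hai i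
        rw [← h, mul_zero] at h2
        exact hri0 (by exact_mod_cast h2.symm)
    have h2 : 1 ≤ a i * (vl (D.X i) χ : ℤ) := by
      have h3 : (1 : ℤ) ≤ (vl (D.X i) χ : ℤ) := by exact_mod_cast Nat.one_le_iff_ne_zero.mpr hi
      nlinarith
    have h3 : a i * (vl (D.X i) χ : ℤ) ≤ 1 := by
      rw [← h1]
      exact Finset.single_le_sum h0 (Finset.mem_univ i)
    have h4 : a i * (vl (D.X i) χ : ℤ) = 1 := le_antisymm h3 h2
    have h5 : a i = 1 := by
      have h6 : (1 : ℤ) ≤ (vl (D.X i) χ : ℤ) := by exact_mod_cast Nat.one_le_iff_ne_zero.mpr hi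
      nlinarith
    refine ⟨h5, ?_, ?_⟩
    · rw [h5, one_mul] at h4
      exact_mod_cast h4
    · intro j hj
      rw [← Finset.add_sum_erase _ _ (Finset.mem_univ i), h4] at h1
      have h6 : ∑ x ∈ Finset.univ.erase i, a x * (vl (D.X x) χ : ℤ) = 0 := by linarith
      have h7 := (Finset.sum_eq_zero_iff_of_nonneg
        (fun k hk => h0 k (Finset.mem_univ _))).mp h6 j (Finset.mem_erase.mpr ⟨hj, Finset.mem_univ _⟩)
      by_cases hrj : D.r (EG M B) j = 0
      · exact hin χ hχ j hrj
      · have haj : a j ≠ 0 := by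
          intro h8
          have h9 := hai j
          rw [h8, mul_zero] at h9
          exact hrj (by exact_mod_cast h9.symm)
        exact_mod_cast (mul_eq_zero.mp h7).resolve_left haj
  -- the constituent of χ₀
  obtain ⟨i0, hi0⟩ : ∃ i0, vl (D.X i0) χ₀ ≠ 0 := by
    by_contra hcon
    push Not at hcon
    have h1 := ha' χ₀
    rw [if_pos hχ₀, Finset.sum_eq_zero (fun i _ => by rw [hcon i]; simp)] at h1
    exact absurd h1 (by norm_num)
  have hr0 : D.r (EG M B) i0 ≠ 0 := fun h => hi0 (hin χ₀ hχ₀ i0 h)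
  -- the central idempotent
  obtain ⟨E', hE1, hE2'⟩ := OrthogonalIdempotents.lift_of_isNilpotent_ker
    (D.π : MonoidAlgebra (KF M) G →+* (Π i : Fin D.n, Matrix (Fin (D.d i)) (Fin (D.d i)) (KF M)))
    (fun x hx => D.nil x hx)
    (e := fun _ : Unit => (Pi.single i0 1 : Π i : Fin D.n, Matrix (Fin (D.d i)) (Fin (D.d i)) (KF M)))
    ⟨fun _ => by
      change (Pi.single i0 1 : Π i : Fin D.n, Matrix (Fin (D.d i)) (Fin (D.d i)) (KF M)) *
        Pi.single i0 1 = Pi.single i0 1
      rw [← Pi.single_mul, mul_one], fun i j hij => absurd (Subsingleton.elim i j) hij⟩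
    (fun k => D.surj _)
  let y := E' ()
  have hy : y * y = y := hE1.idem ()
  have hπy : D.π y = Pi.single i0 1 := congrFun hE2' ()
  obtain ⟨x, hx, hxy⟩ := exists_lift (G := G) (M := M) hy
  have hx1 : (1 - x) * (1 - x) = 1 - x := by
    rw [sub_mul, mul_sub, mul_sub, hx]
    simp
  have hxy1 : redG (1 - x) = 1 - y := by rw [map_sub, map_one, hxy]
  have hvx : ∀ χ : IrrCharacter G, vl x χ = D.d i0 * vl (D.X i0) χ := by
    intro χ
    rw [D.thmK hx χ, Finset.sum_eq_single i0]
    · rw [PD.r, hxy, hπy, Pi.single_eq_same, Matrix.rank_one, Fintype.card_fin]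
    · intro j _ hj
      rw [PD.r, hxy, hπy, Pi.single_eq_of_ne hj, Matrix.rank_zero, zero_mul]
    · intro h; exact absurd (Finset.mem_univ _) h
  have hprod : ∀ χ : IrrCharacter G, vl x χ * vl (1 - x) χ = 0 := by
    intro χ
    rw [hvx]
    by_cases hχ : χ ∈ B
    · by_cases hv : vl (D.X i0) χ = 0
      · rw [hv, mul_zero, zero_mul]
      · have h1 := (hone χ hχ i0 hv).2.2
        have h2 : vl (1 - x) χ = 0 := by
          rw [D.thmK hx1 χ]
          apply Finset.sum_eq_zero
          intro j _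
          by_cases hj : j = i0
          · subst hj
            rw [PD.r, hxy1, map_sub, map_one, hπy, Pi.sub_apply, Pi.single_eq_same, Pi.one_apply,
              sub_self, Matrix.rank_zero, zero_mul]
          · rw [h1 j hj, mul_zero]
        rw [h2, mul_zero]
    · rw [hout χ hχ i0 hr0, mul_zero, zero_mul]
  have hc1 : crn (KF M) y (1 - y) = ⊥ := by
    apply Submodule.finrank_eq_zero.mp
    rw [← hxy, ← map_one (redG (G := G) (M := M)), ← map_sub, cform hx hx1]
    exact Finset.sum_eq_zero fun χ _ => hprod χ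
  have hc2 : crn (KF M) (1 - y) y = ⊥ := by
    apply Submodule.finrank_eq_zero.mp
    rw [← hxy, ← map_one (redG (G := G) (M := M)), ← map_sub, cform hx1 hx]
    exact Finset.sum_eq_zero fun χ _ => by rw [mul_comm]; exact hprod χ
  have hyy : (1 - y) * (1 - y) = 1 - y := by rw [← hxy1, ← map_mul, hx1]
  have hcen : ∀ z, y * z = z * y := by
    intro z
    have h1 : y * z * (1 - y) = 0 := by
      have : y * z * (1 - y) ∈ crn (KF M) y (1 - y) := by
        constructor
        · rw [← mul_assoc, ← mul_assoc, hy]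
        · rw [mul_assoc, hyy]
      rw [hc1] at this
      exact this
    have h2 : (1 - y) * z * y = 0 := by
      have : (1 - y) * z * y ∈ crn (KF M) (1 - y) y := by
        constructor
        · rw [← mul_assoc, ← mul_assoc, hyy]
        · rw [mul_assoc, hy]
      rw [hc2] at this
      exact this
    have h3 : y * z = y * z * y := by
      rw [mul_sub, mul_one, sub_eq_zero] at h1
      exact h1
    have h4 : z * y = y * z * y := by
      rw [sub_mul, sub_mul, one_mul, sub_eq_zero] at h2
      exact h2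
    rw [h3, ← h4]
  have hyZ : y ∈ Zc (KF M) (⊤ : Subgroup G) := mem_Zc_of_zR (e := 1) ⟨one_mul _, hcen⟩
  have hπE : D.π (EG M B) = Pi.single i0 1 := by
    rcases (isBlk_EG hB).mul_eq_or hyZ hy with h | h
    · exfalso
      have h1 := congrArg (fun z => D.π z i0) h
      simp only [map_mul, hπy, map_zero, Pi.zero_apply, Pi.mul_apply, Pi.single_eq_same,
        one_mul] at h1
      apply hr0
      rw [PD.r, h1, Matrix.rank_zero]
    · funext j
      by_cases hj : j = i0
      · subst hj
        rw [Pi.single_eq_same]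
        rcases hri j with h1 | h1
        · exact absurd h1.1 hr0
        · exact h1.2
      · rw [Pi.single_eq_of_ne hj, ← h, map_mul, hπy, Pi.mul_apply, Pi.single_eq_of_ne hj, zero_mul]
  have hrj : ∀ j, j ≠ i0 → D.r (EG M B) j = 0 := by
    intro j hj
    rw [PD.r, hπE, Pi.single_eq_of_ne hj, Matrix.rank_zero]
  refine ⟨i0, hπE, ?_, ?_⟩
  · have h1 := (hone χ₀ hχ₀ i0 hi0).1
    have h2 := hai i0
    rw [h1, mul_one] at h2
    rcases hri i0 with h3 | h3
    · exact absurd h3.1 hr0
    · rw [h3.1] at h2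
      exact_mod_cast h2.symm
  · intro χ hχ j
    split_ifs with hj
    · subst hj
      by_cases hv : vl (D.X j) χ = 0
      · exfalso
        have h1 := ha' χ
        rw [if_pos hχ, Finset.sum_eq_zero] at h1
        · exact absurd h1 (by norm_num)
        · intro k _
          by_cases hk : k = j
          · subst hk
            rw [hv]; simp
          · rw [hin χ hχ k (hrj k hk)]; simp
      · exact (hone χ hχ j hv).2.1
    · exact hin χ hχ j (hrj j hj)

end Cfsg.Agent.H27.Md
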