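import Mathlib
import Cfsg.Agent.H27.Md24

set_option autoImplicit false
set_option linter.style.haveILetI false

/-!
# Blocks with all degrees equal: rank one, and nilpotency for abelian defect groups
-/

namespace Cfsg.Agent.H27.Md

open Module Cfsg Cfsg.Agent.H11 Cfsg.Agent.H26 Cfsg.Agent.H3 Matrix
open scoped ComplexConjugate

universe u

variable {G : Type u} [Group G] [Fintype G] {M : Ideal AlgInt} [hM : M.IsPrime] {p : ℕ}
  [hp : Fact p.Prime]

theorem exists_data2 (D : PD G M) (hMp : IsPModular p M) {B : Set (IrrCharacter G)}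
    (hB : IsPBlock M B) (P : Subgroup G) (hP : IsDefectGroup p M B P) (hl : blockRank p B = 1)
    (i : Fin D.n) (hi : D.π (EG M B) = Pi.single i 1) :
    ∃ (ε : MonoidAlgebra (KF M) G) (N : Submodule (KF M) (MonoidAlgebra (KF M) G))
      (T : MonoidAlgebra (KF M) G →ₗ[KF M] KF M),
      ε * ε = ε ∧ EG M B * ε = ε ∧ Nonempty (MU (EG M B) ε (D.d i)) ∧
      N ≤ crn (KF M) ε ε ∧ ε ∉ N ∧ (∀ a ∈ crn (KF M) ε ε, ∃ c : KF M, a - c • ε ∈ N) ∧
      N ^ D.m = ⊥ ∧ N * N ≤ N ∧
      (∀ x y, T (x * y) = T (y * x)) ∧ T ε = 1 ∧ (∀ x ∈ N, T x = 0) ∧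
      (∀ χ ∈ B, ∃ c : KF M, ∀ x, EG M B * x = x → ev x (rdc M (χ : G → ℂ)) = c * T x) := by
  classical
  obtain ⟨n, d, π, hπ, hd, m, hm, hker, X, hX, hX2⟩ := D
  change Fin n at i
  change π (EG M B) = Pi.single i 1 at hi
  set J : Submodule (KF M) (MonoidAlgebra (KF M) G) := LinearMap.ker π.toLinearMap with hJ
  have hJmem : ∀ x, x ∈ J ↔ π x = 0 := fun x => LinearMap.mem_ker
  have he := (isBlk_EG hB).idem
  have hc : ∀ x, EG M B * x = x * EG M B := EG_comm
  obtain ⟨ε, hε, heε, hεπ, ⟨mu⟩⟩ := exists_mu d π hπ hker he hc i hi ⟨0, hd i⟩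
  let T : MonoidAlgebra (KF M) G →ₗ[KF M] KF M :=
    { toFun := fun x => (π x i).trace
      map_add' := by
        intro x y
        rw [map_add, Pi.add_apply, Matrix.trace_add]
      map_smul' := by
        intro c x
        rw [map_smul, Pi.smul_apply, Matrix.trace_smul]
        rfl }
  have hTε : T ε = 1 := by
    change (π ε i).trace = 1
    rw [hεπ, Pi.single_eq_same, Matrix.trace_single_eq_same]
  have hTT : ∀ x y, T (x * y) = T (y * x) := by
    intro x y
    change (π (x * y) i).trace = (π (y * x) i).trace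
    rw [map_mul, map_mul, Pi.mul_apply, Pi.mul_apply, Matrix.trace_mul_comm]
  have hε0 : ε ≠ 0 := by
    intro h
    rw [h, map_zero] at hTε
    exact zero_ne_one hTε
  refine ⟨ε, crn (KF M) ε ε ⊓ J, T, hε, heε, ⟨mu⟩, inf_le_left, ?_, ?_, ?_, ?_,
    hTT, hTε, ?_, ?_⟩
  · rintro ⟨-, h1⟩
    have h2 : π ε = 0 := (hJmem ε).mp h1
    have h3 : T ε = 0 := by
      change (π ε i).trace = 0
      rw [h2, Pi.zero_apply, Matrix.trace_zero]
    rw [hTε] at h3
    exact one_ne_zero h3
  · intro a ha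
    refine ⟨π a i ⟨0, hd i⟩ ⟨0, hd i⟩, ?_, ?_⟩
    · exact sub_mem ha (Submodule.smul_mem _ _ ⟨hε, hε⟩)
    · rw [SetLike.mem_coe, hJmem, map_sub, map_smul, hεπ, sub_eq_zero]
      have h1 : π a = π ε * π a * π ε := by
        rw [← map_mul, ← map_mul, ha.1, ha.2]
      rw [h1, hεπ]
      funext j
      by_cases hj : j = i
      · subst hj
        rw [Pi.mul_apply, Pi.mul_apply, Pi.single_eq_same, Pi.smul_apply, Pi.single_eq_same,
          Matrix.single_mul_mul_single, one_mul, mul_one]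
        rw [Matrix.smul_single, smul_eq_mul, mul_one, Matrix.single_apply_same]
      · rw [Pi.mul_apply, Pi.mul_apply, Pi.single_eq_of_ne hj, mul_zero, Pi.smul_apply,
          Pi.single_eq_of_ne hj, smul_zero]
  · rw [eq_bot_iff, ← hm]
    exact pow_le_pow_left' inf_le_right m
  · rw [Submodule.mul_le]
    rintro a ⟨ha1, ha2⟩ b ⟨hb1, hb2⟩
    refine ⟨⟨by rw [← mul_assoc, ha1.1], by rw [mul_assoc, hb1.2]⟩, ?_⟩
    rw [SetLike.mem_coe, hJmem, map_mul, (hJmem a).mp ha2, zero_mul]
  · rintro x ⟨-, hx⟩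
    change (π x i).trace = 0
    rw [(hJmem x).mp hx, Pi.zero_apply, Matrix.trace_zero]
  · obtain ⟨f, -, hf⟩ := exists_unit_char hMp hB P hP hl
    have hkey : ∀ x, EG M B * x = x → ev x f = 0 → T x = 0 := by
      intro x hx h1
      apply tr_eq_zero hMp π _ i
      intro χ
      by_cases hχ : χ ∈ B
      · obtain ⟨c, hc2⟩ := hf χ hχ
        rw [hc2, map_smul, h1, smul_zero]
      · have h2 := ev_EG_mul hB x χ
        rw [hx, if_neg hχ] at h2
        exact h2
    have hfT : ∀ x, EG M B * x = x → ev x f = ev ε f * T x := by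
      intro x hx
      have h1 := hkey (ev ε f • x - ev x f • ε) (by
        rw [mul_sub, mul_smul_comm, mul_smul_comm, hx, heε]) (by
        rw [ev_sub, ev_smul, ev_smul]; ring)
      rw [map_sub, map_smul, map_smul, hTε, smul_eq_mul, smul_eq_mul, mul_one, sub_eq_zero] at h1
      exact h1.symm
    intro χ hχ
    obtain ⟨c, hc2⟩ := hf χ hχ
    refine ⟨c * ev ε f, ?_⟩
    intro x hx
    rw [hc2, map_smul, hfT x hx, smul_eq_mul, mul_assoc]

theorem rank_one_of_vl (D : PD G M) (hMp : IsPModular p M) {B : Set (IrrCharacter G)}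
    (hB : IsPBlock M B)
    (hv : ∀ χ ∈ B, ∀ χ' ∈ B, ∀ j, vl (D.X j) χ = vl (D.X j) χ') : blockRank p B = 1 := by
  classical
  have hreg : ∀ χ ∈ B, ∀ χ' ∈ B, ∀ g : G, ¬ p ∣ orderOf g → (χ : G → ℂ) g = (χ' : G → ℂ) g := by
    intro χ hχ χ' hχ'
    let η : G → ℂ := (χ : G → ℂ) - (χ' : G → ℂ)
    have hη : IsGeneralizedCharacter G η := ⟨_, _, irr_isChar χ.2, irr_isChar χ'.2, rfl⟩
    let q : ℕ := p ^ (Nat.card G).factorization p
    have hq : q ≠ 0 := pow_ne_zero _ hp.out.ne_zero
    let ζ : G → ℂ := (q : ℂ) • pRegularPart p η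
    have hζ : IsGeneralizedCharacter G ζ := isGen_pr p hη
    have hζ0 : ∀ g, p ∣ orderOf g → ζ g = 0 := by
      intro g hg
      simp only [ζ]
      rw [Pi.smul_apply, pr_sing hg, smul_zero]
    have hζ1 : ∀ g, ¬ p ∣ orderOf g → ζ g = q * η g := by
      intro g hg
      simp only [ζ]
      rw [Pi.smul_apply, pr_reg hg, smul_eq_mul]
    obtain ⟨a, ha⟩ := D.gen_coef hMp hζ hζ0
    have h1 : classInner ζ η = 0 := by
      simp only [η]
      rw [classInner_sub_right, ha χ, ha χ', sub_eq_zero]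
      congr 1
      apply Finset.sum_congr rfl
      intro j _
      rw [hv χ hχ χ' hχ' j]
    have h2 : classInner ζ ζ = (q : ℂ) * classInner ζ η := by
      unfold classInner
      rw [mul_left_comm]
      congr 1
      rw [Finset.mul_sum]
      apply Finset.sum_congr rfl
      intro g _
      by_cases hg : p ∣ orderOf g
      · rw [hζ0 g hg, zero_mul, zero_mul, mul_zero]
      · rw [show conj (ζ g) = (q : ℂ) * conj (η g) by
          rw [hζ1 g hg, map_mul, Complex.conj_natCast]]
        ring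
    rw [h1, mul_zero] at h2
    have h3 : ζ = 0 := by
      unfold classInner at h2
      have h6 := (mul_eq_zero.mp h2).resolve_left
        (inv_ne_zero (by exact_mod_cast Nat.card_pos.ne'))
      have h7 : ∑ g : G, Complex.normSq (ζ g) = 0 := by
        have h8 : ((∑ g : G, Complex.normSq (ζ g) : ℝ) : ℂ) = 0 := by
          rw [← h6]
          push_cast
          exact Finset.sum_congr rfl fun g _ => (Complex.mul_conj (ζ g)).symm
        exact_mod_cast h8
      funext g
      have h9 := (Finset.sum_eq_zero_iff_of_nonneg (fun g _ => Complex.normSq_nonneg (ζ g))).mp h7 g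
        (Finset.mem_univ _)
      exact Complex.normSq_eq_zero.mp h9
    intro g hg
    have h4 := hζ1 g hg
    rw [h3, Pi.zero_apply] at h4
    have h5 := (mul_eq_zero.mp h4.symm).resolve_left (by exact_mod_cast hq)
    exact sub_eq_zero.mp h5
  obtain ⟨χ₀, hχ₀⟩ := exists_mem_block hB
  have himg : (fun χ : IrrCharacter G => pRegularPart p (χ : G → ℂ)) '' B =
      {pRegularPart p (χ₀ : G → ℂ)} := by
    ext f
    constructor
    · rintro ⟨χ, hχ, rfl⟩
      rw [Set.mem_singleton_iff]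
      funext g
      change pRegularPart p (χ : G → ℂ) g = _
      by_cases hg : p ∣ orderOf g
      · rw [pr_sing hg, pr_sing hg]
      · rw [pr_reg hg, pr_reg hg]
        exact hreg χ hχ χ₀ hχ₀ g hg
    · rintro rfl
      exact ⟨χ₀, hχ₀, rfl⟩
  unfold blockRank
  rw [himg]
  apply finrank_span_singleton
  intro h
  have h1 := congrFun h 1
  rw [pr_reg (by rw [orderOf_one]; exact hp.out.one_lt.ne' ∘ Nat.dvd_one.mp), Pi.zero_apply] at h1
  exact irr_one_ne_zero χ₀.2 h1

end Cfsg.Agent.H27.Md
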