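import Mathlib
import Cfsg.Agent.H27.Md25

set_option autoImplicit false
set_option linter.style.haveILetI false

/-!
# Blocks with abelian defect group and all degrees equal are nilpotent
-/

namespace Cfsg.Agent.H27.Md

open Module Cfsg Cfsg.Agent.H11 Cfsg.Agent.H26 Cfsg.Agent.H3 Matrix
open scoped ComplexConjugate

universe u

variable {G : Type u} [Group G] [Fintype G] {M : Ideal AlgInt} [hM : M.IsPrime] {p : ℕ}
  [hp : Fact p.Prime]

/-- The number of characters of a block with one Brauer character and equal degrees. -/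
theorem card_of_equal (hMp : IsPModular p M) {B : Set (IrrCharacter G)}
    (hB : IsPBlock M B) (P : Subgroup G) (hP : IsDefectGroup p M B P) (hl : blockRank p B = 1)
    {d : ℕ} (hd : ∀ χ ∈ B, charDegree (χ : G → ℂ) = d) : Nat.card B = Nat.card P := by
  classical
  haveI := Fintype.ofFinite (IrrCharacter G)
  obtain ⟨φ, t, ⟨n, hn⟩, ht, hsum⟩ := st4675 p M hMp B hB P hP hl
  have h1reg : IsPRegular p (1 : G) := by
    change ¬ p ∣ orderOf (1 : G)
    rw [orderOf_one]
    exact hp.out.one_lt.ne' ∘ Nat.dvd_one.mp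
  have hd0 : 0 < d := by
    obtain ⟨χ₀, hχ₀⟩ := exists_mem_block hB
    rw [← hd χ₀ hχ₀]
    exact H27.charDegree_pos χ₀.2
  have h1 : ∀ χ ∈ B, ((χ : IrrCharacter G) : G → ℂ) 1 = (d : ℂ) := by
    intro χ hχ
    rw [← hd χ hχ, charDegree_cast (irr_isChar χ.2)]
  have hφ : φ 1 = ((∑ ψ : IrrCharacter G with ψ ∈ B, n ψ : ℤ) : ℂ) * d := by
    rw [hn 1 h1reg, finsum_mem_irr]
    push_cast
    rw [Finset.sum_mul]
    apply Finset.sum_congr rfl
    intro ψ hψ
    rw [h1 ψ (Finset.mem_filter.mp hψ).2]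
  have ht1 : ∀ χ ∈ B, t χ = 1 := by
    intro χ hχ
    have h2 := ht χ hχ 1 h1reg
    rw [h1 χ hχ, hφ, ← mul_assoc] at h2
    have h3 : ((1 : ℂ)) = (t χ : ℂ) * ((∑ ψ : IrrCharacter G with ψ ∈ B, n ψ : ℤ) : ℂ) := by
      have hdc : (d : ℂ) ≠ 0 := by exact_mod_cast hd0.ne'
      apply mul_right_cancel₀ hdc
      rw [one_mul]
      exact h2
    have h4 : (1 : ℤ) = (t χ : ℤ) * ∑ ψ : IrrCharacter G with ψ ∈ B, n ψ := by exact_mod_cast h3
    have h5 : (t χ : ℤ) ∣ 1 := ⟨_, h4⟩
    have h6 := Int.natAbs_dvd_natAbs.mpr h5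
    simpa using h6
  rw [← hsum, finsum_mem_irr, Finset.sum_congr rfl (fun χ hχ => by
    rw [ht1 χ (Finset.mem_filter.mp hχ).2, one_pow]), Finset.sum_const, smul_eq_mul, mul_one,
    Nat.card_eq_fintype_card, Fintype.card_subtype]

/-- Blocks with abelian defect group and all degrees equal are nilpotent. -/
theorem nil_of_equal (hMp : IsPModular p M) {B : Set (IrrCharacter G)}
    (hB : IsPBlock M B) (P : Subgroup G) (hP : IsDefectGroup p M B P)
    (hab : ∀ x ∈ P, ∀ y ∈ P, x * y = y * x)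
    {d : ℕ} (hd : ∀ χ ∈ B, charDegree (χ : G → ℂ) = d) : IsNilpotentBlock p M B := by
  classical
  haveI := Fintype.ofFinite (IrrCharacter G)
  obtain ⟨D⟩ := exists_PD (G := G) (M := M)
  obtain ⟨i0, hi0, hdi, hv⟩ := equal_deg_single D hMp hB hd
  have hl : blockRank p B = 1 := rank_one_of_vl D hMp hB (fun χ hχ χ' hχ' j => by
    rw [hv χ hχ, hv χ' hχ'])
  obtain ⟨ε, N, T, hε, heε, ⟨mu⟩, hNA, hεN, hdec, hm, hmul, hTT, hTε, hTN, hch⟩ :=
    exists_data2 D hMp hB P hP hl i0 hi0
  let F : Fam (KF M) (EG M B) ε (D.d i0) :=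
    ⟨mu, (isBlk_EG hB).idem, EG_comm, hε, N, hNA, hmul, T, hTε, hTN, by
      intro a ha
      obtain ⟨c, hc⟩ := hdec a ha
      have h1 := hTN _ hc
      rw [map_sub, map_smul, hTε, smul_eq_mul, mul_one, sub_eq_zero] at h1
      rw [h1]
      exact hc⟩
  have hcard := card_of_equal hMp hB P hP hl hd
  have hd0 : 0 < d := by rw [← hdi]; exact D.pos i0
  have hdim : finrank (KF M) (crn (KF M) ε ε) = Nat.card B := by
    have h1 := finrank_crn_e (K := KF M) mu
    rw [finrank_e hB, Finset.sum_congr rfl (fun χ hχ => by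
      rw [hd χ (Finset.mem_filter.mp hχ).2]), Finset.sum_const, smul_eq_mul, hdi] at h1
    have h2 : Nat.card B = (Finset.univ.filter (· ∈ B)).card := by
      rw [Nat.card_eq_fintype_card, Fintype.card_subtype]
    rw [h2]
    have h3 : d * (d * finrank (KF M) (crn (KF M) ε ε)) =
        d * (d * (Finset.univ.filter (· ∈ B)).card) := by
      rw [← h1]; ring
    exact Nat.eq_of_mul_eq_mul_left hd0 (Nat.eq_of_mul_eq_mul_left hd0 h3)
  have hAZ : ∀ a ∈ crn (KF M) ε ε, ∃ z ∈ zR (KF M) (EG M B), z * ε = a := by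
    let L : zR (KF M) (EG M B) →ₗ[KF M] crn (KF M) ε ε :=
      { toFun := fun z => ⟨z * ε, by
          constructor
          · rw [← mul_assoc, ← z.2.2 ε, mul_assoc, hε]
          · rw [mul_assoc, hε]⟩
        map_add' := by
          intro x y
          apply Subtype.ext
          exact add_mul _ _ _
        map_smul' := by
          intro c x
          apply Subtype.ext
          exact smul_mul_assoc _ _ _ }
    have hinj : Function.Injective L := by
      rw [injective_iff_map_eq_zero]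
      rintro ⟨z, hz1, hz2⟩ hz
      apply Subtype.ext
      have h1 : z * ε = 0 := congrArg Subtype.val hz
      change z = 0
      rw [← hz1]
      have h3 : ∀ w, EG M B * w = ∑ k, mu.b k * mu.a k * w := by
        intro w
        rw [← Finset.sum_mul, mu.hba]
      rw [h3]
      apply Finset.sum_eq_zero
      intro k _
      rw [mul_assoc, ← hz2 (mu.a k), ← mu.ha k, ← mul_assoc z, h1, zero_mul, mul_zero]
    have hsurj := (LinearMap.injective_iff_surjective_of_finrank_eq_finrank (by
      rw [hdim, finrank_zR hB])).mp hinj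
    intro a ha
    obtain ⟨z, hz⟩ := hsurj ⟨a, ha⟩
    exact ⟨z, z.2, congrArg Subtype.val hz⟩
  exact nil_of_central_corner hMp hB P hP hab F hm heε hTT hch hAZ hcard.ge

end Cfsg.Agent.H27.Md
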