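import Mathlib
import Cfsg.Agent.H26.Star12
import Cfsg.Agent.H26.Nil3

set_option autoImplicit false

/-!
# Nilpotent blocks: the twists by irreducible characters of the defect group
-/

namespace Cfsg.Agent.H27

open MonoidAlgebra MulAction Cfsg Cfsg.Agent.H11 Cfsg.Agent.H3 Cfsg.Agent.H26 Finset
open scoped ComplexConjugate

universe u

section NilB

variable {M : Ideal AlgInt} [hM : M.IsPrime] {p : ℕ} [hp : Fact p.Prime] [hch : CharP (KF M) p]
variable {G : Type u} [Group G] [Fintype G] {P : Subgroup G} {e : MonoidAlgebra (KF M) G}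

open Classical in
/-- extension by zero -/
noncomputable def ext0 (P : Subgroup G) (ζ : ↥P → ℂ) (g : G) : ℂ :=
  if h : g ∈ P then ζ ⟨g, h⟩ else 0

theorem ext0_mem {ζ : ↥P → ℂ} {g : G} (h : g ∈ P) : ext0 P ζ g = ζ ⟨g, h⟩ := by
  unfold ext0; rw [dif_pos h]

theorem fstab_ext0 {B : Set (IrrCharacter G)}
    (hm : MaxB p (EG M B) P e) (hn : IsNilK p ⊤ (EG M B)) {ζ : ↥P → ℂ}
    (hζ : IsClassFunction P ζ) : FStab p P e (ext0 P ζ) := by
  intro Q g hg r hr
  obtain ⟨a, ha, ha'⟩ := hm.inner_of_isNil hn Q g hg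
  have hrP : r ∈ P := hg.le hr
  rw [ha' r hr, ext0_mem hrP, ext0_mem (P.mul_mem (P.mul_mem ha hrP) (P.inv_mem ha))]
  exact hζ ⟨r, hrP⟩ ⟨a, ha⟩

theorem isGen_ext0 {ζ : ↥P → ℂ} (hζ : IsIrrCharacter P ζ) :
    IsGeneralizedCharacter P (fun r : P => ext0 P ζ r) := by
  have h1 : (fun r : P => ext0 P ζ r) = ζ := by
    funext r
    rw [ext0_mem r.2]
  rw [h1]
  exact isGen_of_irr hζ

theorem lab0_self {B : Set (IrrCharacter G)}
    (hm : MaxB p (EG M B) P e) (hn : IsNilK p ⊤ (EG M B)) {ζ : ↥P → ℂ}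
    (hζ : IsClassFunction P ζ) {Q : Subgroup G}
    {f : MonoidAlgebra (KF M) G} (hx : PLE p Q f P e) {r : G} (hr : r ∈ Q) :
    labF p P e (ext0 P ζ) Q f r = ext0 P ζ r := by
  have h1 : PLE p (cg Q 1) (cj (1 : G) f) P e := by
    rw [cg_one, H26.cj_one_apply]; exact hx
  rw [labF_eq (fstab_ext0 hm hn hζ) h1 hr]
  simp

/-- Orthogonality of the twists. -/
theorem nil_inner (hMp : IsPModular p M) {B : Set (IrrCharacter G)} (hB : IsPBlock M B)
    (hm : MaxB p (EG M B) P e) (hn : IsNilK p ⊤ (EG M B)) {χ : IrrCharacter G} (hχ : χ ∈ B)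
    (h0 : blockHeight p B (χ : G → ℂ) = 0) [hfP : Fintype P] {ζ ζ' : ↥P → ℂ}
    (hζ : IsIrrCharacter P ζ) (hζ' : IsIrrCharacter P ζ') :
    classInner (stc p (labF p P e (ext0 P ζ)) (EG M B) (χ : G → ℂ))
      (stc p (labF p P e (ext0 P ζ')) (EG M B) (χ : G → ℂ)) = classInner ζ ζ' := by
  classical
  have he : IsBrP p P e := hm.1.2.1
  have hex : ∀ v : G, ∃ g, v ∈ P → PLE p (Subgroup.zpowers v) g P e := by
    intro v
    by_cases hv : v ∈ P
    · obtain ⟨g, hg⟩ := exists_ple he (Subgroup.zpowers v) (by rwa [Subgroup.zpowers_le])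
      exact ⟨g, fun _ => hg⟩
    · exact ⟨e, fun h => absurd h hv⟩
  choose f' hf' using hex
  obtain ⟨Ω, hΩ, hΩ2⟩ := exists_Om (p := p) hB
  have hlab := isLab_labF hm (fstab_ext0 hm hn (irr_classFun hζ)) (isGen_ext0 hζ)
  have hlab' := isLab_labF hm (fstab_ext0 hm hn (irr_classFun hζ')) (isGen_ext0 hζ')
  have h1 := inner_stc hMp (isBlk_EG hB) hΩ (labF p P e (ext0 P ζ)) (labF p P e (ext0 P ζ'))
    (irr_classFun χ.2) (irr_classFun χ.2)
  have h2 := nil_count hm hn Ω hΩ f' (fun u hu => hf' u hu)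
    (fun x g => labF p P e (ext0 P ζ) (Subgroup.zpowers x) g x *
      conj (labF p P e (ext0 P ζ') (Subgroup.zpowers x) g x) *
      cnk p (cz (Subgroup.zpowers x)) x g (χ : G → ℂ) (χ : G → ℂ)) (by
      intro g ω hω
      have h3 := ((hΩ ω.1 ω.2).mp hω).2
      have h4 := hlab.cjg g _ _ h3 ω.1 (Subgroup.mem_zpowers _)
      have h5 := hlab'.cjg g _ _ h3 ω.1 (Subgroup.mem_zpowers _)
      have h6 := cnk_cj (p := p) h3.2.1.2 g ω.1 (irr_classFun χ.2) (irr_classFun χ.2)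
      rw [cg_zpowers] at h4 h5
      rw [cg_cz, cg_zpowers] at h6
      rw [h4, h5, h6])
  rw [← h1] at h2
  have h3 : ∑ u : G with u ∈ P,
        (Nat.card (P ⊓ cz (Subgroup.zpowers u) : Subgroup G) : ℂ) *
        (labF p P e (ext0 P ζ) (Subgroup.zpowers u) (f' u) u *
      conj (labF p P e (ext0 P ζ') (Subgroup.zpowers u) (f' u) u) *
      cnk p (cz (Subgroup.zpowers u)) u (f' u) (χ : G → ℂ) (χ : G → ℂ)) =
      ∑ u : P, ζ u * conj (ζ' u) := by
    symm
    apply Finset.sum_bij (fun (u : P) _ => (u : G))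
    · intro u _
      exact Finset.mem_filter.mpr ⟨Finset.mem_univ _, u.2⟩
    · intro a _ b _ h; exact Subtype.ext h
    · intro u hu
      exact ⟨⟨u, (Finset.mem_filter.mp hu).2⟩, Finset.mem_univ _, rfl⟩
    · intro u _
      rw [lab0_self hm hn (irr_classFun hζ) (hf' u u.2) (Subgroup.mem_zpowers _),
        lab0_self hm hn (irr_classFun hζ') (hf' u u.2) (Subgroup.mem_zpowers _),
        ext0_mem u.2, ext0_mem u.2]
      have h4 := nil_phi hMp hB hm hn hχ h0 u.2 (hf' u u.2)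
      rw [mul_left_comm, h4, mul_one]
  rw [h3] at h2
  have hGne : (Nat.card G : ℂ) ≠ 0 := by exact_mod_cast Nat.card_pos.ne'
  have hPne : (Nat.card P : ℂ) ≠ 0 := by exact_mod_cast Nat.card_pos.ne'
  have h5 : (Nat.card P : ℂ) * classInner (stc p (labF p P e (ext0 P ζ)) (EG M B) (χ : G → ℂ))
      (stc p (labF p P e (ext0 P ζ')) (EG M B) (χ : G → ℂ)) = ∑ u : P, ζ u * conj (ζ' u) := by
    apply mul_left_cancel₀ hGne
    rw [← h2]; ring
  unfold classInner at h5 ⊢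
  rw [← h5, ← mul_assoc, inv_mul_cancel₀ hPne, one_mul]

theorem one_reg : ¬ p ∣ orderOf (1 : G) := by
  rw [orderOf_one]; exact fun h => hp.out.one_lt.ne' (Nat.dvd_one.mp h)

theorem inB_one' {B : Set (IrrCharacter G)} (hB : IsPBlock M B) :
    InB p (EG M B) (Subgroup.zpowers 1) (EG M B) := by
  apply inB_of_mem_bf (isBlk_EG hB) ⟨0, by simp⟩
  rw [bf_top (isBlk_EG hB), Finset.mem_singleton]

/-- The value at `p`-regular elements. -/
theorem nil_reg (hMp : IsPModular p M) {B : Set (IrrCharacter G)} (hB : IsPBlock M B)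
    (hm : MaxB p (EG M B) P e) (hn : IsNilK p ⊤ (EG M B)) {χ : IrrCharacter G} (hχ : χ ∈ B)
    {ζ : ↥P → ℂ} (hζ : IsIrrCharacter P ζ) {s : G} (hs : ¬ p ∣ orderOf s) :
    stc p (labF p P e (ext0 P ζ)) (EG M B) (χ : G → ℂ) s = ζ 1 * (χ : G → ℂ) s := by
  rw [stc_reg' hMp hB _ hχ hs]
  congr 1
  obtain ⟨x, hx⟩ := hm.exists_conj (inB_one' (p := p) hB)
  rw [labF_eq (fstab_ext0 hm hn (irr_classFun hζ)) hx (Subgroup.mem_zpowers _)]
  have h1 : x * 1 * x⁻¹ = 1 := by group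
  rw [h1, ext0_mem P.one_mem]
  rfl

/-- The twists of a character of height zero by irreducible characters of the defect group
are irreducible. -/
theorem nil_tw (hMp : IsPModular p M) {B : Set (IrrCharacter G)} (hB : IsPBlock M B)
    (hm : MaxB p (EG M B) P e) (hn : IsNilK p ⊤ (EG M B)) {χ : IrrCharacter G} (hχ : χ ∈ B)
    (h0 : blockHeight p B (χ : G → ℂ) = 0) (ζ : IrrCharacter P) :
    ∃ ψ ∈ B, (ψ : G → ℂ) = stc p (labF p P e (ext0 P (ζ : P → ℂ))) (EG M B) (χ : G → ℂ) := by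
  classical
  have hfi := Fintype.ofFinite (IrrCharacter G)
  have hfP := Fintype.ofFinite P
  have hlab := isLab_labF hm (fstab_ext0 hm hn (irr_classFun ζ.2)) (isGen_ext0 ζ.2)
  have hgen := isGen_stc hMp hB hlab hχ
  have h4 := nil_inner hMp hB hm hn hχ h0 ζ.2 ζ.2
  rw [classInner_self_of_irr ζ.2] at h4
  set θ := stc p (labF p P e (ext0 P (ζ : P → ℂ))) (EG M B) (χ : G → ℂ) with hθ
  have h5 : θ 1 = (ζ : P → ℂ) 1 * (χ : G → ℂ) 1 := nil_reg hMp hB hm hn hχ ζ.2 one_reg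
  have hirr : IsIrrCharacter G θ := by
    rcases gen_norm_one hgen h4 with h | h
    · exact h
    · exfalso
      obtain ⟨n, hn⟩ := char_one_eq_nat (irr_isChar h)
      obtain ⟨m, hm⟩ := char_one_eq_nat (irr_isChar χ.2)
      obtain ⟨k, hk⟩ := char_one_eq_nat (irr_isChar ζ.2)
      have h6 : -((k : ℂ) * m) = n := by
        rw [← hn, ← hm, ← hk, ← h5]; rfl
      have h7 : (k * m : ℤ) = 0 := by
        have : -((k : ℤ) * m) = n := by exact_mod_cast h6
        have h8 : (0 : ℤ) ≤ (k : ℤ) * m := by positivity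
        have h9 : (0 : ℤ) ≤ n := by positivity
        omega
      have h8 : θ 1 = 0 := by
        rw [h5, hm, hk]; exact_mod_cast h7
      rw [h5] at h8
      rcases mul_eq_zero.mp h8 with h9 | h9
      · exact irr_one_ne_zero ζ.2 h9
      · exact irr_one_ne_zero χ.2 h9
  refine ⟨⟨_, hirr⟩, ?_, rfl⟩
  by_contra hnot
  have h6 := blockPart_congr_reg hMp hB (θ := θ)
    (η := (ζ : P → ℂ) 1 • (χ : G → ℂ)) (fun c hc => by
      rw [hθ, nil_reg hMp hB hm hn hχ ζ.2 hc]; rfl) (g := 1) one_reg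
  rw [blockPart_eq_sum, blockPart_eq_sum] at h6
  rw [Finset.sum_eq_zero, Finset.sum_eq_single χ] at h6
  · rw [classInner_smul_left, classInner_self_of_irr χ.2, mul_one] at h6
    exact (mul_ne_zero (irr_one_ne_zero ζ.2) (irr_one_ne_zero χ.2)) h6.symm
  · intro ψ _ hne
    rw [classInner_smul_left, classInner_of_irr_ne χ.2 ψ.2 (fun h => hne (Subtype.ext h.symm)),
      mul_zero, zero_mul]
  · intro h
    exact absurd (Finset.mem_filter.mpr ⟨Finset.mem_univ _, hχ⟩) h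
  · intro ψ hψ
    have hψB := (Finset.mem_filter.mp hψ).2
    rw [classInner_of_irr_ne hirr ψ.2 (fun h => hnot (by
      have : (⟨_, hirr⟩ : IrrCharacter G) = ψ := Subtype.ext h
      rw [this]; exact hψB)), zero_mul]

/-- All characters of the block are twists. -/
theorem nil_surj (hMp : IsPModular p M) {B : Set (IrrCharacter G)} (hB : IsPBlock M B)
    (hm : MaxB p (EG M B) P e) (hn : IsNilK p ⊤ (EG M B)) {χ : IrrCharacter G} (hχ : χ ∈ B)
    (h0 : blockHeight p B (χ : G → ℂ) = 0) {ψ : IrrCharacter G} (hψ : ψ ∈ B) :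
    ∃ ζ : IrrCharacter P,
      (ψ : G → ℂ) = stc p (labF p P e (ext0 P (ζ : P → ℂ))) (EG M B) (χ : G → ℂ) := by
  classical
  have hfi := Fintype.ofFinite (IrrCharacter G)
  have hfP := Fintype.ofFinite P
  have hfiP := Fintype.ofFinite (IrrCharacter P)
  choose T hTB hT using nil_tw hMp hB hm hn hχ h0
  by_contra hcon
  push Not at hcon
  obtain ⟨c, h1, h2, h3, h4, h5, h6⟩ := exists_cmat hMp hB
  have hsq := cmat_sq hMp hB h1 h2 h3 hχ
  have hc : c χ χ = 1 := by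
    have h7 := nil_mm hMp hB hm hn hχ h0
    rw [card_maxB hMp hB hm] at h7
    push_cast at h7
    rw [h1 χ χ hχ hχ] at h7
    exact_mod_cast h7
  rw [hc, mul_one] at hsq
  have hTinj : Function.Injective T := by
    intro ζ ζ' h
    by_contra hne
    have h7 := nil_inner hMp hB hm hn hχ h0 ζ.2 ζ'.2
    rw [← hT, ← hT, h, classInner_self_of_irr (T ζ').2,
      classInner_of_irr_ne ζ.2 ζ'.2 (fun h => hne (Subtype.ext h))] at h7
    exact one_ne_zero h7
  have hcT : ∀ ζ : IrrCharacter P, (c χ (T ζ) : ℂ) = (ζ : P → ℂ) 1 := by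
    intro ζ
    have h7 : mm p (χ : G → ℂ) (T ζ : G → ℂ) =
        conj ((ζ : P → ℂ) 1) * mm p (χ : G → ℂ) (χ : G → ℂ) := by
      rw [mm_eq_sum, mm_eq_sum, mul_left_comm (conj ((ζ : P → ℂ) 1))]
      congr 1
      rw [Finset.mul_sum]
      apply Finset.sum_congr rfl
      intro s hs
      rw [hT, nil_reg hMp hB hm hn hχ ζ.2 (Finset.mem_filter.mp hs).2, map_mul]
      ring
    have h8 := h1 χ (T ζ) hχ (hTB ζ)
    rw [← h8, h7, mul_left_comm, h1 χ χ hχ hχ, hc, Int.cast_one, mul_one]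
    obtain ⟨k, hk⟩ := char_one_eq_nat (irr_isChar ζ.2)
    rw [hk, Complex.conj_natCast]
  have h7 : ∑ ζ : IrrCharacter P, c χ (T ζ) ^ 2 = (p : ℤ) ^ blockDefect p B := by
    have h8 : ((∑ ζ : IrrCharacter P, c χ (T ζ) ^ 2 : ℤ) : ℂ) = ((p : ℤ) ^ blockDefect p B : ℤ) := by
      rw [Int.cast_sum]
      have h9 : ((p : ℤ) ^ blockDefect p B : ℤ) = (Nat.card P : ℤ) := by
        rw [card_maxB hMp hB hm]; push_cast; rfl
      rw [h9]
      have h10 := sum_degree_sq (G := P)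
      rw [Int.cast_natCast, ← h10]
      apply Finset.sum_congr rfl
      intro ζ _
      rw [Int.cast_pow, hcT]
    exact_mod_cast h8
  have h8 : ∑ ζ : IrrCharacter P, c χ (T ζ) ^ 2 = ∑ θ ∈ univ.image T, c χ θ ^ 2 := by
    rw [Finset.sum_image (fun a _ b _ h => hTinj h)]
  have hψn : ψ ∉ univ.image T := by
    intro h
    obtain ⟨ζ, -, hζ⟩ := Finset.mem_image.mp h
    exact hcon ζ (by rw [← hζ]; exact hT ζ)
  have h9 : ∑ θ ∈ insert ψ (univ.image T), c χ θ ^ 2 ≤ ∑ θ : IrrCharacter G, c χ θ ^ 2 :=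
    Finset.sum_le_sum_of_subset_of_nonneg (Finset.subset_univ _) (fun i _ _ => sq_nonneg _)
  rw [Finset.sum_insert hψn, ← h8, h7, hsq] at h9
  have h10 : c χ ψ ^ 2 ≤ 0 := by linarith
  have h11 : c χ ψ = 0 := by
    have := sq_nonneg (c χ ψ)
    have h12 : c χ ψ ^ 2 = 0 := le_antisymm h10 this
    exact pow_eq_zero_iff (two_ne_zero) |>.mp h12
  apply h5 χ ψ hχ hψ h0
  rw [h11]
  exact dvd_zero _

end NilB

end Cfsg.Agent.H27
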