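import Mathlib
import Cfsg.Agent.H27.Md26
import Cfsg.Agent.H27.NilB

set_option autoImplicit false
set_option linter.style.haveILetI false

/-!
# Degrees in nilpotent blocks
-/

namespace Cfsg.Agent.H27.Md

open Module Cfsg Cfsg.Agent.H11 Cfsg.Agent.H26 Cfsg.Agent.H3 Matrix
open scoped ComplexConjugate

universe u

variable {G : Type u} [Group G] [Finite G] {M : Ideal AlgInt} [hM : M.IsPrime] {p : ℕ}
  [hp : Fact p.Prime]

/-- Degrees in a nilpotent block. -/
theorem nil_degrees (hMp : IsPModular p M) {B : Set (IrrCharacter G)}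
    (P : Subgroup G) (hP : IsDefectGroup p M B P) (hn : IsNilpotentBlock p M B)
    {χ : IrrCharacter G} (hχ : χ ∈ B) (h0 : blockHeight p B (χ : G → ℂ) = 0)
    {ψ : IrrCharacter G} (hψ : ψ ∈ B) :
    ∃ ζ : IrrCharacter P, charDegree (ψ : G → ℂ) = charDegree (ζ : P → ℂ) *
      charDegree (χ : G → ℂ) := by
  classical
  haveI := Fintype.ofFinite G
  haveI := charP_KF hMp
  obtain ⟨hB, hn2⟩ := isNilpotentBlock_iff.mp hn
  have hDD := (isDefectGroup_iff_EG hB).mp hP
  obtain ⟨e, he⟩ := hDD.exists_inB (isBlk_EG hB)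
  have hmax := he.maxB_of_isDef hDD
  obtain ⟨ζ, hζ⟩ := nil_surj hMp hB hmax hn2 hχ h0 hψ
  refine ⟨ζ, ?_⟩
  have h1 := nil_reg hMp hB hmax hn2 hχ ζ.2 one_reg
  rw [← hζ, ← charDegree_cast (irr_isChar ψ.2), ← charDegree_cast (irr_isChar χ.2),
    ← charDegree_cast (irr_isChar ζ.2)] at h1
  exact_mod_cast h1

end Cfsg.Agent.H27.Md
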