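import Mathlib
import Cfsg.Agent.H26.InfBlk3
import Cfsg.Agent.H27.CentralChar

set_option autoImplicit false
set_option linter.style.haveILetI false

/-!
# Deflation of group algebras
-/

namespace Cfsg.Agent.H27.Md

open MonoidAlgebra Cfsg Cfsg.Agent.H11 Cfsg.Agent.H26 Cfsg.Agent.H3
open scoped ComplexConjugate

universe u

variable {G : Type u} [Group G] [Fintype G]

/-- Deflation. -/
noncomputable def dfl (k : Type*) [Field k] (N : Subgroup G) [N.Normal] :
    MonoidAlgebra k G →ₐ[k] MonoidAlgebra k (G ⧸ N) :=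
  MonoidAlgebra.mapDomainAlgHom k k (QuotientGroup.mk' N)

variable {k : Type*} [Field k] {N : Subgroup G} [hN : N.Normal]

omit [Fintype G] in
theorem dfl_single (g : G) (r : k) : dfl k N (single g r) = single (QuotientGroup.mk g) r := by
  rw [dfl, MonoidAlgebra.mapDomainAlgHom_apply, MonoidAlgebra.mapDomain_single]
  rfl

theorem coeff_dfl [Fintype N] (a : MonoidAlgebra k G) (x : G) :
    (dfl k N a).coeff (QuotientGroup.mk x) = ∑ u : N, a.coeff (x * u) := by
  classical
  have h1 : ∀ g : G, (dfl k N (single g (a.coeff g))).coeff (QuotientGroup.mk x) =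
      ∑ u : N, (single g (a.coeff g) : MonoidAlgebra k G).coeff (x * u) := by
    intro g
    rw [dfl_single, coeff_single, Finsupp.single_apply]
    by_cases h : (QuotientGroup.mk g : G ⧸ N) = QuotientGroup.mk x
    · have h2 : x⁻¹ * g ∈ N := QuotientGroup.eq.mp h.symm
      rw [if_pos h, Finset.sum_eq_single (⟨x⁻¹ * g, h2⟩ : N)]
      · rw [coeff_single, Finsupp.single_apply, if_pos]
        simp
      · intro u _ hu
        rw [coeff_single, Finsupp.single_apply, if_neg]
        intro h3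
        apply hu
        apply Subtype.ext
        change (u : G) = x⁻¹ * g
        rw [h3]; group
      · intro h; exact absurd (Finset.mem_univ _) h
    · rw [if_neg h, Finset.sum_eq_zero]
      intro u _
      rw [coeff_single, Finsupp.single_apply, if_neg]
      intro h3
      apply h
      rw [h3]
      exact QuotientGroup.mk_mul_of_mem x u.2
  conv_lhs => rw [alg_eq_sum a]
  rw [map_sum, MonoidAlgebra.coeff_sum, Finsupp.finsetSum_apply,
    Finset.sum_congr rfl fun g _ => h1 g, Finset.sum_comm]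
  apply Finset.sum_congr rfl
  intro u _
  conv_rhs => rw [alg_eq_sum a]
  rw [MonoidAlgebra.coeff_sum, Finsupp.finsetSum_apply]

omit [Fintype G] in
theorem dfl_cj (g : G) (a : MonoidAlgebra k G) :
    dfl k N (cj g a) = cj (QuotientGroup.mk g : G ⧸ N) (dfl k N a) := by
  rw [cj_eq_mul, cj_eq_mul, map_mul, map_mul, dfl_single, dfl_single]
  rfl

theorem dfl_nil {p : ℕ} [Fact p.Prime] [CharP k p] (hNp : IsPGroup p N) {a : MonoidAlgebra k G}
    (h : dfl k N a = 0) : IsNilpotent a := by
  classical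
  haveI := Fintype.ofFinite N
  apply isNilpotent_of_coset_sum N hNp
  intro x
  rw [← coeff_dfl, h]
  rfl

theorem dfl_ne_zero {p : ℕ} [Fact p.Prime] [CharP k p] (hNp : IsPGroup p N) {a : MonoidAlgebra k G}
    (ha : a * a = a) (h0 : a ≠ 0) : dfl k N a ≠ 0 := by
  intro h
  apply h0
  obtain ⟨n, hn⟩ := dfl_nil hNp h
  have h3 : ∀ m : ℕ, a ^ (m + 1) = a := by
    intro m
    induction m with
    | zero => rw [zero_add, pow_one]
    | succ m ih => rw [pow_succ, ih, ha]
  rw [← h3 n, pow_succ, hn, zero_mul]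

variable {M : Ideal AlgInt} [hM : M.IsPrime]

theorem sum_infl [Fintype N] {B : Set (IrrCharacter G)} (x : G) :
    ∑ u : N, blockCoeff B (x * u) =
      blockCoeff {ψ : IrrCharacter (G ⧸ N) | infl N ψ ∈ B} (QuotientGroup.mk x) := by
  classical
  haveI := Fintype.ofFinite (IrrCharacter G)
  haveI := Fintype.ofFinite (IrrCharacter (G ⧸ N))
  unfold blockCoeff
  rw [← Finset.mul_sum]
  simp only [fms]
  rw [Finset.sum_comm]
  have hcard : (Nat.card G : ℂ) = (Nat.card N : ℂ) * (Nat.card (G ⧸ N) : ℂ) := by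
    rw [← Nat.cast_mul, mul_comm, ← Subgroup.card_eq_card_quotient_mul_card_subgroup]
  have hN0 : (Nat.card N : ℂ) ≠ 0 := by exact_mod_cast Nat.card_pos.ne'
  have hflip : ∀ χ : IrrCharacter G, ∑ u : N, (χ : G → ℂ) (x * u) =
      ∑ u : N, (χ : G → ℂ) ((u : G) * x) := by
    intro χ
    apply Finset.sum_nbij' (fun u : N => (⟨x * u * x⁻¹, hN.conj_mem u u.2 x⟩ : N))
      (fun u : N => (⟨x⁻¹ * u * x⁻¹⁻¹, hN.conj_mem u u.2 x⁻¹⟩ : N))
    · intro _ _; exact Finset.mem_univ _
    · intro _ _; exact Finset.mem_univ _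
    · intro u _; apply Subtype.ext; simp only; group
    · intro u _; apply Subtype.ext; simp only; group
    · intro u _
      simp only
      congr 1
      group
  have h2 : ∑ χ : IrrCharacter G with χ ∈ B, ∑ u : N,
      (χ : G → ℂ) 1 * conj ((χ : G → ℂ) (x * u)) =
      ∑ ψ : IrrCharacter (G ⧸ N) with ψ ∈ {ψ : IrrCharacter (G ⧸ N) | infl N ψ ∈ B},
        (Nat.card N : ℂ) * ((ψ : G ⧸ N → ℂ) 1 * conj ((ψ : G ⧸ N → ℂ) (QuotientGroup.mk x))) := by
    symm
    apply Finset.sum_of_injOn (fun ψ => infl N ψ)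
    · intro ψ _ ψ' _ h
      apply Subtype.ext
      funext t
      obtain ⟨g, rfl⟩ := QuotientGroup.mk_surjective t
      have h3 := congrArg (fun χ : IrrCharacter G => (χ : G → ℂ) g) h
      exact h3
    · intro ψ hψ
      rw [Finset.mem_coe, Finset.mem_filter] at hψ ⊢
      exact ⟨Finset.mem_univ _, hψ.2⟩
    · intro χ hχ hne
      rw [← Finset.mul_sum, ← map_sum, hflip]
      have hk : ∃ n : N, (χ : G → ℂ) n ≠ (χ : G → ℂ) 1 := by
        by_contra h
        push Not at h
        obtain ⟨ψ, hψ, hψ2⟩ := H27.exists_quotient_irr (N := N) χ.2 (fun n hn => h ⟨n, hn⟩)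
        apply hne
        have h4 : infl N ⟨ψ, hψ⟩ = χ := by
          apply Subtype.ext
          funext g
          exact (hψ2 g).symm
        refine ⟨⟨ψ, hψ⟩, ?_, h4⟩
        rw [Finset.mem_coe, Finset.mem_filter]
        refine ⟨Finset.mem_univ _, ?_⟩
        change infl N ⟨ψ, hψ⟩ ∈ B
        rw [h4]
        exact (Finset.mem_filter.mp hχ).2
      rw [sum_coset_irr hN χ.2 hk x, map_zero, mul_zero]
    · intro ψ _
      have h3 : ∀ u : N, (infl N ψ : G → ℂ) (x * u) = (ψ : G ⧸ N → ℂ) (QuotientGroup.mk x) := by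
        intro u
        rw [infl_apply, QuotientGroup.mk_mul_of_mem x u.2]
      have h4 : (infl N ψ : G → ℂ) 1 = (ψ : G ⧸ N → ℂ) 1 := rfl
      rw [h4]
      simp only [h3]
      rw [Finset.sum_const, Finset.card_univ, nsmul_eq_mul, Nat.card_eq_fintype_card]
  rw [h2, ← Finset.mul_sum, ← mul_assoc, hcard, mul_inv]
  congr 1
  field_simp

theorem dfl_EG {B : Set (IrrCharacter G)} (hB : IsPBlock M B) :
    dfl (KF M) N (EG M B) = EG M {ψ : IrrCharacter (G ⧸ N) | infl N ψ ∈ B} := by
  classical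
  haveI := Fintype.ofFinite N
  ext t
  obtain ⟨x, rfl⟩ := QuotientGroup.mk_surjective t
  rw [coeff_dfl, coeff_EG, ← sum_infl, rd_sum _ _ (fun u _ => lr_blockCoeff hB _)]
  apply Finset.sum_congr rfl
  intro u _
  exact coeff_EG B _

end Cfsg.Agent.H27.Md
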