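import Mathlib
import Cfsg.Agent.H27.Md28
import Cfsg.Agent.H26.NilExt
import Cfsg.Agent.H7.BlkInf

set_option autoImplicit false
set_option linter.style.haveILetI false

/-!
# Blocks with a normal defect group: stabilizers and deflation
-/

namespace Cfsg.Agent.H27.Md

open MonoidAlgebra Cfsg Cfsg.Agent.H11 Cfsg.Agent.H26 Cfsg.Agent.H3
open scoped ComplexConjugate commutatorElement

universe u

variable {G : Type u} [Group G] [Fintype G] {M : Ideal AlgInt} [hM : M.IsPrime]
  {p : ℕ} [hp : Fact p.Prime] [hch : CharP (KF M) p]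
  {D : Subgroup G} [hD : D.Normal]

/-- The derived subgroup. -/
abbrev dN (D : Subgroup G) : Subgroup G := ⁅D, D⁆

/-- The image of `D` in the quotient by its derived subgroup. -/
abbrev db (D : Subgroup G) [D.Normal] : Subgroup (G ⧸ dN D) :=
  D.map (QuotientGroup.mk' (dN D))

omit [Fintype G] in
theorem mk_mem_cz_db {c : G} (hc : c ∈ cz D) :
    (QuotientGroup.mk c : G ⧸ dN D) ∈ cz (db D) := by
  rw [Subgroup.mem_centralizer_iff]
  rintro _ ⟨d, hd, rfl⟩
  change (QuotientGroup.mk' (dN D)) d * (QuotientGroup.mk' _ c) =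
    (QuotientGroup.mk' _ c) * (QuotientGroup.mk' _ d)
  rw [← map_mul, ← map_mul, Subgroup.mem_centralizer_iff.mp hc d hd]

omit hch hM in
theorem mem_cz_of_mk (hDp : IsPGroup p D) {x : G} (hx : ¬ p ∣ orderOf x)
    (h2 : (QuotientGroup.mk x : G ⧸ dN D) ∈ cz (db D)) : x ∈ cz D := by
  refine H7.BlkInf.cent_of_comm hDp hx fun d hd => ?_
  rw [Subgroup.mem_centralizer_iff] at h2
  have h3 := h2 (QuotientGroup.mk' ⁅D, D⁆ d) ⟨d, hd, rfl⟩
  rw [← QuotientGroup.eq_one_iff]
  show QuotientGroup.mk' ⁅D, D⁆ ⁅x, d⁆ = 1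
  rw [map_commutatorElement, commutatorElement_eq_one_iff_mul_comm]
  exact h3.symm

/-- Lifting central idempotents. -/
theorem lift_blk (hMp : IsPModular p M) (hDp : IsPGroup p D)
    {f : MonoidAlgebra (KF M) (G ⧸ dN D)} (hf : f ∈ Zc (KF M) (cz (db D)))
    (hff : f * f = f) : ∃ a ∈ Zc (KF M) (cz D), a * a = a ∧ dfl (KF M) (dN D) a = f := by
  classical
  haveI := Fintype.ofFinite (dN D)
  have hND : (dN D) ≤ D := Subgroup.commutator_le_self D
  have hNp : IsPGroup p (dN D) := hDp.to_le hND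
  have hczn : (cz D).Normal := Subgroup.normal_centralizer
  let a : MonoidAlgebra (KF M) G := toAlg fun g =>
    if g ∈ cz D ∧ ¬ p ∣ orderOf g then f.coeff (QuotientGroup.mk g) else 0
  have ha : ∀ g, a.coeff g = if g ∈ cz D ∧ ¬ p ∣ orderOf g then f.coeff (QuotientGroup.mk g) else 0 :=
    fun g => rfl
  have haZ : a ∈ Zc (KF M) (cz D) := by
    refine ⟨?_, ?_⟩
    · intro x hx
      rw [ha, if_neg (fun h => hx h.1)]
    · rw [isFx_iff_coeff]
      intro c hc x
      rw [ha, ha]
      have h1 : c * x * c⁻¹ ∈ cz D ↔ x ∈ cz D := by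
        constructor
        · intro h
          have := hczn.conj_mem _ h c⁻¹
          have h3 : c⁻¹ * (c * x * c⁻¹) * c⁻¹⁻¹ = x := by group
          rwa [h3] at this
        · intro h
          exact hczn.conj_mem _ h c
      have h2 : orderOf (c * x * c⁻¹) = orderOf x :=
        orderOf_injective (MulAut.conj c).toMonoidHom (MulAut.conj c).injective x
      have h3 : f.coeff (QuotientGroup.mk (c * x * c⁻¹)) = f.coeff (QuotientGroup.mk x) :=
        hf.2.coeff (mk_mem_cz_db hc) (QuotientGroup.mk x)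
      rw [h2, h3]
      simp only [h1]
  have hda : dfl (KF M) (dN D) a = f := by
    ext t
    obtain ⟨x, rfl⟩ := QuotientGroup.mk_surjective t
    rw [coeff_dfl]
    by_cases h0 : f.coeff (QuotientGroup.mk x) = 0
    · rw [h0]
      apply Finset.sum_eq_zero
      intro u _
      rw [ha, QuotientGroup.mk_mul_of_mem x u.2, h0, ite_self]
    · have h1 : (QuotientGroup.mk x : G ⧸ (dN D)) ∈ cz (db D) := by
        by_contra h
        exact h0 (hf.1 _ h)
      have h2 : ¬ p ∣ orderOf (QuotientGroup.mk x : G ⧸ (dN D)) := by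
        intro h
        exact h0 (coeff_idem_eq_zero hMp hf hff h)
      obtain ⟨y, hy, hy2⟩ := exists_reg_lift h2
      have hyD : y ∈ cz D := mem_cz_of_mk hDp hy2 (by rw [hy]; exact h1)
      have hu0 : x⁻¹ * y ∈ (dN D) := QuotientGroup.eq.mp hy.symm
      rw [Finset.sum_eq_single (⟨x⁻¹ * y, hu0⟩ : (dN D))]
      · have h3 : x * (x⁻¹ * y) = y := by group
        change a.coeff (x * (x⁻¹ * y)) = _
        rw [h3, ha, if_pos ⟨hyD, hy2⟩, hy]
      · intro u _ hu
        rw [ha, if_neg]
        rintro ⟨h3, h4⟩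
        apply hu
        apply Subtype.ext
        change (u : G) = x⁻¹ * y
        have h5 : y⁻¹ * (x * u) ∈ cz D := (cz D).mul_mem ((cz D).inv_mem hyD) h3
        have h6 : y⁻¹ * (x * u) ∈ (dN D) := by
          have h7 : y⁻¹ * (x * u) = (x⁻¹ * y)⁻¹ * u := by group
          rw [h7]
          exact (dN D).mul_mem ((dN D).inv_mem hu0) u.2
        have h8 : Commute (y⁻¹ * (x * u)) y :=
          (Subgroup.mem_centralizer_iff.mp hyD _ (hND h6))
        obtain ⟨k, hk⟩ := (IsPGroup.iff_orderOf.mp hNp) ⟨_, h6⟩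
        rw [Subgroup.orderOf_mk] at hk
        have h9 := eq_one_of_comm_reg ⟨k, hk⟩ h8 hy2 (by
          rw [h8.eq]
          have : y * (y⁻¹ * (x * u)) = x * u := by group
          rwa [this])
        rw [inv_mul_eq_one] at h9
        rw [h9]; group
      · intro h; exact absurd (Finset.mem_univ _) h
  -- idempotent lifting
  obtain ⟨m, hm⟩ : IsNilpotent (a * a - a) := by
    apply dfl_nil (N := dN D) hNp
    rw [map_sub, map_mul, hda, hff, sub_self]
  refine ⟨a ^ p ^ m, pow_mem haZ _, ?_, ?_⟩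
  · have h1 : (a * a - a) ^ p ^ m = 0 := by
      have h2 : m ≤ p ^ m := (Nat.lt_pow_self hp.out.one_lt).le
      rw [← Nat.sub_add_cancel h2, pow_add, hm, mul_zero]
    have hcomm : Commute (a * a) a := (Commute.refl a).mul_left (Commute.refl a)
    haveI : CharP (MonoidAlgebra (KF M) G) p :=
      charP_of_injective_algebraMap (algebraMap (KF M) (MonoidAlgebra (KF M) G)).injective p
    rw [sub_pow_char_pow_of_commute _ _ hcomm, sub_eq_zero, (Commute.refl a).mul_pow] at h1
    exact h1
  · rw [map_pow, hda]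
    exact (show IsIdempotentElem f from hff).pow_eq (pow_pos hp.out.pos _).ne'

end Cfsg.Agent.H27.Md
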