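import Mathlib
import Cfsg.Agent.H27.Md29
import Cfsg.Agent.H26.Nil
import Cfsg.Agent.H26.MaxPair

set_option autoImplicit false
set_option linter.style.haveILetI false

/-!
# Blocks with a normal defect group: nilpotency from the quotient by the derived subgroup
-/

namespace Cfsg.Agent.H27.Md

open MonoidAlgebra Cfsg Cfsg.Agent.H11 Cfsg.Agent.H26 Cfsg.Agent.H3
open scoped ComplexConjugate commutatorElement

universe u

variable {G : Type u} [Group G] [Fintype G] {M : Ideal AlgInt} [hM : M.IsPrime]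
  {p : ℕ} [hp : Fact p.Prime] [hch : CharP (KF M) p]
  {D : Subgroup G} [hD : D.Normal]

/-- Blocks below. -/
theorem blk_below (hMp : IsPModular p M) (hDp : IsPGroup p D)
    {e : MonoidAlgebra (KF M) G} (he : IsBlk (cz D) e)
    {f : MonoidAlgebra (KF M) (G ⧸ dN D)} (hf : IsBlk (cz (db D)) f)
    (hne : f * dfl (KF M) (dN D) e ≠ 0) : f * dfl (KF M) (dN D) e = dfl (KF M) (dN D) e := by
  obtain ⟨a, ha, haa, haf⟩ := lift_blk hMp hDp hf.mem hf.idem
  rcases he.mul_eq_or ha haa with h | h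
  · exfalso
    apply hne
    rw [← haf, ← map_mul, h, map_zero]
  · rw [← haf, ← map_mul, h]

theorem stab_blk (hMp : IsPModular p M) (hDp : IsPGroup p D)
    {e : MonoidAlgebra (KF M) G} (he : IsBlk (cz D) e)
    {f : MonoidAlgebra (KF M) (G ⧸ dN D)} (hf : IsBlk (cz (db D)) f)
    (hne : f * dfl (KF M) (dN D) e ≠ 0) {x : G} (hx : cj x e = e) :
    cj (QuotientGroup.mk x : G ⧸ dN D) f = f := by
  have h1 := blk_below hMp hDp he hf hne
  have hdbn : (db D).Normal := hD.map _ (QuotientGroup.mk'_surjective _)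
  have hczn : (cz (db D)).Normal := Subgroup.normal_centralizer
  by_contra hcon
  have h2 : IsBlk (cz (db D)) (cj (QuotientGroup.mk x : G ⧸ dN D) f) :=
    hf.cj_of_normalizer (by rw [Subgroup.normalizer_eq_top]; exact Subgroup.mem_top _)
  have h3 := h2.mul_of_ne hf hcon
  have h4 : cj (QuotientGroup.mk x : G ⧸ dN D) f * dfl (KF M) (dN D) e = dfl (KF M) (dN D) e := by
    have h5 : cj (QuotientGroup.mk x : G ⧸ dN D) (dfl (KF M) (dN D) e) = dfl (KF M) (dN D) e := by
      rw [← dfl_cj, hx]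
    conv_lhs => rw [← h5]
    rw [← map_mul, h1, h5]
  apply hne
  rw [h1]
  have h6 : dfl (KF M) (dN D) e =
      cj (QuotientGroup.mk x : G ⧸ dN D) f * (f * dfl (KF M) (dN D) e) := by rw [h1, h4]
  rw [h6, ← mul_assoc, h3, zero_mul]

/-- The stabilizer of a block of the centralizer, from the nilpotency of the quotient block. -/
theorem stab_of_quot (hMp : IsPModular p M) (hDp : IsPGroup p D) {B : Set (IrrCharacter G)}
    (hB : IsPBlock M B)
    (hBq : IsNilpotentBlock p M {ψ : IrrCharacter (G ⧸ dN D) | infl (dN D) ψ ∈ B})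
    (hDq : IsDefectGroup p M {ψ : IrrCharacter (G ⧸ dN D) | infl (dN D) ψ ∈ B} (db D))
    {e : MonoidAlgebra (KF M) G} (he : IsBlk (cz D) e) (hEe : EG M B * e = e) {x : G}
    (hx : cj x e = e) : (QuotientGroup.mk x : G ⧸ dN D) ∈ cz (db D) := by
  classical
  haveI : Fintype (G ⧸ dN D) := Fintype.ofFinite _
  obtain ⟨hBqb, hnil⟩ := isNilpotentBlock_iff.mp hBq
  have hNp : IsPGroup p (dN D) := hDp.to_le (Subgroup.commutator_le_self D)
  have hdbn : (db D).Normal := hD.map _ (QuotientGroup.mk'_surjective _)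
  have hdbp : IsPGroup p (db D) := hDp.map _
  have hne := dfl_ne_zero (N := dN D) hNp he.idem he.ne_zero
  have hEq := isBlk_EG (M := M) hBqb
  have hE1 : EG M {ψ : IrrCharacter (G ⧸ dN D) | infl (dN D) ψ ∈ B} * dfl (KF M) (dN D) e =
      dfl (KF M) (dN D) e := by
    rw [← dfl_EG hB, ← map_mul, hEe]
  -- a block of the centralizer
  haveI : Fintype (blks (KF M) (cz (db D))) := (blks_finite (cz (db D))).fintype
  obtain ⟨f, hf, hfe⟩ : ∃ f, IsBlk (cz (db D)) f ∧ f * dfl (KF M) (dN D) e ≠ 0 := by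
    by_contra hcon
    push Not at hcon
    apply hne
    have h1 := sum_blks (k := KF M) (cz (db D))
    rw [← one_mul (dfl (KF M) (dN D) e), ← h1, Finset.sum_mul]
    exact Finset.sum_eq_zero fun f _ => hcon f f.2
  have hbr : br (db D) (EG M {ψ : IrrCharacter (G ⧸ dN D) | infl (dN D) ψ ∈ B}) =
      EG M {ψ : IrrCharacter (G ⧸ dN D) | infl (dN D) ψ ∈ B} :=
    br_idem_eq hdbp le_top (by rw [Subgroup.normalizer_eq_top]) hEq.mem hEq.idem
  have hEz : EG M {ψ : IrrCharacter (G ⧸ dN D) | infl (dN D) ψ ∈ B} ∈ Zc (KF M) (cz (db D)) := by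
    refine ⟨?_, hEq.isFx.mono le_top⟩
    rw [← hbr]
    exact isSup_br _ _
  have hEf : EG M {ψ : IrrCharacter (G ⧸ dN D) | infl (dN D) ψ ∈ B} * f = f := by
    rcases hf.mul_eq_or hEz hEq.idem with h | h
    · exfalso
      apply hfe
      rw [← hE1, ← mul_assoc, ← (Zc_commute hEz hf.isSup).eq, h, zero_mul]
    · exact h
  have hin : InB p (EG M {ψ : IrrCharacter (G ⧸ dN D) | infl (dN D) ψ ∈ B}) (db D) f :=
    ⟨hEq, ⟨hdbp, hf⟩, by rw [hbr]; exact hEf⟩
  have hmax := hin.maxB_of_isDef ((isDefectGroup_iff_EG hBqb).mp hDq)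
  have hab : ∀ x ∈ db D, ∀ y ∈ db D, x * y = y * x := by
    rintro _ ⟨a, ha, rfl⟩ _ ⟨b, hb, rfl⟩
    rw [← map_mul, ← map_mul]
    refine QuotientGroup.eq.mpr ?_
    have h1 := Subgroup.commutator_mem_commutator (D.inv_mem hb) (D.inv_mem ha)
    have h2 : (a * b)⁻¹ * (b * a) = ⁅b⁻¹, a⁻¹⁆ := by
      rw [commutatorElement_def]; group
    rw [h2]
    exact h1
  have hst := (hmax.isNil_iff_abelian hab).mp hnil
  apply hst
  have hnt : Subgroup.normalizer ((db D : Subgroup (G ⧸ dN D)) : Set (G ⧸ dN D)) = ⊤ :=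
    Subgroup.normalizer_eq_top _
  refine ⟨?_, ?_⟩
  · change _ ∈ Subgroup.normalizer ((db D : Subgroup (G ⧸ dN D)) : Set (G ⧸ dN D))
    rw [hnt]
    exact Subgroup.mem_top _
  exact stab_blk hMp hDp he hf hfe hx

omit [Fintype G] hD in
/-- Products along inclusions. -/
theorem ple_mul_ne_zero [Finite G] {e : MonoidAlgebra (KF M) G} (he : IsBrP p D e) {Q : Subgroup G}
    {f : MonoidAlgebra (KF M) G} (h : PLE p Q f D e) : f * e ≠ 0 := by
  have key : ∀ a : Subgroup G × MonoidAlgebra (KF M) G,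
      Relation.ReflTransGen
        (fun a b : Subgroup G × MonoidAlgebra (KF M) G => NSub p a.1 a.2 b.1 b.2) a (D, e) →
      a.2 * e ≠ 0 := by
    intro a ha
    induction ha using Relation.ReflTransGen.head_induction_on with
    | refl =>
      change e * e ≠ 0
      rw [he.2.idem]
      exact he.2.ne_zero
    | head hac hcb ih =>
      rename_i a c
      intro h0
      apply ih
      have hle : c.1 ≤ D := PLE.le (p := p) (f := c.2) (e := e) hcb
      have hc : IsBrP p c.1 c.2 := hac.2.1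
      have hes : IsSup (cz c.1) e := he.2.isSup.mono (Subgroup.centralizer_le hle)
      have h1 : br c.1 (a.2 * e) = br c.1 a.2 * br c.1 e :=
        br_mul hc.1 hac.2.2.2.2.1 (isFx_of_isSup_cz hes)
      rw [h0, map_zero, hes.br_eq] at h1
      have h2 : br c.1 a.2 * c.2 = c.2 := hac.2.2.2.2.2
      have h3 : Commute c.2 (br c.1 a.2) := Zc_commute hc.2.mem (isSup_br _ _)
      rw [← h2, ← h3.eq, mul_assoc, ← h1, mul_zero]
  exact key (Q, f) h

/-- Blocks of a normal centralizer below a block are conjugate. -/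
theorem conj_below {e e' f : MonoidAlgebra (KF M) G} {Q : Subgroup G} (he : IsBlk (cz D) e)
    (he' : IsBlk (cz D) e') (hQD : Q ≤ D) (hf : IsBlk (cz Q) f) (h1 : f * e ≠ 0)
    (h2 : f * e' ≠ 0) : ∃ c ∈ cz Q, cj c e = e' := by
  have hczn : (cz D).Normal := Subgroup.normal_centralizer
  have hnt : nz (cz D) = ⊤ := Subgroup.normalizer_eq_top _
  have hK : cz Q ≤ nz (cz D) := by rw [hnt]; exact le_top
  have hCK : cz D ≤ cz Q := Subgroup.centralizer_le hQD
  have key : ∀ e : MonoidAlgebra (KF M) G, IsBlk (cz D) e → f * e ≠ 0 →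
      f * osum (cz Q) e = f := by
    intro e he h1
    have h3 := (Zc_commute (osum_mem_Zc he hK hCK) hf.isSup).eq
    rcases hf.mul_eq_or (osum_mem_Zc he hK hCK) (osum_idem he hK) with h | h
    · exfalso
      apply h1
      rw [← osum_mul_self he hK, ← mul_assoc, ← h3, h, zero_mul]
    · rw [← h3, h]
  have h3 : osum (cz Q) e * e' ≠ 0 := by
    intro h
    apply h2
    rw [← key e he h1, mul_assoc, h, mul_zero]
  by_contra hcon
  push Not at hcon
  apply h3
  unfold osum
  rw [Finset.sum_mul]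
  apply Finset.sum_eq_zero
  intro d hd
  obtain ⟨c, hc, hcd⟩ := mem_orb.mp hd
  refine (isBlk_of_mem_orb he hK hd).mul_of_ne he' ?_
  rw [← hcd]
  exact hcon c hc

/-- Nilpotency of a block with a normal defect group, from the action on the abelianization. -/
theorem nil_of_stab (hDp : IsPGroup p D) {E e : MonoidAlgebra (KF M) G} (hm : MaxB p E D e)
    (hst : ∀ x, cj x e = e → (QuotientGroup.mk x : G ⧸ dN D) ∈ cz (db D)) : IsNilK p ⊤ E := by
  have he := hm.1.2.1
  have hczn : (cz D).Normal := Subgroup.normal_centralizer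
  have hnt : nz (cz D) = ⊤ := Subgroup.normalizer_eq_top _
  rw [isNilK_top_iff hm.1.1]
  intro Q f hf x hx hxf hord
  obtain ⟨z, hz⟩ := hm.exists_conj hf
  have h1 : z * x * z⁻¹ ∈ nz (cg Q z) := by
    apply mem_nz_of_cg_eq
    rw [cg_cg]
    have h2 : z * x * z⁻¹ * z = z * x := by group
    rw [h2, ← cg_cg, cg_eq_of_mem_nz hx]
  have h2 : cj (z * x * z⁻¹) (cj z f) = cj z f := by
    rw [← cj_mul_apply]
    have h3 : z * x * z⁻¹ * z = z * x := by group
    rw [h3, cj_mul_apply, hxf]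
  have h4 : ¬ p ∣ orderOf (z * x * z⁻¹) := by
    have : orderOf (z * x * z⁻¹) = orderOf x :=
      orderOf_injective (MulAut.conj z).toMonoidHom (MulAut.conj z).injective x
    rwa [this]
  have h5 : z * x * z⁻¹ ∈ cz (cg Q z) := by
    set w := z * x * z⁻¹ with hw
    have hfb : IsBlk (cz (cg Q z)) (cj z f) := (hz.isBrP_left he).2
    have h6 := ple_mul_ne_zero he hz
    have h7 : cj z f * cj w e ≠ 0 := by
      intro h
      apply h6
      have h8 : cj w (cj z f * e) = 0 := by rw [map_mul, h2, h]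
      have h9 := congrArg (cj w⁻¹) h8
      rwa [cj_inv_cj, map_zero] at h9
    obtain ⟨c, hc, hce⟩ := conj_below he.2 (he.2.cj_of_normalizer (n := w) (by
      change w ∈ nz (cz D)
      rw [hnt]; exact Subgroup.mem_top _)) hz.le hfb h6 h7
    have h8 : cj (c⁻¹ * w) e = e := by
      rw [cj_mul_apply, ← hce, cj_inv_cj]
    have h9 := hst _ h8
    obtain ⟨a, b, hab, hcomm, ⟨k, hk⟩, hb, -, ⟨t, ht⟩⟩ := exists_isPPart_full hp.out (c⁻¹ * w)
    have h10 : b ∈ cz D := by
      apply mem_cz_of_mk hDp hb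
      rw [ht]
      change QuotientGroup.mk' (dN D) ((c⁻¹ * w) ^ t) ∈ _
      rw [map_pow]
      exact (cz (db D)).pow_mem h9 t
    apply mem_cz_of_conj_eq (u := a) h4 h1
    · exact ⟨k, by rw [← hk, pow_orderOf_eq_one]⟩
    · intro y hy
      have h11 : w * y * w⁻¹ ∈ cg Q z := (Subgroup.mem_normalizer_iff.mp h1 y).mp hy
      have h12 := Subgroup.mem_centralizer_iff.mp hc _ h11
      have h13 := Subgroup.mem_centralizer_iff.mp h10 y (hz.le hy)
      have h14 : (c⁻¹ * w) * y * (c⁻¹ * w)⁻¹ = w * y * w⁻¹ := by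
        calc (c⁻¹ * w) * y * (c⁻¹ * w)⁻¹ = c⁻¹ * (w * y * w⁻¹ * c) := by group
          _ = c⁻¹ * (c * (w * y * w⁻¹)) := by rw [h12]
          _ = w * y * w⁻¹ := by group
      rw [← h14, ← hab]
      calc a * b * y * (a * b)⁻¹ = a * (b * y) * b⁻¹ * a⁻¹ := by group
        _ = a * (y * b) * b⁻¹ * a⁻¹ := by rw [h13]
        _ = a * y * a⁻¹ := by group
  rw [← cg_cz, mem_cg] at h5
  have h6 : z⁻¹ * (z * x * z⁻¹) * z = x := by group
  rwa [h6] at h5

end Cfsg.Agent.H27.Md
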