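import Mathlib
import Cfsg.Agent.H27.Md27
import Cfsg.Agent.H27.Md30
import Cfsg.Agent.S4434
import Cfsg.Agent.H26.NormDef

set_option autoImplicit false
set_option linter.style.haveILetI false

/-!
# Blocks with a normal defect group: equal height zero degrees imply nilpotency
-/

namespace Cfsg.Agent.H27.Md

open MonoidAlgebra Cfsg Cfsg.Agent.H11 Cfsg.Agent.H26 Cfsg.Agent.H3
open scoped ComplexConjugate commutatorElement

universe u

variable {G : Type u} [Group G] [Finite G] {M : Ideal AlgInt} {p : ℕ} [hp : Fact p.Prime]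

theorem charDegree_infl (N : Subgroup G) [N.Normal] (ψ : IrrCharacter (G ⧸ N)) :
    charDegree (infl N ψ : G → ℂ) = charDegree (ψ : G ⧸ N → ℂ) := by
  have h1 : ((charDegree (infl N ψ : G → ℂ) : ℕ) : ℂ) = charDegree (ψ : G ⧸ N → ℂ) := by
    rw [charDegree_cast (irr_isChar (infl N ψ).2), charDegree_cast (irr_isChar ψ.2)]
    rfl
  exact_mod_cast h1

theorem nil_of_normal (hMp : IsPModular p M) {B : Set (IrrCharacter G)}
    (hB : IsPBlock M B) (D : Subgroup G) [hD : D.Normal] (hDB : IsDefectGroup p M B D) {d : ℕ}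
    (hd : ∀ χ ∈ B, blockHeight p B (χ : G → ℂ) = 0 → charDegree (χ : G → ℂ) = d) :
    IsNilpotentBlock p M B := by
  classical
  haveI := Fintype.ofFinite G
  haveI : Fintype (G ⧸ dN D) := Fintype.ofFinite _
  haveI hM : M.IsPrime := hMp.2.1.isPrime
  haveI := charP_KF hMp
  have hDp : IsPGroup p D := IsDefectGroup.isPGroup hMp hDB
  have hNp : IsPGroup p (dN D) := hDp.to_le (Subgroup.commutator_le_self D)
  have hdbn : (db D).Normal := hD.map _ (QuotientGroup.mk'_surjective _)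
  -- the block of the quotient
  obtain ⟨χ₀, θ, hθ, hθχ⟩ := H7.BlkInf.main2 hMp hDp B hB
  have hinf0 : infl (dN D) χ₀ = θ := Subtype.ext hθχ.symm
  let Bq : Set (IrrCharacter (G ⧸ dN D)) := {ψ | infl (dN D) ψ ∈ B}
  have hBeq : B = blockOf M ((infl (dN D) χ₀ : IrrCharacter G) : G → ℂ) := by
    obtain ⟨χ, hχ⟩ := hB
    rw [hχ, hinf0]
    apply blockOf_eq_of_sameBlock
    rw [hχ] at hθ
    exact hθ
  have hBq : IsPBlock M Bq := by
    refine ⟨χ₀, ?_⟩
    ext ψ
    change infl (dN D) ψ ∈ B ↔ SameBlock M _ _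
    rw [H7.BlkInf.main1 hMp hDp χ₀ ψ, hBeq]
    rfl
  have hDq : IsDefectGroup p M Bq (db D) := by
    obtain ⟨B', hB', hsub, hdef⟩ := S4434.result p M hMp (dN D) hNp B hB
    have hBB : B' = Bq := by
      obtain ⟨ψ, hψ⟩ := exists_mem_block hB'
      have h1 : ψ ∈ Bq := hsub ψ hψ (infl (dN D) ψ) rfl
      obtain ⟨a, ha⟩ := hB'
      obtain ⟨b, hb⟩ := hBq
      rw [ha] at hψ ⊢
      rw [hb] at h1 ⊢
      exact (blockOf_eq_of_sameBlock hψ).trans (blockOf_eq_of_sameBlock h1).symm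
    rw [← hBB]
    exact (hdef _).mpr ⟨D, hDB, rfl⟩
  have hab : ∀ x ∈ db D, ∀ y ∈ db D, x * y = y * x := by
    rintro _ ⟨a, ha, rfl⟩ _ ⟨b, hb, rfl⟩
    rw [← map_mul, ← map_mul]
    refine QuotientGroup.eq.mpr ?_
    have h1 := Subgroup.commutator_mem_commutator (D.inv_mem hb) (D.inv_mem ha)
    have h2 : (a * b)⁻¹ * (b * a) = ⁅b⁻¹, a⁻¹⁆ := by
      rw [commutatorElement_def]; group
    rw [h2]
    exact h1
  have h0 := (st0972 p M hMp Bq hBq (db D) hDq).mp hab
  have hidx : (db D).index = D.index :=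
    Subgroup.index_map_eq _ (QuotientGroup.mk'_surjective _)
      (by rw [QuotientGroup.ker_mk']; exact Subgroup.commutator_le_self D)
  have hdq : ∀ ψ ∈ Bq, charDegree (ψ : G ⧸ dN D → ℂ) = d := by
    intro ψ hψ
    have h1 := (height_eq_zero_iff hMp hBq hDq hψ).mp (h0 ψ hψ)
    rw [hidx, ← charDegree_infl (dN D) ψ] at h1
    have h2 := (height_eq_zero_iff hMp hB hDB (χ := infl (dN D) ψ) hψ).mpr h1
    rw [← charDegree_infl (dN D) ψ]
    exact hd _ hψ h2
  have hnq : IsNilpotentBlock p M Bq := nil_of_equal hMp hBq (db D) hDq hab hdq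
  -- back to the group
  have hDD := (isDefectGroup_iff_EG hB).mp hDB
  obtain ⟨e, he⟩ := hDD.exists_inB (isBlk_EG hB)
  have hm := he.maxB_of_isDef hDD
  have hE := isBlk_EG (M := M) hB
  have hbr : br D (EG M B) = EG M B :=
    br_idem_eq hDp le_top (by rw [Subgroup.normalizer_eq_top]) hE.mem hE.idem
  have hEe : EG M B * e = e := by
    have := he.2.2
    rwa [hbr] at this
  rw [isNilpotentBlock_iff]
  exact ⟨hB, nil_of_stab hDp hm fun x hx => stab_of_quot hMp hDp hB hnq hDq he.2.1.2 hEe hx⟩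

end Cfsg.Agent.H27.Md
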