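import Mathlib
import Cfsg.Agent.H27.CentralChar
import Cfsg.Agent.H27.Util
import Cfsg.Agent.H11.Osima

set_option autoImplicit false
set_option linter.style.haveILetI false
set_option linter.unusedSectionVars false

/-!
# Orbit sums under a normal subgroup with irreducible restriction
-/

namespace Cfsg.Agent.H27.Mf

open Module Cfsg Cfsg.Agent.H11 Cfsg.Agent.H3 Cfsg.Agent.H27
open scoped ComplexConjugate

universe u

variable {G : Type u} [Group G] [Fintype G] {N : Subgroup G} {k : ℕ}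

/-- functions on the group which act as scalars -/
structure Good (N : Subgroup G) (ρ : Representation ℂ G (Fin k → ℂ)) (Z : G → ℂ) (q : G)
    (d w : ℂ) : Prop where
  inv : ∀ n ∈ N, ∀ x, Z (n * x * n⁻¹) = Z x
  nat : ∀ x, ∃ m : ℕ, Z x = m
  supp : ∀ x, Z x ≠ 0 → q⁻¹ * x ∈ N
  aug : ∑ x, Z x = d
  act : ∑ x, Z x • ρ x = w • (1 : Module.End ℂ (Fin k → ℂ))

variable {ρ : Representation ℂ G (Fin k → ℂ)}

theorem Good.mul (hN : N.Normal) {Z Z' : G → ℂ} {q q' : G} {d d' w w' : ℂ}
    (h : Good N ρ Z q d w) (h' : Good N ρ Z' q' d' w') :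
    Good N ρ (fun x => ∑ y, Z y * Z' (y⁻¹ * x)) (q * q') (d * d') (w * w') := by
  classical
  refine ⟨?_, ?_, ?_, ?_, ?_⟩
  · intro n hn x
    symm
    refine Fintype.sum_equiv (MulAut.conj n).toEquiv _ _ fun y => ?_
    change Z y * Z' (y⁻¹ * x) = Z (n * y * n⁻¹) * Z' ((n * y * n⁻¹)⁻¹ * (n * x * n⁻¹))
    rw [h.inv n hn]
    have : (n * y * n⁻¹)⁻¹ * (n * x * n⁻¹) = n * (y⁻¹ * x) * n⁻¹ := by group
    rw [this, h'.inv n hn]
  · intro x
    choose a ha using h.nat
    choose b hb using h'.nat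
    exact ⟨∑ y, a y * b (y⁻¹ * x), by push_cast; simp only [ha, hb]⟩
  · intro x hx
    obtain ⟨y, _, hy⟩ := Finset.exists_ne_zero_of_sum_ne_zero hx
    have h1 := h.supp y (left_ne_zero_of_mul hy)
    have h2 := h'.supp _ (right_ne_zero_of_mul hy)
    have h3 : (q * q')⁻¹ * x = (q'⁻¹ * (q⁻¹ * y) * q'⁻¹⁻¹) * (q'⁻¹ * (y⁻¹ * x)) := by group
    rw [h3]
    exact mul_mem (hN.conj_mem _ h1 _) h2
  · rw [Finset.sum_comm, ← h.aug, Finset.sum_mul]
    apply Finset.sum_congr rfl
    intro y _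
    rw [← Finset.mul_sum, ← h'.aug]
    congr 1
    exact Fintype.sum_equiv (Equiv.mulLeft y⁻¹) _ _ fun x => rfl
  · have h1 : (w * w') • (1 : Module.End ℂ (Fin k → ℂ)) =
        (∑ x, Z x • ρ x) * (∑ x, Z' x • ρ x) := by
      rw [h.act, h'.act, smul_mul_smul_comm, one_mul]
    rw [h1, Finset.sum_mul]
    simp only [Finset.sum_smul]
    rw [Finset.sum_comm]
    apply Finset.sum_congr rfl
    intro y _
    rw [Finset.mul_sum]
    refine Fintype.sum_equiv (Equiv.mulLeft y⁻¹) _ _ fun x => ?_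
    change (Z y * Z' (y⁻¹ * x)) • ρ x = Z y • ρ y * Z' (y⁻¹ * x) • ρ (y⁻¹ * x)
    rw [smul_mul_smul_comm, ← map_mul, mul_inv_cancel_left]

open Classical in
theorem good_one : Good N ρ (fun x => if x = 1 then 1 else 0) 1 1 1 := by
  refine ⟨?_, ?_, ?_, ?_, ?_⟩
  · intro n _ x
    have : n * x * n⁻¹ = 1 ↔ x = 1 := by
      rw [mul_inv_eq_one, mul_eq_left]
    simp only [this]
  · intro x
    by_cases h : x = 1
    · exact ⟨1, by rw [if_pos h]; simp⟩
    · exact ⟨0, by rw [if_neg h]; simp⟩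
  · intro x hx
    have : x = 1 := by
      by_contra h
      exact hx (if_neg h)
    rw [this]; simp
  · simp
  · rw [Finset.sum_eq_single 1]
    · simp
    · intro x _ hx
      rw [if_neg hx, zero_smul]
    · intro h; exact absurd (Finset.mem_univ _) h

theorem Good.pow (hN : N.Normal) {Z : G → ℂ} {q : G} {d w : ℂ} (h : Good N ρ Z q d w) (m : ℕ) :
    ∃ Z', Good N ρ Z' (q ^ m) (d ^ m) (w ^ m) := by
  classical
  induction m with
  | zero => exact ⟨_, by simpa using (good_one (N := N) (ρ := ρ))⟩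
  | succ m ih =>
    obtain ⟨Z', h'⟩ := ih
    exact ⟨_, by simpa only [pow_succ] using h'.mul hN h⟩

theorem sum_N (F : G → ℂ) (hF : ∀ x, x ∉ N → F x = 0) [Fintype N] : ∑ x, F x = ∑ x : N, F x := by
  classical
  rw [← Finset.sum_subtype (Finset.univ.filter (· ∈ N)) (by simp) F]
  symm
  apply Finset.sum_subset (Finset.filter_subset _ _)
  intro x _ hx
  apply hF
  intro h
  exact hx (Finset.mem_filter.mpr ⟨Finset.mem_univ _, h⟩)

theorem Good.fin {M : Ideal AlgInt} [hM : M.IsPrime] {Z : G → ℂ} {q : G} {d w : ℂ}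
    (h : Good N ρ Z q d w) (hq : q ∈ N) (θ : IrrCharacter N)
    (hθ : ∀ x : N, ρ.character x = (θ : N → ℂ) x) :
    IsIntegral ℤ w ∧ (θ ∈ principalBlock M N → MemLocalIdeal M (w - d)) := by
  classical
  haveI : Fintype N := Fintype.ofFinite _
  haveI := Fintype.ofFinite (ConjClasses N)
  let A : MonoidAlgebra ℂ N := toAlg (fun n : N => Z n)
  have hsupp : ∀ x, x ∉ N → Z x = 0 := by
    intro x hx
    by_contra hne
    apply hx
    have h1 := h.supp x hne
    have : x = q * (q⁻¹ * x) := by group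
    rw [this]; exact mul_mem hq h1
  have hcf : IsCen A := by
    intro g x
    change (toAlg (fun n : N => Z n)).coeff (x * g * x⁻¹) = (toAlg (fun n : N => Z n)).coeff g
    rw [coeff_toAlg, coeff_toAlg]
    exact h.inv x.1 x.2 g.1
  have hdim : (θ : N → ℂ) 1 = (k : ℂ) := by
    rw [← hθ 1]
    simp
  have h1 : omega (θ : N → ℂ) A = w := by
    unfold omega
    rw [lin_apply]
    have e1 : ∑ g : N, A.coeff g * (θ : N → ℂ) g = ∑ x : G, Z x * ρ.character x := by
      rw [sum_N (N := N) (fun x => Z x * ρ.character x) (fun x hx => by rw [hsupp x hx, zero_mul])]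
      apply Finset.sum_congr rfl
      intro g _
      rw [coeff_toAlg, hθ]
    have e2 : ∑ x : G, Z x * ρ.character x = w * k := by
      have h2 := congrArg (LinearMap.trace ℂ (Fin k → ℂ)) h.act
      rw [map_sum] at h2
      simp only [map_smul, smul_eq_mul] at h2
      rw [LinearMap.trace_one] at h2
      simpa [Representation.character] using h2
    rw [e1, e2, hdim, mul_div_assoc, div_self, mul_one]
    rw [← hdim]; exact isIrr_one_ne_zero θ.2
  have h2 : omega (fun _ : N => (1 : ℂ)) A = d := by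
    unfold omega
    rw [lin_apply, div_one, ← h.aug, sum_N (N := N) Z hsupp]
    apply Finset.sum_congr rfl
    intro g _
    rw [coeff_toAlg, mul_one]
  have hZS : ∀ g : N, MemLocalRing M (A.coeff g) := by
    intro g
    obtain ⟨m, hm⟩ := h.nat g
    rw [coeff_toAlg, hm]
    exact lr_natCast M m
  refine ⟨?_, ?_⟩
  · rw [← h1, omega_eq_sum hcf (irr_classFun θ.2)]
    apply IsIntegral.sum
    intro C _
    apply IsIntegral.mul
    · obtain ⟨m, hm⟩ := h.nat (Quotient.out C : N)
      rw [coeff_toAlg, hm]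
      have h5 := isIntegral_algebraMap (R := ℤ) (A := ℂ) (x := (m : ℤ))
      simpa using h5
    · exact centralChar_isIntegral θ.2 _
  · intro hB
    rw [← h1, ← h2]
    have h3 : SameBlock M (θ : N → ℂ) (fun _ : N => (1 : ℂ)) := sameBlock_symm hB
    exact li_omega_sub ⟨hcf, hZS⟩ (irr_classFun θ.2) (irr_classFun isIrr_one) h3

theorem scalar {H : Type u} [Group H] [Fintype H] {k : ℕ} (hk : 0 < k)
    (σ : Representation ℂ H (Fin k → ℂ))
    (h1 : classInner σ.character σ.character = 1) (T : Module.End ℂ (Fin k → ℂ))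
    (hT : ∀ g, T * σ g = σ g * T) : ∃ c : ℂ, T = c • (1 : Module.End ℂ (Fin k → ℂ)) := by
  haveI : Nonempty (Fin k) := ⟨⟨0, hk⟩⟩
  haveI : Invertible (Nat.card H : ℂ) :=
    invertibleOfNonzero (Nat.cast_ne_zero.mpr Nat.card_pos.ne')
  have hch : IsCharacter H σ.character := ⟨k, σ, rfl⟩
  have h2 := Representation.card_inv_mul_sum_char_mul_char_eq_finrank (ρ := σ) (σ := σ)
  have h3 : finrank ℂ (σ.IntertwiningMap σ) = 1 := by
    have h4 : (finrank ℂ (σ.IntertwiningMap σ) : ℂ) = 1 := by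
      rw [← h2, ← h1]
      unfold classInner
      congr 1
      apply Finset.sum_congr rfl
      intro g _
      rw [char_inv hch]
    exact_mod_cast h4
  let f : σ.IntertwiningMap σ := LinearMap.intertwiningMap_of_isIntertwiningMap σ σ T
    (fun g v => by
      have := LinearMap.congr_fun (hT g) v
      simpa using this)
  let e : σ.IntertwiningMap σ := LinearMap.intertwiningMap_of_isIntertwiningMap σ σ 1
    (fun g v => by simp)
  have he : e ≠ 0 := by
    intro h
    have h5 : (1 : Module.End ℂ (Fin k → ℂ)) = 0 := congrArg (fun x => x.toLinearMap) h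
    exact one_ne_zero h5
  obtain ⟨c, hc⟩ := (finrank_eq_one_iff_of_nonzero' e he).mp h3 f
  refine ⟨c, ?_⟩
  have h6 := congrArg (fun x => x.toLinearMap) hc
  exact h6.symm

open Classical in
/-- the orbit of an element under the normal subgroup -/
noncomputable def orb (N : Subgroup G) (g x : G) : ℂ := if ∃ n ∈ N, n * g * n⁻¹ = x then 1 else 0

noncomputable def oo (N : Subgroup G) (g : G) : ℂ := ∑ x, orb N g x

theorem good_orb (hN : N.Normal) (hk : 0 < k) [Fintype N]
    (hirr : classInner (fun x : N => ρ.character x) (fun x : N => ρ.character x) = 1) (g : G) :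
    Good N ρ (orb N g) g (oo N g) (oo N g * ρ.character g / k) := by
  classical
  have hinv : ∀ n ∈ N, ∀ x, orb N g (n * x * n⁻¹) = orb N g x := by
    intro n hn x
    unfold orb
    have : (∃ m ∈ N, m * g * m⁻¹ = n * x * n⁻¹) ↔ (∃ m ∈ N, m * g * m⁻¹ = x) := by
      constructor
      · rintro ⟨m, hm, h⟩
        refine ⟨n⁻¹ * m, mul_mem (inv_mem hn) hm, ?_⟩
        calc n⁻¹ * m * g * (n⁻¹ * m)⁻¹ = n⁻¹ * (m * g * m⁻¹) * n := by group
          _ = x := by rw [h]; group
      · rintro ⟨m, hm, rfl⟩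
        exact ⟨n * m, mul_mem hn hm, by group⟩
    simp only [this]
  refine ⟨hinv, ?_, ?_, rfl, ?_⟩
  · intro x
    unfold orb
    split_ifs
    · exact ⟨1, by simp⟩
    · exact ⟨0, by simp⟩
  · intro x hx
    unfold orb at hx
    have h1 : ∃ n ∈ N, n * g * n⁻¹ = x := by
      by_contra h; exact hx (if_neg h)
    obtain ⟨n, hn, rfl⟩ := h1
    have : g⁻¹ * (n * g * n⁻¹) = (g⁻¹ * n * g⁻¹⁻¹) * n⁻¹ := by group
    rw [this]
    exact mul_mem (hN.conj_mem _ hn _) (inv_mem hn)
  · set T := ∑ x, orb N g x • ρ x with hTdef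
    let σ : Representation ℂ N (Fin k → ℂ) := ρ.comp N.subtype
    have hcomm : ∀ n : N, T * σ n = σ n * T := by
      intro n
      change T * ρ n = ρ n * T
      rw [hTdef, Finset.sum_mul, Finset.mul_sum]
      refine Fintype.sum_equiv (MulAut.conj (n : G)⁻¹).toEquiv _ _ fun x => ?_
      change orb N g x • ρ x * ρ n = ρ n * (orb N g ((n : G)⁻¹ * x * (n : G)⁻¹⁻¹) •
        ρ ((n : G)⁻¹ * x * (n : G)⁻¹⁻¹))
      rw [hinv _ (inv_mem n.2), smul_mul_assoc, mul_smul_comm, ← map_mul, ← map_mul]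
      congr 2
      group
    obtain ⟨c, hc⟩ := scalar hk σ hirr T hcomm
    rw [hc]
    congr 1
    have h1 := congrArg (LinearMap.trace ℂ (Fin k → ℂ)) hc
    rw [map_smul, LinearMap.trace_one, hTdef, map_sum] at h1
    have h2 : ∑ x, (LinearMap.trace ℂ (Fin k → ℂ)) (orb N g x • ρ x) =
        oo N g * ρ.character g := by
      unfold oo
      rw [Finset.sum_mul]
      apply Finset.sum_congr rfl
      intro x _
      rw [map_smul, smul_eq_mul]
      change orb N g x * ρ.character x = _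
      unfold orb
      split_ifs with h
      · obtain ⟨n, _, rfl⟩ := h
        rw [Representation.char_conj]
      · rw [zero_mul, zero_mul]
    rw [h2] at h1
    have hk0 : (k : ℂ) ≠ 0 := Nat.cast_ne_zero.mpr hk.ne'
    rw [h1]
    simp only [Module.finrank_fin_fun, smul_eq_mul]
    rw [mul_div_assoc, div_self hk0, mul_one]

end Cfsg.Agent.H27.Mf
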