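import Mathlib
import Cfsg.Agent.H27.Mf1
import Cfsg.Agent.H26.ResField
import Cfsg.Agent.H2.Basic

set_option autoImplicit false
set_option linter.style.haveILetI false
set_option linter.unusedSectionVars false

/-!
# Congruences for orbit sums, lifting of characters of the residue field
-/

namespace Cfsg.Agent.H27.Mf

open Module Cfsg Cfsg.Agent.H11 Cfsg.Agent.H3 Cfsg.Agent.H26 Cfsg.Agent.H27
open scoped ComplexConjugate

universe u

variable {G : Type u} [Group G] [Fintype G] {N : Subgroup G}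

open Classical in
/-- number of elements of `N` commuting with `g` -/
noncomputable def cN (N : Subgroup G) [Fintype N] (g : G) : ℕ :=
  (Finset.univ.filter fun n : N => (n : G) * g = g * n).card

theorem oo_nat [Fintype N] (g : G) : ∃ a : ℕ, oo N g = a ∧ a * cN N g = Nat.card N := by
  classical
  let t : Finset G := Finset.univ.filter fun x => ∃ n ∈ N, n * g * n⁻¹ = x
  refine ⟨t.card, ?_, ?_⟩
  · unfold oo orb
    rw [← Finset.sum_filter, Finset.sum_const, nsmul_eq_mul, mul_one]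
  · have h1 := Finset.card_eq_sum_card_fiberwise (s := (Finset.univ : Finset N)) (t := t)
      (f := fun n : N => (n : G) * g * (n : G)⁻¹) (fun n _ => by
        simp only [t, Finset.coe_filter, Set.mem_setOf_eq]
        exact ⟨Finset.mem_univ _, n, n.2, rfl⟩)
    rw [Nat.card_eq_fintype_card, ← Finset.card_univ, h1]
    symm
    rw [← smul_eq_mul, ← Finset.sum_const]
    apply Finset.sum_congr rfl
    intro x hx
    obtain ⟨m, hm, rfl⟩ := (Finset.mem_filter.mp hx).2
    unfold cN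
    refine Finset.card_bij (fun (n : N) _ => (⟨m, hm⟩ : N)⁻¹ * n) ?_ ?_ ?_
    · intro n hn
      have hn' := (Finset.mem_filter.mp hn).2
      rw [Finset.mem_filter]
      refine ⟨Finset.mem_univ _, ?_⟩
      change m⁻¹ * (n : G) * g = g * (m⁻¹ * (n : G))
      calc m⁻¹ * (n : G) * g = m⁻¹ * ((n : G) * g * (n : G)⁻¹) * n := by group
        _ = g * (m⁻¹ * (n : G)) := by rw [hn']; group
    · intro a _ b _ h
      exact mul_left_cancel h
    · intro n hn
      have hn' := (Finset.mem_filter.mp hn).2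
      refine ⟨⟨m, hm⟩ * n, ?_, by group⟩
      rw [Finset.mem_filter]
      refine ⟨Finset.mem_univ _, ?_⟩
      change m * (n : G) * g * (m * (n : G))⁻¹ = m * g * m⁻¹
      calc m * (n : G) * g * (m * (n : G))⁻¹ = m * ((n : G) * g) * (n : G)⁻¹ * m⁻¹ := by group
        _ = m * g * m⁻¹ := by rw [hn']; group

/-- The hypothesis: an irreducible character with irreducible restriction in the principal block. -/
structure Ext (M : Ideal AlgInt) (N : Subgroup G) (ψ : G → ℂ) : Prop where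
  irr : IsIrrCharacter G ψ
  res : ∃ θ : IrrCharacter N, (∀ x : N, ψ x = (θ : N → ℂ) x) ∧ θ ∈ principalBlock M N

noncomputable def ww (N : Subgroup G) (ψ : G → ℂ) (g : G) : ℂ := oo N g * ψ g / ψ 1

variable {M : Ideal AlgInt} [hM : M.IsPrime] {ψ : G → ℂ}

theorem Ext.good (hN : N.Normal) (h : Ext M N ψ) : ∃ (k : ℕ) (ρ : Representation ℂ G (Fin k → ℂ)),
    ρ.character = ψ ∧ ∀ g, Good N ρ (orb N g) g (oo N g) (ww N ψ g) := by
  classical
  haveI : Fintype N := Fintype.ofFinite _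
  obtain ⟨k, ρ, hρ, rfl⟩ := h.irr
  obtain ⟨θ, hθ, -⟩ := h.res
  have hk1 : ρ.character 1 = (k : ℂ) := by simp
  have hk : 0 < k := by
    rcases Nat.eq_zero_or_pos k with h0 | h0
    · exfalso
      apply isIrr_one_ne_zero h.irr
      rw [hk1, h0]; simp
    · exact h0
  refine ⟨k, ρ, rfl, fun g => ?_⟩
  have h1 : (fun x : N => ρ.character x) = (θ : N → ℂ) := funext hθ
  have := good_orb (ρ := ρ) hN hk (by rw [h1]; exact classInner_self_of_irr θ.2) g
  unfold ww
  rw [hk1]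
  exact this

theorem Ext.int (hN : N.Normal) (h : Ext M N ψ) (g : G) : IsIntegral ℤ (ww N ψ g) := by
  obtain ⟨k, ρ, rfl, hg⟩ := h.good hN
  obtain ⟨θ, hθ, -⟩ := h.res
  obtain ⟨Z, hZ⟩ := (hg g).pow hN (Nat.card G)
  have h1 := (hZ.fin (M := M) (by rw [pow_card_eq_one']; exact one_mem N) θ hθ).1
  exact IsIntegral.of_pow Nat.card_pos h1

theorem Ext.rel2 (hN : N.Normal) (h : Ext M N ψ) {x y : G} (hxy : x * y ∈ N) :
    MemLocalIdeal M (ww N ψ x * ww N ψ y - oo N x * oo N y) := by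
  obtain ⟨k, ρ, rfl, hg⟩ := h.good hN
  obtain ⟨θ, hθ, hB⟩ := h.res
  exact (((hg x).mul hN (hg y)).fin (M := M) hxy θ hθ).2 hB

theorem Ext.rel3 (hN : N.Normal) (h : Ext M N ψ) {x y z : G} (hxy : x * y * z ∈ N) :
    MemLocalIdeal M (ww N ψ x * ww N ψ y * ww N ψ z - oo N x * oo N y * oo N z) := by
  obtain ⟨k, ρ, rfl, hg⟩ := h.good hN
  obtain ⟨θ, hθ, hB⟩ := h.res
  exact ((((hg x).mul hN (hg y)).mul hN (hg z)).fin (M := M) hxy θ hθ).2 hB

theorem Ext.rel1 (hN : N.Normal) (h : Ext M N ψ) {x : G} (hx : x ∈ N) :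
    MemLocalIdeal M (ww N ψ x - oo N x) := by
  obtain ⟨k, ρ, rfl, hg⟩ := h.good hN
  obtain ⟨θ, hθ, hB⟩ := h.res
  exact ((hg x).fin (M := M) hx θ hθ).2 hB

/-! ### roots of unity -/

theorem root_lr {ξ : ℂ} {m : ℕ} (hm : 0 < m) (h : ξ ^ m = 1) : MemLocalRing M ξ :=
  lr_int (IsIntegral.of_pow hm (by rw [h]; exact isIntegral_one))

theorem root_inj {p : ℕ} [Fact p.Prime] (hMp : IsPModular p M) {ξ : ℂ} {m : ℕ} (hm : ¬ p ∣ m)
    (h : ξ ^ m = 1) (h1 : rd M ξ = 1) : ξ = 1 := by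
  classical
  haveI := charP_KF hMp
  have hm0 : 0 < m := Nat.pos_of_ne_zero (by rintro rfl; exact hm (dvd_zero p))
  have hlr := root_lr (M := M) hm0 h
  by_contra hne
  have h2 : ∑ i ∈ Finset.range m, ξ ^ i = 0 := by
    have h3 := mul_geom_sum ξ m
    rw [h, sub_self] at h3
    exact (mul_eq_zero.mp h3).resolve_left (sub_ne_zero.mpr hne)
  have h3 := congrArg (rd M) h2
  rw [rd_zero, rd_sum _ _ fun i _ => lr_pow hlr i] at h3
  have h4 : ∀ i ∈ Finset.range m, rd M (ξ ^ i) = 1 := by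
    intro i _
    rw [rd_pow hlr, h1, one_pow]
  rw [Finset.sum_congr rfl h4, Finset.sum_const, Finset.card_range, nsmul_eq_mul, mul_one] at h3
  exact hm ((CharP.cast_eq_zero_iff (KF M) p m).mp h3)

theorem root_lift {p : ℕ} [Fact p.Prime] (hMp : IsPModular p M) {v : KF M} {m : ℕ} (hm : ¬ p ∣ m)
    (h : v ^ m = 1) : ∃ ξ : ℂ, ξ ^ m = 1 ∧ rd M ξ = v := by
  classical
  have hm0 : 0 < m := Nat.pos_of_ne_zero (by rintro rfl; exact hm (dvd_zero p))
  obtain ⟨z, hz, hzv⟩ := rd_surjective v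
  have hprim := Complex.isPrimitiveRoot_exp m hm0.ne'
  have h1 := Polynomial.X_pow_sub_one_eq_prod hm0 hprim
  have h2 := congrArg (Polynomial.eval z) h1
  rw [Polynomial.eval_prod] at h2
  simp only [Polynomial.eval_sub, Polynomial.eval_pow, Polynomial.eval_X, Polynomial.eval_one,
    Polynomial.eval_C] at h2
  have h3 : rd M (∏ ξ ∈ Polynomial.nthRootsFinset m (1 : ℂ), (z - ξ)) = 0 := by
    rw [← h2, rd_sub (lr_pow hz m) (lr_one M), rd_pow hz, hzv, h, rd_one, sub_self]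
  have h4 : ∀ s : Finset ℂ, (∀ ξ ∈ s, MemLocalRing M (z - ξ)) → rd M (∏ ξ ∈ s, (z - ξ)) = 0 →
      MemLocalRing M (∏ ξ ∈ s, (z - ξ)) ∧ ∃ ξ ∈ s, rd M (z - ξ) = 0 := by
    intro s
    induction s using Finset.induction_on with
    | empty =>
      intro _ h5
      rw [Finset.prod_empty, rd_one] at h5
      exact absurd h5 one_ne_zero
    | insert a s ha ih =>
      intro h5 h6
      have h7 : ∀ s : Finset ℂ, (∀ ξ ∈ s, MemLocalRing M (z - ξ)) →
          MemLocalRing M (∏ ξ ∈ s, (z - ξ)) := by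
        intro s
        induction s using Finset.induction_on with
        | empty => intro _; rw [Finset.prod_empty]; exact lr_one M
        | insert a s ha ih =>
          intro h8
          rw [Finset.prod_insert ha]
          exact lr_mul (h8 a (Finset.mem_insert_self _ _))
            (ih fun ξ hξ => h8 ξ (Finset.mem_insert_of_mem hξ))
      refine ⟨h7 _ h5, ?_⟩
      have h8 := h7 s fun ξ hξ => h5 ξ (Finset.mem_insert_of_mem hξ)
      rw [Finset.prod_insert ha, rd_mul (h5 a (Finset.mem_insert_self _ _)) h8] at h6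
      rcases mul_eq_zero.mp h6 with h9 | h9
      · exact ⟨a, Finset.mem_insert_self _ _, h9⟩
      · obtain ⟨_, ξ, hξ, h10⟩ := ih (fun ξ hξ => h5 ξ (Finset.mem_insert_of_mem hξ)) h9
        exact ⟨ξ, Finset.mem_insert_of_mem hξ, h10⟩
  have h5 : ∀ ξ ∈ Polynomial.nthRootsFinset m (1 : ℂ), ξ ^ m = 1 := fun ξ hξ =>
    (Polynomial.mem_nthRootsFinset hm0 1).mp hξ
  obtain ⟨_, ξ, hξ, h6⟩ := h4 _ (fun ξ hξ => lr_sub hz (root_lr hm0 (h5 ξ hξ))) h3
  refine ⟨ξ, h5 ξ hξ, ?_⟩
  rw [rd_sub hz (root_lr hm0 (h5 ξ hξ)), sub_eq_zero, hzv] at h6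
  exact h6.symm

end Cfsg.Agent.H27.Mf
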