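import Mathlib
import Cfsg.Agent.H27.Mf2
import Cfsg.Agent.H3.Proj
import Cfsg.Agent.H3.Ind

set_option autoImplicit false
set_option linter.style.haveILetI false
set_option linter.unusedSectionVars false

/-!
# Extensions in the principal block
-/

namespace Cfsg.Agent.H27.Mf

open Module Cfsg Cfsg.Agent.H11 Cfsg.Agent.H3 Cfsg.Agent.H26 Cfsg.Agent.H27
open scoped ComplexConjugate

universe u

theorem index_fact {H : Type u} [Group H] [Finite H] (K : Subgroup H) [K.Normal] (g : H) :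
    ∃ t : ℕ, (Subgroup.centralizer ({g} : Set H)).index *
      Nat.card (Subgroup.centralizer ({g} : Set H) ⊓ K : Subgroup H) = t * Nat.card K := by
  set S := Subgroup.centralizer ({g} : Set H)
  refine ⟨(S ⊔ K).index, ?_⟩
  have h1 := H2.card_sup_mul_card_inf S K
  have h2 := Subgroup.card_mul_index S
  have h3 := Subgroup.card_mul_index (S ⊔ K)
  have h4 : 0 < Nat.card S := Nat.card_pos
  apply Nat.eq_of_mul_eq_mul_left h4
  calc Nat.card S * (S.index * Nat.card (S ⊓ K : Subgroup H)) =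
      (Nat.card S * S.index) * Nat.card (S ⊓ K : Subgroup H) := by ring
    _ = (Nat.card (S ⊔ K : Subgroup H) * (S ⊔ K).index) * Nat.card (S ⊓ K : Subgroup H) := by
        rw [h2, h3]
    _ = (Nat.card (S ⊔ K : Subgroup H) * Nat.card (S ⊓ K : Subgroup H)) * (S ⊔ K).index := by ring
    _ = Nat.card S * ((S ⊔ K).index * Nat.card K) := by rw [h1]; ring

variable {G : Type u} [Group G] [Fintype G] {N : Subgroup G} {M : Ideal AlgInt} [hM : M.IsPrime]
  {ψ : G → ℂ} {p : ℕ} [hp : Fact p.Prime]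

theorem cN_eq [Fintype N] (g : G) : cN N g =
    Nat.card (Subgroup.centralizer ({g} : Set G) ⊓ N : Subgroup G) := by
  classical
  unfold cN
  rw [← Fintype.card_subtype, ← Nat.card_eq_fintype_card]
  refine Nat.card_congr ⟨fun n => ⟨n.1, Subgroup.mem_centralizer_singleton_iff.mpr n.2, n.1.2⟩,
    fun x => ⟨⟨x.1, x.2.2⟩, Subgroup.mem_centralizer_singleton_iff.mp x.2.1⟩, ?_, ?_⟩
  · intro n; rfl
  · intro x; rfl

theorem cN_eqJ [Fintype N] {J : Subgroup G} (hNJ : N ≤ J) (g : J) : cN N (g : G) =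
    Nat.card (Subgroup.centralizer ({g} : Set J) ⊓ N.subgroupOf J : Subgroup J) := by
  classical
  unfold cN
  rw [← Fintype.card_subtype, ← Nat.card_eq_fintype_card]
  refine Nat.card_congr ⟨fun n => ⟨⟨n.1, hNJ n.1.2⟩,
      Subgroup.mem_centralizer_singleton_iff.mpr (Subtype.ext n.2), n.1.2⟩,
    fun x => ⟨⟨x.1, x.2.2⟩, congrArg Subtype.val
      (Subgroup.mem_centralizer_singleton_iff.mp x.2.1)⟩, ?_, ?_⟩
  · intro n; rfl
  · intro x; rfl

/-- centralizers contain the Sylow subgroup -/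
theorem cen_unit (P : Sylow p N) [Fintype N] {c : G}
    (hc : c ∈ Subgroup.centralizer (((P : Subgroup N).map N.subtype : Subgroup G) : Set G)) :
    ∃ a : ℕ, oo N c = a ∧ ¬ p ∣ a := by
  classical
  obtain ⟨a, ha, ha2⟩ := oo_nat (N := N) c
  refine ⟨a, ha, fun hpa => ?_⟩
  have h1 : Nat.card P ∣ cN N c := by
    rw [cN_eq]
    have h2 : (P : Subgroup N).map N.subtype ≤ Subgroup.centralizer ({c} : Set G) ⊓ N := by
      rintro _ ⟨x, hx, rfl⟩
      refine ⟨?_, x.2⟩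
      change (x : G) ∈ Subgroup.centralizer ({c} : Set G)
      rw [Subgroup.mem_centralizer_singleton_iff]
      exact Subgroup.mem_centralizer_iff.mp hc _ ⟨x, hx, rfl⟩
    have h3 := Subgroup.card_dvd_of_le h2
    rwa [Subgroup.card_map_of_injective N.subtype_injective] at h3
  obtain ⟨t, ht⟩ := h1
  have h2 := Subgroup.card_mul_index (P : Subgroup N)
  have h3 : 0 < Nat.card P := Nat.card_pos
  have h4 : a * t = (P : Subgroup N).index := by
    apply Nat.eq_of_mul_eq_mul_left h3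
    calc Nat.card P * (a * t) = a * (Nat.card P * t) := by ring
      _ = Nat.card N := by rw [← ht, ha2]
      _ = _ := h2.symm
  apply P.not_dvd_index
  rw [← h4]
  exact Dvd.dvd.mul_right hpa t

/-- the reduced normalized value -/
noncomputable def VV (M : Ideal AlgInt) [M.IsPrime] (ψ : G → ℂ) (c : G) : KF M := rd M (ψ c / ψ 1)

variable (P : Sylow p N)

theorem ww_rd (hMp : IsPModular p M) (hN : N.Normal) [Fintype N] (h : Ext M N ψ) {c : G}
    (hc : c ∈ Subgroup.centralizer (((P : Subgroup N).map N.subtype : Subgroup G) : Set G)) :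
    ∃ a : KF M, a ≠ 0 ∧ rd M (oo N c) = a ∧ rd M (ww N ψ c) = a * VV M ψ c := by
  obtain ⟨a, ha, hpa⟩ := cen_unit P hc
  haveI := charP_KF hMp
  have ha0 : (a : ℂ) ≠ 0 := Nat.cast_ne_zero.mpr (by rintro rfl; exact hpa (dvd_zero p))
  have h1 : ww N ψ c = (a : ℂ) * (ψ c / ψ 1) := by
    unfold ww; rw [ha, mul_div_assoc]
  have h2 : MemLocalRing M (ψ c / ψ 1) := by
    have h3 : ψ c / ψ 1 = (a : ℂ)⁻¹ * ww N ψ c := by
      rw [h1, ← mul_assoc, inv_mul_cancel₀ ha0, one_mul]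
    rw [h3]
    exact lr_mul (lr_inv_natCast hMp hpa) (lr_int (h.int hN c))
  refine ⟨(a : KF M), ?_, ?_, ?_⟩
  · intro h0
    exact hpa ((CharP.cast_eq_zero_iff (KF M) p a).mp h0)
  · rw [ha, rd_natCast]
  · rw [h1, rd_mul (lr_natCast M a) h2, rd_natCast]; rfl

theorem oo_lr (g : G) : MemLocalRing M (oo N g) := by
  classical
  haveI : Fintype N := Fintype.ofFinite _
  obtain ⟨a, ha, -⟩ := oo_nat (N := N) g
  rw [ha]; exact lr_natCast M a

theorem rd_eq_of_li {x y : ℂ} (hx : MemLocalRing M x) (hy : MemLocalRing M y)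
    (h : MemLocalIdeal M (x - y)) : rd M x = rd M y := by
  have h1 := (rd_eq_zero_iff (lr_sub hx hy)).mpr h
  rw [rd_sub hx hy, sub_eq_zero] at h1
  exact h1

theorem VV_rel3 (hMp : IsPModular p M) (hN : N.Normal) (h : Ext M N ψ) {x y z : G}
    (hx : x ∈ Subgroup.centralizer (((P : Subgroup N).map N.subtype : Subgroup G) : Set G))
    (hy : y ∈ Subgroup.centralizer (((P : Subgroup N).map N.subtype : Subgroup G) : Set G))
    (hz : z ∈ Subgroup.centralizer (((P : Subgroup N).map N.subtype : Subgroup G) : Set G))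
    (hxyz : x * y * z ∈ N) : VV M ψ x * VV M ψ y * VV M ψ z = 1 := by
  classical
  haveI : Fintype N := Fintype.ofFinite _
  obtain ⟨a, ha0, ha1, ha2⟩ := ww_rd P hMp hN h hx
  obtain ⟨b, hb0, hb1, hb2⟩ := ww_rd P hMp hN h hy
  obtain ⟨c, hc0, hc1, hc2⟩ := ww_rd P hMp hN h hz
  have hw : ∀ g, MemLocalRing M (ww N ψ g) := fun g => lr_int (h.int hN g)
  have h1 := rd_eq_of_li (lr_mul (lr_mul (hw x) (hw y)) (hw z))
    (lr_mul (lr_mul (oo_lr x) (oo_lr y)) (oo_lr z)) (h.rel3 hN hxyz)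
  rw [rd_mul (lr_mul (hw x) (hw y)) (hw z), rd_mul (hw x) (hw y),
    rd_mul (lr_mul (oo_lr x) (oo_lr y)) (oo_lr z), rd_mul (oo_lr x) (oo_lr y),
    ha1, ha2, hb1, hb2, hc1, hc2] at h1
  have h2 : a * b * c ≠ 0 := mul_ne_zero (mul_ne_zero ha0 hb0) hc0
  apply mul_left_cancel₀ h2
  calc a * b * c * (VV M ψ x * VV M ψ y * VV M ψ z) =
      a * VV M ψ x * (b * VV M ψ y) * (c * VV M ψ z) := by ring
    _ = a * b * c * 1 := by rw [h1, mul_one]

theorem VV_one (h : Ext M N ψ) : VV M ψ 1 = 1 := by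
  unfold VV
  rw [div_self (isIrr_one_ne_zero h.irr), rd_one]

theorem VV_N (hMp : IsPModular p M) (hN : N.Normal) (h : Ext M N ψ) {x : G}
    (hx : x ∈ Subgroup.centralizer (((P : Subgroup N).map N.subtype : Subgroup G) : Set G))
    (hxN : x ∈ N) : VV M ψ x = 1 := by
  have h1 := VV_rel3 P hMp hN h hx (one_mem _) (one_mem _) (by simpa using hxN)
  rwa [VV_one h, mul_one, mul_one] at h1

theorem VV_inv (hMp : IsPModular p M) (hN : N.Normal) (h : Ext M N ψ) {x : G}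
    (hx : x ∈ Subgroup.centralizer (((P : Subgroup N).map N.subtype : Subgroup G) : Set G)) :
    VV M ψ x * VV M ψ x⁻¹ = 1 := by
  have h1 := VV_rel3 P hMp hN h hx (inv_mem hx) (one_mem _) (by simp)
  rwa [VV_one h, mul_one] at h1

theorem VV_mul (hMp : IsPModular p M) (hN : N.Normal) (h : Ext M N ψ) {x y : G}
    (hx : x ∈ Subgroup.centralizer (((P : Subgroup N).map N.subtype : Subgroup G) : Set G))
    (hy : y ∈ Subgroup.centralizer (((P : Subgroup N).map N.subtype : Subgroup G) : Set G)) :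
    VV M ψ (x * y) = VV M ψ x * VV M ψ y := by
  have h1 := VV_rel3 P hMp hN h hx hy (inv_mem (mul_mem hx hy)) (by simp)
  have h2 := VV_inv P hMp hN h (mul_mem hx hy)
  have h3 : VV M ψ (x * y)⁻¹ ≠ 0 := right_ne_zero_of_mul (by rw [h2]; exact one_ne_zero)
  apply mul_right_cancel₀ h3
  rw [h2, h1]

theorem VV_pow (hMp : IsPModular p M) (hN : N.Normal) (h : Ext M N ψ) {x : G}
    (hx : x ∈ Subgroup.centralizer (((P : Subgroup N).map N.subtype : Subgroup G) : Set G))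
    (m : ℕ) : VV M ψ (x ^ m) = VV M ψ x ^ m := by
  induction m with
  | zero => rw [pow_zero, pow_zero, VV_one h]
  | succ m ih => rw [pow_succ, pow_succ, VV_mul P hMp hN h (pow_mem hx m) hx, ih]

theorem VV_root (hMp : IsPModular p M) (hN : N.Normal) (h : Ext M N ψ) : ∃ m : ℕ, ¬ p ∣ m ∧
    ∀ x ∈ Subgroup.centralizer (((P : Subgroup N).map N.subtype : Subgroup G) : Set G),
      VV M ψ x ^ m = 1 := by
  haveI := charP_KF hMp
  refine ⟨Nat.card G / p ^ (Nat.card G).factorization p,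
    Nat.not_dvd_ordCompl hp.out Nat.card_pos.ne', ?_⟩
  intro x hx
  set m := Nat.card G / p ^ (Nat.card G).factorization p
  have hfac : p ^ (Nat.card G).factorization p * m = Nat.card G :=
    Nat.ordProj_mul_ordCompl_eq_self _ _
  have h1 : VV M ψ x ^ Nat.card G = 1 := by
    rw [← VV_pow P hMp hN h hx, pow_card_eq_one', VV_one h]
  rw [← hfac, mul_comm, pow_mul] at h1
  have h2 : (VV M ψ x ^ m - 1) ^ p ^ (Nat.card G).factorization p = 0 := by
    rw [sub_pow_char_pow, h1, one_pow, sub_self]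
  exact sub_eq_zero.mp (pow_eq_zero_iff (pow_ne_zero _ hp.out.ne_zero) |>.mp h2)

/-- The conclusion for a normalized extension. -/
theorem Ext.norm_li (hMp : IsPModular p M) (hN : N.Normal) (h : Ext M N ψ)
    (hcov : ∀ g : G, ∃ c ∈ Subgroup.centralizer
      (((P : Subgroup N).map N.subtype : Subgroup G) : Set G), c⁻¹ * g ∈ N)
    (hV : ∀ c ∈ Subgroup.centralizer
      (((P : Subgroup N).map N.subtype : Subgroup G) : Set G), VV M ψ c = 1) (g : G) :
    MemLocalIdeal M (ww N ψ g - oo N g) := by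
  classical
  haveI : Fintype N := Fintype.ofFinite _
  obtain ⟨c, hc, hcg⟩ := hcov g
  have hw : ∀ g, MemLocalRing M (ww N ψ g) := fun g => lr_int (h.int hN g)
  have h1 : g * c⁻¹ ∈ N := by
    have := hN.conj_mem _ hcg c
    have e : c * (c⁻¹ * g) * c⁻¹ = g * c⁻¹ := by group
    rwa [e] at this
  obtain ⟨a, ha0, ha1, ha2⟩ := ww_rd P hMp hN h (inv_mem hc)
  rw [hV _ (inv_mem hc), mul_one] at ha2
  have h2 := rd_eq_of_li (lr_mul (hw g) (hw c⁻¹)) (lr_mul (oo_lr g) (oo_lr c⁻¹)) (h.rel2 hN h1)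
  rw [rd_mul (hw g) (hw _), rd_mul (oo_lr g) (oo_lr _), ha1, ha2] at h2
  have h3 := mul_right_cancel₀ ha0 h2
  rw [← rd_eq_zero_iff (lr_sub (hw g) (oo_lr g)), rd_sub (hw g) (oo_lr g), h3, sub_self]

theorem Ext.blockG (hN : N.Normal) (h : Ext M N ψ)
    (hl : ∀ g, MemLocalIdeal M (ww N ψ g - oo N g)) :
    (⟨ψ, h.irr⟩ : IrrCharacter G) ∈ principalBlock M G := by
  classical
  haveI : Fintype N := Fintype.ofFinite _
  intro g
  obtain ⟨t, ht⟩ := index_fact N g
  obtain ⟨a, ha, ha2⟩ := oo_nat (N := N) g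
  rw [← cN_eq] at ht
  have hc0 : 0 < cN N g := Nat.pos_of_ne_zero (by
    intro h0; rw [h0, mul_zero] at ha2
    exact absurd ha2.symm Nat.card_pos.ne')
  have h1 : (Subgroup.centralizer ({g} : Set G)).index = t * a := by
    apply Nat.eq_of_mul_eq_mul_right hc0
    rw [ht, ← ha2]; ring
  unfold centralChar
  rw [h1]
  have h2 : ((t * a : ℕ) : ℂ) * 1 / 1 - ((t * a : ℕ) : ℂ) * ψ g / ψ 1 =
      -((t : ℂ) * (ww N ψ g - oo N g)) := by
    unfold ww; rw [ha]; push_cast; ring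
  rw [h2]
  exact li_neg (li_mul_left (lr_natCast M t) (hl g))

theorem Ext.blockJ (hN : N.Normal) (h : Ext M N ψ)
    (hl : ∀ g, MemLocalIdeal M (ww N ψ g - oo N g)) (J : Subgroup G) (hNJ : N ≤ J) :
    ∃ ξ : IrrCharacter J, ξ ∈ principalBlock M J ∧ ∀ y : J, (ξ : J → ℂ) y = ψ y := by
  classical
  haveI : Fintype N := Fintype.ofFinite _
  haveI : (N.subgroupOf J).Normal := hN.subgroupOf J
  obtain ⟨θ, hθ, -⟩ := h.res
  have hirr : IsIrrCharacter J (fun y : J => ψ y) := by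
    have hch : IsCharacter J (fun y : J => ψ y) := isChar_restrict J (irr_isChar h.irr)
    refine isIrr_of_restrict hch (N.subgroupOf J) ?_
    have h1 := (isIrr_comp_equiv_iff (χ := (θ : N → ℂ)) (Subgroup.subgroupOfEquivOfLe hNJ)).mpr θ.2
    have h2 : (fun n : N.subgroupOf J => ψ ((n : J) : G)) =
        fun n : N.subgroupOf J => (θ : N → ℂ) (Subgroup.subgroupOfEquivOfLe hNJ n) := by
      funext n
      rw [← hθ]
      rfl
    rw [h2]
    exact h1
  refine ⟨⟨_, hirr⟩, ?_, fun y => rfl⟩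
  intro g
  obtain ⟨t, ht⟩ := index_fact (N.subgroupOf J) g
  obtain ⟨a, ha, ha2⟩ := oo_nat (N := N) (g : G)
  have hcard : Nat.card (N.subgroupOf J) = Nat.card N :=
    Nat.card_congr (Subgroup.subgroupOfEquivOfLe hNJ).toEquiv
  rw [← cN_eqJ hNJ, hcard] at ht
  have hc0 : 0 < cN N (g : G) := Nat.pos_of_ne_zero (by
    intro h0; rw [h0, mul_zero] at ha2
    exact absurd ha2.symm Nat.card_pos.ne')
  have h1 : (Subgroup.centralizer ({g} : Set J)).index = t * a := by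
    apply Nat.eq_of_mul_eq_mul_right hc0
    rw [ht, ← ha2]; ring
  unfold centralChar
  rw [h1]
  have h2 : ((t * a : ℕ) : ℂ) * 1 / 1 - ((t * a : ℕ) : ℂ) * ψ (g : G) / ψ ((1 : J) : G) =
      -((t : ℂ) * (ww N ψ g - oo N g)) := by
    unfold ww; rw [ha]; push_cast; ring
  refine (iff_of_eq (congrArg _ h2)).mpr ?_
  exact li_neg (li_mul_left (lr_natCast M t) (hl g))

theorem root_inj2 (hMp : IsPModular p M) {ξ η : ℂ} {m : ℕ} (hm : ¬ p ∣ m)
    (h1 : ξ ^ m = 1) (h2 : η ^ m = 1) (h : rd M ξ = rd M η) : ξ = η := by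
  have hm0 : 0 < m := Nat.pos_of_ne_zero (by rintro rfl; exact hm (dvd_zero p))
  have hη0 : η ≠ 0 := by
    rintro rfl
    rw [zero_pow hm0.ne'] at h2
    exact zero_ne_one h2
  have h3 : (ξ / η) ^ m = 1 := by rw [div_pow, h1, h2, div_one]
  have h4 : rd M (ξ / η) = 1 := by
    have h5 : (ξ / η) * η = ξ := div_mul_cancel₀ ξ hη0
    have h6 := congrArg (rd M) h5
    rw [rd_mul (root_lr hm0 h3) (root_lr hm0 h2), h] at h6
    have h7 : rd M η ≠ 0 := by
      intro h8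
      have h9 := congrArg (rd M) h2
      rw [rd_pow (root_lr hm0 h2), h8, zero_pow hm0.ne', rd_one] at h9
      exact zero_ne_one h9
    exact mul_right_cancel₀ h7 (by rw [h6, one_mul])
  exact (div_eq_one_iff_eq hη0).mp (root_inj hMp hm h3 h4)

/-- S4937 -/
theorem main (hMp : IsPModular p M) (hN : N.Normal)
    (hcov : N ⊔ Subgroup.centralizer (((P : Subgroup N).map N.subtype : Subgroup G) : Set G) = ⊤)
    (h : Ext M N ψ) : ∃ (χ : G → ℂ), Ext M N χ ∧ (∀ x : N, χ x = ψ x) ∧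
      ∀ g, MemLocalIdeal M (ww N χ g - oo N g) := by
  classical
  haveI : Fintype N := Fintype.ofFinite _
  set C := Subgroup.centralizer (((P : Subgroup N).map N.subtype : Subgroup G) : Set G) with hC
  have hcov' : ∀ g : G, ∃ c ∈ C, c⁻¹ * g ∈ N := by
    intro g
    have hg : g ∈ N ⊔ C := by rw [hcov]; trivial
    haveI := hN
    obtain ⟨n, hn, c, hc, rfl⟩ := Subgroup.mem_sup_of_normal_left.mp hg
    refine ⟨c, hc, ?_⟩
    have e : c⁻¹ * (n * c) = c⁻¹ * n * c⁻¹⁻¹ := by group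
    rw [e]; exact hN.conj_mem _ hn _
  obtain ⟨m, hm, hroot⟩ := VV_root P hMp hN h
  have hm0 : 0 < m := Nat.pos_of_ne_zero (by rintro rfl; exact hm (dvd_zero p))
  choose c hcC hcN using hcov'
  have hex : ∀ g : G, ∃ ξ : ℂ, ξ ^ m = 1 ∧ rd M ξ = VV M ψ (c g)⁻¹ := fun g =>
    root_lift hMp hm (hroot _ (inv_mem (hcC g)))
  choose ξ hξ1 hξ2 using hex
  have hsame : ∀ x ∈ C, ∀ y ∈ C, x⁻¹ * y ∈ N → VV M ψ x⁻¹ = VV M ψ y⁻¹ := by
    intro x hx y hy hxy
    have h1 := VV_N P hMp hN h (mul_mem (inv_mem hx) hy) hxy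
    rw [VV_mul P hMp hN h (inv_mem hx) hy] at h1
    have h2 := VV_inv P hMp hN h hy
    have h3 : VV M ψ y ≠ 0 := left_ne_zero_of_mul (by rw [h2]; exact one_ne_zero)
    apply mul_left_cancel₀ h3
    rw [h2, mul_comm, h1]
  have hξN : ∀ n ∈ N, ξ n = 1 := by
    intro n hn
    apply root_inj hMp hm (hξ1 n)
    rw [hξ2, ← hsame 1 (one_mem _) (c n) (hcC n) ?_, inv_one, VV_one h]
    have h1 := hcN n
    rw [inv_one, one_mul]
    have e : c n = n * ((c n)⁻¹ * n)⁻¹ := by group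
    rw [e]; exact mul_mem hn (inv_mem h1)
  have hξmul : ∀ g k, ξ (g * k) = ξ g * ξ k := by
    intro g k
    apply root_inj2 (M := M) hMp hm (hξ1 _) (by rw [mul_pow, hξ1, hξ1, one_mul])
    rw [rd_mul (root_lr hm0 (hξ1 g)) (root_lr hm0 (hξ1 k)), hξ2, hξ2, hξ2,
      mul_comm (VV M ψ (c g)⁻¹),
      ← VV_mul P hMp hN h (inv_mem (hcC k)) (inv_mem (hcC g)), ← mul_inv_rev]
    apply hsame _ (hcC _) _ (mul_mem (hcC g) (hcC k))
    have h1 := hcN (g * k)
    have h2 := hcN g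
    have h3 := hcN k
    have e : (c (g * k))⁻¹ * (c g * c k) = ((c (g * k))⁻¹ * (g * k)) *
        (k⁻¹ * ((c g)⁻¹ * g)⁻¹ * k⁻¹⁻¹) * ((c k)⁻¹ * k)⁻¹ := by group
    rw [e]
    exact mul_mem (mul_mem h1 (hN.conj_mem _ (inv_mem h2) _)) (inv_mem h3)
  let lam : G →* ℂ := { toFun := ξ, map_one' := hξN 1 (one_mem N), map_mul' := hξmul }
  let μ : G →* ℂˣ := lam.toHomUnits
  have hμ : ∀ g, ((μ g : ℂˣ) : ℂ) = ξ g := fun g => rfl
  obtain ⟨θ, hθ, hθB⟩ := h.res
  have hres : ∀ x : N, ((μ x : ℂˣ) : ℂ) * ψ x = ψ x := by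
    intro x
    rw [hμ, hξN x x.2, one_mul]
  have hExt : Ext M N (fun g => ((μ g : ℂˣ) : ℂ) * ψ g) :=
    ⟨isIrr_mul_hom h.irr μ, θ, fun x => by rw [hres x, hθ], hθB⟩
  refine ⟨_, hExt, hres, ?_⟩
  apply Ext.norm_li P hMp hN hExt (fun g => ⟨c g, hcC g, hcN g⟩)
  intro x hx
  unfold VV
  have h1 : ((μ 1 : ℂˣ) : ℂ) = 1 := by rw [map_one]; rfl
  change rd M (((μ x : ℂˣ) : ℂ) * ψ x / (((μ 1 : ℂˣ) : ℂ) * ψ 1)) = 1
  rw [h1, one_mul, mul_div_assoc, hμ]
  obtain ⟨a, ha0, ha1, ha2⟩ := ww_rd P hMp hN h hx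
  have h2 : MemLocalRing M (ψ x / ψ 1) := by
    by_contra hcon
    have h3 : VV M ψ x = 0 := by
      unfold VV rd
      rw [dif_neg hcon]
    have h4 := VV_inv P hMp hN h hx
    rw [h3, zero_mul] at h4
    exact zero_ne_one h4
  rw [rd_mul (root_lr hm0 (hξ1 x)) h2, hξ2]
  change VV M ψ (c x)⁻¹ * VV M ψ x = 1
  rw [hsame (c x) (hcC x) x hx (hcN x), mul_comm]
  exact VV_inv P hMp hN h hx

end Cfsg.Agent.H27.Mf
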