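import Cfsg.Agent.H27.Invol
import Cfsg.Agent.H3.Integral
import Cfsg.Agent.H27.CentralChar

set_option autoImplicit false
set_option linter.style.haveILetI false

/-! # Real elements of odd order and characters of even degree -/

universe u

namespace Cfsg.Agent.H27

open Cfsg Cfsg.Agent.H3 Subgroup
open scoped ComplexConjugate

section

variable {G : Type u} [Group G]

theorem sum_fsInd_apply [Fintype G] [Fintype (IrrCharacter G)] {u : G} (hreal : IsConj u u⁻¹)
    (hodd : Odd (Nat.card (centralizer ({u} : Set G)))) :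
    ∑ χ : IrrCharacter G, fsInd (χ : G → ℂ) * (χ : G → ℂ) u = 1 := by
  classical
  have hG : (Nat.card G : ℂ) ≠ 0 := card_ne_zeroC
  have h1 : ∀ χ : IrrCharacter G, fsInd (χ : G → ℂ) * (χ : G → ℂ) u =
      (Nat.card G : ℂ)⁻¹ * ∑ s : G, (χ : G → ℂ) (s * s) * conj ((χ : G → ℂ) u) := by
    intro χ
    have h2 : conj ((χ : G → ℂ) u) = (χ : G → ℂ) u := by
      rw [← char_inv (irr_isChar χ.2)]
      exact (classFun_isConj (irr_classFun χ.2) hreal).symm
    rw [fsInd, mul_assoc, Finset.sum_mul, h2]
  rw [Finset.sum_congr rfl fun χ _ => h1 χ, ← Finset.mul_sum, Finset.sum_comm]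
  have h3 : ∀ s : G, ∑ χ : IrrCharacter G, (χ : G → ℂ) (s * s) * conj ((χ : G → ℂ) u) =
      if IsConj u (s * s) then (Nat.card (centralizer ({u} : Set G)) : ℂ) else 0 := by
    intro s
    have h4 : ∑ χ : IrrCharacter G, (χ : G → ℂ) (s * s) * conj ((χ : G → ℂ) u) =
        conj (∑ χ : IrrCharacter G, (χ : G → ℂ) u * conj ((χ : G → ℂ) (s * s))) := by
      rw [map_sum]
      apply Finset.sum_congr rfl
      intro χ _
      rw [map_mul, Complex.conj_conj, mul_comm]
    rw [h4, column_orth u (s * s)]
    split_ifs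
    · rw [Complex.conj_natCast]
    · rw [map_zero]
  rw [Finset.sum_congr rfl fun s _ => h3 s, ← Finset.sum_filter, Finset.sum_const, nsmul_eq_mul]
  -- squaring is a bijection onto the class of `u`
  have hpow : ∀ v : G, IsConj u v → Odd (Nat.card (centralizer ({v} : Set G))) := by
    intro v hv
    have h5 := card_isConj_mul_card_centralizer u
    have h6 := card_isConj_mul_card_centralizer v
    have h7 : Nat.card {x : G // IsConj u x} = Nat.card {x : G // IsConj v x} := by
      apply Nat.card_congr
      exact Equiv.subtypeEquivRight fun x => ⟨fun h => hv.symm.trans h, fun h => hv.trans h⟩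
    have h8 : 0 < Nat.card {x : G // IsConj v x} := by
      haveI : Nonempty {x : G // IsConj v x} := ⟨⟨v, IsConj.refl v⟩⟩
      exact Nat.card_pos
    rw [h7, ← h6] at h5
    have h9 := Nat.eq_of_mul_eq_mul_left h8 h5
    rwa [← h9]
  have hcard : (Finset.univ.filter fun s : G => IsConj u (s * s)).card =
      Nat.card {x : G // IsConj u x} := by
    rw [Nat.card_eq_fintype_card, Fintype.card_subtype]
    apply Finset.card_bij (fun s _ => s * s)
    · intro s hs
      simpa using hs
    · intro a ha b hb hab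
      have ha' : IsConj u (a * a) := by simpa using ha
      have hcop : (Nat.card (centralizer ({a * a} : Set G))).Coprime 2 :=
        (hpow _ ha').coprime_two_right
      have ha2 : a ∈ centralizer ({a * a} : Set G) := by
        rw [mem_centralizer_iff]
        rintro _ rfl
        group
      have hb2 : b ∈ centralizer ({a * a} : Set G) := by
        rw [mem_centralizer_iff]
        rintro _ rfl
        have hab' : a * a = b * b := hab
        rw [hab']
        group
      have h9 := (powCoprime (G := centralizer ({a * a} : Set G)) (n := 2)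
        (by simpa using hcop)).injective
      have h10 : (⟨a, ha2⟩ : centralizer ({a * a} : Set G)) = ⟨b, hb2⟩ := by
        apply h9
        simp only [powCoprime_apply]
        apply Subtype.ext
        change a ^ 2 = b ^ 2
        rw [pow_two, pow_two]; exact hab
      exact congrArg Subtype.val h10
    · intro v hv
      have hv' : IsConj u v := by simpa using hv
      have hcop : (Nat.card (centralizer ({v} : Set G))).Coprime 2 :=
        (hpow _ hv').coprime_two_right
      have hv2 : v ∈ centralizer ({v} : Set G) := by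
        rw [mem_centralizer_iff]
        rintro _ rfl; rfl
      obtain ⟨⟨s, hs⟩, hs2⟩ := (powCoprime (G := centralizer ({v} : Set G)) (n := 2)
        (by simpa using hcop)).surjective ⟨v, hv2⟩
      simp only [powCoprime_apply] at hs2
      have hs3 : s ^ 2 = v := congrArg Subtype.val hs2
      rw [pow_two] at hs3
      exact ⟨s, by simpa [hs3] using hv', hs3⟩
  have h5 := card_isConj_mul_card_centralizer u
  rw [hcard]
  have h6 : (Nat.card {x : G // IsConj u x} : ℂ) * (Nat.card (centralizer ({u} : Set G)) : ℂ) =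
      (Nat.card G : ℂ) := by exact_mod_cast h5
  rw [h6]
  exact inv_mul_cancel₀ hG

/-- a nontrivial real element with centralizer of odd order forces a character of even degree -/
theorem exists_even_degree [Finite G] {u : G} (hu : u ≠ 1) (hreal : IsConj u u⁻¹)
    (hodd : Odd (Nat.card (centralizer ({u} : Set G)))) :
    ∃ χ : IrrCharacter G, Even (charDegree (χ : G → ℂ)) := by
  classical
  haveI := Fintype.ofFinite G
  haveI := Fintype.ofFinite (IrrCharacter G)
  by_contra hcon
  have hodd' : ∀ χ : IrrCharacter G, Odd (charDegree (χ : G → ℂ)) := fun χ =>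
    Nat.not_even_iff_odd.mp fun h => hcon ⟨χ, h⟩
  let I : Ideal AlgInt := Ideal.span {2}
  let V : IrrCharacter G → AlgInt := fun χ => ⟨(χ : G → ℂ) u, char_isIntegral (irr_isChar χ.2) u⟩
  have hN : ∀ χ : IrrCharacter G, ∃ n : ℤ, (n : ℂ) = fsInd (χ : G → ℂ) ∧
      ((∀ g, ((χ : G → ℂ) g).im = 0) → n = 1 ∨ n = -1) ∧
      (¬ (∀ g, ((χ : G → ℂ) g).im = 0) → n = 0) := by
    intro χ
    obtain ⟨h1, h2⟩ := fsInd_real_cases χ
    by_cases h : ∀ g, ((χ : G → ℂ) g).im = 0
    · rcases h2 h with h3 | h3
      · exact ⟨1, by rw [h3]; simp, fun _ => Or.inl rfl, fun h4 => absurd h h4⟩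
      · exact ⟨-1, by rw [h3]; simp, fun _ => Or.inr rfl, fun h4 => absurd h h4⟩
    · exact ⟨0, by rw [h1 h]; simp, fun h4 => absurd h4 h, fun _ => rfl⟩
  choose N hN1 hN2 hN3 using hN
  have e1 : ∑ χ : IrrCharacter G, (charDegree (χ : G → ℂ) : AlgInt) * V χ = 0 := by
    apply Subtype.ext
    rw [AddSubmonoidClass.coe_finsetSum]
    have h1 := column_orth u 1
    rw [if_neg (fun h => hu (isConj_one_right.mp h.symm))] at h1
    change _ = (0 : ℂ)
    rw [← h1]
    apply Finset.sum_congr rfl
    intro χ _
    change ((charDegree (χ : G → ℂ) : AlgInt) : ℂ) * (χ : G → ℂ) u = _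
    rw [← charDegree_cast (irr_isChar χ.2), Complex.conj_natCast, mul_comm]
    congr 1
  have e2 : ∑ χ : IrrCharacter G, (N χ : AlgInt) * V χ = 1 := by
    apply Subtype.ext
    rw [AddSubmonoidClass.coe_finsetSum]
    change _ = (1 : ℂ)
    rw [← sum_fsInd_apply hreal hodd]
    apply Finset.sum_congr rfl
    intro χ _
    rw [← hN1 χ]
    rfl
  have htwo : (Ideal.Quotient.mk I) (2 : AlgInt) = 0 :=
    Ideal.Quotient.eq_zero_iff_mem.mpr (Ideal.mem_span_singleton_self 2)
  have e3 : ∀ χ : IrrCharacter G, (Ideal.Quotient.mk I) ((charDegree (χ : G → ℂ) : AlgInt) * V χ) =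
      (Ideal.Quotient.mk I) (V χ) := by
    intro χ
    obtain ⟨k, hk⟩ := hodd' χ
    rw [hk, map_mul]
    push_cast
    rw [map_add, map_mul, htwo, zero_mul, zero_add, map_one, one_mul]
  -- conjugation
  let cg : IrrCharacter G → IrrCharacter G := fun χ => ⟨_, isIrr_conj χ.2⟩
  have hcg : ∀ (χ : IrrCharacter G) g, (cg χ : G → ℂ) g = conj ((χ : G → ℂ) g) := fun _ _ => rfl
  have hcgV : ∀ χ, V (cg χ) = V χ := by
    intro χ
    apply Subtype.ext
    change conj ((χ : G → ℂ) u) = (χ : G → ℂ) u
    rw [← char_inv (irr_isChar χ.2)]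
    exact (classFun_isConj (irr_classFun χ.2) hreal).symm
  have hcgreal : ∀ χ : IrrCharacter G, cg χ = χ ↔ ∀ g, ((χ : G → ℂ) g).im = 0 := by
    intro χ
    constructor
    · intro h g
      rw [← Complex.conj_eq_iff_im, ← hcg, h]
    · intro h
      apply Subtype.ext
      ext g
      exact Complex.conj_eq_iff_im.mpr (h g)
  have e4 : ∑ χ : IrrCharacter G, (Ideal.Quotient.mk I) ((1 - (N χ : AlgInt)) * V χ) = 0 := by
    apply Finset.sum_involution (fun χ _ => cg χ)
    · intro χ _
      by_cases hr : ∀ g, ((χ : G → ℂ) g).im = 0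
      · rw [(hcgreal χ).mpr hr, ← two_mul, ← map_ofNat (Ideal.Quotient.mk I) 2]
        rw [htwo, zero_mul]
      · have hr' : ¬ ∀ g, ((cg χ : G → ℂ) g).im = 0 := by
          intro h
          apply hr
          intro g
          have := h g
          rw [hcg, Complex.conj_im] at this
          linarith
        rw [hN3 χ hr, hN3 (cg χ) hr', hcgV, ← two_mul, ← map_ofNat (Ideal.Quotient.mk I) 2]
        rw [htwo, zero_mul]
    · intro χ _ hne heq
      apply hne
      have hr := (hcgreal χ).mp heq
      rcases hN2 χ hr with h | h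
      · rw [h]; simp
      · rw [h]
        have : (1 - ((-1 : ℤ) : AlgInt)) * V χ = 2 * V χ := by push_cast; ring
        rw [this, map_mul, htwo, zero_mul]
    · intro χ _
      exact Finset.mem_univ _
    · intro χ _
      apply Subtype.ext
      ext g
      change conj (conj ((χ : G → ℂ) g)) = _
      rw [Complex.conj_conj]
  have e5 : (1 : AlgInt ⧸ I) = 0 := by
    have h1 : ∑ χ : IrrCharacter G, (Ideal.Quotient.mk I) (V χ) = 0 := by
      rw [← Finset.sum_congr rfl fun χ _ => e3 χ, ← map_sum, e1, map_zero]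
    have h2 : ∑ χ : IrrCharacter G, (Ideal.Quotient.mk I) ((N χ : AlgInt) * V χ) = 1 := by
      rw [← map_sum, e2, map_one]
    have h3 : ∑ χ : IrrCharacter G, (Ideal.Quotient.mk I) ((1 - (N χ : AlgInt)) * V χ) =
        ∑ χ : IrrCharacter G, (Ideal.Quotient.mk I) (V χ) -
          ∑ χ : IrrCharacter G, (Ideal.Quotient.mk I) ((N χ : AlgInt) * V χ) := by
      rw [← Finset.sum_sub_distrib]
      apply Finset.sum_congr rfl
      intro χ _
      rw [← map_sub]
      congr 1
      ring
    rw [e4, h1, h2] at h3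
    have h4 := h3
    rw [zero_sub] at h4
    have h5 : (-1 : AlgInt ⧸ I) = 0 := h4.symm
    exact neg_eq_zero.mp h5
  have e6 : (1 : AlgInt) ∈ I := by
    rw [← Ideal.Quotient.eq_zero_iff_mem, map_one]
    exact e5
  rw [Ideal.mem_span_singleton'] at e6
  obtain ⟨a, ha⟩ := e6
  have h1 : IsIntegral ℤ (((1 : ℕ) : ℂ) / ((2 : ℕ) : ℂ)) := by
    have h2 : ((1 : ℕ) : ℂ) / ((2 : ℕ) : ℂ) = (a : ℂ) := by
      have h3 := congrArg Subtype.val ha
      have h4 : (a : ℂ) * 2 = 1 := h3
      push_cast
      rw [← h4]; ring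
    rw [h2]
    exact a.2
  have h2 := nat_dvd_of_isIntegral (by norm_num) h1
  omega

end

end Cfsg.Agent.H27
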