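import Cfsg.Agent.H27.DefZero
import Cfsg.Agent.H3.Clifford

set_option autoImplicit false

/-!
Sums over sets with an action of a `p`-group, modulo the local ideal; invariant height zero
characters of a block of a normal subgroup.
-/

namespace Cfsg.Agent.H27

open Cfsg Cfsg.Agent.H3 Cfsg.Agent.H11
open scoped ComplexConjugate

section act

variable {A α : Type*} [Group A] [Finite A] [Fintype α] [MulAction A α] {p : ℕ} {M : Ideal AlgInt}

/-- If all values at fixed points are in the local ideal, so is the sum. -/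
theorem li_sum_of_fixed (hM : IsPModular p M) (hA : IsPGroup p A) (f : α → ℂ)
    (hf : ∀ a, MemLocalRing M (f a)) (hinv : ∀ (u : A) (a : α), MemLocalIdeal M (f (u • a) - f a))
    (hfix : ∀ a : α, (∀ u : A, u • a = a) → MemLocalIdeal M (f a)) :
    MemLocalIdeal M (∑ a, f a) := by
  classical
  have hpr := hM.2.1.isPrime
  have := Fact.mk hM.1
  have := Fintype.ofFinite (MulAction.orbitRel.Quotient A α)
  rw [← Finset.sum_fiberwise (s := Finset.univ)
    (g := fun a : α => (Quotient.mk (MulAction.orbitRel A α) a : MulAction.orbitRel.Quotient A α))]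
  apply li_sum
  intro q _
  obtain ⟨a, rfl⟩ := Quotient.exists_rep q
  set s := Finset.univ.filter (fun b : α => (Quotient.mk (MulAction.orbitRel A α) b
    : MulAction.orbitRel.Quotient A α) = Quotient.mk (MulAction.orbitRel A α) a) with hs
  have hmem : ∀ b, b ∈ s ↔ b ∈ MulAction.orbit A a := by
    intro b
    rw [hs, Finset.mem_filter]
    constructor
    · rintro ⟨_, h⟩
      exact MulAction.orbitRel_apply.mp (Quotient.exact h)
    · intro h
      exact ⟨Finset.mem_univ _, Quotient.sound (MulAction.orbitRel_apply.mpr h)⟩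
  have hcard : s.card = Nat.card (MulAction.orbit A a) := by
    rw [Nat.card_eq_card_toFinset (MulAction.orbit A a)]
    congr 1
    ext b
    rw [hmem, Set.mem_toFinset]
  have h1 : MemLocalIdeal M (∑ b ∈ s, f b - (s.card : ℂ) * f a) := by
    have : (s.card : ℂ) * f a = ∑ b ∈ s, f a := by rw [Finset.sum_const, nsmul_eq_mul]
    rw [this, ← Finset.sum_sub_distrib]
    apply li_sum
    intro b hb
    obtain ⟨u, rfl⟩ := (hmem b).mp hb
    exact hinv u a
  rw [li_congr h1]
  obtain ⟨n, hn⟩ := hA.card_orbit a
  rcases Nat.eq_zero_or_pos n with h0 | h0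
  · rw [h0, pow_zero] at hn
    apply li_mul_left (lr_natCast M _)
    apply hfix
    intro u
    have h2 : Subsingleton (MulAction.orbit A a) := (Nat.card_eq_one_iff_unique.mp hn).1
    exact congrArg Subtype.val (h2.elim ⟨u • a, u, rfl⟩ ⟨a, MulAction.mem_orbit_self a⟩)
  · apply li_mul_right _ (hf a)
    rw [li_natCast_iff hM, hcard, hn]
    exact dvd_pow_self p h0.ne'

end act

section cover

variable {G : Type*} [Group G] [Fintype G] {p : ℕ} {M : Ideal AlgInt} {H : Subgroup G}

omit [Fintype G] in
theorem cjEquiv_mul (hH : H.Normal) (x y : G) (h : H) :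
    cjEquiv hH (x * y) h = cjEquiv hH x (cjEquiv hH y h) := by
  apply Subtype.ext
  show x * y * (h : G) * (x * y)⁻¹ = x * (y * (h : G) * y⁻¹) * x⁻¹
  group

omit [Fintype G] in
theorem cjEquiv_one (hH : H.Normal) (h : H) : cjEquiv hH 1 h = h := by
  apply Subtype.ext
  show 1 * (h : G) * 1⁻¹ = h
  simp

/-- The action of a subgroup on the classes of a normal subgroup. -/
def actClasses (hH : H.Normal) (P : Subgroup G) : MulAction P (ConjClasses H) where
  smul u C := C.map (cjEquiv hH (u : G)).toMonoidHom
  one_smul C := by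
    obtain ⟨h, rfl⟩ := ConjClasses.mk_surjective C
    show ConjClasses.mk (cjEquiv hH ((1 : P) : G) h) = ConjClasses.mk h
    rw [OneMemClass.coe_one, cjEquiv_one]
  mul_smul u v C := by
    obtain ⟨h, rfl⟩ := ConjClasses.mk_surjective C
    show ConjClasses.mk (cjEquiv hH ((u * v : P) : G) h)
      = ConjClasses.mk (cjEquiv hH (u : G) (cjEquiv hH (v : G) h))
    rw [Subgroup.coe_mul, cjEquiv_mul]

/-- The conjugate of an irreducible character of a normal subgroup. -/
def cjIrr (hH : H.Normal) (x : G) (θ : IrrCharacter H) : IrrCharacter H :=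
  ⟨cj hH x (θ : H → ℂ), isIrr_cj hH θ.2 x⟩

omit [Fintype G] in
theorem cjIrr_apply (hH : H.Normal) (x : G) (θ : IrrCharacter H) (h : H) :
    (cjIrr hH x θ : H → ℂ) h = (θ : H → ℂ) (cjEquiv hH x h) := rfl

omit [Fintype G] in
theorem cjIrr_mul (hH : H.Normal) (x y : G) (θ : IrrCharacter H) :
    cjIrr hH (x * y) θ = cjIrr hH y (cjIrr hH x θ) := Subtype.ext (cj_mul hH x y _)

omit [Fintype G] in
theorem cjIrr_one (hH : H.Normal) (θ : IrrCharacter H) : cjIrr hH 1 θ = θ := Subtype.ext (cj_one hH _)

omit [Fintype G] in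
theorem charDegree_cjIrr (hH : H.Normal) (x : G) (θ : IrrCharacter H) :
    charDegree (cjIrr hH x θ : H → ℂ) = charDegree (θ : H → ℂ) := by
  unfold charDegree
  have : (cjIrr hH x θ : H → ℂ) 1 = (θ : H → ℂ) 1 := cj_one_apply hH x _
  rw [this]

theorem index_centralizer_cjEquiv (hH : H.Normal) (x : G) (h : H) :
    (Subgroup.centralizer ({cjEquiv hH x h} : Set H)).index
      = (Subgroup.centralizer ({h} : Set H)).index := by
  have h1 : Subgroup.centralizer ({cjEquiv hH x h} : Set H)
      = (Subgroup.centralizer ({h} : Set H)).map (cjEquiv hH x).toMonoidHom := by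
    ext c
    rw [Subgroup.mem_centralizer_singleton_iff, Subgroup.mem_map]
    constructor
    · intro hc
      refine ⟨(cjEquiv hH x).symm c, ?_, (cjEquiv hH x).apply_symm_apply c⟩
      rw [Subgroup.mem_centralizer_singleton_iff]
      apply (cjEquiv hH x).injective
      rw [map_mul, map_mul, (cjEquiv hH x).apply_symm_apply]
      exact hc
    · rintro ⟨d, hd, rfl⟩
      rw [Subgroup.mem_centralizer_singleton_iff] at hd
      show (cjEquiv hH x) d * (cjEquiv hH x) h = (cjEquiv hH x) h * (cjEquiv hH x) d
      rw [← map_mul, ← map_mul, hd]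
  rw [h1]
  exact Subgroup.index_map_of_bijective (cjEquiv hH x).bijective _

theorem centralChar_cj (hH : H.Normal) (x : G) (θ : H → ℂ) (h : H) :
    centralChar (cj hH x θ) h = centralChar θ (cjEquiv hH x h) := by
  unfold centralChar
  rw [cj_one_apply, index_centralizer_cjEquiv]
  rfl

end cover

end Cfsg.Agent.H27
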