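import Cfsg.Agent.S4742
import Cfsg.Agent.H27.Invert
import Cfsg.Prelude.Def_Local

set_option autoImplicit false
set_option linter.style.haveILetI false

/-! # Characters of defect zero for `p` or `q` -/

universe u

namespace Cfsg.Agent.H27

open Cfsg Subgroup

section

variable {G : Type u} [Group G] [Finite G]

theorem exists_normal_pq {p q : ℕ} (hp : p.Prime) (hq : q.Prime) (hpq : p ≠ q)
    (hs : IsPSolvable p G) (hpG : p ∣ Nat.card G) :
    ∃ N : Subgroup G, N.Normal ∧ ((¬ p ∣ Nat.card N ∧ q ∣ Nat.card N) ∨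
      (¬ q ∣ Nat.card N ∧ p ∣ Nat.card N)) := by
  obtain ⟨n, H, h0, h1, hmono, hn, hidx⟩ := hs
  by_contra hcon
  push Not at hcon
  have key : ∀ i : Fin (n + 1), ¬ p ∣ Nat.card (H i) := by
    intro i
    induction i using Fin.induction with
    | zero =>
      rw [h0, Subgroup.card_bot]
      exact hp.one_lt.ne' ∘ Nat.dvd_one.mp
    | succ i ih =>
      intro hdvd
      have hle : H i.castSucc ≤ H i.succ := hmono (Fin.castSucc_lt_succ).le
      have hmul : Nat.card (H i.castSucc) * (H i.castSucc).relIndex (H i.succ) =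
          Nat.card (H i.succ) := by
        rw [← Subgroup.relIndex_bot_left (H i.castSucc), ← Subgroup.relIndex_bot_left (H i.succ)]
        exact Subgroup.relIndex_mul_relIndex ⊥ (H i.castSucc) (H i.succ) bot_le hle
      have hq' : ¬ q ∣ Nat.card (H i.castSucc) := (hcon _ (hn _)).1 ih
      have hpr : p ∣ (H i.castSucc).relIndex (H i.succ) := by
        rw [← hmul] at hdvd
        exact (hp.dvd_mul.mp hdvd).resolve_left ih
      rcases hidx i with ⟨m, hm⟩ | hco
      · have h2 : ¬ q ∣ Nat.card (H i.succ) := by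
          rw [← hmul, hm]
          intro h
          rcases hq.dvd_mul.mp h with h | h
          · exact hq' h
          · exact hpq ((Nat.prime_dvd_prime_iff_eq hq hp).mp (hq.dvd_of_dvd_pow h)).symm
        exact (hcon _ (hn _)).2 h2 hdvd
      · have h2 := Nat.eq_one_of_dvd_coprimes hco hpr (dvd_refl p)
        exact hp.one_lt.ne' h2
  apply key (Fin.last n)
  rw [h1, Subgroup.card_top]
  exact hpG

theorem dz_of_normal {p q : ℕ} [Fact p.Prime] [Fact q.Prime] (hpq : p ≠ q)
    (hpG : p ∣ Nat.card G) (hqG : q ∣ Nat.card G)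
    (hC : ∀ g : G, g ≠ 1 → (∃ k : ℕ, orderOf g = p ^ k) →
      ¬ q ∣ Nat.card ↥(Subgroup.centralizer ({g} : Set G)))
    {N : Subgroup G} (hN : N.Normal) (hNp : ¬ p ∣ Nat.card N) (hNq : q ∣ Nat.card N) :
    ∃ χ : IrrCharacter G,
      (charDegree (χ : G → ℂ)).factorization p = (Nat.card G).factorization p := by
  rcases S4742.result p q hpq hpG hqG hC with h | h
  · exact h
  · exfalso
    obtain ⟨z, hz⟩ := exists_prime_orderOf_dvd_card' q hNq
    have hzo : orderOf (z : G) = q := by
      rw [Subgroup.orderOf_coe]; exact hz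
    obtain ⟨g, k, hg, hk, hne, j, hj⟩ := h (z : G) (by
      intro h
      rw [h, orderOf_one] at hzo
      exact (Fact.out : q.Prime).one_lt.ne hzo) ⟨1, by rw [pow_one]; exact hzo⟩
    have hmem : ∀ x : G, IsConj (z : G) x → x ∈ N := by
      intro x hx
      obtain ⟨c, rfl⟩ := isConj_iff.mp hx
      exact hN.conj_mem _ z.2 c
    have h1 : g * k⁻¹ ∈ N := N.mul_mem (hmem g hg) (N.inv_mem (hmem k hk))
    have h2 : orderOf (g * k⁻¹) ∣ Nat.card N := by
      have := orderOf_dvd_natCard (⟨g * k⁻¹, h1⟩ : N)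
      rwa [← Subgroup.orderOf_coe] at this
    rw [hj] at h2
    have h3 : j ≠ 0 := by
      rintro rfl
      rw [pow_zero] at hj
      exact hne (orderOf_eq_one_iff.mp hj)
    exact hNp ((dvd_pow_self p h3).trans h2)

omit [Finite G] in
theorem cent_symm {p q : ℕ} [Fact p.Prime] [Fact q.Prime] [Finite G]
    (hC : ∀ g : G, g ≠ 1 → (∃ k : ℕ, orderOf g = p ^ k) →
      ¬ q ∣ Nat.card ↥(Subgroup.centralizer ({g} : Set G))) :
    ∀ g : G, g ≠ 1 → (∃ k : ℕ, orderOf g = q ^ k) →
      ¬ p ∣ Nat.card ↥(Subgroup.centralizer ({g} : Set G)) := by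
  rintro g hg ⟨k, hk⟩ hp
  obtain ⟨x, hx⟩ := exists_prime_orderOf_dvd_card' p hp
  have hxo : orderOf (x : G) = p := by rw [Subgroup.orderOf_coe]; exact hx
  have hx1 : (x : G) ≠ 1 := by
    intro h
    rw [h, orderOf_one] at hxo
    exact (Fact.out : p.Prime).one_lt.ne hxo
  apply hC (x : G) hx1 ⟨1, by rw [pow_one]; exact hxo⟩
  have hgx : g ∈ centralizer ({(x : G)} : Set G) := by
    rw [mem_centralizer_singleton_iff]
    exact (mem_centralizer_singleton_iff.mp x.2).symm
  have h2 : orderOf g ∣ Nat.card (centralizer ({(x : G)} : Set G)) := by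
    have := orderOf_dvd_natCard (⟨g, hgx⟩ : centralizer ({(x : G)} : Set G))
    rwa [← Subgroup.orderOf_coe] at this
  rw [hk] at h2
  have h3 : k ≠ 0 := by
    rintro rfl
    rw [pow_zero] at hk
    exact hg (orderOf_eq_one_iff.mp hk)
  exact (dvd_pow_self q h3).trans h2

theorem pq_dz {p q : ℕ} [Fact p.Prime] [Fact q.Prime] (hpq : p ≠ q)
    (hpG : p ∣ Nat.card G) (hqG : q ∣ Nat.card G)
    (hC : ∀ g : G, g ≠ 1 → (∃ k : ℕ, orderOf g = p ^ k) →
      ¬ q ∣ Nat.card ↥(Subgroup.centralizer ({g} : Set G)))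
    (hs : IsPSolvable p G) :
    (∃ χ : IrrCharacter G,
      (charDegree (χ : G → ℂ)).factorization p = (Nat.card G).factorization p) ∨
    (∃ χ : IrrCharacter G,
      (charDegree (χ : G → ℂ)).factorization q = (Nat.card G).factorization q) := by
  obtain ⟨N, hN, h | h⟩ := exists_normal_pq (Fact.out : p.Prime) (Fact.out : q.Prime) hpq hs hpG
  · exact Or.inl (dz_of_normal hpq hpG hqG hC hN h.1 h.2)
  · exact Or.inr (dz_of_normal hpq.symm hqG hpG (cent_symm hC) hN h.1 h.2)

end

end Cfsg.Agent.H27
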