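import Cfsg.Agent.H27.AD5
import Cfsg.Agent.H11.Weak

set_option autoImplicit false

/-! # Counting characters fixed by a power map -/

universe u

namespace Cfsg.Agent.H27

open Subgroup Cfsg Cfsg.Agent.H3 Cfsg.Agent.H11
open scoped ComplexConjugate

section

variable {G : Type u} [Group G] [Finite G]

/-- the Galois conjugate -/
noncomputable def galI (k : ℕ) (hk : k.Coprime (Nat.card G)) (χ : IrrCharacter G) : IrrCharacter G :=
  ⟨fun g => (χ : G → ℂ) (g ^ k), isIrr_pow_coprime χ.2 hk⟩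

/-- the number of members fixed by a power map of `p`-power order -/
theorem card_fixed_modEq {p : ℕ} [Fact p.Prime] {k e : ℕ} (hk : k.Coprime (Nat.card G))
    (hke : ∀ g : G, g ^ (k ^ (p ^ e)) = g) (S : Set (IrrCharacter G))
    (hS : ∀ χ ∈ S, galI k hk χ ∈ S) :
    Nat.card S ≡ Nat.card {χ : IrrCharacter G // χ ∈ S ∧ ∀ g : G, (χ : G → ℂ) (g ^ k) =
      (χ : G → ℂ) g} [MOD p] := by
  classical
  haveI := Fintype.ofFinite S
  let f : Function.End S := fun χ => ⟨galI k hk χ.1, hS _ χ.2⟩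
  have hit : ∀ i : ℕ, ∀ χ : S, ∀ g : G, (((f ^ i) χ : S) : IrrCharacter G).1 g =
      (χ.1 : G → ℂ) (g ^ (k ^ i)) := by
    intro i
    induction i with
    | zero => intro χ g; rw [pow_zero, pow_zero, pow_one]; rfl
    | succ i ih =>
      intro χ g
      rw [pow_succ]
      show ((f ^ i) (f χ)).1.1 g = _
      rw [ih]
      show (χ.1 : G → ℂ) ((g ^ k ^ i) ^ k) = _
      rw [← pow_mul, ← pow_succ]
  have hf : f ^ p ^ e = 1 := by
    funext χ
    apply Subtype.ext
    apply Subtype.ext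
    funext g
    rw [hit, hke]
    rfl
  have h1 := Equiv.Perm.card_fixedPoints_modEq hf
  rw [Nat.card_eq_fintype_card]
  refine h1.trans ?_
  rw [← Nat.card_eq_fintype_card]
  have h2 : Nat.card f.fixedPoints = Nat.card {χ : IrrCharacter G // χ ∈ S ∧ ∀ g : G,
      (χ : G → ℂ) (g ^ k) = (χ : G → ℂ) g} := by
    refine Nat.card_eq_of_bijective (fun χ => (⟨χ.1.1, χ.1.2, fun g => ?_⟩ :
      {χ : IrrCharacter G // χ ∈ S ∧ ∀ g : G, (χ : G → ℂ) (g ^ k) = (χ : G → ℂ) g}))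
      ⟨fun χ ψ h => ?_, fun χ => ?_⟩
    · have h3 : f χ.1 = χ.1 := χ.2
      have h4 := congrArg (fun z : S => (z.1 : G → ℂ) g) h3
      exact h4
    · apply Subtype.ext
      apply Subtype.ext
      have := congrArg (fun z : {χ : IrrCharacter G // χ ∈ S ∧ ∀ g : G,
        (χ : G → ℂ) (g ^ k) = (χ : G → ℂ) g} => (z : IrrCharacter G)) h
      exact this
    · refine ⟨⟨⟨χ.1, χ.2.1⟩, ?_⟩, rfl⟩
      show f ⟨χ.1, χ.2.1⟩ = ⟨χ.1, χ.2.1⟩
      apply Subtype.ext
      apply Subtype.ext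
      funext g
      exact χ.2.2 g
  rw [h2]

theorem exists_order_two_exp {k : ℕ} (hodd : Odd k)
    (hk₂ : ∀ g : G, Odd (orderOf g) → g ^ k = g) :
    ∃ e : ℕ, ∀ g : G, g ^ (k ^ (2 ^ e)) = g := by
  set a := (Nat.card G).factorization 2 with ha
  refine ⟨a, fun g => ?_⟩
  have hpos : 0 < orderOf g := orderOf_pos g
  obtain ⟨b, s, hs, hbs⟩ := Nat.exists_eq_two_pow_mul_odd hpos.ne'
  have hba : b ≤ a := by
    rw [ha]
    apply (Nat.Prime.pow_dvd_iff_le_factorization Nat.prime_two Nat.card_pos.ne').mp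
    exact (Dvd.intro _ hbs.symm).trans (orderOf_dvd_natCard g)
  have h1 : k ^ (2 ^ a) ≡ 1 [MOD s] := by
    have hord : orderOf (g ^ (2 ^ b)) = s := by
      rw [orderOf_pow_of_dvd (by positivity) (by rw [hbs]; exact dvd_mul_right _ _), hbs]
      exact Nat.mul_div_cancel_left _ (by positivity)
    have h2 := hk₂ (g ^ (2 ^ b)) (by rw [hord]; exact hs)
    have h3 : k ≡ 1 [MOD s] := by
      rw [← hord]
      have : (g ^ (2 ^ b)) ^ k = (g ^ (2 ^ b)) ^ 1 := by rw [pow_one]; exact h2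
      exact pow_eq_pow_iff_modEq.mp this
    simpa using h3.pow (2 ^ a)
  have h2 : k ^ (2 ^ a) ≡ 1 [MOD 2 ^ b] := by
    have hc : k.Coprime (2 ^ a) := Nat.Coprime.pow_right _ (Nat.coprime_two_right.mpr hodd)
    rcases Nat.eq_zero_or_pos a with h0 | h0
    · have : b = 0 := by omega
      rw [this, pow_zero]
      exact Nat.modEq_one
    · have h3 := Nat.ModEq.pow_totient hc
      rw [Nat.totient_prime_pow Nat.prime_two h0] at h3
      simp only [Nat.add_one_sub_one, mul_one] at h3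
      have h4 : k ^ (2 ^ a) ≡ 1 [MOD 2 ^ a] := by
        have h5 := h3.pow 2
        rw [one_pow, ← pow_mul, ← pow_succ] at h5
        rwa [show a - 1 + 1 = a by omega] at h5
      exact h4.of_dvd (pow_dvd_pow 2 hba)
  have h3 : k ^ (2 ^ a) ≡ 1 [MOD orderOf g] := by
    rw [hbs]
    exact (Nat.modEq_and_modEq_iff_modEq_mul
      (Nat.Coprime.pow_left _ (Nat.coprime_two_left.mpr hs))).mp ⟨h2, h1⟩
  have h4 : g ^ (k ^ (2 ^ a)) = g ^ 1 := pow_eq_pow_iff_modEq.mpr h3
  rw [h4, pow_one]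

end

end Cfsg.Agent.H27
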