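import Mathlib
import Cfsg.Agent.H3.BurnsidePQ
import Cfsg.Agent.H27.Ch12C
import Cfsg.Agent.H27.Kernel
import Cfsg.Prelude.Def_DegreeGraph

set_option autoImplicit false

/-!
# Three primes divide the character degrees of a nonsolvable group
-/

namespace Cfsg.Agent.H27

open Cfsg Cfsg.Agent.H3 Finset

universe u

theorem degreePrimes_normal {G : Type u} [Group G] [Finite G] {N : Subgroup G} (hN : N.Normal)
    {r : ℕ} (hr : r ∈ degreePrimes N) : r ∈ degreePrimes G := by
  obtain ⟨hp, d, ⟨θ, rfl⟩, hd⟩ := hr
  obtain ⟨χ, hχ, -, h1, -⟩ := exists_over hN θ.2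
  exact ⟨hp, _, ⟨⟨χ, hχ⟩, rfl⟩, hd.trans h1⟩

theorem degreePrimes_quot {G : Type u} [Group G] [Finite G] (N : Subgroup G) [N.Normal]
    {r : ℕ} (hr : r ∈ degreePrimes (G ⧸ N)) : r ∈ degreePrimes G := by
  obtain ⟨hp, d, ⟨θ, rfl⟩, hd⟩ := hr
  refine ⟨hp, _, ⟨⟨fun g => (θ : G ⧸ N → ℂ) (QuotientGroup.mk' N g), ?_⟩, rfl⟩, ?_⟩
  · exact isIrr_comp_surjective θ.2 (QuotientGroup.mk' N) (QuotientGroup.mk'_surjective N)
  · have h1 : charDegree (fun g => (θ : G ⧸ N → ℂ) (QuotientGroup.mk' N g)) =
        charDegree (θ : G ⧸ N → ℂ) := by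
      unfold charDegree
      beta_reduce
      rw [map_one]
    change r ∣ charDegree (fun g => (θ : G ⧸ N → ℂ) (QuotientGroup.mk' N g))
    rw [h1]
    exact hd

theorem simple_three {G : Type u} [Group G] [Finite G] [IsSimpleGroup G]
    (hns : ¬ Group.IsSolvable G) {p q : ℕ} (hp : p.Prime) (hq : q.Prime)
    (hpG : p ∣ Nat.card G) (h : ∀ r ∈ degreePrimes G, r = p ∨ r = q) : False := by
  classical
  haveI := Fintype.ofFinite G
  haveI := Fintype.ofFinite (IrrCharacter G)
  have hncomm : ¬ ∀ a b : G, a * b = b * a := by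
    intro hcomm
    apply hns
    exact isSolvable_of_comm hcomm
  haveI : Fact p.Prime := ⟨hp⟩
  obtain ⟨P⟩ := (inferInstance : Nonempty (Sylow p G))
  have hPnt : Nontrivial P := by
    have h1 := P.dvd_card_of_dvd_card hpG
    by_contra hcon
    rw [not_nontrivial_iff_subsingleton] at hcon
    rw [Nat.card_unique] at h1
    exact hp.one_lt.ne' (Nat.dvd_one.mp h1)
  haveI := P.isPGroup'.center_nontrivial
  obtain ⟨⟨g', hgc⟩, hg1⟩ := exists_ne (1 : Subgroup.center P)
  set g : G := (g' : G) with hgdef
  have hg : g ≠ 1 := by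
    intro h
    apply hg1
    ext
    exact h
  have hle : (P : Subgroup G) ≤ Subgroup.centralizer ({(g : G)} : Set G) := by
    intro x hx
    rw [Subgroup.mem_centralizer_singleton_iff]
    have := Subgroup.mem_center_iff.mp hgc ⟨x, hx⟩
    exact congrArg Subtype.val this
  have hidx : ¬ p ∣ (Subgroup.centralizer ({(g : G)} : Set G)).index := by
    intro h
    exact P.not_dvd_index (h.trans (Subgroup.index_dvd_of_le hle))
  have hall : ∀ χ : IrrCharacter G, (χ : G → ℂ) ≠ (fun _ => 1) → ∀ n : ℕ,
      (χ : G → ℂ) 1 = n → ¬ q ∣ n → (χ : G → ℂ) g = 0 := by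
    intro χ h1 n hn hqn
    by_contra h0
    apply hncomm
    have hdeg : charDegree (χ : G → ℂ) = n := by
      have := charDegree_cast (irr_isChar χ.2)
      rw [hn] at this
      exact_mod_cast this
    have hnp : n.Coprime (Subgroup.centralizer ({g} : Set G)).index := by
      apply Nat.Coprime.symm
      apply Nat.coprime_of_dvd
      intro k hk h2 h3
      rcases h k ⟨hk, _, ⟨χ, rfl⟩, by rw [hdeg]; exact h3⟩ with rfl | rfl
      · exact hidx h2
      · exact hqn h3
    obtain ⟨m, ρ, hρ, hχ⟩ := χ.2
    have hfin : Module.finrank ℂ (Fin m → ℂ) = n := by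
      have : ((Module.finrank ℂ (Fin m → ℂ) : ℕ) : ℂ) = n := by
        rw [← hn, ← hχ, Representation.char_one]
      exact_mod_cast this
    have hcop : Nat.Coprime (Module.finrank ℂ (Fin m → ℂ))
        (Subgroup.centralizer ({g} : Set G)).index := by
      rw [hfin]
      exact hnp
    rcases rep_char_zero_or_norm_eq ρ g hcop with h2 | h2
    · rw [← hχ] at h0; exact absurd h2 h0
    · exact simple_of_scalar χ.2 h1 ρ hχ g hg ((rep_norm_eq_iff_scalar ρ g).mp h2)
  have hsum := sum_degree_mul (G := G) g
  rw [if_neg hg] at hsum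
  have hone : (⟨fun _ => 1, isIrr_one⟩ : IrrCharacter G) ∈ Finset.univ := Finset.mem_univ _
  rw [← Finset.add_sum_erase _ _ hone] at hsum
  simp only [one_mul] at hsum
  -- every other term is `q` times an algebraic integer
  have hterm : ∀ χ ∈ Finset.univ.erase (⟨fun _ => 1, isIrr_one⟩ : IrrCharacter G),
      IsIntegral ℤ ((χ : G → ℂ) 1 * (χ : G → ℂ) g / (q : ℂ)) := by
    intro χ hχ
    have hne : (χ : G → ℂ) ≠ (fun _ => 1) := fun h =>
      (Finset.mem_erase.mp hχ).1 (Subtype.ext h)
    obtain ⟨n, hn⟩ := char_one_eq_nat (irr_isChar χ.2)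
    by_cases hpn : q ∣ n
    · obtain ⟨m, rfl⟩ := hpn
      have hp0 : (q : ℂ) ≠ 0 := by exact_mod_cast hq.ne_zero
      have : (χ : G → ℂ) 1 * (χ : G → ℂ) g / (q : ℂ) = (m : ℂ) * (χ : G → ℂ) g := by
        rw [hn]; push_cast; field_simp
      rw [this]
      exact (isIntegral_algebraMap (R := ℤ) (x := (m : ℤ))).mul
        (char_isIntegral (irr_isChar χ.2) g)
    · rw [hall χ hne n hn hpn, mul_zero, zero_div]
      exact isIntegral_zero
  have hint := IsIntegral.sum _ hterm
  rw [← Finset.sum_div] at hint
  have : ∑ χ ∈ Finset.univ.erase (⟨fun _ => 1, isIrr_one⟩ : IrrCharacter G),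
      (χ : G → ℂ) 1 * (χ : G → ℂ) g = -1 := by
    linear_combination hsum
  rw [this] at hint
  have h3 := int_dvd_of_isIntegral (a := -1) (b := q) (by exact_mod_cast hq.ne_zero)
    (by push_cast; exact hint)
  have h4 : (q : ℤ) ∣ 1 := by simpa using h3
  have h5 : q ∣ 1 := by exact_mod_cast h4
  exact hq.one_lt.ne' (Nat.dvd_one.mp h5)

theorem three_primes (n : ℕ) : ∀ (G : Type u) [Group G] [Finite G], Nat.card G = n →
    ¬ Group.IsSolvable G → ∃ p q r : ℕ, p ≠ q ∧ q ≠ r ∧ p ≠ r ∧ p ∈ degreePrimes G ∧
      q ∈ degreePrimes G ∧ r ∈ degreePrimes G := by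
  induction n using Nat.strong_induction_on with
  | _ n ih =>
    intro G _ _ hn hns
    have hnt : Nontrivial G := by
      by_contra h
      rw [not_nontrivial_iff_subsingleton] at h
      exact hns inferInstance
    by_cases hsimple : IsSimpleGroup G
    · by_contra hcon
      push Not at hcon
      by_cases hex : ∃ p, p ∈ degreePrimes G
      · obtain ⟨p, hp⟩ := hex
        have := Fintype.ofFinite G
        have hpG : p ∣ Nat.card G := by
          obtain ⟨-, d, ⟨χ, rfl⟩, hd⟩ := hp
          exact hd.trans (charDegree_dvd_card χ.2)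
        by_cases hex2 : ∃ q, q ≠ p ∧ q ∈ degreePrimes G
        · obtain ⟨q, hqp, hq⟩ := hex2
          apply simple_three hns hp.1 hq.1 hpG
          intro r hr
          by_contra h1
          push Not at h1
          exact hcon p q r hqp.symm h1.2.symm h1.1.symm hp hq hr
        · push Not at hex2
          apply simple_three hns hp.1 hp.1 hpG
          intro r hr
          by_contra h1
          push Not at h1
          exact hex2 r h1.1 hr
      · push Not at hex
        obtain ⟨r, hr, hrG⟩ := Nat.exists_prime_and_dvd (n := Nat.card G)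
          (Finite.one_lt_card (α := G)).ne'
        exact simple_three hns hr hr hrG (fun s hs => absurd hs (hex s))
    · obtain ⟨N, hN, hNb, hNt⟩ : ∃ N : Subgroup G, N.Normal ∧ N ≠ ⊥ ∧ N ≠ ⊤ := by
        by_contra hcon
        push Not at hcon
        apply hsimple
        constructor
        intro N hN
        by_cases h : N = ⊥
        · exact Or.inl h
        · exact Or.inr (hcon N hN h)
      by_cases h1 : Group.IsSolvable N
      · have h2 : ¬ Group.IsSolvable (G ⧸ N) := by
          intro h2
          apply hns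
          exact solvable_of_ker_le_range N.subtype (QuotientGroup.mk' N) (by
            rw [QuotientGroup.ker_mk', Subgroup.range_subtype])
        have h3 : Nat.card (G ⧸ N) < n := by
          have h4 := Subgroup.card_mul_index N
          have h5 : 1 < Nat.card N := by
            rw [Subgroup.one_lt_card_iff_ne_bot]; exact hNb
          have h6 : 0 < N.index := Nat.pos_of_ne_zero Subgroup.index_ne_zero_of_finite
          change N.index < n
          rw [← hn, ← h4]
          nlinarith
        obtain ⟨p, q, r, a, b, c, d, e, f⟩ := ih _ h3 (G ⧸ N) rfl h2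
        exact ⟨p, q, r, a, b, c, degreePrimes_quot N d, degreePrimes_quot N e,
          degreePrimes_quot N f⟩
      · have h3 : Nat.card N < n := by
          rw [← hn]
          have h4 := Subgroup.card_mul_index N
          have h5 : N.index ≠ 1 := by
            rw [Ne, Subgroup.index_eq_one]; exact hNt
          have h6 : 0 < N.index := Nat.pos_of_ne_zero Subgroup.index_ne_zero_of_finite
          have h7 : 0 < Nat.card N := Nat.card_pos
          rw [← h4]
          nlinarith [show 2 ≤ N.index by omega]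
        obtain ⟨p, q, r, a, b, c, d, e, f⟩ := ih _ h3 N rfl h1
        exact ⟨p, q, r, a, b, c, degreePrimes_normal hN d, degreePrimes_normal hN e,
          degreePrimes_normal hN f⟩

end Cfsg.Agent.H27
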