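import Cfsg.Agent.H27.ClassAlg
import Cfsg.Agent.H27.CentralChar
import Cfsg.Agent.H27.Invert
import Cfsg.Agent.H3.Integral
import Cfsg.Agent.H4.Isolated
import Cfsg.Agent.H10.Perm1
import Cfsg.Agent.H1.Chief

set_option autoImplicit false
set_option linter.style.haveILetI false

/-! # Transitive groups of `p`-power degree with odd centralizers -/

universe u v

namespace Cfsg.Agent.H27

open Cfsg Cfsg.Agent.H3 Subgroup MulAction
open scoped ComplexConjugate

section count

variable {G : Type u} [Group G]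

/-- without characters of `p`-defect zero, the class multiplication constants of classes of
`p`-defect zero are divisible by `p` -/
theorem dvd_card_pairs [Fintype G] {p : ℕ} (hp : p.Prime)
    (hno : ∀ χ : IrrCharacter G, (charDegree (χ : G → ℂ)).factorization p
      ≠ (Nat.card G).factorization p) {x y : G}
    (hx : ¬ p ∣ Nat.card (centralizer ({x} : Set G)))
    (hy : ¬ p ∣ Nat.card (centralizer ({y} : Set G))) (z : G) :
    p ∣ Nat.card {q : G × G // IsConj x q.1 ∧ IsConj y q.2 ∧ q.1 * q.2 = z} := by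
  classical
  haveI := Fintype.ofFinite (IrrCharacter G)
  set N := Nat.card {q : G × G // IsConj x q.1 ∧ IsConj y q.2 ∧ q.1 * q.2 = z} with hN
  have h1 := card_pairs_eq x y z
  rw [← hN] at h1
  have hG : (Nat.card G : ℂ) ≠ 0 := card_ne_zeroC
  have hpc : (p : ℂ) ≠ 0 := by exact_mod_cast hp.ne_zero
  -- the cofactor
  have hn : ∀ χ : IrrCharacter G, ∃ n : ℕ, Nat.card G = charDegree (χ : G → ℂ) * (p * n) := by
    intro χ
    obtain ⟨m, hm⟩ := charDegree_dvd_card χ.2
    have hd0 : charDegree (χ : G → ℂ) ≠ 0 := (charDegree_pos χ.2).ne'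
    have hm0 : m ≠ 0 := by
      rintro rfl
      rw [mul_zero] at hm
      exact Nat.card_pos.ne' hm
    have h2 : p ∣ m := by
      by_contra h
      apply hno χ
      rw [hm, Nat.factorization_mul hd0 hm0, Finsupp.add_apply,
        Nat.factorization_eq_zero_of_not_dvd h, add_zero]
    obtain ⟨n, rfl⟩ := h2
    exact ⟨n, hm⟩
  choose n hn using hn
  set a := Nat.card (centralizer ({x} : Set G)) with ha
  set b := Nat.card (centralizer ({y} : Set G)) with hb
  have hai : (((centralizer ({x} : Set G)).index : ℕ) : ℂ) * a = Nat.card G := by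
    exact_mod_cast Subgroup.index_mul_card (centralizer ({x} : Set G))
  have hbi : (((centralizer ({y} : Set G)).index : ℕ) : ℂ) * b = Nat.card G := by
    exact_mod_cast Subgroup.index_mul_card (centralizer ({y} : Set G))
  have key : ((a * b * N : ℕ) : ℂ) = (p : ℂ) * ∑ χ : IrrCharacter G,
      (n χ : ℂ) * ((χ : G → ℂ) x * (χ : G → ℂ) y * conj ((χ : G → ℂ) z)) := by
    push_cast
    rw [h1, Finset.mul_sum, Finset.mul_sum, Finset.mul_sum]
    apply Finset.sum_congr rfl
    intro χ _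
    have hd : (χ : G → ℂ) 1 ≠ 0 := irr_one_ne_zero χ.2
    have h3 : (Nat.card G : ℂ) = (χ : G → ℂ) 1 * (p * n χ) := by
      rw [← charDegree_cast (irr_isChar χ.2)]
      exact_mod_cast hn χ
    rw [centralChar, centralChar]
    have h4 : (a : ℂ) * b * ((Nat.card G : ℂ)⁻¹ * ((χ : G → ℂ) 1 *
        ((((centralizer ({x} : Set G)).index : ℕ) : ℂ) * (χ : G → ℂ) x / (χ : G → ℂ) 1 *
        ((((centralizer ({y} : Set G)).index : ℕ) : ℂ) * (χ : G → ℂ) y / (χ : G → ℂ) 1)) *
        conj ((χ : G → ℂ) z))) =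
        (Nat.card G : ℂ)⁻¹ * (((((centralizer ({x} : Set G)).index : ℕ) : ℂ) * a) *
        ((((centralizer ({y} : Set G)).index : ℕ) : ℂ) * b)) * ((χ : G → ℂ) 1)⁻¹ *
        ((χ : G → ℂ) x * (χ : G → ℂ) y * conj ((χ : G → ℂ) z)) := by
      field_simp
    rw [h4, hai, hbi]
    have h5 : (Nat.card G : ℂ)⁻¹ * ((Nat.card G : ℂ) * (Nat.card G : ℂ)) * ((χ : G → ℂ) 1)⁻¹ =
        p * n χ := by
      rw [inv_mul_cancel_left₀ hG, h3]
      field_simp
    rw [h5]; ring
  have hint : IsIntegral ℤ (((a * b * N : ℕ) : ℂ) / (p : ℂ)) := by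
    rw [key, mul_div_cancel_left₀ _ hpc]
    apply IsIntegral.sum
    intro χ _
    apply IsIntegral.mul
    · exact isIntegral_natCast _
    · exact ((char_isIntegral (irr_isChar χ.2) x).mul (char_isIntegral (irr_isChar χ.2) y)).mul
        (isIntegral_conj (char_isIntegral (irr_isChar χ.2) z))
  have hdvd := nat_dvd_of_isIntegral hp.ne_zero hint
  rcases hp.dvd_mul.mp hdvd with h | h
  · rcases hp.dvd_mul.mp h with h | h
    · exact absurd h hx
    · exact absurd h hy
  · exact h

end count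

section inv

variable {G : Type u} [Group G] [Finite G]

theorem two_of_order {a : G} (ha : orderOf a = 2) : a * a = 1 := by
  rw [← pow_two, ← ha, pow_orderOf_eq_one]

theorem inv_of_order {a : G} (ha : orderOf a = 2) : a⁻¹ = a :=
  inv_eq_of_mul_eq_one_left (two_of_order ha)

theorem order_two_of {a : G} (h1 : a ≠ 1) (h : a * a = 1) : orderOf a = 2 :=
  orderOf_eq_prime (by rw [pow_two]; exact h) h1

/-- an element of even order inverted by the involution `a` has a power of order two commuting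
with everything that inverts or centralizes it -/
theorem exists_invol_pow {g : G} (h : ¬ Odd (orderOf g)) : ∃ k : ℕ, orderOf (g ^ k) = 2 := by
  rw [Nat.not_odd_iff_even, even_iff_two_dvd] at h
  refine ⟨orderOf g / 2, ?_⟩
  rw [orderOf_pow_of_dvd]
  · exact Nat.div_div_self h (orderOf_pos g).ne'
  · exact (Nat.div_pos (Nat.le_of_dvd (orderOf_pos g) h) two_pos).ne'
  · exact Nat.div_dvd_of_dvd h

end inv

/-- the standing situation: every involution inverts a Sylow `p`-subgroup -/
structure TP (G : Type u) [Group G] (Ω : Type v) [MulAction G Ω] (p : ℕ) : Prop where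
  odd : p ≠ 2
  cent : OddCent G p
  inv : ∀ t : G, orderOf t = 2 → ∃ P : Sylow p G, ∀ x ∈ (P : Subgroup G), t * x * t⁻¹ = x⁻¹
  ex : ∃ t : G, orderOf t = 2
  card : ∃ r, 1 ≤ r ∧ Nat.card Ω = p ^ r

namespace TP

variable {G : Type u} [Group G] [Finite G] {Ω : Type v} [MulAction G Ω] [FaithfulSMul G Ω]
  [Finite Ω] [hΩ : IsPretransitive G Ω] {p : ℕ} [hp : Fact p.Prime] (h : TP G Ω p)

include h

omit [FaithfulSMul G Ω] hΩ [Finite Ω] in
theorem inv_all (Q : Sylow p G) : ∃ t : G, orderOf t = 2 ∧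
    ∀ x ∈ (Q : Subgroup G), t * x * t⁻¹ = x⁻¹ := by
  obtain ⟨s, hs⟩ := h.ex
  obtain ⟨P, hP⟩ := h.inv s hs
  obtain ⟨g, rfl⟩ := MulAction.exists_smul_eq G P Q
  refine ⟨g * s * g⁻¹, ?_, ?_⟩
  · have h1 : g * s * g⁻¹ = MulAut.conj g s := by rw [MulAut.conj_apply]
    rw [h1]
    rw [← hs]
    exact orderOf_injective (MulAut.conj g).toMonoidHom (MulAut.conj g).injective s
  · intro x hx
    rw [Sylow.coe_subgroup_smul, Subgroup.mem_pointwise_smul_iff_inv_smul_mem] at hx
    have hx' : g⁻¹ * x * g ∈ (P : Subgroup G) := by simpa [MulAut.smul_def] using hx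
    have h1 := hP _ hx'
    calc g * s * g⁻¹ * x * (g * s * g⁻¹)⁻¹ = g * (s * (g⁻¹ * x * g) * s⁻¹) * g⁻¹ := by group
      _ = g * (g⁻¹ * x * g)⁻¹ * g⁻¹ := by rw [h1]
      _ = x⁻¹ := by group

omit [FaithfulSMul G Ω] hΩ [Finite Ω] in
theorem comm (Q : Sylow p G) : ∀ x ∈ (Q : Subgroup G), ∀ y ∈ (Q : Subgroup G), x * y = y * x := by
  obtain ⟨t, -, ht⟩ := h.inv_all Q
  exact comm_of_invert ht

omit [FaithfulSMul G Ω] in
theorem trans (Q : Sylow p G) (a b : Ω) : ∃ g ∈ Q, g • a = b := by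
  obtain ⟨r, -, hr⟩ := h.card
  exact H10.sylow_transitive hr Q a b

theorem free (Q : Sylow p G) {x : G} (hx : x ∈ (Q : Subgroup G)) {ω : Ω} (hfix : x • ω = ω) :
    x = 1 := by
  apply FaithfulSMul.eq_of_smul_eq_smul (α := Ω)
  intro a
  obtain ⟨y, hy, rfl⟩ := h.trans Q ω a
  rw [one_smul, ← mul_smul, h.comm Q x hx y hy, mul_smul, hfix]

theorem free_pel {x : G} (hx : ∃ k : ℕ, orderOf x = p ^ k) {ω : Ω} (hfix : x • ω = ω) : x = 1 := by
  obtain ⟨k, hk⟩ := hx
  have h1 : IsPGroup p (zpowers x) := by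
    apply IsPGroup.of_card (n := k)
    rw [Nat.card_zpowers, hk]
  obtain ⟨Q, hQ⟩ := h1.exists_le_sylow
  exact h.free Q (hQ (mem_zpowers x)) hfix

omit [FaithfulSMul G Ω] hΩ [Finite Ω] in
theorem sylow_odd (Q : Sylow p G) : Odd (Nat.card (Q : Subgroup G)) := by
  obtain ⟨n, hn⟩ := Q.isPGroup'.exists_card_eq
  rw [hn]
  exact (hp.out.odd_of_ne_two h.odd).pow

/-- each involution has exactly one fixed point -/
theorem exists_fix {t : G} (ht : orderOf t = 2) : ∃ ω : Ω, t • ω = ω ∧ ∀ ω', t • ω' = ω' → ω' = ω := by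
  obtain ⟨Q, hQ⟩ := h.inv t ht
  obtain ⟨r, hr, hcard⟩ := h.card
  have hne : Nonempty Ω := by
    rw [← Nat.card_pos_iff.trans (and_iff_left inferInstance), hcard]
    exact pow_pos hp.out.pos r
  obtain ⟨a⟩ := hne
  obtain ⟨v, hv, hva⟩ := h.trans Q a (t • a)
  have hcop : (Nat.card (Q : Subgroup G)).Coprime 2 := (h.sylow_odd Q).coprime_two_right
  obtain ⟨⟨u, hu⟩, hu2⟩ := (powCoprime (G := (Q : Subgroup G)) (n := 2)
    (by simpa using hcop)).surjective ⟨v, hv⟩
  simp only [powCoprime_apply] at hu2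
  have hu3 : u ^ 2 = v := congrArg Subtype.val hu2
  have hinvu : t * u = u⁻¹ * t := by
    have := hQ u hu
    exact mul_inv_eq_iff_eq_mul.mp this
  refine ⟨u • a, ?_, ?_⟩
  · rw [← mul_smul, hinvu, mul_smul, ← hva, ← mul_smul, ← hu3]
    congr 1
    rw [pow_two, inv_mul_cancel_left]
  · intro ω' hω'
    obtain ⟨x, hx, rfl⟩ := h.trans Q (u • a) ω'
    have hfix : t • (u • a) = u • a := by
      rw [← mul_smul, hinvu, mul_smul, ← hva, ← mul_smul, ← hu3]
      congr 1
      rw [pow_two, inv_mul_cancel_left]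
    have h1 : t * x = x⁻¹ * t := mul_inv_eq_iff_eq_mul.mp (hQ x hx)
    rw [← mul_smul t x, h1, mul_smul, hfix, inv_smul_eq_iff, ← mul_smul] at hω'
    have h2 : x * x = 1 := h.free Q ((Q : Subgroup G).mul_mem hx hx) hω'.symm
    have h3 : x = 1 := by
      have h4 : (⟨x, hx⟩ : (Q : Subgroup G)) = 1 := by
        apply (powCoprime (G := (Q : Subgroup G)) (n := 2) (by simpa using hcop)).injective
        simp only [powCoprime_apply, one_pow]
        apply Subtype.ext
        change x ^ 2 = 1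
        rw [pow_two]; exact h2
      exact congrArg Subtype.val h4
    rw [h3, one_smul]

theorem fix_unique {t : G} (ht : orderOf t = 2) {α β : Ω} (h1 : t • α = α) (h2 : t • β = β) :
    α = β := by
  obtain ⟨ω, -, hω⟩ := h.exists_fix ht
  rw [hω α h1, hω β h2]

/-- an involution commuting with `t` has the same fixed point -/
theorem fix_comm {s t : G} (hs : orderOf s = 2) {ω : Ω} (hω : s • ω = ω)
    (hst : t * s = s * t) : t • ω = ω := by
  apply h.fix_unique hs _ hω
  rw [← mul_smul, ← hst, mul_smul, hω]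

/-- products of involutions with different fixed points have odd order -/
theorem odd_prod {a b : G} (ha : orderOf a = 2) (hb : orderOf b = 2) {α β : Ω} (hα : a • α = α)
    (hβ : b • β = β) (hne : α ≠ β) : Odd (orderOf (a * b)) := by
  by_contra hodd
  obtain ⟨k, hk⟩ := exists_invol_pow hodd
  obtain ⟨ω, hω, -⟩ := h.exists_fix hk
  have haa := two_of_order ha
  have hbb := two_of_order hb
  have ha' := inv_of_order ha
  have hb' := inv_of_order hb
  have hinv : ((a * b) ^ k)⁻¹ = (a * b) ^ k := inv_of_order hk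
  have h1 : a * (a * b) * a⁻¹ = (a * b)⁻¹ := by
    rw [mul_inv_rev, ha', hb', ← mul_assoc, haa, one_mul]
  have h2 : b * (a * b) * b⁻¹ = (a * b)⁻¹ := by
    rw [mul_inv_rev, ha', hb', mul_assoc, mul_assoc, hbb, mul_one]
  have h3 : a * (a * b) ^ k = (a * b) ^ k * a := by
    rw [← mul_inv_eq_iff_eq_mul, ← conj_pow, h1, inv_pow, hinv]
  have h4 : b * (a * b) ^ k = (a * b) ^ k * b := by
    rw [← mul_inv_eq_iff_eq_mul, ← conj_pow, h2, inv_pow, hinv]
  have h5 := h.fix_comm hk hω h3
  have h6 := h.fix_comm hk hω h4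
  exact hne ((h.fix_unique ha hα h5).trans (h.fix_unique hb h6 hβ))

theorem cent_odd {a b : G} (ha : orderOf a = 2) (hb : orderOf b = 2) {α β : Ω} (hα : a • α = α)
    (hβ : b • β = β) (hne : α ≠ β) : Odd (Nat.card (centralizer ({a * b} : Set G))) := by
  set g := a * b with hg
  have hgodd := h.odd_prod ha hb hα hβ hne
  by_contra hodd
  rw [Nat.not_odd_iff_even, even_iff_two_dvd] at hodd
  obtain ⟨⟨i, hiC⟩, hi⟩ := exists_prime_orderOf_dvd_card' 2 hodd
  rw [Subgroup.orderOf_mk] at hi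
  have hig : i * g = g * i := mem_centralizer_singleton_iff.mp hiC
  obtain ⟨ω, hω, -⟩ := h.exists_fix hi
  have hgω : g • ω = ω := h.fix_comm hi hω hig.symm
  have haa := two_of_order ha
  have hbb := two_of_order hb
  have ha' := inv_of_order ha
  have hb' := inv_of_order hb
  have hag : a * g * a⁻¹ = g⁻¹ := by
    rw [hg, mul_inv_rev, ha', hb', ← mul_assoc, haa, one_mul]
  have hb2 : b = a * g := by rw [hg, ← mul_assoc, haa, one_mul]
  -- `a` moves `ω`
  have haω : a • ω ≠ ω := by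
    intro h1
    have h2 : b • ω = ω := by rw [hb2, mul_smul, hgω, h1]
    exact hne ((h.fix_unique ha hα h1).trans (h.fix_unique hb h2 hβ))
  by_cases hk : Odd (orderOf (i * a))
  · -- then `a` is conjugate to `i` under `⟨i a⟩`, hence commutes with `g`
    obtain ⟨m, hm⟩ := H4.conj_of_odd (two_of_order hi) haa hk
    have hinvk : (i * a) * g * (i * a)⁻¹ = g⁻¹ := by
      calc (i * a) * g * (i * a)⁻¹ = i * (a * g * a⁻¹) * i⁻¹ := by group
        _ = i * g⁻¹ * i⁻¹ := by rw [hag]
        _ = (i * g * i⁻¹)⁻¹ := by group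
        _ = g⁻¹ := by rw [hig]; group
    have hcase : ∀ m : ℕ, ((i * a) ^ m)⁻¹ * g * (i * a) ^ m = g ∨
        ((i * a) ^ m)⁻¹ * g * (i * a) ^ m = g⁻¹ := by
      intro m
      induction m with
      | zero => left; simp
      | succ m ih =>
        have e : ((i * a) ^ (m + 1))⁻¹ * g * (i * a) ^ (m + 1) =
            (i * a)⁻¹ * (((i * a) ^ m)⁻¹ * g * (i * a) ^ m) * (i * a) := by
          rw [pow_succ]; group
        have h3 : (i * a)⁻¹ * g * (i * a) = g⁻¹ := by
          have h4 : g = (i * a)⁻¹ * g⁻¹ * (i * a) := by rw [← hinvk]; group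
          calc (i * a)⁻¹ * g * (i * a) = ((i * a)⁻¹ * g⁻¹ * (i * a))⁻¹ := by group
            _ = g⁻¹ := by rw [← h4]
        have h4 : (i * a)⁻¹ * g⁻¹ * (i * a) = g := by
          calc (i * a)⁻¹ * g⁻¹ * (i * a) = ((i * a)⁻¹ * g * (i * a))⁻¹ := by group
            _ = g := by rw [h3, inv_inv]
        rw [e]
        rcases ih with ih | ih
        · right; rw [ih, h3]
        · left; rw [ih, h4]
    have hii : i * g * i⁻¹ = g := by rw [hig]; group
    have hii' : i * g⁻¹ * i⁻¹ = g⁻¹ := by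
      calc i * g⁻¹ * i⁻¹ = (i * g * i⁻¹)⁻¹ := by group
        _ = g⁻¹ := by rw [hii]
    have hcomm : a * g * a⁻¹ = g := by
      rw [← hm]
      set τ := (i * a) ^ m
      calc τ * i * τ⁻¹ * g * (τ * i * τ⁻¹)⁻¹ = τ * (i * (τ⁻¹ * g * τ) * i⁻¹) * τ⁻¹ := by group
        _ = τ * (τ⁻¹ * g * τ) * τ⁻¹ := by
          rcases hcase m with h5 | h5
          · rw [h5, hii]
          · rw [h5, hii']
        _ = g := by group
    rw [hag] at hcomm
    have h6 : g * g = 1 := by
      nth_rewrite 1 [← hcomm]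
      exact inv_mul_cancel g
    have h7 : g = 1 := by
      have h8 : orderOf g ∣ 2 := orderOf_dvd_of_pow_eq_one (by rw [pow_two]; exact h6)
      rcases (Nat.dvd_prime Nat.prime_two).mp h8 with h9 | h9
      · exact orderOf_eq_one_iff.mp h9
      · rw [h9] at hgodd
        exact absurd hgodd (by decide)
    have h8 : b = a := by rw [hb2, h7, mul_one]
    exact hne (h.fix_unique ha hα (h8 ▸ hβ))
  · obtain ⟨k, hk⟩ := exists_invol_pow hk
    obtain ⟨δ, hδ, -⟩ := h.exists_fix hk
    have hi' := inv_of_order hi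
    have hii := two_of_order hi
    have hinv : ((i * a) ^ k)⁻¹ = (i * a) ^ k := inv_of_order hk
    have h1 : i * (i * a) * i⁻¹ = (i * a)⁻¹ := by
      rw [mul_inv_rev, ha', hi', ← mul_assoc, hii, one_mul]
    have h2 : a * (i * a) * a⁻¹ = (i * a)⁻¹ := by
      rw [mul_inv_rev, ha', hi', mul_assoc, mul_assoc, haa, mul_one]
    have h3 : i * (i * a) ^ k = (i * a) ^ k * i := by
      rw [← mul_inv_eq_iff_eq_mul, ← conj_pow, h1, inv_pow, hinv]
    have h4 : a * (i * a) ^ k = (i * a) ^ k * a := by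
      rw [← mul_inv_eq_iff_eq_mul, ← conj_pow, h2, inv_pow, hinv]
    have h5 := h.fix_comm hk hδ h3
    have h6 := h.fix_comm hk hδ h4
    have h7 := h.fix_unique hi h5 hω
    exact haω (h7 ▸ h6)

end TP

end Cfsg.Agent.H27
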