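import Cfsg.Agent.H27.TrP
import Cfsg.Agent.H1.Coprime


set_option autoImplicit false
set_option linter.style.haveILetI false

/-! # Transitive groups of `p`-power degree with odd centralizers, part 2 -/

universe u v

namespace Cfsg.Agent.H27

open Cfsg Cfsg.Agent.H3 Subgroup MulAction
open scoped ComplexConjugate

namespace TP

theorem exists_sqrt_pow {G : Type u} [Group G] {x : G} (hx : Odd (orderOf x)) :
    ∃ k : ℕ, (x ^ k) ^ 2 = x := by
  obtain ⟨m, hm⟩ := hx
  refine ⟨m + 1, ?_⟩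
  rw [← pow_mul]
  have : (m + 1) * 2 = (2 * m + 1) + 1 := by ring
  rw [this, ← hm, pow_add, pow_orderOf_eq_one, one_mul, pow_one]

section pairs

variable {G : Type u} [Group G] [Finite G]

/-- the number of factorizations of `g = a b` (of odd order, odd centralizer) divides `|C(g)|` -/
theorem card_pairs_dvd {a b : G} (ha : orderOf a = 2) (hb : orderOf b = 2)
    (hgodd : Odd (orderOf (a * b)))
    (hodd : Odd (Nat.card (centralizer ({a * b} : Set G)))) :
    Nat.card {q : G × G // IsConj a q.1 ∧ IsConj a q.2 ∧ q.1 * q.2 = a * b} ∣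
      Nat.card (centralizer ({a * b} : Set G)) := by
  set g := a * b with hg
  set C := centralizer ({g} : Set G) with hC
  have haa := two_of_order ha
  have hbb := two_of_order hb
  have ha' := inv_of_order ha
  have hb' := inv_of_order hb
  letI act : MulAction C G := MulAction.compHom G ((MulAut.conj : G →* MulAut G).comp C.subtype)
  have hact : ∀ (c : C) (x : G), c • x = (c : G) * x * (c : G)⁻¹ := fun c x => rfl
  have hcard : Nat.card (orbit C a) ∣ Nat.card C := by
    rw [Nat.card_coe_set_eq, ← index_stabilizer]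
    exact Subgroup.index_dvd_card _
  have hCg : ∀ c ∈ C, c * g * c⁻¹ = g := by
    intro c hc
    rw [mem_centralizer_singleton_iff.mp hc]; group
  have hab : IsConj a b := by
    obtain ⟨m, hm⟩ := H4.conj_of_odd haa hbb hgodd
    exact isConj_iff.mpr ⟨_, hm⟩
  have hinv_of : ∀ x y : G, x * x = 1 → y * y = 1 → x * y = g → x * g * x⁻¹ = g⁻¹ := by
    intro x y hx hy hxy
    have hx' : x⁻¹ = x := inv_eq_of_mul_eq_one_left hx
    have hy' : y⁻¹ = y := inv_eq_of_mul_eq_one_left hy
    rw [← hxy, mul_inv_rev, hy', hx', ← mul_assoc, hx, one_mul]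
  have hsq : ∀ x : G, IsConj a x → x * x = 1 := by
    intro x hx
    obtain ⟨c, rfl⟩ := isConj_iff.mp hx
    calc c * a * c⁻¹ * (c * a * c⁻¹) = c * (a * a) * c⁻¹ := by group
      _ = 1 := by rw [haa]; group
  have e : {q : G × G // IsConj a q.1 ∧ IsConj a q.2 ∧ q.1 * q.2 = g} ≃ orbit C a := by
    refine Equiv.ofBijective (fun q => ⟨q.1.1, ?_⟩) ⟨?_, ?_⟩
    · obtain ⟨⟨x, y⟩, hx, hy, hxy⟩ := q
      have hx2 := hsq x hx
      have hy2 := hsq y hy
      have h1 : x * g * x⁻¹ = g⁻¹ := hinv_of x y hx2 hy2 hxy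
      have h2 : a * g * a⁻¹ = g⁻¹ := hinv_of a b haa hbb hg.symm
      have h3 : a * x ∈ C := by
        rw [hC, mem_centralizer_singleton_iff]
        have h4 : a * x * g * (a * x)⁻¹ = g := by
          calc a * x * g * (a * x)⁻¹ = a * (x * g * x⁻¹) * a⁻¹ := by group
            _ = (a * g * a⁻¹)⁻¹ := by rw [h1]; group
            _ = g := by rw [h2, inv_inv]
        exact mul_inv_eq_iff_eq_mul.mp h4
      have h4 : Odd (orderOf (a * x)) := by
        have h5 : orderOf (a * x) ∣ Nat.card C := by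
          have := orderOf_dvd_natCard (⟨a * x, h3⟩ : C)
          rwa [Subgroup.orderOf_mk] at this
        exact hodd.of_dvd_nat h5
      obtain ⟨k, hk⟩ := H4.conj_of_odd haa hx2 h4
      exact ⟨⟨(a * x) ^ k, C.pow_mem h3 k⟩, hk⟩
    · rintro ⟨⟨x, y⟩, hx, hy, hxy⟩ ⟨⟨x', y'⟩, hx', hy', hxy'⟩ heq
      have h1 : x = x' := congrArg Subtype.val heq
      subst h1
      have h2 : y = y' := by
        have h3 : x * y = x * y' := hxy.trans hxy'.symm
        exact mul_left_cancel h3
      subst h2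
      rfl
    · rintro ⟨x, ⟨c, hc⟩, rfl⟩
      refine ⟨⟨(c * a * c⁻¹, c * b * c⁻¹), isConj_iff.mpr ⟨c, rfl⟩,
        hab.trans (isConj_iff.mpr ⟨c, rfl⟩), ?_⟩, rfl⟩
      change c * a * c⁻¹ * (c * b * c⁻¹) = g
      calc c * a * c⁻¹ * (c * b * c⁻¹) = c * (a * b) * c⁻¹ := by group
        _ = g := hCg c hc
  rw [Nat.card_congr e]
  exact hcard

end pairs

variable {G : Type u} [Group G] [Finite G] {Ω : Type v} [MulAction G Ω] [FaithfulSMul G Ω]
  [Finite Ω] [hΩ : IsPretransitive G Ω] {p : ℕ} [hp : Fact p.Prime] (h : TP G Ω p)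

include h

/-- `p` divides `|C(ab)|` -/
theorem dvd_cent (hno : ∀ χ : IrrCharacter G, (charDegree (χ : G → ℂ)).factorization p
      ≠ (Nat.card G).factorization p) {a b : G} (ha : orderOf a = 2) (hb : orderOf b = 2)
    {α β : Ω} (hα : a • α = α) (hβ : b • β = β) (hne : α ≠ β) :
    p ∣ Nat.card (centralizer ({a * b} : Set G)) := by
  haveI := Fintype.ofFinite G
  have h1 := not_dvd_of_oddCent h.cent ha
  exact (dvd_card_pairs hp.out hno h1 h1 (a * b)).trans
    (card_pairs_dvd ha hb (h.odd_prod ha hb hα hβ hne) (h.cent_odd ha hb hα hβ hne))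

/-- structure of centralizers of `p`-elements (uses the odd order theorem) -/
theorem cent_struct (hFT : ∀ K : Subgroup G, Odd (Nat.card K) → Group.IsSolvable K)
    (Q : Sylow p G) {u : G} (hu : u ∈ (Q : Subgroup G)) (hu1 : u ≠ 1) :
    (∀ x ∈ centralizer ({u} : Set G), ∀ y ∈ (Q : Subgroup G), x * y * x⁻¹ ∈ (Q : Subgroup G)) ∧
    (∀ x : G, (∀ y ∈ (Q : Subgroup G), x * y = y * x) → x ∈ (Q : Subgroup G)) ∧
    (∀ x ∈ centralizer ({u} : Set G), (∃ k : ℕ, orderOf x = p ^ k) → x ∈ (Q : Subgroup G)) := by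
  set C := centralizer ({u} : Set G) with hC
  have hQC : (Q : Subgroup G) ≤ C := by
    intro x hx
    rw [hC, mem_centralizer_singleton_iff]
    exact h.comm Q x hx u hu
  have hCodd : Odd (Nat.card C) := h.cent u hu1 (exists_orderOf_eq Q.isPGroup' hu)
  have hCs : Group.IsSolvable C := hFT C hCodd
  haveI : IsPretransitive C Ω := ⟨fun a b => by
    obtain ⟨x, hx, hxa⟩ := h.trans Q a b
    exact ⟨⟨x, hQC hx⟩, hxa⟩⟩
  obtain ⟨r, -, hr⟩ := h.card
  have hN : pPrimeCore p C = ⊥ := by
    haveI : (pPrimeCore p C).Normal := H1.pPrimeCore_normal p C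
    have hcop := H1.pPrimeCore_coprime p C
    rw [eq_bot_iff]
    intro n hn
    rw [mem_bot]
    apply FaithfulSMul.eq_of_smul_eq_smul (α := Ω)
    intro a
    have h1 : Set.ncard (orbit (pPrimeCore p C) a) ∣ p ^ r := by
      rw [← hr]
      exact (IsBlock.orbit_of_normal (G := C) (N := pPrimeCore p C) a).ncard_dvd_card
        ⟨a, mem_orbit_self a⟩
    have h2 : Set.ncard (orbit (pPrimeCore p C) a) ∣ Nat.card (pPrimeCore p C) := by
      rw [← index_stabilizer]
      exact Subgroup.index_dvd_card _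
    have h3 : Set.ncard (orbit (pPrimeCore p C) a) = 1 :=
      Nat.eq_one_of_dvd_coprimes (hcop.pow_right r) h2 h1
    obtain ⟨b, hb⟩ := Set.ncard_eq_one.mp h3
    have h4 : a ∈ orbit (pPrimeCore p C) a := mem_orbit_self a
    have h5 : (⟨n, hn⟩ : pPrimeCore p C) • a ∈ orbit (pPrimeCore p C) a := mem_orbit _ _
    rw [hb, Set.mem_singleton_iff] at h4 h5
    rw [one_smul]
    exact h5.trans h4.symm
  have hcen := H1.centralizer_pCore_le hCs p hN
  let Q' : Sylow p C := Q.subtype hQC
  have hQ' : ∀ x : C, x ∈ (Q' : Subgroup C) ↔ (x : G) ∈ (Q : Subgroup G) := fun x => Iff.rfl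
  have hle : pCore p C ≤ (Q' : Subgroup C) := H1.pCore_le_sylow Q'
  have hge : (Q' : Subgroup C) ≤ pCore p C := by
    intro x hx
    apply hcen
    rw [mem_centralizer_iff]
    intro y hy
    apply Subtype.ext
    exact h.comm Q y ((hQ' y).mp (hle hy)) x ((hQ' x).mp hx)
  have heq : (Q' : Subgroup C) = pCore p C := le_antisymm hge hle
  haveI hn : (Q' : Subgroup C).Normal := by rw [heq]; exact H1.pCore_normal p C
  refine ⟨?_, ?_, ?_⟩
  · intro x hx y hy
    exact (hQ' _).mp (hn.conj_mem ⟨y, hQC hy⟩ ((hQ' _).mpr hy) ⟨x, hx⟩)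
  · intro x hx
    have hxC : x ∈ C := by
      rw [hC, mem_centralizer_singleton_iff]
      exact hx u hu
    have h1 : (⟨x, hxC⟩ : C) ∈ pCore p C := by
      apply hcen
      rw [mem_centralizer_iff]
      intro y hy
      apply Subtype.ext
      exact (hx y ((hQ' y).mp (hle hy))).symm
    exact (hQ' _).mp (hle h1)
  · rintro x hx ⟨k, hk⟩
    have h1 : IsPGroup p (zpowers (⟨x, hx⟩ : C)) := by
      apply IsPGroup.of_card (n := k)
      rw [Nat.card_zpowers, Subgroup.orderOf_mk, hk]
    obtain ⟨R, hR⟩ := h1.exists_le_sylow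
    haveI : Subsingleton (Sylow p C) := by
      haveI := Sylow.unique_of_normal Q' hn
      infer_instance
    have h2 : R = Q' := Subsingleton.elim _ _
    rw [h2] at hR
    exact (hQ' _).mp (hR (mem_zpowers _))

/-- products of involutions with different fixed points are `p`-elements -/
theorem prod_pel (hFT : ∀ K : Subgroup G, Odd (Nat.card K) → Group.IsSolvable K)
    (hno : ∀ χ : IrrCharacter G, (charDegree (χ : G → ℂ)).factorization p
      ≠ (Nat.card G).factorization p) {a b : G} (ha : orderOf a = 2) (hb : orderOf b = 2)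
    {α β : Ω} (hα : a • α = α) (hβ : b • β = β) (hne : α ≠ β) :
    ∃ k : ℕ, orderOf (a * b) = p ^ k := by
  have hdvd := h.dvd_cent hno ha hb hα hβ hne
  have hCodd := h.cent_odd ha hb hα hβ hne
  have hgodd := h.odd_prod ha hb hα hβ hne
  set g := a * b with hg
  set C := centralizer ({g} : Set G) with hC
  have haa := two_of_order ha
  have hbb := two_of_order hb
  have ha' := inv_of_order ha
  have hb' := inv_of_order hb
  have hag : a * g * a⁻¹ = g⁻¹ := by
    rw [hg, mul_inv_rev, ha', hb', ← mul_assoc, haa, one_mul]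
  have key : ∀ (w x : G), a * w * a⁻¹ = w⁻¹ → x ∈ centralizer ({w} : Set G) →
      a * x * a⁻¹ ∈ centralizer ({w} : Set G) := by
    intro w x hw hx
    rw [mem_centralizer_singleton_iff] at hx ⊢
    have h1 : a * w⁻¹ * a⁻¹ = w := by
      calc a * w⁻¹ * a⁻¹ = (a * w * a⁻¹)⁻¹ := by group
        _ = w := by rw [hw, inv_inv]
    have h2 : x * w⁻¹ = w⁻¹ * x := (show Commute x w from hx).inv_right
    calc a * x * a⁻¹ * w = a * x * a⁻¹ * (a * w⁻¹ * a⁻¹) := by rw [h1]
      _ = a * (x * w⁻¹) * a⁻¹ := by group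
      _ = a * (w⁻¹ * x) * a⁻¹ := by rw [h2]
      _ = (a * w⁻¹ * a⁻¹) * (a * x * a⁻¹) := by group
      _ = w * (a * x * a⁻¹) := by rw [h1]
  have hback : ∀ x : G, a * (a * x * a⁻¹) * a⁻¹ = x := by
    intro x
    rw [ha']
    calc a * (a * x * a) * a = (a * a) * x * (a * a) := by group
      _ = x := by rw [haa]; group
  have hnorm : zpowers a ≤ normalizer (C : Set G) := by
    rw [Subgroup.zpowers_le, Subgroup.mem_normalizer_iff]
    intro x
    constructor
    · exact key g x hag
    · intro hx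
      have := key g _ hag hx
      rwa [hback] at this
  have hcop : (Nat.card (zpowers a)).Coprime (Nat.card C) := by
    rw [Nat.card_zpowers, ha]
    exact Nat.coprime_two_left.mpr hCodd
  obtain ⟨P, hP⟩ := H1.exists_invariant_sylow (p := p) (zpowers a) C hnorm hcop
    (Or.inl inferInstance)
  obtain ⟨⟨u, huC⟩, huP⟩ : ∃ x : (P : Subgroup C), x ≠ 1 := by
    have h1 : p ∣ Nat.card (P : Subgroup C) := P.dvd_card_of_dvd_card hdvd
    have h2 : 1 < Nat.card (P : Subgroup C) :=
      lt_of_lt_of_le hp.out.one_lt (Nat.le_of_dvd Nat.card_pos h1)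
    haveI : Nontrivial (P : Subgroup C) := Finite.one_lt_card_iff_nontrivial.mp h2
    exact exists_ne 1
  have hu1 : (u : G) ≠ 1 := by
    intro h1
    apply huP
    apply Subtype.ext
    exact Subtype.ext h1
  have hmemP : (u : G) ∈ (P : Subgroup C).map C.subtype := ⟨u, huC, rfl⟩
  have hPp : IsPGroup p ((P : Subgroup C).map C.subtype) := IsPGroup.map P.isPGroup' _
  have hinvP : ∀ x ∈ (P : Subgroup C).map C.subtype, a * x * a⁻¹ = x⁻¹ := by
    refine invert_of_fpf haa ?_ ?_
    · intro x hx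
      exact (Subgroup.mem_normalizer_iff.mp (hP (Subgroup.mem_zpowers a)) x).mp hx
    · intro x hx hfix
      refine eq_one_of_comm h.cent ha (exists_orderOf_eq hPp hx) ?_
      rw [← mul_inv_eq_iff_eq_mul]; exact hfix
  have hau := hinvP _ hmemP
  obtain ⟨Q, hPQ⟩ := hPp.exists_le_sylow
  have huQ : (u : G) ∈ (Q : Subgroup G) := hPQ hmemP
  obtain ⟨h1, h2, h3⟩ := h.cent_struct hFT Q huQ hu1
  have hQC : ∀ y ∈ (Q : Subgroup G), y ∈ centralizer ({(u : G)} : Set G) := by
    intro y hy
    rw [mem_centralizer_singleton_iff]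
    exact h.comm Q y hy u huQ
  have haQ : ∀ y ∈ (Q : Subgroup G), a * y * a⁻¹ ∈ (Q : Subgroup G) := by
    intro y hy
    apply h3 _ (key _ y hau (hQC y hy))
    obtain ⟨k, hk⟩ := exists_orderOf_eq Q.isPGroup' hy
    refine ⟨k, ?_⟩
    rw [← hk]
    have : a * y * a⁻¹ = MulAut.conj a y := by rw [MulAut.conj_apply]
    rw [this]
    exact orderOf_injective (MulAut.conj a).toMonoidHom (MulAut.conj a).injective y
  have hinvQ : ∀ y ∈ (Q : Subgroup G), a * y * a⁻¹ = y⁻¹ := by
    refine invert_of_fpf haa haQ ?_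
    intro x hx hfix
    refine eq_one_of_comm h.cent ha (exists_orderOf_eq Q.isPGroup' hx) ?_
    rw [← mul_inv_eq_iff_eq_mul]; exact hfix
  have hgu : g ∈ centralizer ({(u : G)} : Set G) := by
    rw [mem_centralizer_singleton_iff]
    exact (mem_centralizer_singleton_iff.mp u.2).symm
  have hgQ : g ∈ (Q : Subgroup G) := by
    apply h2
    intro y hy
    have hsq : (g * g) * y = y * (g * g) := by
      have h4 := hinvQ _ (h1 g hgu y hy)
      have h5 : a * (g * y * g⁻¹) * a⁻¹ = (a * g * a⁻¹) * (a * y * a⁻¹) * (a * g * a⁻¹)⁻¹ := by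
        group
      rw [h5, hag, hinvQ y hy] at h4
      have h6 : g⁻¹ * y⁻¹ * g = g * y⁻¹ * g⁻¹ := by
        calc g⁻¹ * y⁻¹ * g = g⁻¹ * y⁻¹ * (g⁻¹)⁻¹ := by group
          _ = (g * y * g⁻¹)⁻¹ := h4
          _ = g * y⁻¹ * g⁻¹ := by group
      have h7 : y⁻¹ * (g * g) = (g * g) * y⁻¹ := by
        calc y⁻¹ * (g * g) = g * (g⁻¹ * y⁻¹ * g) * g := by group
          _ = g * (g * y⁻¹ * g⁻¹) * g := by rw [h6]
          _ = (g * g) * y⁻¹ := by group
      calc (g * g) * y = y * (y⁻¹ * (g * g)) * y := by group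
        _ = y * ((g * g) * y⁻¹) * y := by rw [h7]
        _ = y * (g * g) := by group
    obtain ⟨k, hk⟩ := exists_sqrt_pow hgodd
    have h8 : (g * g) ^ k = g := by
      rw [← pow_two, ← pow_mul, mul_comm, pow_mul]; exact hk
    have h9 : Commute (g * g) y := hsq
    have h10 := h9.pow_left k
    rw [h8] at h10
    exact h10
  exact exists_orderOf_eq Q.isPGroup' hgQ

end TP

end Cfsg.Agent.H27
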