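import Cfsg.Agent.H27.TrP2
import Cfsg.Agent.H3.Clifford
import Cfsg.Agent.H27.Ch12C
import Cfsg.Prelude.Def_Local

set_option autoImplicit false
set_option linter.style.haveILetI false

/-! # Transitive groups of `p`-power degree with odd centralizers, part 3 -/

universe u v

namespace Cfsg.Agent.H27

open Cfsg Cfsg.Agent.H3 Subgroup MulAction
open scoped ComplexConjugate

namespace TP

variable {G : Type u} [Group G] [Finite G] {Ω : Type v} [MulAction G Ω] [FaithfulSMul G Ω]
  [Finite Ω] [hΩ : IsPretransitive G Ω] {p : ℕ} [hp : Fact p.Prime] (h : TP G Ω p)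

include h

/-- two involutions agreeing at a point have the same fixed point -/
theorem same_fix (hFT : ∀ K : Subgroup G, Odd (Nat.card K) → Group.IsSolvable K)
    (hno : ∀ χ : IrrCharacter G, (charDegree (χ : G → ℂ)).factorization p
      ≠ (Nat.card G).factorization p) {a b : G} (ha : orderOf a = 2) (hb : orderOf b = 2)
    {α β ω : Ω} (hα : a • α = α) (hβ : b • β = β) (hω : a • ω = b • ω) : α = β := by
  by_contra hne
  have h1 := h.prod_pel hFT hno ha hb hα hβ hne
  have h2 : a * b = 1 := by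
    apply h.free_pel h1 (ω := ω)
    rw [mul_smul, ← hω, ← mul_smul, two_of_order ha, one_smul]
  have h3 : b = a := by
    have := eq_inv_of_mul_eq_one_right h2
    rw [this, inv_of_order ha]
  rw [h3] at hβ
  exact hne (h.fix_unique ha hα hβ)

/-- every point is the fixed point of an involution -/
theorem exists_invol (ω : Ω) : ∃ t : G, orderOf t = 2 ∧ t • ω = ω := by
  obtain ⟨s, hs⟩ := h.ex
  obtain ⟨α, hα, -⟩ := h.exists_fix hs
  obtain ⟨g, rfl⟩ := MulAction.exists_smul_eq G α ω
  refine ⟨g * s * g⁻¹, ?_, ?_⟩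
  · have h1 : g * s * g⁻¹ = MulAut.conj g s := by rw [MulAut.conj_apply]
    rw [h1, ← hs]
    exact orderOf_injective (MulAut.conj g).toMonoidHom (MulAut.conj g).injective s
  · rw [mul_smul, mul_smul, inv_smul_smul, hα]

theorem unique_invol (hFT : ∀ K : Subgroup G, Odd (Nat.card K) → Group.IsSolvable K)
    (hno : ∀ χ : IrrCharacter G, (charDegree (χ : G → ℂ)).factorization p
      ≠ (Nat.card G).factorization p) {a b : G} (ha : orderOf a = 2) (hb : orderOf b = 2)
    {γ : Ω} (hγa : a • γ = γ) (hγb : b • γ = γ) : a = b := by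
  choose c hc hcf using h.exists_invol
  have key : ∀ (d : G), orderOf d = 2 → d • γ = γ → ∀ α : Ω, d • α = c γ • α := by
    intro d hd hdγ α
    let f : Ω → Ω := fun δ => c δ • α
    have hinj : Function.Injective f := by
      intro δ δ' hδ
      exact h.same_fix hFT hno (hc δ) (hc δ') (hcf δ) (hcf δ') hδ
    obtain ⟨δ, hδ⟩ := (Finite.surjective_of_injective hinj) (d • α)
    have h1 : δ = γ := h.same_fix hFT hno (hc δ) hd (hcf δ) hdγ hδ
    rw [← hδ, h1]
  apply FaithfulSMul.eq_of_smul_eq_smul (α := Ω)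
  intro α
  rw [key a ha hγa α, key b hb hγb α]

/-- the Sylow `p`-subgroup is normal -/
theorem normal (hFT : ∀ K : Subgroup G, Odd (Nat.card K) → Group.IsSolvable K)
    (hno : ∀ χ : IrrCharacter G, (charDegree (χ : G → ℂ)).factorization p
      ≠ (Nat.card G).factorization p) (P : Sylow p G) : (P : Subgroup G).Normal ∧
      ∀ s : G, orderOf s = 2 → ∀ x ∈ (P : Subgroup G), s * x * s⁻¹ = x⁻¹ := by
  obtain ⟨t, ht, hP⟩ := h.inv_all P
  obtain ⟨δ, hδ, -⟩ := h.exists_fix ht
  have ht' := inv_of_order ht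
  have htt := two_of_order ht
  have hform : ∀ s : G, orderOf s = 2 → ∃ y ∈ (P : Subgroup G), s = y * t := by
    intro s hs
    obtain ⟨γ, hγ, -⟩ := h.exists_fix hs
    obtain ⟨y, hy, hyδ⟩ := h.trans P δ γ
    have h1 : orderOf (y * t * y⁻¹) = 2 := by
      have h1 : y * t * y⁻¹ = MulAut.conj y t := by rw [MulAut.conj_apply]
      rw [h1, ← ht]
      exact orderOf_injective (MulAut.conj y).toMonoidHom (MulAut.conj y).injective t
    have h2 : (y * t * y⁻¹) • γ = γ := by
      rw [← hyδ, mul_smul, mul_smul, inv_smul_smul, hδ]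
    have h3 := h.unique_invol hFT hno hs h1 hγ h2
    refine ⟨y * y, mul_mem hy hy, ?_⟩
    rw [h3]
    have h4 : t * y⁻¹ * t⁻¹ = y := by
      rw [hP _ (inv_mem hy), inv_inv]
    calc y * t * y⁻¹ = y * (t * y⁻¹ * t⁻¹) * t := by group
      _ = y * y * t := by rw [h4]
  have hmem : ∀ s s' : G, orderOf s = 2 → orderOf s' = 2 → s * s' ∈ (P : Subgroup G) := by
    intro s s' hs hs'
    obtain ⟨y, hy, rfl⟩ := hform s hs
    obtain ⟨z, hz, rfl⟩ := hform s' hs'
    have h1 : y * t * (z * t) = y * (t * z * t⁻¹) * (t * t) := by group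
    rw [h1, htt, mul_one, hP z hz]
    exact mul_mem hy (inv_mem hz)
  constructor
  · refine ⟨fun x hx g => ?_⟩
    by_cases hx1 : x = 1
    · rw [hx1]; simp
    have hxt : orderOf (x * t) = 2 := by
      apply order_two_of
      · intro h1
        have h2 : x = t := by rw [← ht']; exact eq_inv_of_mul_eq_one_left h1
        have h3 : Odd (orderOf x) := by
          have h4 : orderOf x ∣ Nat.card (P : Subgroup G) := by
            have := orderOf_dvd_natCard (⟨x, hx⟩ : (P : Subgroup G))
            rwa [Subgroup.orderOf_mk] at this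
          exact (h.sylow_odd P).of_dvd_nat h4
        rw [h2, ht] at h3
        exact absurd h3 (by decide)
      · have h1 : x * t * (x * t) = x * (t * x * t⁻¹) * (t * t) := by group
        rw [h1, hP x hx, htt]; group
    have hcj : ∀ s : G, orderOf s = 2 → orderOf (g * s * g⁻¹) = 2 := by
      intro s hs
      have h1 : g * s * g⁻¹ = MulAut.conj g s := by rw [MulAut.conj_apply]
      rw [h1, ← hs]
      exact orderOf_injective (MulAut.conj g).toMonoidHom (MulAut.conj g).injective s
    have h1 : g * x * g⁻¹ = (g * (x * t) * g⁻¹) * (g * t * g⁻¹) := by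
      calc g * x * g⁻¹ = g * x * (t * t) * g⁻¹ := by rw [htt, mul_one]
        _ = (g * (x * t) * g⁻¹) * (g * t * g⁻¹) := by group
    rw [h1]
    exact hmem _ _ (hcj _ hxt) (hcj _ ht)
  · intro s hs x hx
    obtain ⟨y, hy, rfl⟩ := hform s hs
    calc y * t * x * (y * t)⁻¹ = y * (t * x * t⁻¹) * y⁻¹ := by group
      _ = y * x⁻¹ * y⁻¹ := by rw [hP x hx]
      _ = x⁻¹ := by rw [h.comm P y hy x⁻¹ (inv_mem hx)]; group

end TP

theorem isPSolvable_of_normal {G : Type u} [Group G] [Finite G] {p : ℕ} [hp : Fact p.Prime]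
    (P : Sylow p G) (hn : (P : Subgroup G).Normal) : IsPSolvable p G := by
  refine ⟨2, ![⊥, (P : Subgroup G), ⊤], rfl, rfl, ?_, ?_, ?_⟩
  · intro i j hij
    fin_cases i <;> fin_cases j <;> simp at hij ⊢
  · intro i
    fin_cases i
    · exact (inferInstance : (⊥ : Subgroup G).Normal)
    · exact hn
    · exact (inferInstance : (⊤ : Subgroup G).Normal)
  · intro i
    fin_cases i
    · left
      obtain ⟨n, hn⟩ := P.isPGroup'.exists_card_eq
      exact ⟨n, by
        change (⊥ : Subgroup G).relIndex (P : Subgroup G) = p ^ n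
        rw [Subgroup.relIndex_bot_left, hn]⟩
    · right
      change ((P : Subgroup G).relIndex ⊤).Coprime p
      rw [Subgroup.relIndex_top_right, Nat.coprime_comm, Nat.Prime.coprime_iff_not_dvd hp.out]
      exact P.not_dvd_index

theorem exists_two_dz {G : Type u} [Group G] [Finite G] {p : ℕ} [hp : Fact p.Prime] (hp2 : p ≠ 2)
    (P : Sylow p G) (hn : (P : Subgroup G).Normal) (hpG : p ∣ Nat.card G)
    (hinv : ∀ s : G, orderOf s = 2 → ∀ x ∈ (P : Subgroup G), s * x * s⁻¹ = x⁻¹)
    (hcomm : ∀ x ∈ (P : Subgroup G), ∀ y ∈ (P : Subgroup G), x * y = y * x) :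
    ∃ χ : IrrCharacter G,
      (charDegree (χ : G → ℂ)).factorization 2 = (Nat.card G).factorization 2 := by
  classical
  haveI := Fintype.ofFinite G
  haveI := Fintype.ofFinite (P : Subgroup G)
  -- a nontrivial linear character of `P`
  obtain ⟨lam, hlam⟩ : ∃ lam : (P : Subgroup G) →* ℂˣ, lam ≠ 1 := by
    have h1 : p ∣ Nat.card (P : Subgroup G) := P.dvd_card_of_dvd_card hpG
    have h2 : 1 < Nat.card (P : Subgroup G) :=
      lt_of_lt_of_le hp.out.one_lt (Nat.le_of_dvd Nat.card_pos h1)
    have h3 : commutator (P : Subgroup G) = ⊥ := by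
      rw [commutator_eq_bot_iff_center_eq_top, eq_top_iff]
      intro x _
      rw [Subgroup.mem_center_iff]
      intro y
      exact Subtype.ext (hcomm y y.2 x x.2)
    have h4 := card_hom_units (G := (P : Subgroup G))
    rw [h3, Subgroup.index_bot] at h4
    haveI : Finite ((P : Subgroup G) →* ℂˣ) := by
      apply Nat.finite_of_card_ne_zero; omega
    haveI : Nontrivial ((P : Subgroup G) →* ℂˣ) := Finite.one_lt_card_iff_nontrivial.mp (by omega)
    exact exists_ne 1
  obtain ⟨χ, hχ, hne, -, -⟩ := exists_over hn (isIrr_of_hom lam)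
  have hne' := hne
  obtain ⟨e, he⟩ := classInner_char_nat (isChar_restrict (P : Subgroup G) (irr_isChar hχ))
    (irr_isChar (isIrr_of_hom lam))
  have h5 := clifford_degree hn hχ (isIrr_of_hom lam) hne'
  rw [he] at h5
  simp only [map_one, Units.val_one, mul_one] at h5
  have hdeg : charDegree χ = e * (inertia hn (fun x => (lam x : ℂ))).index := by
    have h6 : ((charDegree χ : ℕ) : ℂ) = ((e * (inertia hn (fun x => (lam x : ℂ))).index : ℕ) : ℂ) := by
      rw [charDegree_cast (irr_isChar hχ), h5]; push_cast; rfl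
    exact_mod_cast h6
  set I := inertia hn (fun x => (lam x : ℂ)) with hI
  have hIodd : ¬ 2 ∣ Nat.card I := by
    intro h2
    obtain ⟨⟨s, hsI⟩, hs⟩ := exists_prime_orderOf_dvd_card' 2 h2
    rw [Subgroup.orderOf_mk] at hs
    apply hlam
    have hPodd : Odd (Nat.card (P : Subgroup G)) := by
      obtain ⟨n, hn⟩ := P.isPGroup'.exists_card_eq
      rw [hn]
      exact (hp.out.odd_of_ne_two hp2).pow
    ext x
    rw [hI, mem_inertia'] at hsI
    have h6 := hsI x
    have h7 : (⟨s * (x : G) * s⁻¹, hn.conj_mem x x.2 s⟩ : (P : Subgroup G)) = x⁻¹ :=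
      Subtype.ext (hinv s hs x x.2)
    rw [h7, map_inv] at h6
    have h8 : lam x * lam x = 1 := by
      have h9 : lam x = (lam x)⁻¹ := Units.ext h6.symm
      calc lam x * lam x = lam x * (lam x)⁻¹ := by rw [← h9]
        _ = 1 := mul_inv_cancel _
    have h9 : orderOf (lam x) ∣ 2 := orderOf_dvd_of_pow_eq_one (by rw [pow_two]; exact h8)
    have h10 : orderOf (lam x) ∣ Nat.card (P : Subgroup G) :=
      (orderOf_map_dvd lam x).trans (orderOf_dvd_natCard x)
    have h11 : orderOf (lam x) = 1 := Nat.eq_one_of_dvd_coprimes hPodd.coprime_two_right h10 h9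
    rw [orderOf_eq_one_iff.mp h11]; simp
  refine ⟨⟨χ, hχ⟩, ?_⟩
  apply le_antisymm
  · exact (Nat.factorization_le_iff_dvd (charDegree_pos hχ).ne' Nat.card_pos.ne').mpr
      (charDegree_dvd_card hχ) 2
  · have h6 : (Nat.card G).factorization 2 = I.index.factorization 2 := by
      rw [← Subgroup.index_mul_card I, Nat.factorization_mul Subgroup.index_ne_zero_of_finite
        Nat.card_pos.ne', Finsupp.add_apply, Nat.factorization_eq_zero_of_not_dvd hIodd, add_zero]
    rw [h6]
    exact (Nat.factorization_le_iff_dvd Subgroup.index_ne_zero_of_finite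
      (charDegree_pos hχ).ne').mpr (by rw [hdeg]; exact Dvd.intro_left _ rfl) 2

end Cfsg.Agent.H27
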